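import Cfsg.Agent.H29.FormStd

/-! Unipotent isometries `1 + t` of quadratic spaces in characteristic two: basic identities and
the adjustment of generators of Jordan chains. -/

set_option autoImplicit false

namespace Cfsg.Agent.H29

open Module

variable {F V V' : Type*} [Field F] [AddCommGroup V] [Module F V] [AddCommGroup V'] [Module F V']

/-- `Q` is a quadratic form with polar form `β` in characteristic two -/
structure Q2 (β : LinearMap.BilinForm F V) (Q : V → F) : Prop where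
  two : (2 : F) = 0
  add : ∀ x y, Q (x + y) = Q x + Q y + β x y
  smul : ∀ c x, Q (c • x) = c ^ 2 * Q x

/-- `1 + t` preserves `Q` -/
structure C2 (β : LinearMap.BilinForm F V) (Q : V → F) (t : End F V) : Prop extends Q2 β Q where
  inv : ∀ x, Q (t x + x) = Q x

variable {β : LinearMap.BilinForm F V} {Q : V → F} {t : End F V}
  {β' : LinearMap.BilinForm F V'} {Q' : V' → F} {t' : End F V'}

theorem Q2.symm (h : Q2 β Q) (x y : V) : β y x = β x y := by
  have := h.add x y
  rw [add_comm x, h.add] at this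
  linear_combination this

theorem Q2.zero (h : Q2 β Q) : Q 0 = 0 := by simpa using h.smul 0 0

theorem Q2.self (h : Q2 β Q) (x : V) : β x x = 0 := by
  have := h.add x x
  rw [← two_smul F, h.smul] at this
  linear_combination -this + Q x * h.two

theorem pow_succ_apply (t : End F V) (j : ℕ) (x : V) : (t ^ (j + 1)) x = t ((t ^ j) x) := by
  rw [pow_succ']; rfl

theorem pow_add_apply (t : End F V) (i j : ℕ) (x : V) : (t ^ (i + j)) x = (t ^ i) ((t ^ j) x) := by
  rw [pow_add]; rfl

theorem nil_le {x : V} {N m : ℕ} (h : (t ^ N) x = 0) (hm : N ≤ m) : (t ^ m) x = 0 :=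
  End.pow_map_zero_of_le hm h

namespace C2

theorem Q_t (h : C2 β Q t) (x : V) : Q (t x) = β (t x) x := by
  have := h.inv x
  rw [h.add] at this
  linear_combination this - β (t x) x * h.two

theorem B_t (h : C2 β Q t) (x y : V) : β x (t y) = β (t x) (t y) + β (t x) y := by
  have := h.Q_t (x + y)
  rw [map_add, h.add, h.Q_t, h.Q_t] at this
  simp only [map_add, LinearMap.add_apply, h.symm x (t y)] at this
  linear_combination -this + (β (t x) (t y) - β (t x) (t y) - β (t x) y) * h.two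

theorem det_cross (h : C2 β Q t) (h' : C2 β' Q' t') {m : ℕ} {a b : V} {a' b' : V'}
    (ha : (t ^ m) a = 0) (ha' : (t' ^ m) a' = 0) (h0 : ∀ i, β ((t ^ i) a) b = β' ((t' ^ i) a') b')
    (j i : ℕ) : β ((t ^ i) a) ((t ^ j) b) = β' ((t' ^ i) a') ((t' ^ j) b') := by
  induction j generalizing i with
  | zero => exact h0 i
  | succ j ih =>
    have : ∀ d i, m ≤ i + d →
        β ((t ^ i) a) ((t ^ (j + 1)) b) = β' ((t' ^ i) a') ((t' ^ (j + 1)) b') := fun d => by
      induction d with
      | zero => intro i hi; simp [nil_le (m := i) ha hi, nil_le (m := i) ha' hi]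
      | succ d ihd =>
        intro i hi
        have := ihd (i + 1) (by omega)
        have h1 := ih (i + 1)
        simp only [pow_succ_apply] at this h1 ⊢
        rw [h.B_t, h'.B_t, this, h1]
    exact this m i (by omega)

theorem det_self (h : C2 β Q t) (h' : C2 β' Q' t') {a : V} {a' : V'}
    (h0 : ∀ j, Q ((t ^ (j + 1)) a) = Q' ((t' ^ (j + 1)) a')) (i j : ℕ) :
    β ((t ^ i) a) ((t ^ j) a) = β' ((t' ^ i) a') ((t' ^ j) a') := by
  have : ∀ d j, β ((t ^ (j + d)) a) ((t ^ j) a) = β' ((t' ^ (j + d)) a') ((t' ^ j) a') := fun d => by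
    induction d using Nat.twoStepInduction with
    | zero => intro j; rw [add_zero, h.self, h'.self]
    | one => intro j; simpa only [pow_succ_apply, h.Q_t, h'.Q_t] using h0 j
    | more d h1 h2 =>
      intro j
      have e1 := h.B_t ((t ^ (j + d + 1)) a) ((t ^ j) a)
      have e2 := h'.B_t ((t' ^ (j + d + 1)) a') ((t' ^ j) a')
      have e3 := h1 (j + 1)
      have e4 := h2 (j + 1)
      simp only [← pow_succ_apply] at e1 e2
      rw [add_right_comm] at e3
      rw [show j + 1 + (d + 1) = j + d + 1 + 1 by ring] at e4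
      rw [show j + (d + 2) = j + d + 1 + 1 by ring]
      linear_combination e2 - e1 + e3 - e4
  rcases le_total i j with hij | hij <;> obtain ⟨d, rfl⟩ := Nat.exists_eq_add_of_le hij
  exacts [by rw [h.symm, h'.symm, this], this d j]

theorem lvl (h : C2 β Q t) {m : ℕ} {a : V} (ha : (t ^ m) a = 0) (b : V) {i j : ℕ}
    (hij : m ≤ i + j) : β ((t ^ i) a) ((t ^ j) b) = 0 := by
  induction j generalizing i with
  | zero => simp [nil_le (m := i) ha hij]
  | succ j ih =>
    have : ∀ d i, m ≤ i + (j + 1) → m ≤ i + d → β ((t ^ i) a) ((t ^ (j + 1)) b) = 0 := fun d => by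
      induction d with
      | zero => intro i _ hi; simp [nil_le (m := i) ha hi]
      | succ d ihd =>
        intro i h1 hi
        have := ihd (i + 1) (by omega) (by omega)
        have h1 := ih (i := i + 1) (by omega)
        simp only [pow_succ_apply] at this h1 ⊢
        rw [h.B_t, this, h1, add_zero]
    exact this m i hij (by omega)

theorem top (h : C2 β Q t) {m : ℕ} {a : V} (ha : (t ^ (m + 1)) a = 0) (b : V) {i j : ℕ}
    (hij : i + j = m) : β ((t ^ i) a) ((t ^ j) b) = β ((t ^ m) a) b := by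
  induction j generalizing i with
  | zero => subst hij; rfl
  | succ j ih =>
    have h1 := h.lvl ha b (i := i + 1) (j := j + 1) (by omega)
    have h2 := ih (i := i + 1) (by omega)
    simp only [pow_succ_apply] at h1 h2 ⊢
    rw [h.B_t, h1, h2, zero_add]

theorem top_symm (h : C2 β Q t) {m : ℕ} {a : V} (ha : (t ^ (m + 1)) a = 0) (b : V) :
    β ((t ^ m) b) a = β ((t ^ m) a) b :=
  (h.symm _ _).trans (h.top ha b (zero_add m))

theorem Q_succ (h : C2 β Q t) (a : V) (l : ℕ) :
    Q ((t ^ (l + 1)) a) = β ((t ^ (l + 1)) a) ((t ^ l) a) := by rw [pow_succ_apply, h.Q_t]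

theorem Q_hi (h : C2 β Q t) {m l : ℕ} {a : V} (ha : (t ^ m) a = 0) (hl : m < 2 * l) :
    Q ((t ^ l) a) = 0 := by
  obtain ⟨l, rfl⟩ := Nat.exists_eq_succ_of_ne_zero (show l ≠ 0 by omega)
  rw [h.Q_succ, h.lvl ha a (by omega)]

theorem Q_top (h : C2 β Q t) {k : ℕ} {a : V} (ha : (t ^ (2 * k + 1 + 1)) a = 0) :
    Q ((t ^ (k + 1)) a) = β ((t ^ (2 * k + 1)) a) a := by rw [h.Q_succ, h.top ha a (by omega)]

theorem top_odd (h : C2 β Q t) {k : ℕ} {a : V} (ha : (t ^ (2 * k + 1)) a = 0) :
    β ((t ^ (2 * k)) a) a = 0 := by rw [← h.top ha a (two_mul k).symm, h.self]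

theorem Q_hi' (h : C2 β Q t) {m l : ℕ} {a : V} (ha : (t ^ (m + 1)) a = 0)
    (h0 : β ((t ^ m) a) a = 0) (hl : m < 2 * l) : Q ((t ^ l) a) = 0 := by
  rcases (Nat.succ_le_of_lt hl).lt_or_eq with h1 | h1
  · exact h.Q_hi ha h1
  · obtain ⟨l, rfl⟩ := Nat.exists_eq_succ_of_ne_zero (show l ≠ 0 by omega)
    obtain rfl : m = 2 * l + 1 := by omega
    rw [h.Q_top ha, h0]

theorem step (h : C2 β Q t) (x y : V) (c : F) (j D : ℕ) : Q ((t ^ j) (x + c • (t ^ D) y)) =
    Q ((t ^ j) x) + c ^ 2 * Q ((t ^ (j + D)) y) + c * β ((t ^ j) x) ((t ^ (j + D)) y) := by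
  rw [map_add, map_smul, ← pow_add_apply, h.add, h.smul, map_smul, smul_eq_mul]

variable {W : Submodule F V}

theorem add_mem' (hW : ∀ x ∈ W, t x ∈ W) {x y : V} (hx : x ∈ W) (hy : y ∈ W) (c : F) (D : ℕ) :
    x + c • (t ^ D) y ∈ W :=
  add_mem hx (W.smul_mem _ (End.pow_apply_mem_of_forall_mem D hW y hy))

theorem pow_step {m D n : ℕ} {x y : V} (hy : (t ^ m) y = 0) (h : m ≤ n + D) (c : F) :
    (t ^ n) (x + c • (t ^ D) y) = (t ^ n) x := by
  rw [map_add, map_smul, ← pow_add_apply, nil_le hy h, smul_zero, add_zero]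

theorem adjV (h : C2 β Q t) (hW : ∀ x ∈ W, t x ∈ W) {k : ℕ} {x : V} (hx : x ∈ W)
    (h0 : (t ^ (2 * k + 1 + 1)) x = 0) (h1 : Q ((t ^ (k + 1)) x) = 1) :
    ∃ x' ∈ W, (t ^ (2 * k + 1 + 1)) x' = 0 ∧
      ∀ j, Q ((t ^ j) x') = if j < k then 0 else Q ((t ^ j) x) := by
  have : ∀ d, ∃ x' ∈ W, (t ^ (2 * k + 1 + 1)) x' = 0 ∧
      ∀ j, k ≤ j + d → Q ((t ^ j) x') = if j < k then 0 else Q ((t ^ j) x) := fun d => by
    induction d with
    | zero => exact ⟨x, hx, h0, fun j hj => (if_neg (by omega)).symm⟩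
    | succ d ih =>
      obtain ⟨y, hy, h2, h3⟩ := ih
      rcases le_or_gt k d with hd | hd
      · exact ⟨y, hy, h2, fun j _ => h3 j (by omega)⟩
      obtain ⟨i, rfl⟩ := Nat.exists_eq_add_of_lt hd
      refine ⟨_, add_mem' hW hy hy (Q ((t ^ i) y)) (2 * d + 3), (pow_step h2 (by omega) _).trans h2,
        fun j hj => ?_⟩
      rw [h.step, h.Q_hi h2 (l := j + _) (by omega)]
      rcases (show i ≤ j by omega).eq_or_lt with rfl | hj
      · rw [h.top h2 y (by omega), ← h.Q_top h2, h3 (d + i + 1 + 1) (by omega), if_neg (by omega), h1,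
          if_pos (by omega)]
        linear_combination Q ((t ^ i) y) * h.two
      · rw [h.lvl h2 y (by omega), h3 j (by omega)]; ring
  obtain ⟨y, hy, h2, h3⟩ := this k
  exact ⟨y, hy, h2, fun j => h3 j (by omega)⟩

theorem adjW (h : C2 β Q t) (hW : ∀ x ∈ W, t x ∈ W) {m : ℕ} {x y : V} (hx : x ∈ W) (hy : y ∈ W)
    (x0 : (t ^ (m + 1)) x = 0) (y0 : (t ^ (m + 1)) y = 0) (h1 : β ((t ^ m) x) y = 1)
    (x1 : β ((t ^ m) x) x = 0) (y1 : β ((t ^ m) y) y = 0) :
    ∃ y' ∈ W, (t ^ (m + 1)) y' = 0 ∧ β ((t ^ m) y') y' = 0 ∧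
      (∀ j, β ((t ^ j) x) y' = if j = m then 1 else 0) ∧
      ∀ j, Q ((t ^ j) y') = if 2 * j < m then 0 else Q ((t ^ j) y) := by
  have : ∀ d, ∃ y' ∈ W, (t ^ (m + 1)) y' = 0 ∧ β ((t ^ m) y') y' = 0 ∧
      (∀ j, m ≤ j + d → β ((t ^ j) x) y' = if j = m then 1 else 0) ∧
      ∀ j, m ≤ 2 * j + d → Q ((t ^ j) y') = if 2 * j < m then 0 else Q ((t ^ j) y) := fun d => by
    induction d with
    | zero =>
      refine ⟨y, hy, y0, y1, fun j hj => ?_, fun j hj => (if_neg (by omega)).symm⟩
      split_ifs with e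
      exacts [e ▸ h1, h.lvl x0 y (j := 0) (by omega)]
    | succ d ih =>
      obtain ⟨z, hz, z0, z1, h2, h3⟩ := ih
      have h4 := (h2 m (by omega)).trans (if_pos rfl)
      obtain ⟨z, hz, z0, z1, h2, h3⟩ : ∃ z ∈ W, (t ^ (m + 1)) z = 0 ∧ β ((t ^ m) z) z = 0 ∧
          (∀ j, m ≤ j + d → β ((t ^ j) x) z = if j = m then 1 else 0) ∧ ∀ j, m ≤ 2 * j + (d + 1) →
          Q ((t ^ j) z) = if 2 * j < m then 0 else Q ((t ^ j) y) := by
        by_cases e : ∃ i, 2 * i + (d + 1) = m
        · obtain ⟨i, hi⟩ := e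
          refine ⟨_, add_mem' hW hz hx (Q ((t ^ i) z)) (d + 1), (pow_step x0 (by omega) _).trans z0,
            ?_, fun j hj => ?_, fun j hj => ?_⟩
          · rw [pow_step x0 (by omega), map_add, map_smul, z1, h.lvl z0 x (by omega)]; simp
          · rw [map_add, map_smul, h2 j hj]
            rcases (show m ≤ j + (d + 1) by omega).eq_or_lt with e | e
            exacts [by simp [h.top x0 x e.symm, x1], by simp [h.lvl x0 x e]]
          · rw [h.step, h.Q_hi' x0 x1 (l := j + _) (by omega)]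
            rcases (show i ≤ j by omega).eq_or_lt with rfl | hj
            · rw [h.top z0 x (by omega), h.top_symm x0, h4, if_pos (by omega)]
              linear_combination Q ((t ^ i) z) * h.two
            · rw [h.lvl z0 x (by omega), h3 j (by omega)]; ring
        · exact ⟨z, hz, z0, z1, h2, fun j hj => h3 j (by_contra fun h => e ⟨j, by omega⟩)⟩
      have h4 := (h2 m (by omega)).trans (if_pos rfl)
      refine ⟨_, add_mem' hW hz hz (β ((t ^ (m - (d + 1))) x) z) (d + 1),
        (pow_step z0 (by omega) _).trans z0, ?_, fun j hj => ?_, fun j hj => ?_⟩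
      · rw [pow_step z0 (by omega), map_add, map_smul, z1, h.lvl z0 z (by omega)]; simp
      · rw [map_add, map_smul, smul_eq_mul]
        rcases hj.eq_or_lt with e | e
        · rw [h.top x0 z e.symm, h4, if_neg (by omega), show m - (d + 1) = j by omega]
          linear_combination β ((t ^ j) x) z * h.two
        · rw [h.lvl x0 z e, h2 j (by omega)]; ring
      · rw [h.step, h.Q_hi' z0 z1 (l := j + _) (by omega), h3 j hj]
        rcases hj.eq_or_lt with e | e
        exacts [by rw [h.top z0 z (by omega), z1]; ring, by rw [h.lvl z0 z (by omega)]; ring]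
  obtain ⟨z, hz, z0, z1, h2, h3⟩ := this m
  exact ⟨z, hz, z0, z1, fun j => h2 j (by omega), fun j => h3 j (by omega)⟩

end C2

end Cfsg.Agent.H29
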