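import Cfsg.Agent.H27.Orth

/-! Standard families for (possibly degenerate) symmetric and alternating forms over a finite
field of odd order; isometries from Gram matrices; discriminants of subspaces. -/

set_option autoImplicit false

namespace Cfsg.Agent.H29

open Module Finset

variable {F V : Type*} [Field F] [AddCommGroup V] [Module F V]

/-- the partner of an index in the standard `(-1) ^ d`-symmetric matrix -/
def prt (d k : ℕ) : ℕ := if d % 2 = 0 then k else if k % 2 = 0 then k + 1 else k - 1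

/-- the non-zero entries of the standard matrix -/
def val (ν : F) (d : ℕ) (s : Bool) (k : ℕ) : F :=
  if d % 2 = 0 then (if k = 0 ∧ s then ν else 1) else if k % 2 = 0 then -1 else 1

/-- the standard `(-1) ^ d`-symmetric matrix -/
def stdB (ν : F) (d : ℕ) (s : Bool) (k k' : ℕ) : F := if k = prt d k' then val ν d s k' else 0

/-- admissible sizes and signs -/
def Valid (d a : ℕ) (s : Bool) : Prop := (a = 0 → s = false) ∧ (d % 2 = 1 → a % 2 = 0 ∧ s = false)

theorem prt_prt (d k : ℕ) : prt d (prt d k) = k := by unfold prt; split_ifs <;> omega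

theorem Valid.prt_lt {d a k : ℕ} {s : Bool} (h : Valid d a s) (hk : k < a) : prt d k < a := by
  have := fun h' => (h.2 h').1
  unfold prt; split_ifs <;> omega

theorem val_ne_zero {ν : F} (h : ν ≠ 0) (d : ℕ) (s : Bool) (k : ℕ) : val ν d s k ≠ 0 := by
  unfold val; split_ifs <;> simp [h]

theorem Valid.sum_stdB {d a k : ℕ} {s : Bool} (h : Valid d a s) (hk : k < a) (ν : F) (c : ℕ → F) :
    ∑ l ∈ range a, c l * stdB ν d s l k = c (prt d k) * val ν d s k := by
  simp [stdB, mem_range.2 (h.prt_lt hk)]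

theorem Valid.solve {d a : ℕ} {s : Bool} (h : Valid d a s) {ν : F} (hν : ν ≠ 0) (t : ℕ → F) :
    ∃ c : ℕ → F, ∀ k < a, ∑ l ∈ range a, c l * stdB ν d s l k = t k :=
  ⟨fun l => t (prt d l) / val ν d s (prt d l), fun k hk => by
    rw [h.sum_stdB hk, prt_prt, div_mul_cancel₀ _ (val_ne_zero hν _ _ _)]⟩

theorem form_std [Finite F] [FiniteDimensional F V] (h2 : (2 : F) ≠ 0) {ν : F} (hν : ¬ IsSquare ν)
    (γ : LinearMap.BilinForm F V) (d : ℕ) (W : Submodule F V)
    (hs : ∀ x ∈ W, ∀ y ∈ W, γ y x = (-1) ^ d * γ x y) :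
    ∃ (a : ℕ) (s : Bool) (u : ℕ → V), Valid d a s ∧ (∀ k < a, u k ∈ W) ∧
      (∀ k < a, ∀ k' < a, γ (u k) (u k') = stdB ν d s k k') ∧
      ∀ x ∈ W, (∀ k < a, γ x (u k) = 0) → ∀ y ∈ W, γ x y = 0 := by
  induction hn : finrank F W using Nat.strong_induction_on generalizing W with
  | _ n ih =>
  by_cases h0 : ∀ x ∈ W, ∀ y ∈ W, γ x y = 0
  · exact ⟨0, false, 0, ⟨fun _ => rfl, fun _ => ⟨rfl, rfl⟩⟩, by simp, by simp, fun x hx _ => h0 x hx⟩
  have ih' := fun (W' : Submodule F V) (h : W' < W) =>
    ih _ (hn ▸ Submodule.finrank_lt_finrank_of_lt h) W' (fun x hx y hy => hs x (h.le hx) y (h.le hy)) rfl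
  rcases Nat.mod_two_eq_zero_or_one d with hd | hd
  · simp only [(Nat.even_iff.2 hd).neg_one_pow, one_mul] at hs
    have key : ∀ x ∈ W, γ x x ≠ 0 → ∀ z ∈ W, γ z x = 0 → (∀ y ∈ W, γ y x = 0 → γ z y = 0) →
        ∀ y ∈ W, γ z y = 0 := fun x hx h z hz h1 h3 y hy => by
      have := h3 (y - (γ y x / γ x x) • x) (W.sub_mem hy (W.smul_mem _ hx)) (by simp [h])
      simpa [h1] using this
    by_cases h1 : ∃ x ∈ W, γ x x = 1
    · obtain ⟨x, hx, h1⟩ := h1
      obtain ⟨a, s, u, h3, h4, h5, h6⟩ := ih' (W ⊓ LinearMap.ker (γ.flip x))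
        (inf_lt_left.2 fun h => by simpa [h1] using h hx)
      refine ⟨a + 1, s, Function.update u a x, ⟨by simp, by omega⟩, fun k hk => ?_,
        fun k hk k' hk' => ?_, fun z hz h => ?_⟩
      · by_cases e : k = a
        · simpa [e] using hx
        · simpa [e] using (h4 k (by omega)).1
      · by_cases e : k = a <;> by_cases e' : k' = a
        · have := h3.1
          simp only [e, e', Function.update_self, h1, stdB, prt, val, hd, if_true]
          rw [if_neg (by rintro ⟨h, h'⟩; simp [this h] at h')]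
        · have := h4 k' (by omega)
          simp only [e, Function.update_self, Function.update_of_ne e', stdB, prt, hd, if_true,
            if_neg (Ne.symm e')]
          exact (hs _ this.1 _ hx).trans this.2
        · simp only [e', Function.update_self, Function.update_of_ne e, stdB, prt, hd, if_true,
            if_neg e]
          exact (h4 k (by omega)).2
        · rw [Function.update_of_ne e, Function.update_of_ne e', h5 k (by omega) k' (by omega)]
      · have h7 : γ z x = 0 := by simpa using h a (by omega)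
        exact key x hx (by simp [h1]) z hz h7 fun y hy e => h6 z ⟨hz, h7⟩ (fun k hk => by
          simpa [hk.ne] using h k (by omega)) y ⟨hy, e⟩
    · have h3 : ∀ U ≤ W, (∀ x ∈ U, γ x x = 0) → ∀ x ∈ U, ∀ y ∈ U, γ x y = 0 :=
        fun U hU h x hx y hy => by
          have := h _ (U.add_mem hx hy)
          simp only [map_add, LinearMap.add_apply, h x hx, h y hy, hs x (hU hx) y (hU hy)] at this
          exact (mul_eq_zero.1 (by linear_combination this : 2 * γ x y = 0)).resolve_left h2
      obtain ⟨x, hx, h4⟩ : ∃ x ∈ W, γ x x ≠ 0 := by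
        by_contra! h; exact h0 (h3 W le_rfl h)
      obtain ⟨t, -, ht⟩ := H27.exists_eq_mul_sq_of_not_isSquare (a := γ x x) (by
        rintro ⟨r, hr⟩
        have : r ≠ 0 := by rintro rfl; simp [h4] at hr
        exact h1 ⟨r⁻¹ • x, W.smul_mem _ hx, by simp [hr, this]⟩) hν
      have h5 : γ (t • x) (t • x) = ν := by simp [ht]; ring
      have h6 : ν ≠ 0 := by rintro rfl; exact hν .zero
      refine ⟨1, true, fun _ => t • x, ⟨by simp, by omega⟩, fun _ _ => W.smul_mem _ hx,
        fun k hk k' hk' => h5.trans (by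
          simp [stdB, prt, val, hd, Nat.lt_one_iff.1 hk, Nat.lt_one_iff.1 hk']), fun z hz h => key _ (W.smul_mem t hx) (h5 ▸ h6) z hz (h 0 one_pos)
          fun y hy e => h3 (W ⊓ LinearMap.ker (γ.flip (t • x))) inf_le_left (fun w hw => ?_)
            z ⟨hz, h 0 one_pos⟩ y ⟨hy, e⟩⟩
      by_contra h7
      obtain ⟨p, r, h8⟩ := H27.exists_mul_sq_add_mul_sq h6 h7 1
      have h9 : γ w (t • x) = 0 := hw.2
      refine h1 ⟨p • t • x + r • w, W.add_mem (W.smul_mem _ (W.smul_mem _ hx)) (W.smul_mem _ hw.1), ?_⟩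
      generalize hv : t • x = v at *
      simp only [map_add, map_smul, LinearMap.add_apply, LinearMap.smul_apply, smul_eq_mul, h5, h9,
        hs w hw.1 v (hv ▸ W.smul_mem t hx)]
      linear_combination h8
  · simp only [(Nat.odd_iff.2 hd).neg_one_pow, neg_mul, one_mul] at hs
    have h1 : ∀ x ∈ W, γ x x = 0 := fun x hx =>
      (mul_eq_zero.1 (by linear_combination hs x hx x hx : 2 * γ x x = 0)).resolve_left h2
    obtain ⟨x, hx, y, hy, h3⟩ : ∃ x ∈ W, ∃ y ∈ W, γ x y = 1 := by
      push Not at h0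
      obtain ⟨x, hx, y, hy, h⟩ := h0
      exact ⟨(γ x y)⁻¹ • x, W.smul_mem _ hx, y, hy, by simp [h]⟩
    obtain ⟨a, s, u, h4, h5, h6, h7⟩ :=
      ih' (W ⊓ (LinearMap.ker (γ.flip x) ⊓ LinearMap.ker (γ.flip y)))
        (inf_lt_left.2 fun h => by simpa [h3] using (h hx).2)
    have ha := (h4.2 hd).1
    have h8 : ∀ k < a, prt d k < a := fun k => h4.prt_lt
    have h9 : γ y x = -1 := by rw [hs x hx y hy, h3]
    refine ⟨a + 2, s, fun k => if k < a then u k else if k = a then x else y,
      ⟨by simp, fun _ => ⟨by omega, (h4.2 hd).2⟩⟩, fun k hk => ?_,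
      fun k hk k' hk' => ?_, fun z hz h w hw => ?_⟩
    · beta_reduce
      split_ifs with h
      exacts [(h5 k h).1, hx, hy]
    · beta_reduce
      by_cases e : k < a <;> by_cases e' : k' < a
      · rw [if_pos e, if_pos e', h6 k e k' e']
      · rw [if_pos e, if_neg e', stdB, if_neg (c := k = prt _ _) (by unfold prt; split_ifs <;> omega)]
        split_ifs
        exacts [(h5 k e).2.1, (h5 k e).2.2]
      · rw [if_neg e, if_pos e', stdB, if_neg (c := k = prt _ _) (by have := h8 k' e'; omega)]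
        split_ifs
        · rw [hs _ (h5 k' e').1 _ hx, neg_eq_zero]; exact (h5 k' e').2.1
        · rw [hs _ (h5 k' e').1 _ hy, neg_eq_zero]; exact (h5 k' e').2.2
      · have e1 : k = a ∨ k = a + 1 := by omega
        have e2 : k' = a ∨ k' = a + 1 := by omega
        rcases e1 with e1 | e1 <;> rcases e2 with e2 | e2 <;>
          simp [e1, e2, stdB, prt, val, hd, ha, h1 x hx, h1 y hy, h3, h9, Nat.add_mod]
    · have e1 : γ z x = 0 := by simpa using h a (by omega)
      have e2 : γ z y = 0 := by simpa using h (a + 1) (by omega)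
      have := h7 z ⟨hz, e1, e2⟩ (fun k hk => by simpa [hk] using h k (by omega))
        (w - γ w y • x + γ w x • y) ⟨W.add_mem (W.sub_mem hw (W.smul_mem _ hx)) (W.smul_mem _ hy),
          by simp [h1 x hx, h9], by simp [h1 y hy, h3]⟩
      simpa [e1, e2] using this

/-- spanning families with the same Gram matrix differ by an isometry -/
theorem exists_equiv_of_gram {I : Type*} {β : LinearMap.BilinForm F V}
    (hβ : ∀ x, (∀ y, β x y = 0) → x = 0) {v v' : I → V} (hv : Submodule.span F (Set.range v) = ⊤)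
    (hv' : Submodule.span F (Set.range v') = ⊤) (h : ∀ i j, β (v' i) (v' j) = β (v i) (v j)) :
    ∃ e : V ≃ₗ[F] V, (∀ x y, β (e x) (e y) = β x y) ∧ ∀ i, e (v i) = v' i := by
  have h1 : ∀ c d, β (Finsupp.linearCombination F v' c) (Finsupp.linearCombination F v' d) =
      β (Finsupp.linearCombination F v c) (Finsupp.linearCombination F v d) := fun c d => by
    simp [Finsupp.linearCombination_apply, Finsupp.sum, map_sum, LinearMap.sum_apply, h]
  have hs := LinearMap.range_eq_top.1 ((Finsupp.range_linearCombination F).trans hv)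
  have hs' := LinearMap.range_eq_top.1 ((Finsupp.range_linearCombination F).trans hv')
  have hk : LinearMap.ker (Finsupp.linearCombination F v) =
      LinearMap.ker (Finsupp.linearCombination F v') := by
    ext c
    refine ⟨fun hc => hβ _ fun y => ?_, fun hc => hβ _ fun y => ?_⟩
    · obtain ⟨d, rfl⟩ := hs' y
      rw [h1, show Finsupp.linearCombination F v c = 0 from hc]; simp
    · obtain ⟨d, rfl⟩ := hs y
      rw [← h1, show Finsupp.linearCombination F v' c = 0 from hc]; simp
  let e := (LinearMap.quotKerEquivOfSurjective _ hs).symm ≪≫ₗ Submodule.quotEquivOfEq _ _ hk ≪≫ₗ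
    LinearMap.quotKerEquivOfSurjective _ hs'
  have he : ∀ c, e (Finsupp.linearCombination F v c) = Finsupp.linearCombination F v' c := fun c => by
    simp [e, LinearMap.quotKerEquivOfSurjective_symm_apply]
  refine ⟨e, fun x y => ?_, fun i => by simpa using he (Finsupp.single i 1)⟩
  obtain ⟨c, rfl⟩ := hs x
  obtain ⟨d, rfl⟩ := hs y
  rw [he, he, h1]

theorem linearIndependent_of_gram {ι : Type*} [Fintype ι] [DecidableEq ι]
    (β : LinearMap.BilinForm F V) {w : ι → V} (h : (Matrix.of fun i j => β (w i) (w j)).det ≠ 0) :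
    LinearIndependent F w :=
  Fintype.linearIndependent_iff.2 fun c hc => congrFun (Matrix.eq_zero_of_vecMul_eq_zero h (v := c)
    (funext fun j => by
      simpa [map_sum, LinearMap.sum_apply, Matrix.vecMul, dotProduct] using congrArg (β · (w j)) hc))

/-- `W` has dimension `m` and a basis with Gram determinant `d ≠ 0` -/
def Disc (β : LinearMap.BilinForm F V) (W : Submodule F V) (m : ℕ) (d : F) : Prop :=
  d ≠ 0 ∧ ∃ (ι : Type) (_ : Fintype ι) (_ : DecidableEq ι) (w : ι → V), Fintype.card ι = m ∧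
    Submodule.span F (Set.range w) = W ∧ (Matrix.of fun i j => β (w i) (w j)).det = d

variable {β : LinearMap.BilinForm F V} {W W' : Submodule F V} {m m' : ℕ} {d d' : F}

theorem Disc.finrank_eq (h : Disc β W m d) : finrank F W = m := by
  obtain ⟨h0, ι, _, _, w, rfl, rfl, rfl⟩ := h
  exact finrank_span_eq_card (linearIndependent_of_gram β h0)

theorem Disc.unique (h : Disc β W m d) (h' : Disc β W m' d') : ∃ t, t ≠ 0 ∧ d' = t ^ 2 * d := by
  obtain ⟨h0, ι, _, _, w, -, h1, rfl⟩ := h
  obtain ⟨h0', ι', _, _, w', -, h1', rfl⟩ := h'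
  simpa using H27.gram_det_eq_sq_mul (β.restrict W)
    ((Basis.span (linearIndependent_of_gram β h0)).map (LinearEquiv.ofEq _ _ h1))
    ((Basis.span (linearIndependent_of_gram β h0')).map (LinearEquiv.ofEq _ _ h1'))

theorem Disc.sup (h : Disc β W m d) (h' : Disc β W' m' d') (ho : ∀ x ∈ W', ∀ y ∈ W, β x y = 0) :
    Disc β (W ⊔ W') (m + m') (d * d') := by
  obtain ⟨h0, ι, _, _, w, rfl, rfl, rfl⟩ := h
  obtain ⟨h0', ι', _, _, w', rfl, rfl, rfl⟩ := h'
  refine ⟨mul_ne_zero h0 h0', ι ⊕ ι', inferInstance, inferInstance, Sum.elim w w',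
    Fintype.card_sum, by rw [Set.Sum.elim_range, Submodule.span_union], ?_⟩
  rw [← Matrix.det_fromBlocks_zero₂₁ _ (Matrix.of fun i j => β (w i) (w' j))]
  congr 1
  ext (i | i) (j | j) <;> try rfl
  exact ho _ (Submodule.subset_span ⟨i, rfl⟩) _ (Submodule.subset_span ⟨j, rfl⟩)

theorem exists_disc [FiniteDimensional F V] (h : ∀ x ∈ W, (∀ y ∈ W, β x y = 0) → x = 0) :
    ∃ d, Disc β W (finrank F W) d := by
  let b := finBasis F W
  refine ⟨_, fun h0 => ?_, _, inferInstance, inferInstance, W.subtype ∘ b, Fintype.card_fin _,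
    by rw [Set.range_comp, ← Submodule.map_span, b.span_eq, Submodule.map_subtype_top], rfl⟩
  obtain ⟨c, hc, h1⟩ := Matrix.exists_vecMul_eq_zero_iff.2 h0
  refine hc (funext (Fintype.linearIndependent_iff.1 b.linearIndependent c
    (Subtype.ext (h _ (Subtype.prop _) fun y hy => ?_))))
  have : (β (∑ i, c i • b i : W)).comp W.subtype = 0 := b.ext fun j => by
    simpa [map_sum, LinearMap.sum_apply, Matrix.vecMul, dotProduct] using congrFun h1 j
  exact LinearMap.congr_fun this ⟨y, hy⟩

theorem Disc.of_equiv (h : Disc β W m d) (e : W ≃ₗ[F] W')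
    (he : ∀ x y, β (e x) (e y) = β x y) : Disc β W' m d := by
  obtain ⟨h0, ι, _, _, w, h1, rfl, rfl⟩ := h
  refine ⟨h0, ι, inferInstance, inferInstance,
    (W'.subtype ∘ₗ e.toLinearMap) ∘ fun i => ⟨w i, Submodule.subset_span ⟨i, rfl⟩⟩, h1, ?_, ?_⟩
  · rw [Set.range_comp, ← Submodule.map_span, (Submodule.span_range_subtype_eq_top_iff _ _).2 rfl]
    simp
  · congr 1; ext i j; exact he _ _

end Cfsg.Agent.H29
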