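import Cfsg.Agent.H29.ClsEnc
import Cfsg.Agent.H29.FormStd
import Cfsg.Agent.H67.SymForm
import Cfsg.Agent.H11.Wall

/-! Palindromic polynomials as characteristic polynomials of symplectic and orthogonal maps. -/

set_option autoImplicit false

namespace Cfsg.Agent.H29

open Module Finset Polynomial H67

variable {F V V' : Type*} [Field F] [AddCommGroup V] [Module F V] [AddCommGroup V'] [Module F V']

theorem Sim.charpoly_eq [FiniteDimensional F V] [FiniteDimensional F V'] {T : End F V}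
    {S : End F V'} (h : Sim T S) : S.charpoly = T.charpoly := by
  obtain ⟨e, he⟩ := h
  rw [Sim.eq_conj e he, LinearEquiv.charpoly_conj]

theorem RP_root (h2 : (2 : F) ≠ 0) {f : F[X]} (hf : f ∈ RP F) {c : F} (hc : c * c = 1)
    (h : f.eval c = 0) : ∃ g ∈ RP F, f = g * (X - C c) * (X - C c) := by
  obtain ⟨g, rfl⟩ := dvd_iff_isRoot.2 h
  have h1 := RA_of_mul (RA_X_sub hc) hf.1
  have h3 := hf.2.1
  have h4 := hf.2.2
  rw [(monic_X_sub_C c).natDegree_mul h1.1, natDegree_X_sub_C, add_comm, Nat.even_add_one,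
    Nat.not_even_iff_odd] at h4
  obtain ⟨k, hk⟩ := h4
  have h5 := RA_eval h1 hc
  simp only [mul_coeff_zero, coeff_sub, coeff_X_zero, coeff_C_zero, zero_sub] at h3
  rw [hk, pow_succ, pow_mul, sq, hc, one_pow, one_mul] at h5
  obtain ⟨p, rfl⟩ := dvd_iff_isRoot.2 ((mul_eq_zero.1
    (by linear_combination h5 - eval c g * h3 : 2 * g.eval c = 0)).resolve_left h2)
  have h6 := RA_of_mul (RA_X_sub hc) h1
  rw [(monic_X_sub_C c).natDegree_mul h6.1, natDegree_X_sub_C] at hk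
  simp only [mul_coeff_zero, coeff_sub, coeff_X_zero, coeff_C_zero, zero_sub] at h3
  exact ⟨p, ⟨h6, by linear_combination h3 - p.coeff 0 * hc, k, by omega⟩, by ring⟩

theorem pres_RP [Finite F] (h2 : (2 : F) ≠ 0) (alt : Bool) (n : ℕ) : ∀ f ∈ RP F, f.natDegree = n →
    ∃ A : Matrix (Fin n) (Fin n) F, A.charpoly = f ∧ Pres alt (Matrix.toLin' A) := by
  induction n using Nat.strong_induction_on with
  | _ n ih =>
  intro f hf hn
  by_cases h : ∃ c : F, c * c = 1 ∧ f.eval c = 0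
  · obtain ⟨c, hc, h⟩ := h
    obtain ⟨g, hg, rfl⟩ := RP_root h2 hf hc h
    rw [(hg.1.1.mul (monic_X_sub_C c)).natDegree_mul (monic_X_sub_C c),
      hg.1.1.natDegree_mul (monic_X_sub_C c), natDegree_X_sub_C] at hn
    obtain ⟨A, hA, h3⟩ := ih _ (by omega) g hg rfl
    have h4 : Matrix.diagonal (fun _ : Fin 1 => c) * Matrix.diagonal (fun _ => c) = 1 := by simp [hc]
    have h5 := h3.prod (pres_hyp alt (.of_mul_eq_one _ h4))
    obtain ⟨B, hB⟩ := exists_matrix_sim (ι := Fin n) _ (by simp [← hn] :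
      finrank F ((Fin g.natDegree → F) × (Fin 1 → F) × (Fin 1 → F)) = _)
    refine ⟨B, ?_, h5.sim hB⟩
    rw [← Matrix.charpoly_toLin', Sim.charpoly_eq hB, Matrix.inv_eq_left_inv h4]
    simp [LinearMap.charpoly_prodMap, Matrix.charpoly_toLin', Matrix.charpoly_diagonal, mul_assoc,
      hA]
  · obtain ⟨A, hA, rfl⟩ := H66.exists_isSS_charpoly_eq (ι := Fin n) hf.1.1 (by simpa using hn)
    obtain ⟨h4, h5⟩ := charpoly_inv_of_RA hf.1 (Polynomial.map_id).symm
    obtain ⟨P, hP⟩ := H66.exists_GL_conj_of_charpoly_eq hA (isSS_inv h4 hA) h5.symm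
    refine ⟨A, rfl, pres_of_isConj_inv alt h4 ?_ ⟨P, hP⟩⟩
    have h6 : ∀ c : F, c * c = 1 → IsUnit (Matrix.scalar (Fin n) c - A) := fun c hc =>
      (Matrix.isUnit_iff_isUnit_det _).2 (Ne.isUnit fun h0 =>
        h ⟨c, hc, (Matrix.eval_charpoly A c).trans h0⟩)
    have := (h6 1 (mul_one 1)).mul (h6 (-1) (by simp))
    rw [map_neg, map_one] at this
    convert this using 1
    noncomm_ring

theorem exists_diag_disc [Finite F] [FiniteDimensional F V] (h2 : (2 : F) ≠ 0) {ν : F}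
    (hν : ¬ IsSquare ν) {β : LinearMap.BilinForm F V} (hβ : β.Nondegenerate)
    (hs : ∀ x y, β y x = β x y) {n : ℕ} (hn : finrank F V = n + 1) :
    ∃ (b : Basis (Fin (n + 1)) F V) (c : F), (c = 1 ∨ c = ν) ∧ Disc β ⊤ (n + 1) c ∧
      ∀ i j, β (b i) (b j) = Matrix.diagonal (fun i => if i = Fin.last n then c else 1) i j := by
  obtain ⟨b, h1, h3, h4⟩ := H27.symm_exists_basis h2 ⟨fun x y => hs y x⟩ hβ.1 hn ν hν
  have h5 : ∀ i j, β (b i) (b j) = Matrix.diagonal (fun i => if i = Fin.last n then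
      β (b (Fin.last n)) (b (Fin.last n)) else 1) i j := fun i j => by
    by_cases h : i = j
    · subst h
      rw [Matrix.diagonal_apply_eq]
      split_ifs with h
      exacts [by rw [h], h3 i h]
    · rw [h1 i j h, Matrix.diagonal_apply_ne _ h]
  refine ⟨b, _, h4, ⟨?_, _, inferInstance, inferInstance, b, Fintype.card_fin _, b.span_eq, ?_⟩, h5⟩
  · rcases h4 with h | h <;> rw [h]
    exacts [one_ne_zero, by rintro rfl; exact hν .zero]
  · exact (congrArg Matrix.det (Matrix.ext h5)).trans (by rw [Matrix.det_diagonal]; simp)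

theorem iso_of_disc [Finite F] [FiniteDimensional F V] [FiniteDimensional F V'] (h2 : (2 : F) ≠ 0)
    {β : LinearMap.BilinForm F V} {β' : LinearMap.BilinForm F V'} (hβ : β.Nondegenerate)
    (hs : ∀ x y, β y x = β x y) (hβ' : β'.Nondegenerate) (hs' : ∀ x y, β' y x = β' x y)
    {m : ℕ} {d d' : F} (h : Disc β ⊤ (m + 1) d) (h' : Disc β' ⊤ (m + 1) d')
    (hd : IsSquare (d * d')) : ∃ E : V ≃ₗ[F] V', ∀ x y, β' (E x) (E y) = β x y := by
  obtain ⟨ν, hν⟩ := FiniteField.exists_nonsquare (H27.ringChar_ne_two_of_two_ne_zero h2)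
  obtain ⟨b, c, h1, h3, h4⟩ := exists_diag_disc h2 hν hβ hs ((finrank_top F V).symm.trans h.finrank_eq)
  obtain ⟨b', c', h1', h3', h4'⟩ := exists_diag_disc h2 hν hβ' hs'
    ((finrank_top F V').symm.trans h'.finrank_eq)
  obtain ⟨s, -, hs⟩ := h.unique h3
  obtain ⟨t, -, ht⟩ := h'.unique h3'
  obtain ⟨r, hr⟩ := hd
  have h5 : IsSquare (c * c') := ⟨s * t * r, by rw [hs, ht]; linear_combination (s * t) ^ 2 * hr⟩
  obtain rfl : c = c' := by
    rcases h1 with rfl | rfl <;> rcases h1' with rfl | rfl <;> first | rfl | simp [hν] at h5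
  have : β'.compl₁₂ (b.equiv b' (Equiv.refl _)).toLinearMap (b.equiv b' (Equiv.refl _)).toLinearMap
      = β := b.ext fun i => b.ext fun j => by simp [h4, h4']
  exact ⟨_, fun x y => LinearMap.congr_fun (LinearMap.congr_fun this x) y⟩

theorem exists_of_iso [FiniteDimensional F V] [FiniteDimensional F V']
    {β : LinearMap.BilinForm F V} {β' : LinearMap.BilinForm F V'} (E : V ≃ₗ[F] V')
    (hE : ∀ x y, β' (E x) (E y) = β x y) {T : End F V} (hT : ∀ x y, β (T x) (T y) = β x y) :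
    ∃ g : End F V', (∀ x y, β' (g x) (g y) = β' x y) ∧ g.charpoly = T.charpoly :=
  ⟨E.conj T, fun x y => by
    obtain ⟨x, rfl⟩ := E.surjective x
    obtain ⟨y, rfl⟩ := E.surjective y
    simp only [LinearEquiv.conj_apply_apply, E.symm_apply_apply, hE, hT], E.charpoly_conj T⟩

theorem real_ext [Finite F] [FiniteDimensional F V] [FiniteDimensional F V'] (h2 : (2 : F) ≠ 0)
    {β : LinearMap.BilinForm F V} (hβ : β.Nondegenerate) (hs : ∀ x y, β y x = β x y)
    {T : End F V'} (hT : Pres false T) (hd : finrank F V = finrank F V' + 1) {c : F}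
    (hc : c * c = 1) :
    ∃ g : End F V, (∀ x y, β (g x) (g y) = β x y) ∧ g.charpoly = T.charpoly * (X - C c) := by
  obtain ⟨γ, h1, h3, h4⟩ := hT
  obtain ⟨d, h5⟩ := exists_disc (β := β) (W := ⊤) fun x _ h => hβ.1 x fun y => h y trivial
  obtain ⟨d', h0, ι, _, _, w, h6, h7, h8⟩ :=
    exists_disc (β := γ) (W := ⊤) fun x _ h => h1.1 x fun y => h y trivial
  rw [finrank_top] at h5 h6
  let γ' : LinearMap.BilinForm F (V' × F) := γ.compl₁₂ (.fst F V' F) (.fst F V' F) +
    (d * d') • (LinearMap.mul F F).compl₁₂ (.snd F V' F) (.snd F V' F)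
  have h9 : ∀ x y, γ' x y = γ x.1 y.1 + d * d' * (x.2 * y.2) := fun _ _ => rfl
  have h10 : ∀ x y, γ' y x = γ' x y := fun x y => by rw [h9, h9, h3, mul_comm y.2]
  have h11 : ∀ x, (∀ y, γ' x y = 0) → x = 0 := fun x hx =>
    Prod.ext (h1.1 _ fun y => by simpa [h9] using hx (y, 0))
      (by simpa [h9, h0, h5.1] using hx (0, 1))
  have h14 : Disc γ' ⊤ (finrank F V' + 1) (d' * (d * d')) := by
    refine ⟨mul_ne_zero h0 (mul_ne_zero h5.1 h0), ι ⊕ Unit, inferInstance, inferInstance,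
      Sum.elim (fun i => (w i, 0)) fun _ => (0, 1), by simp [h6], top_le_iff.1 fun x _ => ?_, ?_⟩
    · rw [show x = LinearMap.inl F V' F x.1 + x.2 • (0, 1) by simp]
      refine add_mem ?_ (Submodule.smul_mem _ _ (Submodule.subset_span ⟨.inr (), rfl⟩))
      have h15 := Submodule.mem_map_of_mem (f := LinearMap.inl F V' F)
        (h7 ▸ Submodule.mem_top : x.1 ∈ Submodule.span F (Set.range w))
      rw [Submodule.map_span] at h15
      refine Submodule.span_mono ?_ h15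
      rintro _ ⟨_, ⟨i, rfl⟩, rfl⟩
      exact ⟨.inl i, rfl⟩
    · refine Eq.trans ?_ ((Matrix.det_fromBlocks_zero₂₁ (Matrix.of fun i j => γ (w i) (w j)) 0
        (Matrix.of fun _ _ : Unit => d * d')).trans (by rw [h8, Matrix.det_unique]; rfl))
      congr 1
      ext (i | i) (j | j) <;> simp [h9]
  obtain ⟨E, hE⟩ := iso_of_disc h2 ⟨h11, fun x hx => h11 x fun y => h10 x y ▸ hx y⟩
    h10 hβ hs h14 (hd ▸ h5) ⟨d * d', by ring⟩
  obtain ⟨g, h12, h13⟩ := exists_of_iso E hE (T := T.prodMap (c • 1)) fun x y => by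
    rw [h9, h9]
    simp only [LinearMap.prodMap_apply, h4, LinearMap.smul_apply, End.one_apply, smul_eq_mul]
    linear_combination d * d' * x.2 * y.2 * hc
  refine ⟨g, h12, h13.trans ?_⟩
  rw [LinearMap.charpoly_prodMap, ← LinearMap.charpoly_toMatrix (c • 1) (Basis.singleton Unit F)]
  simp [Matrix.charpoly]

open QuadraticMap H28 H11

variable {κ : Type} [Fintype κ] [DecidableEq κ] {Q : QuadraticForm F (κ → F)}

theorem disc_gramDet (hQ : (polarBilin Q).Nondegenerate) :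
    Disc (polarBilin Q) ⊤ (Fintype.card κ) (gramDet Q) :=
  ⟨gramDet_ne_zero hQ, κ, inferInstance, inferInstance, Pi.basisFun F κ, rfl, Basis.span_eq _,
    by simp [gramDet]⟩

theorem exists_O (h2 : (2 : F) ≠ 0) (hQ : (polarBilin Q).Nondegenerate) {g : End F (κ → F)}
    (hg : ∀ x y, polarBilin Q (g x) (g y) = polarBilin Q x y) : ∃ k : O Q, rho Q k = g := by
  obtain ⟨k, hk⟩ := exists_mem_isometryGroup (A := LinearMap.toMatrix' g) hQ fun x =>
    mul_left_cancel₀ h2 (by simpa [polar_self, two_mul, two_smul] using hg x x)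
  exact ⟨k, by rw [← Matrix.toLin'_toMatrix' g, ← hk]; rfl⟩

theorem real_of_sq [Finite F] (h2 : (2 : F) ≠ 0) (hQ : (polarBilin Q).Nondegenerate) {f : F[X]}
    (hf : f ∈ RP F) {m : ℕ} (hm : Fintype.card κ = m + 1) (hn : f.natDegree = m + 1)
    (h1 : f.eval 1 ≠ 0) (h3 : f.eval (-1) ≠ 0)
    (h : IsSquare (gramDet Q * (f.eval 1 * f.eval (-1)))) : ∃ k : O Q, (rho Q k).charpoly = f := by
  obtain ⟨A, rfl, h4⟩ := pres_RP h2 false _ f hf hn
  obtain ⟨Q', h5, h6⟩ := h4.exists_quad h2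
  obtain ⟨k, rfl⟩ := exists_mem_isometryGroup h5 h6
  obtain ⟨r, hr⟩ := hn ▸ hf.2.2
  have e1 : (1 - mat k).det = (mat k).charpoly.eval 1 := by rw [Matrix.eval_charpoly, map_one]
  have e2 : (1 + mat k).det = (mat k).charpoly.eval (-1) := by
    rw [Matrix.eval_charpoly, map_neg, map_one, ← neg_add', Matrix.det_neg, Fintype.card_fin,
      Even.neg_one_pow ⟨r, hr⟩, one_mul]
  have h7 := (spinor_eq_of_one_sub h5 (eichOK_of_two_ne_zero h2) k (e1 ▸ h1)).symm.trans
    (spinor_eq_of_one_add h5 _ h2 k (e2 ▸ h3))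
  rw [e1, e2, Fintype.card_fin, show (2 : F) ^ (m + 1) = 2 ^ r * 2 ^ r by rw [← pow_add, ← hr]] at h7
  obtain ⟨s, hs⟩ := isSquare_mul_of_sqSign_eq (mul_ne_zero (gramDet_ne_zero h5) h1)
    (mul_ne_zero (mul_ne_zero (pow_ne_zero _ h2) (pow_ne_zero _ h2)) h3) h7
  obtain ⟨t, ht⟩ := h
  obtain ⟨E, hE⟩ := iso_of_disc h2 h5 (fun x y => polar_comm _ _ _) hQ (fun x y => polar_comm _ _ _)
    (Fintype.card_fin (m + 1) ▸ disc_gramDet h5) (hm ▸ disc_gramDet hQ)
    ⟨s * t / (2 ^ r * ((mat k).charpoly.eval 1 * (mat k).charpoly.eval (-1))), by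
      field_simp
      linear_combination (gramDet Q * eval 1 (mat k).charpoly * eval (-1) (mat k).charpoly) * hs +
        s ^ 2 * ht⟩
  obtain ⟨g, h8, h9⟩ := exists_of_iso E hE (polarBilin_isometry h6)
  obtain ⟨k', rfl⟩ := exists_O h2 hQ h8
  exact ⟨k', h9.trans (Matrix.charpoly_toLin' _)⟩

end Cfsg.Agent.H29
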