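import Cfsg.Agent.H29.FormNil
import Cfsg.Agent.H29.ClsRec
import Cfsg.Agent.H67.Adj

/-! Invariants of an isometry of a symmetric or alternating space over a finite field of odd
order that determine its conjugacy class. -/

set_option autoImplicit false

namespace Cfsg.Agent.H29

open Module Finset Polynomial H67

variable {F V : Type*} [Field F] [AddCommGroup V] [Module F V] [FiniteDimensional F V]
  {β : LinearMap.BilinForm F V} {g g' : End F V} {e : ℕ} {ν : F}

theorem exists_iso_of_sim [Finite F] {V' : Type*} [AddCommGroup V'] [Module F V']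
    {β' : LinearMap.BilinForm F V'} {A : End F V} {A' : End F V'} {ε : F} (h₁ : β.Nondegenerate)
    (h₂ : ∀ x, (∀ y, β' x y = 0) → x = 0) (hs₁ : ∀ x y, β y x = ε * β x y)
    (hs₂ : ∀ x y, β' y x = ε * β' x y) (hA : ∀ x y, β (A x) (A y) = β x y)
    (hA' : ∀ x y, β' (A' x) (A' y) = β' x y) (hu : IsUnit (1 - A ^ 2)) (h : Sim A A') :
    ∃ E : V ≃ₗ[F] V', (∀ x y, β' (E x) (E y) = β x y) ∧ ∀ x, E (A x) = A' (E x) := by
  obtain ⟨f, hf⟩ := h
  haveI : Finite V := Module.finite_of_finite F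
  haveI : Finite (End F V) := Finite.of_injective _ DFunLike.coe_injective
  let h : End F V := LinearMap.BilinForm.symmCompOfNondegenerate (β'.compl₁₂ f.1 f.1) β h₁
  have hh : ∀ x y, β (h x) y = β' (f x) (f y) := fun x y =>
    LinearMap.BilinForm.symmCompOfNondegenerate_left_apply _ h₁ y x
  have e1 : adj β h₁ A * A = 1 := (adj_mul_self_eq_one_iff β h₁ A).2 hA
  have e2 : A * adj β h₁ A = 1 := mul_eq_one_comm.1 e1
  have hAh : A * h = h * A := LinearMap.ext fun x => eq_of_form_left β h₁ fun z => by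
    have : z = A (adj β h₁ A z) := by rw [← End.mul_apply, e2, End.one_apply]
    rw [this, End.mul_apply, End.mul_apply, hA, hh, hh, hf, hf, hA']
  have hi : Function.Injective h := (injective_iff_map_eq_zero h).2 fun x hx =>
    f.map_eq_zero_iff.1 (h₂ _ fun y => by rw [← f.apply_symm_apply y, ← hh, hx]; simp)
  have hu' : IsUnit h := (End.isUnit_iff h).2 ⟨hi, LinearMap.injective_iff_surjective.1 hi⟩
  obtain ⟨c, hc, hN⟩ := exists_star_mul_self (adj β h₁) (adj_mul β h₁) (adj_adj β h₁ hs₁) A h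
    (adj_eq_of β h₁ fun x y => by rw [hh, hs₁, hh, ← hs₂]) hu' hAh (by rw [e1, e2]) (by
      have : 1 - A ^ 2 = -A * (A - adj β h₁ A) := by rw [mul_sub, neg_mul, neg_mul, e2, sq]; abel
      exact isUnit_of_mul_isUnit_right (this ▸ hu))
  let c' := LinearEquiv.ofBijective c ((End.isUnit_iff c).1 (isUnit_of_mul_isUnit_right (hN ▸ hu')))
  refine ⟨c'.symm ≪≫ₗ f, fun x y => ?_, fun x => ?_⟩
  · obtain ⟨x, rfl⟩ := c'.surjective x
    obtain ⟨y, rfl⟩ := c'.surjective y
    simp only [LinearEquiv.trans_apply, c'.symm_apply_apply, ← hh, ← hN, End.mul_apply, adj_left]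
    rfl
  · obtain ⟨x, rfl⟩ := c'.surjective x
    have : A (c' x) = c' (A x) := LinearMap.congr_fun (hc A rfl (by rw [e1, e2]) hAh) x
    simp only [LinearEquiv.trans_apply, this, c'.symm_apply_apply, hf]

/-- the generalised fixed space -/
noncomputable def Wu (g : End F V) : Submodule F V := LinearMap.ker ((g - 1) ^ finrank F V)

/-- the part without eigenvalues `± 1` -/
noncomputable def W0 (g : End F V) : Submodule F V := LinearMap.range ((1 - g ^ 2) ^ finrank F V)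

omit [FiniteDimensional F V] in
theorem mem_Wu {x : V} : x ∈ Wu g ↔ ((g - 1) ^ finrank F V) x = 0 := Iff.rfl

/-- `± g` -/
def sg : Bool → End F V → End F V
  | false, g => g
  | true, g => -g

omit [FiniteDimensional F V] in
theorem W0_mem (g : End F V) : ∀ x ∈ W0 g, g x ∈ W0 g := by
  rintro _ ⟨y, rfl⟩
  exact ⟨g y, LinearMap.congr_fun (((Commute.one_left g).sub_left
    ((Commute.refl g).pow_left 2)).pow_left _) y⟩

/-- the levels of the part without eigenvalues `± 1` -/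
noncomputable def lv0 (g : End F V) (i : ℕ) : F[X] := (dec (g.restrict (W0_mem g))).lv i

omit [FiniteDimensional F V] in
theorem sg_iso (hg : ∀ x y, β (g x) (g y) = β x y) (η : Bool) (x y : V) :
    β (sg η g x) (sg η g y) = β x y := by
  cases η <;> simp [sg, hg]

theorem orth_Wu (hβ : β.Nondegenerate) (hs : ∀ x y, β y x = (-1) ^ e * β x y)
    (hg : ∀ x y, β (g x) (g y) = β x y) (x : V) {y : V} (hy : y ∈ Wu g) :
    β (((g - 1) ^ finrank F V) x) y = 0 := by
  have e1 : adj β hβ g * g = 1 := (adj_mul_self_eq_one_iff β hβ g).2 hg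
  have e2 : adj β hβ g - 1 = -adj β hβ g * (g - 1) := by
    rw [mul_sub, neg_mul, e1, mul_one]; abel
  rw [← adj_right β hβ hs, adj_pow, map_sub, adj_one, e2, Commute.mul_pow ((Commute.sub_right
    (e1.trans (mul_eq_one_comm.1 e1).symm) (Commute.one_right _)).neg_left), End.mul_apply,
    mem_Wu.1 hy, map_zero, map_zero]

theorem coprime_aux (h2 : (2 : F) ≠ 0) : IsCoprime (X - 1 : F[X]) (-X - 1) :=
  ⟨-C 2⁻¹, -C 2⁻¹, by
    have : (C 2⁻¹ : F[X]) * 2 = 1 := by rw [← map_ofNat C, ← C_mul, inv_mul_cancel₀ h2, C_1]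
    linear_combination this⟩

theorem orth_Wu_neg (h2 : (2 : F) ≠ 0) (hβ : β.Nondegenerate)
    (hs : ∀ x y, β y x = (-1) ^ e * β x y) (hg : ∀ x y, β (g x) (g y) = β x y) :
    ∀ x ∈ Wu (-g), ∀ y ∈ Wu g, β x y = 0 := fun x hx y hy => by
  obtain ⟨u, v, h⟩ := (coprime_aux h2).pow (m := finrank F V) (n := finrank F V)
  have := congrArg (aeval g · x) h
  rw [mul_comm u] at this
  simp only [map_add, map_mul, map_pow, map_sub, map_neg, aeval_X, map_one, LinearMap.add_apply,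
    End.mul_apply, mem_Wu.1 hx, map_zero, add_zero, End.one_apply] at this
  rw [← this, orth_Wu hβ hs hg _ hy]

theorem orth_W0 (hβ : β.Nondegenerate) (hs : ∀ x y, β y x = (-1) ^ e * β x y)
    (hg : ∀ x y, β (g x) (g y) = β x y) (η : Bool) :
    ∀ x ∈ Wu (sg η g), ∀ y ∈ W0 g, β x y = 0 := by
  rintro x hx _ ⟨y, rfl⟩
  have : 1 - g ^ 2 = (sg η g - 1) * (-sg η g - 1) := by cases η <;> simp only [sg] <;> noncomm_ring
  rw [hs, this, Commute.mul_pow (by rw [Commute, SemiconjBy]; noncomm_ring), End.mul_apply,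
    orth_Wu hβ hs (sg_iso hg η) _ hx, mul_zero]

theorem disjoint_fitting (h : End F V) :
    Disjoint (LinearMap.range (h ^ finrank F V)) (LinearMap.ker (h ^ finrank F V)) := by
  rw [Submodule.disjoint_def]
  rintro _ ⟨y, rfl⟩ hy
  rwa [LinearMap.mem_ker, ← End.mul_apply, ← pow_add, ← LinearMap.mem_ker,
    End.ker_pow_eq_ker_pow_finrank_of_le (Nat.le_add_right _ _)] at hy

theorem sup_W (h2 : (2 : F) ≠ 0) (g : End F V) : W0 g ⊔ Wu g ⊔ Wu (-g) = ⊤ := by
  have := sup_ker_aeval_eq_ker_aeval_mul_of_coprime g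
    ((coprime_aux h2).pow (m := finrank F V) (n := finrank F V))
  rw [← mul_pow, show (X - 1 : F[X]) * (-X - 1) = 1 - X ^ 2 by ring] at this
  simp only [map_pow, map_sub, map_neg, aeval_X, map_one] at this
  rw [sup_assoc, Wu, Wu, this]
  exact Submodule.eq_top_of_disjoint _ _ (LinearMap.finrank_range_add_finrank_ker _).ge
    (disjoint_fitting _)

theorem isUnit_W0 (g : End F V) : IsUnit (1 - g.restrict (W0_mem g) ^ 2) := by
  have : Function.Injective (1 - g.restrict (W0_mem g) ^ 2 : End F (W0 g)) := by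
    rw [injective_iff_map_eq_zero]
    intro x hx
    have h1 : (1 - g ^ 2 : End F V) x.1 = 0 := congrArg Subtype.val hx
    rcases Nat.eq_zero_or_pos (finrank F V) with h | h
    · haveI := finrank_zero_iff.1 h
      exact Subsingleton.elim _ _
    · exact Subtype.ext (Submodule.disjoint_def.1 (disjoint_fitting _) _ x.2
        (End.pow_map_zero_of_le h (by simpa using h1)))
  exact (End.isUnit_iff _).2 ⟨this, LinearMap.injective_iff_surjective.1 this⟩

section

variable (h2 : (2 : F) ≠ 0) (hβ : β.Nondegenerate) (hs : ∀ x y, β y x = (-1) ^ e * β x y)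
  (hg : ∀ x y, β (g x) (g y) = β x y)
include h2 hβ hs hg

theorem eq_zero_of_orth {x : V} (h0 : ∀ y ∈ W0 g, β x y = 0)
    (h : ∀ η, ∀ y ∈ Wu (sg η g), β x y = 0) : x = 0 := hβ.1 x fun y => by
  have : LinearMap.ker (β x) = ⊤ := top_le_iff.1
    ((sup_W h2 g).ge.trans (sup_le (sup_le h0 (h false)) (h true)))
  exact (this ▸ Submodule.mem_top : y ∈ LinearMap.ker (β x))

theorem orth_Wu_ne {η η' : Bool} (h : η ≠ η') :
    ∀ x ∈ Wu (sg η g), ∀ y ∈ Wu (sg η' g), β x y = 0 := fun x hx y hy => by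
  cases η <;> cases η' <;> try exact absurd rfl h
  · rw [hs, orth_Wu_neg h2 hβ hs hg y hy x hx, mul_zero]
  · exact orth_Wu_neg h2 hβ hs hg x hx y hy

theorem nondeg_W0 : ∀ x ∈ W0 g, (∀ y ∈ W0 g, β x y = 0) → x = 0 := fun x hx h =>
  eq_zero_of_orth h2 hβ hs hg h fun η y hy => by rw [hs, orth_W0 hβ hs hg η y hy x hx, mul_zero]

theorem nondeg_Wu (η : Bool) : ∀ x ∈ Wu (sg η g), (∀ y ∈ Wu (sg η g), β x y = 0) → x = 0 :=
  fun x hx h => eq_zero_of_orth h2 hβ hs hg (orth_W0 hβ hs hg η x hx) fun η' => by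
    by_cases e : η = η'
    exacts [e ▸ h, orth_Wu_ne h2 hβ hs hg e x hx]

theorem nondeg_W0' : (β.restrict (W0 g)).Nondegenerate :=
  ⟨fun x h => Subtype.ext (nondeg_W0 h2 hβ hs hg _ x.2 fun y hy => h ⟨y, hy⟩),
    fun x h => Subtype.ext (nondeg_W0 h2 hβ hs hg _ x.2 fun y hy => by
      rw [hs, show β y x = 0 from h ⟨y, hy⟩, mul_zero])⟩

theorem lv0_mem (i : ℕ) : lv0 g i ∈ RA (RingHom.id F) := by
  have h1 := nondeg_W0' h2 hβ hs hg
  have h3 : ∀ x y : W0 g, β.restrict _ y x = (-1) ^ e * β.restrict _ x y := fun x y => hs x y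
  refine Dec.lv_mem_RA _ (S := adj _ h1 (g.restrict (W0_mem g))) (mul_eq_one_comm.1
    ((adj_mul_self_eq_one_iff _ h1 _).2 fun x y => hg x y)) (fun _ => rfl) (fun p => ?_) i
  have h4 : ∀ (T : End F (W0 g)) (p : F[X]), aeval (adj _ h1 T) p = adj _ h1 (aeval T p) :=
    fun T p => by
      simp only [aeval_eq_sum_range, map_sum, adj_smul, adj_pow]
  have h5 : ∀ T : End F (W0 g), LinearMap.ker (adj _ h1 T) =
      (β.restrict _).orthogonal (LinearMap.range T) := fun T => by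
    ext x
    refine ⟨fun hx => by
      rintro _ ⟨y, rfl⟩
      exact (adj_right _ h1 h3 T y x).symm.trans (by rw [show adj _ h1 T x = 0 from hx, map_zero]),
      fun hx => h1.2 _ fun y => by rw [adj_right _ h1 h3]; exact hx _ ⟨y, rfl⟩⟩
  rw [Polynomial.map_id, h4, h5, LinearMap.BilinForm.finrank_orthogonal h1,
    ← LinearMap.finrank_range_add_finrank_ker (aeval (g.restrict (W0_mem g)) p), Nat.add_sub_cancel_left]

end

theorem lv0_eval (g : End F V) (i : ℕ) {c : F} (hc : c ^ 2 = 1) : (lv0 g i).eval c ≠ 0 := fun h => by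
  rcases le_or_gt (finrank F (W0 g)) i with hi | hi
  · simp [lv0, Dec.lv_eq_one _ hi] at h
  have h1 : (g.restrict (W0_mem g)).charpoly.IsRoot c := by
    rw [Dec.charpoly_eq (dec _) le_rfl, IsRoot, eval_prod]
    exact prod_eq_zero (mem_range.2 hi) (by rw [eval_pow]; exact (pow_eq_zero_iff i.succ_ne_zero).2 h)
  obtain ⟨x, hx⟩ := ((End.hasEigenvalue_iff_isRoot_charpoly _ _).2 h1).exists_hasEigenvector
  refine hx.2 (((End.isUnit_iff _).1 (isUnit_W0 g)).1 ?_)
  rw [LinearMap.sub_apply, hx.pow_apply, hc, one_smul, End.one_apply, sub_self, map_zero]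

/-- Cayley transform on the generalised fixed space -/
theorem exists_cay (h2 : (2 : F) ≠ 0) (hg : ∀ x y, β (g x) (g y) = β x y) :
    ∃ n, Skew β n (Wu g) ∧ (∀ x ∈ Wu g, (n ^ finrank F V) x = 0) ∧
      (∀ x ∈ Wu g, g (x - n x) = x + n x) := by
  obtain ⟨u, v, h⟩ := (coprime_aux h2).pow_left (m := finrank F V)
  have hc : ∀ p q : F[X], Commute (aeval g p) (aeval g q) := fun p q => (Commute.all p q).map _
  have h0 : ∀ p : F[X], ∀ x ∈ Wu g, aeval g p x ∈ Wu g := fun p x hx => by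
    have := LinearMap.congr_fun (hc ((X - 1) ^ finrank F V) p) x
    simp only [map_pow, map_sub, aeval_X, map_one, End.mul_apply,
      mem_Wu.1 hx, map_zero] at this
    exact this
  have h1 : ∀ x ∈ Wu g, x = g (aeval g (-v) x) + aeval g (-v) x := fun x hx => by
    have := congrArg (aeval g · x) h
    rw [mul_comm v] at this
    simp only [map_add, map_mul, map_pow, map_sub, map_neg, aeval_X, map_one, LinearMap.add_apply,
      End.mul_apply, mem_Wu.1 hx, map_zero, zero_add, End.one_apply,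
      LinearMap.sub_apply, LinearMap.neg_apply] at this ⊢
    exact this.symm.trans (sub_eq_add_neg _ _)
  have h3 : ∀ x, aeval g ((X - 1) * -v) x = g (aeval g (-v) x) - aeval g (-v) x := fun x => by
    rw [map_mul, map_sub, aeval_X, map_one]; rfl
  refine ⟨aeval g ((X - 1) * -v), ⟨h0 _, fun x hx y hy => ?_⟩, fun x hx => ?_, fun x hx => ?_⟩
  · have h4 := h1 x hx
    have h5 := h1 y hy
    rw [h3, h3]
    generalize aeval g (-v) x = z at h4
    generalize aeval g (-v) y = w at h5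
    simp only [h4, h5, map_add, map_sub, LinearMap.add_apply, LinearMap.sub_apply, hg]
    ring
  · rw [← map_pow, mul_pow, mul_comm, map_mul, End.mul_apply]
    simp [mem_Wu.1 hx]
  · have := h1 x hx
    rw [h3]
    generalize aeval g (-v) x = z at this
    rw [this]; simp [two_smul]

omit [FiniteDimensional F V] in
theorem exists_sub_eq {n : End F V} {P : Submodule F V} (hP : ∀ x ∈ P, n x ∈ P) {y : V}
    (hy : y ∈ P) {N : ℕ} (h : (n ^ N) y = 0) : ∃ x ∈ P, y = x - n x := by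
  refine ⟨(∑ i ∈ range N, n ^ i) y, ?_, ?_⟩
  · rw [LinearMap.sum_apply]
    exact P.sum_mem fun i _ => End.pow_apply_mem_of_forall_mem i hP y hy
  · have := LinearMap.congr_fun (mul_neg_geom_sum n N) y
    rw [LinearMap.sub_apply, h, sub_zero] at this
    exact this.symm

/-- the data of an isometry on the generalised eigenspaces for `± 1` -/
structure Dat (β : LinearMap.BilinForm F V) (ν : F) (e : ℕ) (g : End F V) (a : Bool → ℕ → ℕ)
    (s : Bool → ℕ → Bool) (n : Bool → End F V) (v : Bool → ℕ → ℕ → V) : Prop where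
  skew : ∀ η, Skew β (n η) (Wu (sg η g))
  nil : ∀ η, ∀ x ∈ Wu (sg η g), (n η ^ finrank F V) x = 0
  cay : ∀ η, ∀ x ∈ Wu (sg η g), sg η g (x - n η x) = x + n η x
  ch : ∀ η, Ch β ν e (n η) (Wu (sg η g)) (finrank F V) (a η) (s η) (v η)

variable {a a' : Bool → ℕ → ℕ} {s s' : Bool → ℕ → Bool} {n n' : Bool → End F V}
  {v v' : Bool → ℕ → ℕ → V}

theorem Dat.congr (h : Dat β ν e g a s n v) (ha : ∀ η, ∀ i < finrank F V, a η i = a' η i)
    (hs : ∀ η, ∀ i < finrank F V, s η i = s' η i) : Dat β ν e g a' s' n v :=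
  ⟨h.skew, h.nil, h.cay, fun η => ⟨fun i hi => ha η i hi ▸ hs η i hi ▸ (h.ch η).valid i hi,
    Eq.trans (by
      congr 1; ext x
      exact exists_congr fun i => and_congr_right fun hi => by rw [ha η i hi]) (h.ch η).span,
    fun i hi => ha η i hi ▸ (h.ch η).nil i hi, fun i hi k hk i' hi' k' hk' j => hs η i hi ▸
      (h.ch η).gram i hi k (ha η i hi ▸ hk) i' hi' k' (ha η i' hi' ▸ hk') j⟩⟩

variable [Finite F] (h2 : (2 : F) ≠ 0) (hβ : β.Nondegenerate)
  (hs : ∀ x y, β y x = (-1) ^ e * β x y) (hg : ∀ x y, β (g x) (g y) = β x y)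
include h2 hβ hs hg

theorem exists_dat (hν : ¬ IsSquare ν) : ∃ a s n v, Dat β ν e g a s n v := by
  choose n h3 h4 h5 using fun η => exists_cay h2 (sg_iso hg η)
  choose a s v h using fun η => exists_ch h2 hν hs _ (h3 η) (nondeg_Wu h2 hβ hs hg η) (h4 η)
  exact ⟨a, s, n, v, h3, h4, h5, h⟩

theorem exists_iso_W0 (hg' : ∀ x y, β (g' x) (g' y) = β x y)
    (h : ∀ i < finrank F V, lv0 g i = lv0 g' i) : ∃ E : W0 g ≃ₗ[F] W0 g',
      (∀ x y, β (E x) (E y) = β x y) ∧ ∀ x : W0 g, (E ⟨g x, W0_mem g x x.2⟩ : V) = g' (E x) := by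
  obtain ⟨E, h3, h4⟩ := exists_iso_of_sim (β' := β.restrict (W0 g')) (nondeg_W0' h2 hβ hs hg)
    (nondeg_W0' h2 hβ hs hg').1 (fun x y => hs x y) (fun x y => hs x y) (fun x y => hg x y)
    (fun x y => hg' x y) (isUnit_W0 g)
    (Dec.sim_of_lv_lt _ _ (Submodule.finrank_le _) (Submodule.finrank_le _) h)
  exact ⟨E, h3, fun x => congrArg Subtype.val (h4 x)⟩

omit [Finite F] in
theorem Dat.disc (hν : ν ≠ 0) (h : Dat β ν e g a s n v) {m : ℕ} {d : F} (hd : Disc β (W0 g) m d) :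
    Disc β ⊤ (m + ∑ η, ∑ i ∈ range (finrank F V), (i + 1) * a η i)
      (d * ∏ η, (chG ν e (finrank F V) (a η) (s η)).det) := by
  have := (hd.sup ((h.ch false).disc (h.skew _) hν) (orth_W0 hβ hs hg false)).sup
    ((h.ch true).disc (h.skew _) hν) fun x hx y hy => by
      obtain ⟨y, hy', z, hz, rfl⟩ := Submodule.mem_sup.1 hy
      rw [map_add, orth_W0 hβ hs hg true x hx y hy', orth_Wu_neg h2 hβ hs hg x hx z hz, add_zero]
  rw [Fintype.sum_bool, Fintype.prod_bool, ← sup_W h2 g, add_comm (∑ i ∈ _, _), ← add_assoc,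
    mul_comm (Matrix.det _), ← mul_assoc]
  exact this

omit [Finite F] in
theorem Dat.sum_eq (hν : ν ≠ 0) (h : Dat β ν e g a s n v) : ∑ i ∈ range (finrank F V),
    (i + 1) * ((lv0 g i).natDegree + (a false i + a true i)) = finrank F V := by
  obtain ⟨d, hd⟩ := exists_disc (nondeg_W0 h2 hβ hs hg)
  have := (h.disc h2 hβ hs hg hν hd).finrank_eq
  rw [finrank_top, ← Dec.sum_lv (dec (g.restrict (W0_mem g))) (Submodule.finrank_le _),
    Fintype.sum_bool, add_comm (∑ i ∈ _, (i + 1) * a true i)] at this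
  simp only [mul_add, sum_add_distrib]
  exact this.symm

theorem Dat.conj (hg' : ∀ x y, β (g' x) (g' y) = β x y) (h : Dat β ν e g a s n v)
    (h' : Dat β ν e g' a s n' v') (h0 : ∀ i < finrank F V, lv0 g i = lv0 g' i) :
    ∃ E : V ≃ₗ[F] V, (∀ x y, β (E x) (E y) = β x y) ∧ ∀ x, E (g x) = g' (E x) := by
  obtain ⟨E₀, h3, h4⟩ := exists_iso_W0 h2 hβ hs hg hg' h0
  let J := {p : Bool × ℕ × ℕ × ℕ // p.2.1 < finrank F V ∧ p.2.2.1 < a p.1 p.2.1}
  have sp : ∀ {g₂ : End F V} {n v}, Dat β ν e g₂ a s n v → ∀ w : W0 g → V,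
      (∀ x ∈ W0 g₂, x ∈ Set.range w) → Submodule.span F (Set.range (Sum.elim w fun p : J =>
        (n p.1.1 ^ p.1.2.2.2) (v p.1.1 p.1.2.1 p.1.2.2.1))) = ⊤ := fun {g₂ n v} h w hw => by
    have : ∀ η, Wu (sg η g₂) ≤ Submodule.span F (Set.range (Sum.elim w fun p : J =>
        (n p.1.1 ^ p.1.2.2.2) (v p.1.1 p.1.2.1 p.1.2.2.1))) := fun η => by
      refine (h.ch η).span ▸ Submodule.span_mono ?_
      rintro _ ⟨i, hi, k, hk, j, rfl⟩
      exact ⟨.inr ⟨(η, i, k, j), hi, hk⟩, rfl⟩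
    refine top_le_iff.1 ((sup_W h2 g₂).ge.trans (sup_le (sup_le (fun x hx => ?_) (this false))
      (this true)))
    obtain ⟨y, rfl⟩ := hw x hx
    exact Submodule.subset_span ⟨.inl y, rfl⟩
  have hm : ∀ {g₂ : End F V} {n v}, Dat β ν e g₂ a s n v → ∀ p : J, (n p.1.1 ^ p.1.2.2.2)
      (v p.1.1 p.1.2.1 p.1.2.2.1) ∈ Wu (sg p.1.1 g₂) := fun h p =>
    (h.skew _).pow_mem _ ((h.ch _).mem p.2.1 p.2.2)
  obtain ⟨E, h5, h6⟩ := exists_equiv_of_gram hβ.1 (sp h Subtype.val fun x hx => ⟨⟨x, hx⟩, rfl⟩)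
    (sp h' (fun x => E₀ x) fun x hx => ⟨E₀.symm ⟨x, hx⟩, by simp⟩) (by
      rintro (x | p) (y | r)
      · exact h3 x y
      · simp only [Sum.elim_inl, Sum.elim_inr]
        rw [hs, orth_W0 hβ hs hg' _ _ (hm h' r) _ (E₀ x).2, hs, orth_W0 hβ hs hg _ _ (hm h r) _ x.2]
      · exact (orth_W0 hβ hs hg' _ _ (hm h' p) _ (E₀ y).2).trans
          (orth_W0 hβ hs hg _ _ (hm h p) _ y.2).symm
      · obtain ⟨⟨η, i, k, j⟩, hi, hk⟩ := p
        obtain ⟨⟨η', i', k', j'⟩, hi', hk'⟩ := r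
        by_cases h7 : η = η'
        · subst h7
          exact ((h'.ch η).gram' (h'.skew η) hi hk hi' hk' j j').trans
            ((h.ch η).gram' (h.skew η) hi hk hi' hk' j j').symm
        · exact (orth_Wu_ne h2 hβ hs hg' h7 _ (hm h' ⟨(η, i, k, j), hi, hk⟩) _
            (hm h' ⟨(η', i', k', j'), hi', hk'⟩)).trans (orth_Wu_ne h2 hβ hs hg h7 _
            (hm h ⟨(η, i, k, j), hi, hk⟩) _ (hm h ⟨(η', i', k', j'), hi', hk'⟩)).symm)
  have h7 : ∀ η, ∀ x ∈ Wu (sg η g), E x ∈ Wu (sg η g') ∧ E (n η x) = n' η (E x) := fun η x hx => by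
    rw [← (h.ch η).span] at hx
    induction hx using Submodule.span_induction with
    | mem x hx =>
      obtain ⟨i, hi, k, hk, j, rfl⟩ := hx
      have e1 : ∀ j, E ((n η ^ j) (v η i k)) = (n' η ^ j) (v' η i k) := fun j =>
        h6 (.inr ⟨(η, i, k, j), hi, hk⟩)
      exact ⟨e1 j ▸ hm h' ⟨(η, i, k, j), hi, hk⟩, by
        rw [← End.mul_apply, ← pow_succ', e1, e1, pow_succ', End.mul_apply]⟩
    | zero => simp
    | add x y _ _ hx hy => simp only [map_add, hx.2, hy.2, and_true]; exact add_mem hx.1 hy.1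
    | smul c x _ hx => simp only [map_smul, hx.2, and_true]; exact Submodule.smul_mem _ _ hx.1
  have h8 : ∀ η, ∀ y ∈ Wu (sg η g), E (sg η g y) = sg η g' (E y) := fun η y hy => by
    obtain ⟨x, hx, rfl⟩ := exists_sub_eq (h.skew η).mem hy (h.nil η y hy)
    rw [h.cay η x hx, map_add, map_sub, (h7 η x hx).2, h'.cay η _ (h7 η x hx).1]
  have h9 : ⊤ ≤ LinearMap.eqLocus (E.toLinearMap ∘ₗ g) (g' ∘ₗ E.toLinearMap) :=
    (sup_W h2 g).ge.trans (sup_le (sup_le (fun x hx => (h6 (.inl ⟨_, W0_mem g x hx⟩)).trans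
      ((h4 ⟨x, hx⟩).trans (congrArg g' (h6 (.inl ⟨x, hx⟩)).symm))) (h8 false))
      fun x hx => neg_injective ((map_neg E _).symm.trans (h8 true x hx)))
  exact ⟨E, h5, fun x => h9 Submodule.mem_top⟩

/-- the signs of two isometries of the same space with the same Jordan form -/
theorem Dat.parity (hν : ν ≠ 0) (hg' : ∀ x y, β (g' x) (g' y) = β x y) (h : Dat β ν e g a s n v)
    (h' : Dat β ν e g' a s' n' v') (h0 : ∀ i < finrank F V, lv0 g i = lv0 g' i) :
    ∃ t, t ≠ 0 ∧ (∏ η, ∏ i ∈ range (finrank F V), if s' η i then ν ^ (i + 1) else 1) =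
      t ^ 2 * ∏ η, ∏ i ∈ range (finrank F V), if s η i then ν ^ (i + 1) else 1 := by
  obtain ⟨E₀, h3, -⟩ := exists_iso_W0 h2 hβ hs hg hg' h0
  obtain ⟨d, hd⟩ := exists_disc (nondeg_W0 h2 hβ hs hg)
  have h4 := h.disc h2 hβ hs hg hν hd
  obtain ⟨t, ht, h5⟩ := h4.unique (h'.disc h2 hβ hs hg' hν (hd.of_equiv E₀ h3))
  have h6 := h4.1
  rw [prod_congr rfl fun η _ => chG_det_eq (h.ch η).valid, prod_mul_distrib] at h5 h6
  rw [prod_congr rfl fun η _ => chG_det_eq (h'.ch η).valid, prod_mul_distrib] at h5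
  refine ⟨t, ht, mul_right_cancel₀ (mul_ne_zero hd.1 (right_ne_zero_of_mul
    (right_ne_zero_of_mul h6))) ?_⟩
  linear_combination h5

end Cfsg.Agent.H29
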