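import Cfsg.Agent.H29.ClsPole
import Cfsg.Agent.H29.ClsReal
import Cfsg.Agent.H29.FormDat

/-! Bounds for the class numbers of symplectic and orthogonal groups in odd characteristic. -/

set_option autoImplicit false

namespace Cfsg.Agent.H29

open Module Finset Polynomial H67

variable {F V G : Type*} [Field F] [AddCommGroup V] [Module F V] [FiniteDimensional F V] [Group G]
  {β : LinearMap.BilinForm F V} {ρ : G →* End F V} {e : ℕ} {ν : F}

/-- `G` is the full isometry group of `β` -/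
structure Full (β : LinearMap.BilinForm F V) (ρ : G →* End F V) : Prop where
  iso : ∀ g x y, β (ρ g x) (ρ g y) = β x y
  inj : Function.Injective ρ
  surj : ∀ T : End F V, (∀ x y, β (T x) (T y) = β x y) → ∃ g, ρ g = T

theorem charpoly_isConj (ρ : G →* End F V) (a b : G) (h : IsConj a b) :
    (ρ a).charpoly = (ρ b).charpoly := by
  obtain ⟨c, rfl⟩ := isConj_iff.1 h
  refine (Sim.charpoly_eq ⟨LinearMap.GeneralLinearGroup.toLinearEquiv (ρ.toHomUnits c),
    fun v => ?_⟩).symm
  change (ρ c * ρ a) v = (ρ _ * ρ c) v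
  rw [← map_mul, ← map_mul, inv_mul_cancel_right]

theorem finite_of_inj [Finite F] (h : Function.Injective ρ) : Finite G :=
  haveI : Finite V := Module.finite_of_finite F
  haveI : Finite (End F V) := Finite.of_injective _ DFunLike.coe_injective
  Finite.of_injective _ h

variable [Fintype F] (h2 : (2 : F) ≠ 0) (hβ : β.Nondegenerate)
include h2 hβ

theorem Full.exists_data (hs : ∀ x y, β y x = (-1) ^ e * β x y) (h : Full β ρ)
    (hν : ¬ IsSquare ν) : ∃ (a : ConjClasses G → _) (s : ConjClasses G → _)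
    (n : ConjClasses G → _) (v : ConjClasses G → _),
    (∀ C, Dat β ν e (ρ (rep C)) (a C) (s C) (n C) (v C)) ∧
    ∀ C D, (∀ i < finrank F V, lv0 (ρ (rep C)) i = lv0 (ρ (rep D)) i) →
      (∀ η, ∀ i < finrank F V, a C η i = a D η i) → (∀ η, ∀ i < finrank F V, s C η i = s D η i) →
      C = D := by
  choose a s n v h1 using fun C : ConjClasses G => exists_dat h2 hβ hs (h.iso (rep C)) hν
  refine ⟨a, s, n, v, h1, fun C D h3 h4 h5 => rep_inj ?_⟩
  obtain ⟨E, h6, h7⟩ := ((h1 C).congr h4 h5).conj h2 hβ hs (h.iso _) (h.iso _) (h1 D) h3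
  obtain ⟨c, hc⟩ := h.surj E h6
  exact isConj_iff.2 ⟨c, mul_inv_eq_of_eq_mul (h.inj (by
    rw [map_mul, map_mul, hc]; exact LinearMap.ext h7))⟩

theorem card_le_dat (hs : ∀ x y, β y x = (-1) ^ e * β x y) (hν : ν ≠ 0) {Y : Type*} [Finite Y]
    {g : Y → End F V} (hg : ∀ y x z, β (g y x) (g y z) = β x z) {a : Y → Bool → ℕ → ℕ}
    {s : Y → Bool → ℕ → Bool} {n : Y → Bool → End F V} {v : Y → Bool → ℕ → ℕ → V}
    (h : ∀ y, Dat β ν e (g y) (a y) (s y) (n y) (v y)) (s' : Y → Bool → ℕ → Bool) (b c : ℕ → Bool)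
    (hb : ∀ y η, ∀ i < finrank F V, s' y η i = true → a y η i ≠ 0 ∧ b i = true)
    (hc : ∀ y η, ∀ i < finrank F V, (a y η i - (s' y η i).toNat) % 2 = 1 → c i = true)
    (hinj : ∀ y y', (∀ i < finrank F V, lv0 (g y) i = lv0 (g y') i) →
      (∀ η, ∀ i < finrank F V, a y η i = a y' η i) →
      (∀ η, ∀ i < finrank F V, s' y η i = s' y' η i) → y = y') :
    (Nat.card Y : ℝ) ≤ PowerSeries.coeff (finrank F V) (PP (fun i => ex 1 (geo (Fintype.card F)) *
      (bit (b i) * bit (c i)) ^ 2) (finrank F V)) :=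
  card_le_enc h2 _ _ (fun y => lv0 (g y)) a s' (fun _ => RP F) _ b c (fun _ => cnt_RP)
    (fun y i => ⟨(lv0_mem h2 hβ hs (hg y) i).1, lv0_eval _ _ (one_pow 2), lv0_eval _ _ neg_one_sq⟩)
    (fun y i _ => encP_mem (mem_RP_of_eval h2 (lv0_mem h2 hβ hs (hg y) i) (lv0_eval _ _ (one_pow 2))
      (lv0_eval _ _ neg_one_sq)) _ _)
    (fun _ => by simpa using RP_pow (F := F) (mul_one 1) 0) hb hc
    (fun y => (h y).sum_eq h2 hβ hs (hg y) hν) hinj

theorem Full.bound (hs : ∀ x y, β y x = (-1) ^ e * β x y) (h : Full β ρ) (b : ℕ → Bool)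
    (hb : ∀ i, (e + i) % 2 = 0 → b i = true) :
    (Nat.card (ConjClasses G) : ℝ) ≤ PowerSeries.coeff (finrank F V) (PP (fun i =>
      ex 1 (geo (Fintype.card F)) * (bit (b i) * bit (b i)) ^ 2) (finrank F V)) := by
  obtain ⟨ν, hν⟩ := FiniteField.exists_nonsquare (H27.ringChar_ne_two_of_two_ne_zero h2)
  obtain ⟨a, s, n, v, h1, h3⟩ := h.exists_data h2 hβ hs hν
  haveI := finite_of_inj h.inj
  refine card_le_dat h2 hβ hs (by rintro rfl; exact hν .zero) (fun _ => h.iso _) h1 s b b
    (fun C η i hi h4 => ?_) (fun C η i hi h4 => ?_) h3 <;> have := ((h1 C).ch η).valid i hi <;>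
    have := hb i <;> grind [Valid]

theorem Full.bound2 (hs : ∀ x y, β y x = (-1) ^ 0 * β x y) (h : Full β ρ) :
    2 * (Nat.card (ConjClasses G) : ℝ) ≤ PowerSeries.coeff (finrank F V) (PP (fun i =>
      ex 1 (geo (Fintype.card F)) * (bit (decide (i % 2 = 0)) * bit (decide (i % 2 = 0))) ^ 2)
      (finrank F V)) + PowerSeries.coeff (finrank F V) (PP (fun _ =>
      ex 1 (geo (Fintype.card F)) * (bit false * bit false) ^ 2) (finrank F V)) := by
  classical
  obtain ⟨ν, hν⟩ := FiniteField.exists_nonsquare (H27.ringChar_ne_two_of_two_ne_zero h2)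
  have h0 : ν ≠ 0 := by rintro rfl; exact hν .zero
  obtain ⟨a, s, n, v, h1, h3⟩ := h.exists_data h2 hβ hs hν
  haveI := finite_of_inj h.inj
  let P (C : ConjClasses G) (x : Bool × ℕ) : Prop :=
    x.2 < finrank F V ∧ x.2 % 2 = 0 ∧ a C x.1 x.2 ≠ 0
  have hv := fun C η => ((h1 C).ch η).valid
  have e1 := Nat.card_congr (Equiv.sumCompl fun p : ConjClasses G × Bool =>
    (∃ x, P p.1 x) ∨ p.2 = false)
  rw [Nat.card_sum, Nat.card_prod, Nat.card_eq_fintype_card (α := Bool), Fintype.card_bool] at e1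
  rw [mul_comm, ← Nat.cast_ofNat, ← Nat.cast_mul, ← e1, Nat.cast_add]
  refine add_le_add (card_le_dat h2 hβ hs h0 (fun _ => h.iso _) (fun p => h1 p.1.1)
    (fun p η i => if (η, i) = Classical.epsilon (P p.1.1) ∧ ∃ x, P p.1.1 x then p.1.2
      else s p.1.1 η i) _ _ (fun p η i hi h4 => ?_) (fun p η i hi h4 => ?_) ?_)
    (card_le_dat h2 hβ hs h0 (fun _ => h.iso _) (fun p => h1 p.1.1) (fun p => s p.1.1) _ _
      (fun p η i hi h4 => ?_) (fun p η i hi h4 => ?_) fun p p' h4 h5 h6 => ?_)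
  · split_ifs at h4 with h5
    · have : P p.1.1 (η, i) := by rw [h5.1]; exact Classical.epsilon_spec h5.2
      exact ⟨this.2.2, decide_eq_true this.2.1⟩
    · have := hv p.1.1 η i hi
      grind [Valid]
  · split_ifs at h4 with h5
    · have : P p.1.1 (η, i) := by rw [h5.1]; exact Classical.epsilon_spec h5.2
      exact decide_eq_true this.2.1
    · have := hv p.1.1 η i hi
      grind [Valid]
  · rintro ⟨⟨C, b⟩, hb⟩ ⟨⟨D, b'⟩, hb'⟩ h4 h5 h6
    have hP : P D = P C := funext fun x => propext (and_congr_right fun hx => by rw [h5 _ _ hx])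
    simp only [hP] at h6 hb'
    by_cases h7 : ∃ x, P C x
    · have h8 := Classical.epsilon_spec h7
      generalize Classical.epsilon (P C) = p at h6 h8
      obtain rfl : b = b' := by simpa [h7] using h6 p.1 p.2 h8.1
      have h9 : ∀ x ∈ (univ ×ˢ range (finrank F V)).erase p, s C x.1 x.2 = s D x.1 x.2 :=
        fun x hx => by simpa [(mem_erase.1 hx).1] using h6 x.1 x.2 (by simpa using (mem_erase.1 hx).2)
      obtain ⟨t, ht, h10⟩ := (h1 C).parity h2 hβ hs (h.iso _) h0 (h.iso _)
        ((h1 D).congr (fun η i hi => (h5 η i hi).symm) fun _ _ _ => rfl) h4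
      have h11 : p ∈ univ ×ˢ range (finrank F V) := by simpa using h8.1
      rw [← prod_product', ← prod_product', ← mul_prod_erase _ _ h11, ← mul_prod_erase _ _ h11,
        prod_congr rfl fun x hx => by rw [← h9 x hx], ← mul_assoc, mul_left_inj'
          (prod_ne_zero_iff.2 fun x _ => by split_ifs <;> simp [h0])] at h10
      obtain ⟨k, hk⟩ := Nat.dvd_of_mod_eq_zero h8.2.1
      obtain rfl : C = D := h3 C D h4 h5 fun η i hi => by
        by_cases h12 : (η, i) = p
        · subst h12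
          by_contra h13
          rw [show ν ^ (i + 1) = (ν ^ k) ^ 2 * ν by rw [← pow_mul', ← pow_succ, ← hk]] at h10
          split_ifs at h10 with h14 h15 h15
          · exact h13 (h15.trans h14.symm)
          · exact hν ⟨t / ν ^ k, by field_simp; linear_combination h10⟩
          · exact hν ⟨1 / (t * ν ^ k), by field_simp; linear_combination -h10⟩
          · exact h13 ((eq_false_of_ne_true h15).trans (eq_false_of_ne_true h14).symm)
        · exact h9 (η, i) (by simpa [h12] using hi)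
      rfl
    · simp only [h7, and_false, if_false, false_or] at h6 hb hb'
      exact Subtype.ext (Prod.ext (h3 C D h4 h5 h6) (hb.trans hb'.symm))
  · have := hv p.1.1 η i hi
    have := fun h => p.2 (.inl ⟨(η, i), h⟩)
    grind [Valid]
  · have := hv p.1.1 η i hi
    have := fun h => p.2 (.inl ⟨(η, i), h⟩)
    grind [Valid]
  · refine Subtype.ext (Prod.ext (h3 _ _ h4 h5 h6) ?_)
    have := fun h => p.2 (.inr h)
    have := fun h => p'.2 (.inr h)
    grind

end Cfsg.Agent.H29
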