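import Cfsg.Agent.H29.C2Num
import Cfsg.Agent.H29.ClsDat
import Cfsg.Agent.H29.ClsNum

/-! Upper bounds for class numbers of symplectic and orthogonal groups in characteristic two. -/

set_option autoImplicit false

namespace Cfsg.Agent.H29

open Module Finset Polynomial H67

section Er

variable {ι ι' : Type} [Fintype ι] [Fintype ι'] {p : ι → Pc} {p' : ι' → Pc}

/-- forget the Arf invariant at level `k` -/
def er (k : ℕ) (p : Pc) : Pc := (p.1, p.2.1, p.2.2 && p.2.1 != k)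

theorem cn_er (k : ℕ) (p : ι → Pc) (κ : Option Bool) (l : ℕ) (δ : Bool) :
    cn (er k ∘ p) (κ, l, δ) = if l = k then (if δ then 0 else cn p (κ, l, false) + cn p (κ, l, true))
      else cn p (κ, l, δ) := by
  unfold cn
  split_ifs with h1 h2
  · exact sum_eq_zero fun i _ => if_neg (by simp +contextual [er, h1, h2])
  · rw [← sum_add_distrib]
    refine sum_congr rfl fun i _ => ?_
    rcases e : p i with ⟨κ', l', _ | _⟩ <;> simp +contextual [er, e, h1, h2, ite_and]
  · refine sum_congr rfl fun i _ => if_congr ?_ rfl rfl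
    simp only [Function.comp_apply]
    obtain ⟨κ', l', δ'⟩ := p i
    simp +contextual [er, bne_iff_ne.2 h1]

theorem Res.er (h : Res (cn p)) (k : ℕ) : Res (cn (er k ∘ p)) := by
  constructor <;> simp only [cn_er]
  · intro l; simp [h.we]
  · intro κ l; have := h.le1 κ l; split_ifs <;> omega
  · intro l; have := h.le2 l; split_ifs <;> simp_all
  · intro l hl δ
    have := h.v l (by split_ifs at hl <;> simp_all)
    simp [this]
  · intro κ l hl δ
    have := h.low κ l (by split_ifs at hl <;> simp_all)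
    simp [this]

theorem exists_equiv_of_cn (h : cn p = cn p') : ∃ σ : ι ≃ ι', ∀ i, p' (σ i) = p i :=
  ⟨Equiv.ofFiberEquiv fun c => Fintype.equivOfCardEq (by
    rw [Fintype.card_subtype, Fintype.card_subtype, card_filter, card_filter]
    exact congrFun h c), Equiv.ofFiberEquiv_map _⟩

theorem wt_cn {K : ℕ} (h : ∀ i, (p i).2.1 < K) : wt K (cn p) = ∑ i, hd (p i) := by
  simp only [wt, cn, sum_mul, ite_mul, one_mul, zero_mul]
  simp only [sum_comm (t := (univ : Finset ι))]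
  refine sum_congr rfl fun i _ => ?_
  have := h i
  rcases e : p i with ⟨κ, l, δ⟩
  simp [ite_and, show l < K by simpa [e] using this]

theorem psi_ne {F : Type*} [Field F] (c : F) : psi c ≠ 0 := by
  rcases psi_or c with e | e <;> rw [e] <;> decide

theorem cn_eq_of_psi {F : Type*} [Field F] [Finite F] (h2 : (2 : F) = 0) {α : F} (hα : psi α = -1)
    (r : Res (cn p)) (r' : Res (cn p')) {k : ℕ} (e : cn (er k ∘ p) = cn (er k ∘ p'))
    (hs : psi (∑ i, if (p i).2.2 then α else 0) = psi (∑ i, if (p' i).2.2 then α else 0)) :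
    cn p = cn p' := by
  have h1 : ∀ {ι : Type} [Fintype ι] (p : ι → Pc), (∑ i, if (p i).2.2 then α else 0) =
      (∑ i, if (er k (p i)).2.2 then α else 0) + (∑ κ, cn p (κ, k, true)) • α := fun p => by
    rw [show ∑ κ, cn p (κ, k, true) = _ from sum_comm, sum_smul, ← sum_add_distrib]
    refine sum_congr rfl fun i _ => ?_
    rcases e : p i with ⟨κ, l, _ | _⟩ <;> by_cases e' : l = k <;> simp [er, e']
  obtain ⟨σ, hσ⟩ := exists_equiv_of_cn e
  rw [h1, h1 p', ← σ.sum_comp] at hs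
  simp only [show ∀ i, er k (p' (σ i)) = er k (p i) from hσ] at hs
  rw [psi_add h2, psi_add h2, mul_right_inj' (psi_ne _)] at hs
  simp only [Fintype.sum_option, Fintype.sum_bool, r.we, r'.we, add_zero] at hs
  have h3 := fun κ => (cn_er k p κ k false).symm.trans ((congrFun e _).trans (cn_er k p' κ k false))
  simp only [if_true, Bool.false_eq_true, if_false] at h3
  have h4 : ∀ {n : Pc → ℕ}, Res n → n (none, k, true) ≤ 1 ∧ n (some true, k, true) ≤ 1 ∧
      (n (none, k, true) ≠ 0 → n (some true, k, false) = 0 ∧ n (some true, k, true) = 0) :=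
    fun r => ⟨r.le1 _ _, r.le1 _ _, fun e => ⟨r.v k e _, r.v k e _⟩⟩
  have h5 := h4 r
  have h6 := h4 r'
  have h7 : cn p (none, k, true) + cn p (some true, k, true) =
      cn p' (none, k, true) + cn p' (some true, k, true) := by
    have h8 : ∀ a ≤ 1, ∀ b ≤ 1, psi (a • α) = psi (b • α) → a = b := fun a ha b hb => by
      interval_cases a <;> interval_cases b <;> simp [hα, psi_zero]
    exact h8 _ (by omega) _ (by omega) hs
  funext ⟨κ, l, δ⟩
  by_cases e' : l = k
  · have := h3 none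
    have := h3 (some true)
    have := h3 (some false)
    have := r.we k
    have := r'.we k
    subst e'
    rcases κ with _ | _ | _ <;> cases δ <;> omega
  · simpa [cn_er, e'] using congrFun e (κ, l, δ)

end Er

variable {F V : Type*} [Field F] [AddCommGroup V] [Module F V] [Fintype F] [Fintype V]
  {β : LinearMap.BilinForm F V} {Q Q' : V → F} {g g' : End F V} {α : F}

omit [Fintype F] [Fintype V] in
theorem C2.iso (h : C2 β Q (g - 1)) (x y : V) : β (g x) (g y) = β x y := by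
  have := h.B_t x y
  simp only [LinearMap.sub_apply, End.one_apply, map_sub] at this
  linear_combination -this + (β x (g y) - β x y) * h.two

theorem ker_W2 (h2 : (2 : F) = 0) (g : End F V) :
    LinearMap.ker ((1 - g ^ 2) ^ finrank F V) = Wu g := by
  have : (2 : End F V) = 0 := by rw [← map_ofNat (algebraMap F _), h2, map_zero]
  rw [show 1 - g ^ 2 = (g - 1) ^ 2 + 2 * (g - g ^ 2) by noncomm_ring, this, zero_mul, add_zero,
    ← pow_mul, End.ker_pow_eq_ker_pow_finrank_of_le (by omega), Wu]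

theorem sup_W2 (h2 : (2 : F) = 0) (g : End F V) : W0 g ⊔ Wu g = ⊤ :=
  ker_W2 h2 g ▸ Submodule.eq_top_of_disjoint _ _ (LinearMap.finrank_range_add_finrank_ker _).ge
    (disjoint_fitting _)

theorem RP_of_two (h2 : (2 : F) = 0) {f : F[X]} (h : f ∈ RA (RingHom.id F)) (h1 : f.eval 1 ≠ 0) :
    f ∈ RP F := by
  have h4 := RA_eval h (mul_one 1)
  rw [one_pow, mul_one, right_eq_mul₀ h1] at h4
  refine ⟨h, h4, by_contra fun h5 => h1 ?_⟩
  rw [eval_eq_sum_range]
  refine sum_involution (fun k _ => f.natDegree - k) (fun k hk => ?_) (fun k hk _ e => h5 ⟨k, ?_⟩)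
    (fun k hk => mem_range.2 (by omega)) fun k hk => ?_ <;> have := mem_range.1 hk
  · rw [(mem_RA.1 h).2 k (by omega), h4]; simp [← two_mul, h2]
  all_goals omega

variable (h : C2 β Q (g - 1)) (hβ : β.Nondegenerate)
include h hβ

theorem C2.orth : ∀ x ∈ Wu g, ∀ y ∈ W0 g, β x y = 0 :=
  orth_W0 (e := 0) hβ (fun x y => by simp [h.symm x y]) h.iso false

theorem C2.nd_aux {W W' : Submodule F V} (h1 : W ⊔ W' = ⊤) (h3 : ∀ x ∈ W, ∀ y ∈ W', β x y = 0) :
    ∀ x ∈ W, (∀ y ∈ W, β x y = 0) → x = 0 := fun x hx h4 => hβ.1 x fun y =>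
  (h1.ge.trans (sup_le h4 (h3 x hx)) : ⊤ ≤ LinearMap.ker (β x)) Submodule.mem_top

theorem C2.nd0 : (β.restrict (W0 g)).Nondegenerate :=
  have := h.nd_aux hβ (sup_W2 h.two g) fun x hx y hy => (h.symm _ _).trans (h.orth hβ y hy x hx)
  ⟨fun x e => Subtype.ext (this _ x.2 fun y hy => e ⟨y, hy⟩),
    fun x e => Subtype.ext (this _ x.2 fun y hy => (h.symm _ _).trans (e ⟨y, hy⟩))⟩

theorem C2.hasNF (hα : psi α = -1) : HasNF β Q (g - 1) α (Wu g) :=
  H29.hasNF h hα _ (fun _ e => e) (fun x hx => by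
    rw [mem_Wu, ← pow_one (g - 1), ← pow_mul, one_mul, ← pow_add_apply]; exact nil_le hx (by omega))
    (h.nd_aux hβ ((sup_comm _ _).trans (sup_W2 h.two g)) (h.orth hβ))

theorem C2.lv0_mem (i : ℕ) : lv0 g i ∈ {f ∈ RP F | f.eval 1 ≠ 0} := by
  refine ⟨RP_of_two h.two ?_ (lv0_eval _ _ (one_pow 2)), lv0_eval _ _ (one_pow 2)⟩
  have h1 := h.nd0 hβ
  have h3 : ∀ x y : W0 g, β.restrict _ y x = 1 * β.restrict _ x y := fun x y =>
    (h.symm _ _).trans (one_mul _).symm
  refine Dec.lv_mem_RA _ (S := adj _ h1 (g.restrict (W0_mem g))) (mul_eq_one_comm.1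
    ((adj_mul_self_eq_one_iff _ h1 _).2 fun x y => h.iso x y)) (fun _ => rfl) (fun p => ?_) i
  have h4 : ∀ (T : End F (W0 g)) (p : F[X]), aeval (adj _ h1 T) p = adj _ h1 (aeval T p) :=
    fun T p => by
      simp only [aeval_eq_sum_range, map_sum, adj_smul, adj_pow]
  have h5 : ∀ T : End F (W0 g), LinearMap.ker (adj _ h1 T) =
      (β.restrict _).orthogonal (LinearMap.range T) := fun T => by
    ext x
    refine ⟨fun hx => by
      rintro _ ⟨y, rfl⟩
      exact (adj_right _ h1 h3 T y x).symm.trans (by rw [show adj _ h1 T x = 0 from hx, map_zero]),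
      fun hx => h1.2 _ fun y => by rw [adj_right _ h1 h3]; exact hx _ ⟨y, rfl⟩⟩
  rw [Polynomial.map_id, h4, h5, LinearMap.BilinForm.finrank_orthogonal h1,
    ← LinearMap.finrank_range_add_finrank_ker (aeval (g.restrict (W0_mem g)) p), Nat.add_sub_cancel_left]

theorem C2.iso_W0 (h' : C2 β Q' (g' - 1)) (h0 : ∀ i < finrank F V, lv0 g i = lv0 g' i) :
    ∃ E : W0 g ≃ₗ[F] W0 g', (∀ x y, β (E x) (E y) = β x y) ∧
      (∀ x : W0 g, (E ⟨g x, W0_mem g x x.2⟩ : V) = g' (E x)) ∧ ∀ x, Q' (E x) = Q x := by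
  obtain ⟨E, h3, h4⟩ := exists_iso_of_sim (ε := 1) (β' := β.restrict (W0 g')) (h.nd0 hβ)
    (h'.nd0 hβ).1 (fun x y => (h.symm _ _).trans (one_mul _).symm)
    (fun x y => (h.symm _ _).trans (one_mul _).symm) (fun x y => h.iso x y)
    (fun x y => h'.iso x y) (isUnit_W0 g)
    (Dec.sim_of_lv_lt _ _ (Submodule.finrank_le _) (Submodule.finrank_le _) h0)
  refine ⟨E, h3, fun x => congrArg Subtype.val (h4 x), fun x => ?_⟩
  have h5 : ∀ {R : Type _} [Ring R] (a : R), 1 - a ^ 2 = (a - 1) * (-a - 1) := fun a => by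
    noncomm_ring
  obtain ⟨y, rfl⟩ := ((End.isUnit_iff _).1 (isUnit_of_mul_isUnit_left
    ((congrArg IsUnit (h5 _)).mp (isUnit_W0 g)))).2 x
  have h6 : (E ((g.restrict (W0_mem g) - 1 : End F _) y) : V) = (g' - 1) (E y) := by
    rw [LinearMap.sub_apply, map_sub, h4]; rfl
  exact (congrArg Q' h6).trans ((h'.Q_t _).trans ((congrArg (β · _) h6.symm).trans
    ((h3 _ y).trans (h.Q_t y).symm)))

variable {ι ι' : Type} [Fintype ι] [Fintype ι'] {p : ι → Pc} {p' : ι' → Pc} {v : ι → Bool → V}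
  {v' : ι' → Bool → V}

theorem C2.conj (h' : C2 β Q' (g' - 1)) (h0 : ∀ i < finrank F V, lv0 g i = lv0 g' i)
    (n : NF β Q (g - 1) α (Wu g) p v) (n' : NF β Q' (g' - 1) α (Wu g') p' v')
    (hp : cn (er 0 ∘ p) = cn (er 0 ∘ p') ∨ cn p = cn p') :
    ∃ E : V ≃ₗ[F] V, (∀ x y, β (E x) (E y) = β x y) ∧ (∀ x, E (g x) = g' (E x)) ∧
      (cn p = cn p' → ∀ x, Q' (E x) = Q x) := by
  obtain ⟨E₀, h3, h4, h5⟩ := h.iso_W0 hβ h' h0
  obtain ⟨σ, hσ, hσ'⟩ : ∃ σ : ι ≃ ι', (∀ i, er 0 (p' (σ i)) = er 0 (p i)) ∧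
      (cn p = cn p' → ∀ i, p' (σ i) = p i) := by
    by_cases e : cn p = cn p'
    · obtain ⟨σ, hσ⟩ := exists_equiv_of_cn e
      exact ⟨σ, fun i => by rw [hσ], fun _ => hσ⟩
    · obtain ⟨σ, hσ⟩ := exists_equiv_of_cn (hp.resolve_right e)
      exact ⟨σ, hσ, fun e' => absurd e' e⟩
  have sp : ∀ {g₂ : End F V} {u : ι → Bool → V}, ⨆ i, PS (g₂ - 1) (u i) = Wu g₂ → ∀ w : W0 g → V,
      (∀ x ∈ W0 g₂, x ∈ Set.range w) → Submodule.span F (Set.range (Sum.elim w
        fun r : ι × Bool × ℕ => ((g₂ - 1) ^ r.2.2) (u r.1 r.2.1))) = ⊤ := fun {g₂ u} e w hw =>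
    top_le_iff.1 ((sup_W2 h.two g₂).ge.trans (sup_le (fun x hx => by
      obtain ⟨y, rfl⟩ := hw x hx; exact Submodule.subset_span ⟨.inl y, rfl⟩)
      (e.ge.trans (iSup_le fun i => Submodule.span_mono (by
        rintro _ ⟨r, rfl⟩; exact ⟨.inr (i, r), rfl⟩)))))
  have h6 := sp n.span Subtype.val fun x hx => ⟨⟨x, hx⟩, rfl⟩
  have e1 : ∀ i, (p' (σ i)).1 = (p i).1 := fun i => congrArg (·.1) (hσ i)
  have e2 : ∀ i, tp (p' (σ i)) = tp (p i) := fun i => (congrArg tp (hσ i) :)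
  have e3 : ∀ (c : Pc) b j, qv α (er 0 c) b (j + 1) = qv α c b (j + 1) := fun c b j => by
    by_cases e : c.2.1 = 0
    exacts [by simp [qv, er, e], by rw [er, bne_iff_ne.2 e, Bool.and_true]]
  have e4 : ∀ i (j j' : ℕ), β (((g' - 1) ^ j) (v' (σ i) false)) (((g' - 1) ^ j') (v' (σ i) true)) =
      β (((g - 1) ^ j) (v i false)) (((g - 1) ^ j') (v i true)) := fun i j j' =>
    h'.det_cross h (e2 i ▸ (n'.gen _).nil _) ((n.gen _).nil _) (fun l => by
      rw [(n'.gen _).c, (n.gen _).c, e1, e2]) _ _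
  obtain ⟨E, h7, h8⟩ := exists_equiv_of_gram hβ.1 h6 (sp (u := fun i => v' (σ i))
    ((σ.iSup_comp (g := fun i => PS _ (v' i))).trans n'.span) (fun x => E₀ x) fun x hx => ⟨E₀.symm ⟨x, hx⟩, by simp⟩) (by
      rintro (x | r) (y | ⟨i', b', j'⟩)
      · exact h3 x y
      · exact (h.symm _ _).trans ((h'.orth hβ _ (n'.le _ (mem_PS _ _)) _ (E₀ x).2).trans
          ((h.symm _ _).trans (h.orth hβ _ (n.le _ (mem_PS _ _)) _ x.2)).symm)
      · exact (h'.orth hβ _ (n'.le _ (mem_PS _ _)) _ (E₀ y).2).trans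
          (h.orth hβ _ (n.le _ (mem_PS _ _)) _ y.2).symm
      obtain ⟨i, b, j⟩ := r
      by_cases e : i = i'
      · subst e
        by_cases e : b = b'
        · subst e
          exact h'.det_self h (fun l => by rw [(n'.gen _).q, (n.gen _).q, ← e3, hσ, e3]) _ _
        cases b <;> cases b' <;> try exact absurd rfl e
        exacts [e4 i j j', (h.symm _ _).trans ((e4 i j' j).trans (h.symm _ _))]
      · exact (n'.orth _ _ (σ.injective.ne e) _ (mem_PS _ _) _ (mem_PS _ _)).trans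
          (n.orth _ _ e _ (mem_PS _ _) _ (mem_PS _ _)).symm)
  have h9 : ⊤ ≤ LinearMap.eqLocus (E.toLinearMap ∘ₗ (g - 1)) ((g' - 1) ∘ₗ E.toLinearMap) :=
    h6.ge.trans (Submodule.span_le.2 (by
      rintro _ ⟨x | ⟨i, b, j⟩, rfl⟩
      · change E (g x - x) = g' (E x) - E x
        rw [map_sub, show E x = E₀ x from h8 (.inl x), ← h4]
        exact congrArg (· - _) (h8 (.inl ⟨_, W0_mem g x x.2⟩))
      · exact ((congrArg E (pow_succ_apply _ _ _)).symm.trans (h8 (.inr (i, b, j + 1)))).trans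
          ((pow_succ_apply _ _ _).trans (congrArg _ (h8 (.inr (i, b, j))).symm))))
  refine ⟨E, h7, fun x => ?_, fun e x => ?_⟩
  · simpa using (h9 Submodule.mem_top : E ((g - 1 : End F V) x) = (g' - 1) (E x))
  · induction (h6.ge Submodule.mem_top : x ∈ _) using Submodule.span_induction with
    | mem x hx =>
      obtain ⟨x | ⟨i, b, j⟩, rfl⟩ := hx
      · exact (congrArg Q' (h8 (.inl x))).trans (h5 x)
      · exact (congrArg Q' (h8 (.inr (i, b, j)))).trans (((n'.gen _).q _ _).trans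
          (by rw [hσ' e]; exact ((n.gen _).q _ _).symm))
    | zero => rw [map_zero, h.zero, h'.zero]
    | add x y _ _ hx hy => rw [map_add, h.add, h'.add, hx, hy, h7]
    | smul c x _ hx => rw [map_smul, h.smul, h'.smul, hx]

omit h hβ in
theorem card_le2 (hβ : β.Nondegenerate) {n : ℕ} (hn : finrank F V = 2 * n) {Y : Type*} [Finite Y]
    {g : Y → End F V} {Q : Y → V → F} (h : ∀ y, C2 β (Q y) (g y - 1)) {ι : Y → Type}
    [∀ y, Fintype (ι y)] {p : ∀ y, ι y → Pc} {v : ∀ y, ι y → Bool → V}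
    (hN : ∀ y, NF β (Q y) (g y - 1) α (Wu (g y)) (p y) (v y)) (hR : ∀ y, Res (cn (p y)))
    (k : Y → ℕ) (b : Bool) (hD : ∀ y i, (p y i).2.2 = true → (p y i).2.1 ≠ k y →
      al b (cn (er (k y) ∘ p y)) (p y i).2.1 ∧ ¬ (b = true ∧ (p y i).2.1 = 0))
    (hinj : ∀ y y', (∀ i < finrank F V, lv0 (g y) i = lv0 (g y') i) →
      cn (er (k y) ∘ p y) = cn (er (k y') ∘ p y') → y = y') :
    (Nat.card Y : ℚ) ≤ (if b then 76 / 5 else 15) * Fintype.card F ^ n := by
  have h1 : ∀ y i, ((er (k y) ∘ p y) i).2.1 < finrank F V + 6 := fun y i => not_le.1 fun e =>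
    ((hN y).gen i).ne (h y) (nil_le ((hN y).le i (mem_PS false 0)) (by
      change _ ≤ (p y i).2.1 at e; unfold tp; split_ifs <;> omega))
  have h3 : ∀ y, finrank F (W0 (g y)) + 2 * wt (finrank F V + 6) (cn (er (k y) ∘ p y)) = 2 * n :=
    fun y => by
      have := LinearMap.finrank_range_add_finrank_ker ((1 - g y ^ 2 : End F V) ^ finrank F V)
      rw [ker_W2 (h y).two, (hN y).ty.dim] at this
      rw [wt_cn (h1 y), ← hn]
      exact this
  refine card_le_of_sm (sm_DD b (finrank F V)) (fun y => cn (er (k y) ∘ p y)) (fun y => ⟨(hR y).er _, fun c hc => by_contra fun e => ?_,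
    fun κ l e => ?_⟩) Fintype.one_lt_card (fun y => by have := h3 y; omega) fun y => ?_
  · obtain ⟨i, rfl⟩ := exists_of_cn e
    exact absurd (h1 y i) (not_lt.2 hc)
  · obtain ⟨i, hi⟩ := exists_of_cn e
    simp only [Function.comp_apply, er, Prod.mk.injEq, Bool.and_eq_true, bne_iff_ne] at hi
    exact hi.2.1 ▸ hD y i hi.2.2.1 hi.2.2.2
  have := card_le_coeff' (Y := {y' // cn (er (k y') ∘ p y') = cn (er (k y) ∘ p y)}) (finrank F V)
    (2 * (n - wt (finrank F V + 6) (cn (er (k y) ∘ p y)))) (fun y' => lv0 (g y'.1)) natDegree _ _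
    (fun y' => (h y'.1).lv0_mem hβ) (fun y' => by
      have := h3 y'.1
      rw [y'.2, ← Dec.sum_lv (dec ((g y'.1).restrict (W0_mem _))) (Submodule.finrank_le _)] at this
      exact (Nat.eq_sub_of_add_eq this).trans (mul_tsub _ _ _).symm)
    (fun _ m => (cnt_RP1 m).1) (fun _ m => (cnt_RP1 m).2)
    fun y' y'' e => Subtype.ext (hinj _ _ e (y'.2.trans y''.2.symm))
  rw [PP_expand, PowerSeries.coeff_expand, if_pos (dvd_mul_right _ _), 
    Nat.mul_div_cancel_left _ (show 0 < 1 + 1 from two_pos)] at this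
  have hq : (1 : ℝ) ≤ Fintype.card F := Nat.one_le_cast.2 Fintype.card_pos
  refine Nat.cast_le (α := ℝ).1 (this.trans ?_)
  generalize n - _ = m
  rcases m with _ | m
  · simp [PP, map_prod, ← PowerSeries.coeff_zero_eq_constantCoeff_apply, PowerSeries.coeff_expand, coeff_SG_zero]
  · exact (coeff_PP_SG_le hq _ _).trans ((sub_le_self _ (by positivity)).trans_eq (by simp))

variable {G : Type*} [Group G] {ρ : G →* End F V} {n : ℕ} (hn : finrank F V = 2 * n)
omit h
include hn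

theorem Full.bound_two (h : Full β ρ) (hQ : ∀ g, ∃ Q, C2 β Q (ρ g - 1)) :
    5 * Nat.card (ConjClasses G) ≤ 76 * Fintype.card F ^ n := by
  obtain ⟨α, hα⟩ := exists_psi (F := F)
  haveI := finite_of_inj h.inj
  choose Q hQ using hQ
  choose ι _ p v h1 h3 using fun C : ConjClasses G => (hQ (rep C)).hasNF hβ hα
  have := card_le2 hβ hn (fun C => hQ (rep C)) h1 h3 (fun _ => 0) true
    (fun _ _ _ e => ⟨.inl rfl, fun e' => e e'.2⟩) fun C D h4 h5 => by
      obtain ⟨E, h6, h7, -⟩ := (hQ _).conj hβ (hQ _) h4 (h1 C) (h1 D) (.inl h5)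
      obtain ⟨c, hc⟩ := h.surj E h6
      exact rep_inj (isConj_iff.2 ⟨c, mul_inv_eq_of_eq_mul (h.inj (by
        rw [map_mul, map_mul, hc]; exact LinearMap.ext h7))⟩)
  rw [if_pos rfl, div_mul_eq_mul_div, le_div_iff₀' (by norm_num)] at this
  exact_mod_cast this

theorem bound_O2 (hQ : ∀ g, C2 β Q (ρ g - 1)) (inj : Function.Injective ρ)
    (surj : ∀ T : End F V, (∀ x, Q (T x) = Q x) → ∃ g, ρ g = T) :
    Nat.card (ConjClasses G) ≤ 15 * Fintype.card F ^ n := by
  obtain ⟨α, hα⟩ := exists_psi (F := F)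
  haveI := finite_of_inj inj
  choose ι _ p v h1 h3 using fun C : ConjClasses G => (hQ (rep C)).hasNF hβ hα
  have h0 : gs Q ⊤ ≠ 0 := by
    obtain ⟨_, _, _, _, h, -⟩ := hasNF (t := 0) ⟨(hQ 1).toQ2, by simp⟩ hα (N := 1) ⊤ (by simp)
      (by simp) fun x _ e => hβ.1 x fun y => e y trivial
    rw [h.ty.gs]
    exact mul_ne_zero (by simp) (psi_ne _)
  have h8 := fun C => (congrArg (gs Q) (sup_W2 (hQ 1).two (ρ (rep C)))).symm.trans ((gs_sup (hQ 1).toQ2
    (ker_W2 (V := V) (hQ 1).two _ ▸ disjoint_fitting _) fun x hx y hy => ((hQ 1).symm _ _).trans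
      ((hQ _).orth hβ y hy x hx)).trans (congrArg _ (h1 C).ty.gs))
  refine Nat.cast_le (α := ℚ).1 ((card_le2 hβ hn (fun C => hQ (rep C)) h1 h3
    (fun C => sInf {k | ∃ i, (p C i).1 ≠ some false ∧ (p C i).2.1 = k}) false
    (fun C i e e' => ⟨.inr ?_, by simp⟩) fun C D h4 h5 => ?_).trans_eq (by simp))
  · have : (p C i).2.1 ∈ {k | ∃ i, (p C i).1 ≠ some false ∧ (p C i).2.1 = k} :=
      ⟨i, fun e' => by simp [((h1 C).gen i).we e'] at e, rfl⟩
    obtain ⟨j, h4, h5⟩ := Nat.sInf_mem ⟨_, this⟩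
    exact ⟨_, (Nat.sInf_le this).lt_of_ne' e', _, false, h4, fun e =>
      absurd (sum_eq_zero_iff.1 e j (mem_univ _)) (by simp [er, h5])⟩
  obtain ⟨σ, hσ⟩ := exists_equiv_of_cn h5
  have h6 : {k | ∃ i, (p D i).1 ≠ some false ∧ (p D i).2.1 = k} =
      {k | ∃ i, (p C i).1 ≠ some false ∧ (p C i).2.1 = k} := Set.ext fun k =>
    σ.exists_congr_left.trans (exists_congr fun i => by
      have := hσ (σ.symm i)
      simp only [Function.comp_apply, er, Prod.mk.injEq, σ.apply_symm_apply] at this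
      rw [this.1, this.2.1]) |>.symm
  simp only [h6] at h5
  obtain ⟨E₀, -, -, h7⟩ := (hQ _).iso_W0 hβ (hQ _) h4
  have h9 : gs Q (W0 (ρ (rep D))) = gs Q (W0 (ρ (rep C))) := by
    classical
    rw [gs_range (f := fun x => (E₀ x : V)) (Subtype.val_injective.comp E₀.injective) fun x =>
      ⟨fun hx => ⟨E₀.symm ⟨x, hx⟩, by simp⟩, by rintro ⟨y, rfl⟩; exact (E₀ y).2⟩,
      gs_range (W := W0 (ρ (rep C))) (f := fun x : W0 (ρ (rep C)) => (x : V)) Subtype.val_injective
        (by simp)]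
    simp only [h7]
  have h10 := (h8 C).symm.trans (h8 D)
  rw [h9, ← σ.sum_comp, sum_congr rfl fun i _ => show hd (p D (σ i)) = hd (p C i) from
    (congrArg hd (hσ i) :), mul_right_inj' (left_ne_zero_of_mul (h8 C ▸ h0)),
    mul_right_inj' (by simp)] at h10
  replace h5 := cn_eq_of_psi (hQ 1).two hα (h3 C) (h3 D) h5 h10
  obtain ⟨E, -, h7, h11⟩ := (hQ _).conj hβ (hQ _) h4 (h1 C) (h1 D) (.inr h5)
  obtain ⟨c, hc⟩ := surj E (h11 h5)
  exact rep_inj (isConj_iff.2 ⟨c, mul_inv_eq_of_eq_mul (inj (by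
    rw [map_mul, map_mul, hc]; exact LinearMap.ext h7))⟩)

end Cfsg.Agent.H29
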