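import Cfsg.Agent.H29.C2Dat

/-! Lower bounds for class numbers of symplectic and orthogonal groups in characteristic two. -/

set_option autoImplicit false

namespace Cfsg.Agent.H29

open Module Finset Polynomial H67

theorem sum_sym2 {A ι : Type*} [CommRing A] (h : (2 : A) = 0) (s : Finset ι) {a : ι → ι → A}
    (ha : ∀ i j, a j i = a i j) : ∑ i ∈ s, ∑ j ∈ s, a i j = ∑ i ∈ s, a i i := by
  induction s using Finset.cons_induction with
  | empty => simp
  | cons i s _ ih =>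
    simp only [sum_cons, sum_add_distrib, ih, ha i]
    linear_combination (∑ j ∈ s, a i j) * h

variable {F V V' : Type*} [Field F] [AddCommGroup V] [Module F V] [AddCommGroup V'] [Module F V']
  [Fintype F] [Fintype V] [Fintype V'] {β : LinearMap.BilinForm F V} {Q : V → F}
  {β' : LinearMap.BilinForm F V'} {Q' : V' → F}

theorem psi_sum (h2 : (2 : F) = 0) {ι : Type*} (s : Finset ι) (a : ι → F) :
    psi (∑ i ∈ s, a i) = ∏ i ∈ s, psi (a i) := by
  induction s using Finset.cons_induction with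
  | empty => exact psi_zero
  | cons i s _ ih => rw [sum_cons, prod_cons, psi_add h2, ih]

theorem gs_equiv {U : Type*} [Fintype U] (e : U ≃ V) : gs Q ⊤ = ∑ u, psi (Q (e u)) :=
  gs_range e.injective (by simp)

theorem iso_of_gs (h : Q2 β Q) (h' : Q2 β' Q') (hβ : β.Nondegenerate) (hβ' : β'.Nondegenerate)
    (hd : finrank F V' = finrank F V) (h0 : gs Q ⊤ ≠ 0) (h1 : gs Q' ⊤ = gs Q ⊤) :
    ∃ φ : V' ≃ₗ[F] V, ∀ x, Q (φ x) = Q' x := by
  obtain ⟨e, he⟩ := H3.exists_isometry_of_isAlt β' β h'.self h.self hβ' hβ hd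
  choose l hl using fun x => (sq_bij h.two).2 (Q (e x) - Q' x)
  obtain ⟨v, hv⟩ := (β'.toDual hβ').surjective ⟨⟨l, fun x y => (sq_bij h.two).1 (by
    simp only [add_sq, hl, map_add, h.add, h'.add, he, h.two]; ring)⟩, fun c x => (sq_bij h.two).1 (by
    simp only [RingHom.id_apply, smul_eq_mul, mul_pow, hl, map_smul, h.smul, h'.smul]; ring)⟩
  have h3 : ∀ x, Q (e x) = Q' x + β' v x ^ 2 := fun x => by
    rw [show β' v x = l x from LinearMap.congr_fun hv x]; linear_combination -hl x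
  obtain ⟨r, h4, h5⟩ : ∃ r, r ≠ 0 ∧ r ^ 2 + r = Q' v := by
    obtain ⟨r, hr⟩ := (psi_eq_one (c := Q' v)).1 (mul_right_cancel₀ h0 (by
      rw [one_mul, ← h1, gs_equiv (Equiv.addLeft v), mul_sum, ← gs_equiv, h1, gs_equiv e.toEquiv]
      refine sum_congr rfl fun x _ => ?_
      rw [LinearEquiv.coe_toEquiv, h3, psi_add h.two, psi_sq h.two, ← psi_add h.two,
        ← psi_add h.two, Equiv.coe_addLeft, h'.add]
      congr 1; linear_combination Q' v * h.two))
    by_cases e : r = 0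
    exacts [⟨1, one_ne_zero, by rw [← hr, e]; linear_combination h.two⟩, ⟨r, e, hr⟩]
  let τ : End F V' := 1 + (r⁻¹ • β' v).smulRight v
  have h6 : ∀ x, τ x = x + (r⁻¹ * β' v x) • v := fun x => rfl
  have h7 : Function.Involutive τ := fun x => by
    simp [h6, h'.self, add_assoc, ← add_smul, ← two_mul, h.two]
  refine ⟨LinearEquiv.ofInvolutive τ h7 ≪≫ₗ e, fun x => (h3 (τ x)).trans ?_⟩
  simp only [h6, h'.add, h'.smul, map_add, map_smul, h'.self, h'.symm v x, ← h5, smul_eq_mul]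
  field_simp
  linear_combination (r * β' v x ^ 2 + r ^ 2 * β' v x ^ 2) * h.two

theorem gs_alg (h2 : (2 : F) = 0) {A ι : Type*} [CommRing A] [Algebra F A] [Fintype A] [Fintype ι]
    (e : Basis ι F A) {l : A →ₗ[F] F} (hl : ∀ a, (∀ b, l (a * b) = 0) → a = 0) (y : A) :
    gs (F := F) (fun v : A × A => l (v.1 ^ 2 + v.1 * v.2 + y * v.2 ^ 2)) ⊤ =
      Fintype.card F ^ Fintype.card ι * psi (∑ i, e.repr (y * e i) i) := by
  classical
  have hA : (2 : A) = 0 := by rw [← map_ofNat (algebraMap F _), h2, map_zero]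
  let f := LinearMap.BilinForm.dualBasis ((LinearMap.mul F A).compr₂ l)
    ⟨hl, fun a h => hl a fun b => mul_comm a b ▸ h b⟩ e
  have h1 : ∀ i j, l (f i * e j) = if j = i then 1 else 0 :=
    LinearMap.BilinForm.apply_dualBasis_left (B := (LinearMap.mul F A).compr₂ l) _ e
  have h3 : ∀ a i, e.repr a i = l (f i * a) := fun a i => by
    conv_rhs => rw [← e.sum_repr a]
    simp [mul_sum, h1, -Basis.sum_repr]
  have h4 : ∀ a i, f.repr a i = l (a * e i) := 
    LinearMap.BilinForm.dualBasis_repr_apply (B := (LinearMap.mul F A).compr₂ l) _ e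
  have h5 : ∑ i, e.repr (y * e i) i = ∑ i, l (e i * e i) * l (y * (f i * f i)) := by
    rw [← sum_sym2 h2 _ (a := fun i j => l (e i * e j) * l (y * (f i * f j))) fun i j => by
      rw [mul_comm (e j), mul_comm (f j)]]
    refine sum_congr rfl fun i _ => ?_
    conv_lhs => rw [h3, ← f.sum_repr (e i)]
    simp [mul_sum, h4, mul_left_comm, -Basis.sum_repr]
  have h6 : ∀ (b : Basis ι F A) (c : ι → F), b.equivFun.symm c ^ 2 = ∑ i, c i ^ 2 • (b i * b i) :=
    fun b c => by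
      rw [b.equivFun_symm_apply, sq, sum_mul_sum, sum_sym2 hA _ fun i j => mul_comm _ _]
      simp [sq, mul_smul]
  rw [gs_equiv ((Equiv.arrowProdEquivProdArrow ι (fun _ => F) fun _ => F).trans
    (e.equivFun.symm.toEquiv.prodCongr f.equivFun.symm.toEquiv)), h5, psi_sum h2, ← card_univ (α := ι),
    ← prod_const, ← prod_mul_distrib, prod_congr rfl fun i _ => (sum_plane h2 _ _).symm.trans
      (Fintype.sum_prod_type' _).symm, Fintype.prod_sum]
  refine sum_congr rfl fun c _ => (congrArg psi ?_).trans (psi_sum h2 _ _)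
  simp only [Equiv.trans_apply, Equiv.prodCongr_apply, LinearEquiv.coe_toEquiv, Prod.map, h6]
  simp only [Basis.equivFun_symm_apply, sum_mul, mul_sum, map_add, map_sum, smul_mul_assoc,
    mul_smul_comm, map_smul, mul_comm (e _) (f _), h1, sum_add_distrib, smul_eq_mul, mul_ite, mul_one,
    mul_zero, sum_ite_eq', mem_univ, if_true]
  exact (add_right_comm _ _ _).trans (congrArg₂ _ rfl (sum_congr rfl fun i _ => mul_comm _ _))

omit [Fintype F] [Fintype V] [Fintype V'] in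
theorem transfer [FiniteDimensional F V] [FiniteDimensional F V'] (φ : V' ≃ₗ[F] V) {T T' : End F V'}
    (h : T * T' = 1) : φ.conj T * φ.conj T' = 1 ∧
      (φ.conj T + φ.conj T' : End F V).charpoly = (T + T').charpoly :=
  ⟨(φ.conj_comp T' T).symm.trans ((congrArg _ h).trans φ.conj_id),
    by rw [← map_add, LinearEquiv.charpoly_conj]⟩

theorem real_alg (h : Q2 β Q) (hβ : β.Nondegenerate) {A : Type*} [CommRing A] [Algebra F A]
    [Fintype A] (hn : finrank F V = 2 * finrank F A) {l : A →ₗ[F] F}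
    (hl : ∀ a, (∀ b, l (a * b) = 0) → a = 0) (x : A) :
    (∃ T T' : End F V, T * T' = 1 ∧ (T + T').charpoly = (Algebra.lmul F A x).charpoly ^ 2 ∧
      ∀ x y, β (T x) (T y) = β x y) ∧ ∀ y, y * x ^ 2 = x → gs Q ⊤ ≠ 0 →
      gs (F := F) (fun v : A × A => l (v.1 ^ 2 + v.1 * v.2 + y * v.2 ^ 2)) ⊤ = gs Q ⊤ →
      ∃ T T' : End F V, T * T' = 1 ∧ (T + T').charpoly = (Algebra.lmul F A x).charpoly ^ 2 ∧
        ∀ x, Q (T x) = Q x := by
  have hA : (2 : A) = 0 := by rw [← map_ofNat (algebraMap F _), h.two, map_zero]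
  let β' : LinearMap.BilinForm F (A × A) := LinearMap.mk₂ F (fun v w => l (v.1 * w.2 + w.1 * v.2))
    (fun _ _ _ => by rw [← map_add]; congr 1; simp only [Prod.fst_add, Prod.snd_add]; ring)
    (fun _ _ _ => by simp [mul_add])
    (fun _ _ _ => by rw [← map_add]; congr 1; simp only [Prod.fst_add, Prod.snd_add]; ring)
    fun _ _ _ => by simp [mul_add]
  have h0 : ∀ v w, β' v w = l (v.1 * w.2 + w.1 * v.2) := fun _ _ => rfl
  have h1 : ∀ y, Q2 β' fun v : A × A => l (v.1 ^ 2 + v.1 * v.2 + y * v.2 ^ 2) := fun y =>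
    ⟨h.two, fun v w => by
      rw [h0, ← map_add, ← map_add]
      congr 1
      simp only [Prod.fst_add, Prod.snd_add]
      linear_combination (v.1 * w.1 + y * v.2 * w.2) * hA, fun c v => by
      simp [mul_add, sq, mul_assoc]⟩
  have h3 : ∀ v, (∀ w, β' v w = 0) → v = 0 := fun v e =>
    Prod.ext (hl _ fun b => by simpa [h0] using e (0, b))
      (hl _ fun b => by simpa [h0, mul_comm b] using e (b, 0))
  have h4 : β'.Nondegenerate := ⟨h3, fun v e => h3 v fun w => ((h1 0).symm _ _).trans (e w)⟩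
  have hd : finrank F (A × A) = finrank F V := by rw [finrank_prod, hn, two_mul]
  let s : End F (A × A) := (LinearMap.fst F A A + LinearMap.snd F A A).prod (LinearMap.snd F A A)
  let r : End F (A × A) := (LinearMap.fst F A A).prod
    (LinearMap.snd F A A + Algebra.lmul F A x ∘ₗ LinearMap.fst F A A)
  have h5 : ∀ v, s v = (v.1 + v.2, v.2) := fun _ => rfl
  have h6 : ∀ v, r v = (v.1, v.2 + x * v.1) := fun _ => rfl
  have h7 : s * r * (r * s) = 1 := LinearMap.ext fun v => by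
    simp [h5, h6, add_assoc, ← two_mul, hA]
  have h8 : (s * r + r * s).charpoly = (Algebra.lmul F A x).charpoly ^ 2 := by
    rw [sq, ← LinearMap.charpoly_prodMap]
    congr 1
    refine LinearMap.ext fun v => Prod.ext ?_ ?_ <;> simp [h5, h6]
    exacts [by linear_combination (v.1 + v.2) * hA, by linear_combination (v.2 + x * v.1) * hA]
  refine ⟨?_, fun y hy h9 h10 => ?_⟩
  · obtain ⟨e, he⟩ := H3.exists_isometry_of_isAlt β' β (h1 0).self h.self h4 hβ hd
    refine ⟨_, _, (transfer e h7).1, (transfer e h7).2.trans h8, fun v w => ?_⟩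
    rw [← e.apply_symm_apply v, ← e.apply_symm_apply w]
    simp only [LinearEquiv.conj_apply_apply, e.symm_apply_apply, he, h0, End.mul_apply, h5, h6]
    congr 1
    linear_combination ((e.symm v).1 * x * (e.symm w).1 + ((e.symm v).2 + x * (e.symm v).1) *
      ((e.symm w).2 + x * (e.symm w).1)) * hA
  · obtain ⟨e, he⟩ := iso_of_gs h (h1 y) hβ h4 hd h9 h10
    refine ⟨_, _, (transfer e h7).1, (transfer e h7).2.trans h8, fun v => ?_⟩
    rw [← e.apply_symm_apply v]
    simp only [LinearEquiv.conj_apply_apply, e.symm_apply_apply, he, End.mul_apply, h5, h6]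
    congr 1
    generalize e.symm v = w
    linear_combination w.1 ^ 2 * hy + (w.1 * (w.2 + x * w.1) + (w.2 + x * w.1) ^ 2 + x * w.1 ^ 2 +
      y * w.2 * x * w.1) * hA

omit [Fintype F] in
theorem adjoin_aux {n : ℕ} {μ : F[X]} (hμ : μ.Monic) (hd : μ.natDegree = n + 1) :
    (∃ l : AdjoinRoot μ →ₗ[F] F, ∀ a, (∀ b, l (a * b) = 0) → a = 0) ∧
    ∑ i, (AdjoinRoot.powerBasis' hμ).basis.repr (AdjoinRoot.mk μ μ.divX *
      (AdjoinRoot.powerBasis' hμ).basis i) i = μ.coeff 1 := by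
  have h0 : ∀ p : F[X], p.natDegree ≤ n →
      AdjoinRoot.modByMonicHom hμ (AdjoinRoot.mk μ p) = p := fun p hp =>
    (AdjoinRoot.modByMonicHom_mk hμ p).trans
      ((modByMonic_eq_self_iff hμ).2 (degree_lt_degree (by omega)))
  refine ⟨⟨lcoeff F n ∘ₗ AdjoinRoot.modByMonicHom hμ, fun a ha => ?_⟩, ?_⟩
  · obtain ⟨p, h1, rfl⟩ : ∃ p : F[X], p.natDegree ≤ n ∧ AdjoinRoot.mk μ p = a := by
      obtain ⟨p, rfl⟩ := AdjoinRoot.mk_surjective a
      exact ⟨p %ₘ μ, by
        have := natDegree_modByMonic_lt p hμ (by rintro rfl; simp at hd); omega,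
        AdjoinRoot.mk_leftInverse hμ (AdjoinRoot.mk μ p)⟩
    obtain ⟨k, rfl⟩ := Nat.exists_eq_add_of_le h1
    have := ha (AdjoinRoot.mk μ (X ^ k))
    rw [← map_mul, LinearMap.comp_apply, h0 _ (natDegree_mul_le.trans (by simp)), lcoeff_apply,
      coeff_mul_X_pow, coeff_natDegree, leadingCoeff_eq_zero] at this
    rw [this, map_zero]
  · rw [sum_eq_single ⟨0, n.succ_pos.trans_eq hd.symm⟩ (fun i _ hi => ?_) (by simp)]
    · rw [PowerBasis.basis_eq_pow, pow_zero, mul_one]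
      exact (congrArg (coeff · 0) (h0 _ (by rw [natDegree_divX_eq_natDegree_tsub_one]; omega))).trans
        coeff_divX
    obtain ⟨_ | i, h1⟩ := i
    · exact absurd rfl hi
    rw [show _ * _ = AdjoinRoot.mk μ (-(C (μ.coeff 0) * X ^ i)) from ?_]
    · exact (congrArg (coeff · (i + 1)) (h0 _ (by
        rw [natDegree_neg]; exact (natDegree_C_mul_X_pow_le _ _).trans (by
          change _ < μ.natDegree at h1; omega)))).trans (by simp [coeff_X_pow])
    rw [PowerBasis.basis_eq_pow, AdjoinRoot.powerBasis'_gen, ← AdjoinRoot.mk_X, ← map_pow, ← map_mul,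
      AdjoinRoot.mk_eq_mk]
    exact ⟨X ^ i, by linear_combination X ^ i * divX_mul_X_add μ⟩

open Classical in
theorem real2 (h : Q2 β Q) (hβ : β.Nondegenerate) {n : ℕ} (hn : finrank F V = 2 * (n + 1))
    {μ : F[X]} (hμ : μ.Monic) (hd : μ.natDegree = n + 1) :
    (∃ T T' : End F V, T * T' = 1 ∧ (T + T').charpoly = μ ^ 2 ∧ ∀ x y, β (T x) (T y) = β x y) ∧
    ∀ δ : F, gs Q ⊤ = Fintype.card F ^ (n + 1) * psi δ → (if μ.coeff 0 = 0 then μ.coeff 1 ≠ 0 else
      psi (μ.coeff 1 / μ.coeff 0) = psi δ) →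
      ∃ T T' : End F V, T * T' = 1 ∧ (T + T').charpoly = μ ^ 2 ∧ ∀ x, Q (T x) = Q x := by
  haveI := hμ.finite_adjoinRoot
  haveI : Finite (AdjoinRoot μ) := Module.finite_of_finite F
  haveI := Fintype.ofFinite (AdjoinRoot μ)
  obtain ⟨⟨l, hl⟩, h1⟩ := adjoin_aux hμ hd
  have h3 := charpoly_leftMulMatrix (AdjoinRoot.powerBasis' hμ)
  rw [Algebra.leftMulMatrix_apply, LinearMap.charpoly_toMatrix, AdjoinRoot.powerBasis'_gen,
    AdjoinRoot.minpoly_root hμ.ne_zero, hμ.leadingCoeff, inv_one, C_1, mul_one] at h3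
  obtain ⟨h4, h5⟩ := real_alg h hβ (by rw [hn, (AdjoinRoot.powerBasis' hμ).finrank, ← hd]; rfl) hl
    (AdjoinRoot.root μ)
  rw [h3] at h4 h5
  refine ⟨h4, fun δ h6 h7 => ?_⟩
  have h8 : AdjoinRoot.mk μ μ.divX * AdjoinRoot.root μ = -algebraMap F _ (μ.coeff 0) := by
    rw [← AdjoinRoot.mk_X, ← map_mul, eq_neg_iff_add_eq_zero]
    exact (map_add _ _ _).symm.trans ((congrArg _ (divX_mul_X_add μ)).trans AdjoinRoot.mk_self)
  obtain ⟨y, h9, h10⟩ : ∃ y, y * AdjoinRoot.root μ ^ 2 = AdjoinRoot.root μ ∧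
      psi (∑ i, (AdjoinRoot.powerBasis' hμ).basis.repr (y * (AdjoinRoot.powerBasis' hμ).basis i) i) =
        psi δ := by
    split_ifs at h7 with e
    · obtain ⟨y, h9⟩ : ∃ y, y * AdjoinRoot.root μ ^ 2 = AdjoinRoot.root μ := by
        refine ⟨(-μ.coeff 1)⁻¹ • AdjoinRoot.mk μ μ.divX.divX, ?_⟩
        have := congrArg (AdjoinRoot.mk μ · * AdjoinRoot.root μ) (divX_mul_X_add μ.divX)
        simp only [h8, e, map_zero, neg_zero, map_add, map_mul, AdjoinRoot.mk_X, AdjoinRoot.mk_C,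
          coeff_divX, zero_add, add_mul, add_eq_zero_iff_eq_neg] at this
        rw [smul_mul_assoc, sq, ← mul_assoc, this, ← neg_mul, ← map_neg, ← AdjoinRoot.algebraMap_eq,
          ← Algebra.smul_def, inv_smul_smul₀ (neg_ne_zero.2 h7)]
      refine ⟨y + ((δ - ∑ i, (AdjoinRoot.powerBasis' hμ).basis.repr
        (y * (AdjoinRoot.powerBasis' hμ).basis i) i) / μ.coeff 1) • AdjoinRoot.mk μ μ.divX, ?_, ?_⟩
      · rw [add_mul, h9, smul_mul_assoc, sq, ← mul_assoc, h8, e]; simp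
      · simp only [add_mul, smul_mul_assoc, map_add, map_smul, Finsupp.add_apply, Finsupp.smul_apply,
          smul_eq_mul, sum_add_distrib, ← mul_sum, h1, div_mul_cancel₀ _ h7, add_sub_cancel]
    · refine ⟨(-μ.coeff 0)⁻¹ • AdjoinRoot.mk μ μ.divX, ?_, Eq.trans ?_ h7⟩
      · rw [smul_mul_assoc, sq, ← mul_assoc, h8, ← map_neg, ← Algebra.smul_def,
          inv_smul_smul₀ (neg_ne_zero.2 e)]
      · simp only [smul_mul_assoc, map_smul, Finsupp.smul_apply, smul_eq_mul, ← mul_sum, h1]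
        rw [neg_eq_of_add_eq_zero_left ((two_mul _).symm.trans (by rw [h.two, zero_mul])),
          inv_mul_eq_div]
  refine h5 y h9 (h6 ▸ mul_ne_zero (by simp) (psi_ne _)) ?_
  rw [gs_alg h.two (AdjoinRoot.powerBasis' hμ).basis hl, h6, h10, Fintype.card_fin, ← hd]
  rfl

variable {G : Type*} [Group G] {ρ : G →* End F V}

theorem ncard_le_low (h2 : (2 : F) = 0) [Finite G] {S : Set F[X]}
    (hS : ∀ μ ∈ S, ∃ g T', ρ g * T' = 1 ∧ (ρ g + T').charpoly = μ ^ 2) :
    S.ncard ≤ Nat.card (ConjClasses G) := by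
  rw [← Set.ncard_image_of_injective (f := (· ^ 2)) _ fun μ ν e => by
    refine (sq_eq_sq_iff_eq_or_eq_neg.1 e).elim id fun e => e.trans (neg_eq_of_add_eq_zero_left ?_)
    rw [← two_mul, ← map_ofNat C, h2, C_0, zero_mul]]
  refine card_le_of_inv (fun g => (ρ g + ρ g⁻¹).charpoly) (fun a b h => ?_) _ ?_
  · obtain ⟨c, rfl⟩ := isConj_iff.1 h
    refine (Sim.charpoly_eq ⟨LinearMap.GeneralLinearGroup.toLinearEquiv (ρ.toHomUnits c),
      fun v => ?_⟩).symm
    change (ρ c * (ρ a + ρ a⁻¹)) v = ((ρ _ + ρ _) * ρ c) v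
    simp only [mul_add, add_mul, ← map_mul, mul_inv_rev, inv_inv, mul_assoc, inv_mul_cancel, mul_one]
  · rintro _ ⟨μ, h, rfl⟩
    obtain ⟨g, T, h3, h4⟩ := hS μ h
    exact ⟨g, by rw [← mul_one (ρ g⁻¹), ← h3, ← mul_assoc, ← map_mul, inv_mul_cancel, map_one,
      one_mul, h4]⟩

theorem ncard_monic (n : ℕ) : {f : F[X] | f.Monic ∧ f.natDegree = n}.ncard = Fintype.card F ^ n :=
  (Nat.card_congr ((monicEquivDegreeLT n).trans (degreeLTEquiv F n).toEquiv)).trans (by simp)

theorem Full.low_two (hQ : Q2 β Q) (hβ : β.Nondegenerate) {n : ℕ} (hn : finrank F V = 2 * (n + 1))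
    (h : Full β ρ) : Fintype.card F ^ (n + 1) ≤ Nat.card (ConjClasses G) := by
  haveI := finite_of_inj h.inj
  refine (ncard_monic _).ge.trans (ncard_le_low (ρ := ρ) hQ.two fun μ hμ => ?_)
  obtain ⟨T, T', h1, h3, h4⟩ := (real2 hQ hβ hn hμ.1 hμ.2).1
  obtain ⟨g, rfl⟩ := h.surj T h4
  exact ⟨g, T', h1, h3⟩

theorem low_O2 (hQ : Q2 β Q) (hβ : β.Nondegenerate) {n : ℕ} (hn : finrank F V = 2 * (n + 2))
    (inj : Function.Injective ρ) (surj : ∀ T : End F V, (∀ x, Q (T x) = Q x) → ∃ g, ρ g = T) :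
    Fintype.card F ^ (n + 2) ≤ 2 * Nat.card (ConjClasses G) := by
  classical
  haveI := finite_of_inj inj
  obtain ⟨α, hα⟩ := exists_psi (F := F)
  obtain ⟨δ, h0⟩ : ∃ δ : F, gs Q ⊤ = Fintype.card F ^ (n + 2) * psi δ := by
    obtain ⟨_, _, _, _, h, -⟩ := hasNF (t := 0) ⟨hQ, by simp⟩ hα (N := 1) ⊤ (by simp)
      (by simp) fun x _ e => hβ.1 x fun y => e y trivial
    have := h.ty.dim
    rw [finrank_top, hn, mul_right_inj' two_ne_zero] at this
    exact ⟨_, this ▸ h.ty.gs⟩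
  let p (μ : F[X]) : Prop :=
    if μ.coeff 0 = 0 then μ.coeff 1 ≠ 0 else psi (μ.coeff 1 / μ.coeff 0) = psi δ
  have h1 : {f ∈ {f : F[X] | f.Monic ∧ f.natDegree = n + 2} | p f}.ncard ≤
      Nat.card (ConjClasses G) := ncard_le_low (ρ := ρ) hQ.two fun μ hμ => by
    obtain ⟨T, T', h1, h3, h4⟩ := (real2 hQ hβ hn hμ.1.1 hμ.1.2).2 δ h0 hμ.2
    obtain ⟨g, rfl⟩ := surj T h4
    exact ⟨g, T', h1, h3⟩
  have h3 := Set.ncard_le_ncard_of_injOn
    (s := {f ∈ {f : F[X] | f.Monic ∧ f.natDegree = n + 2} | ¬ p f})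
    (t := {f ∈ {f : F[X] | f.Monic ∧ f.natDegree = n + 2} | p f})
    (fun f => f + C (if f.coeff 0 = 0 then 1 else α * f.coeff 0) * X)
    (fun f hf => by
      have : (C (if f.coeff 0 = 0 then 1 else α * f.coeff 0) * X).degree < f.degree :=
        (degree_C_mul_X_le _).trans_lt (by
          rw [degree_eq_natDegree hf.1.1.ne_zero, hf.1.2]; exact_mod_cast (by omega : 1 < n + 2))
      refine ⟨⟨hf.1.1.add_of_left this, (natDegree_add_eq_left_of_degree_lt this).trans hf.1.2⟩, ?_⟩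
      have := hf.2
      simp only [p, coeff_add, coeff_C_mul, coeff_X_zero, coeff_X_one, mul_zero, add_zero,
        mul_one] at this ⊢
      split_ifs at this ⊢ with e
      · simp [not_not.1 this]
      · rw [add_div, mul_div_cancel_right₀ _ e, psi_add hQ.two, hα]
        rcases psi_or δ with e | e <;> rcases psi_or (f.coeff 1 / f.coeff 0) with e' | e' <;>
          simp_all)
    (fun f _ g _ e => by
      have := congrArg (coeff · 0) e
      simp only [coeff_add, coeff_C_mul, coeff_X_zero, mul_zero, add_zero] at this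
      simpa [this] using e) ((finite_monic _).subset fun _ h => h.1)
  have h6 := Set.ncard_inter_add_ncard_sdiff_eq_ncard {f : F[X] | f.Monic ∧ f.natDegree = n + 2}
    {f | p f} (finite_monic _)
  exact (ncard_monic _).ge.trans (h6.ge.trans ((add_le_add h1 (h3.trans h1)).trans_eq
    (two_mul _).symm))

end Cfsg.Agent.H29
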