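import Cfsg.Agent.H29.C2Pc

/-! Normal form of unipotent isometries in characteristic two. -/

set_option autoImplicit false

namespace Cfsg.Agent.H29

open Module Finset

variable {F V : Type*} [Field F] [AddCommGroup V] [Module F V] [Fintype F] [Fintype V]

/-- an orthogonal decomposition into pieces -/
structure NF (β : LinearMap.BilinForm F V) (Q : V → F) (t : End F V) (α : F) (W : Submodule F V)
    {ι : Type} [Fintype ι] (p : ι → Pc) (v : ι → Bool → V) : Prop where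
  gen : ∀ i, Gen β Q t α (p i) (v i)
  orth : ∀ i i', i ≠ i' → ∀ a ∈ PS t (v i), ∀ b ∈ PS t (v i'), β a b = 0
  span : ⨆ i, PS t (v i) = W
  ty : Ty β Q W (∑ i, hd (p i)) (∑ i, if (p i).2.2 then α else 0)

/-- the number of pieces of a type -/
def cn {ι : Type} [Fintype ι] (p : ι → Pc) (c : Pc) : ℕ := ∑ i, if p i = c then 1 else 0

theorem exists_of_cn {ι : Type} [Fintype ι] {p : ι → Pc} {c : Pc} (h : cn p c ≠ 0) : ∃ i, p i = c := by
  obtain ⟨i, -, hi⟩ := exists_ne_zero_of_sum_ne_zero h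
  exact ⟨i, by_contra fun h => hi (if_neg h)⟩

/-- the restrictions on the numbers of pieces -/
structure Res (n : Pc → ℕ) : Prop where
  we : ∀ k, n (some false, k, true) = 0
  le1 : ∀ κ k, n (κ, k, true) ≤ 1
  le2 : ∀ k, n (none, k, false) + n (none, k, true) ≤ 2
  v : ∀ k, n (none, k, true) ≠ 0 → ∀ δ, n (some true, k, δ) = 0
  low : ∀ κ k, n (κ, k + 1, true) ≠ 0 → ∀ δ, n (none, k, δ) = 0

variable {β : LinearMap.BilinForm F V} {Q : V → F} {t : End F V} {α : F} {W : Submodule F V}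

theorem NF.le {ι : Type} [Fintype ι] {p : ι → Pc} {v : ι → Bool → V} (h : NF β Q t α W p v) (i : ι) :
    PS t (v i) ≤ W := h.span ▸ le_iSup (fun i => PS t (v i)) i

/-- existence of a restricted normal form -/
def HasNF (β : LinearMap.BilinForm F V) (Q : V → F) (t : End F V) (α : F) (W : Submodule F V) :
    Prop := ∃ (ι : Type) (_ : Fintype ι) (p : ι → Pc) (v : ι → Bool → V),
      NF β Q t α W p v ∧ Res (cn p)

theorem HasNF.split (h : C2 β Q t) (hW : ∀ x ∈ W, t x ∈ W)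
    (nd : ∀ x ∈ W, (∀ y ∈ W, β x y = 0) → x = 0)
    (ih : ∀ W' < W, (∀ x ∈ W', t x ∈ W') → (∀ x ∈ W', (∀ y ∈ W', β x y = 0) → x = 0) →
      HasNF β Q t α W') {p₀ : Pc} {x : Bool → V} (hx : ∀ b, x b ∈ W) (g : Gen β Q t α p₀ x)
    (H : ∀ {ι : Type} [Fintype ι] {p : ι → Pc} {v : ι → Bool → V} {W' : Submodule F V}, W' ≤ W →
      (∀ y ∈ W', ∀ b i j, β ((t ^ i) (x b)) ((t ^ j) y) = 0) → NF β Q t α W' p v → Res (cn p) →
      Res fun c => (if p₀ = c then 1 else 0) + cn p c) : HasNF β Q t α W := by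
  have h1 := g.ty h
  have h2 := PS_le hW hx
  have hc := (LinearMap.BilinForm.isCompl_orthogonal_iff_disjoint (B := β) (W := PS t x)
    fun x y e => (h.symm _ _).trans e).2 (Submodule.disjoint_def.2 fun y hy h' =>
      h1.nd y hy fun z hz => (h.symm _ _).trans (h' z hz))
  have h3 : PS t x ⊔ W ⊓ β.orthogonal (PS t x) = W := by
    rw [inf_comm, ← sup_inf_assoc_of_le _ h2, hc.sup_eq_top, top_inf_eq]
  have h4 : ∀ a ∈ PS t x, ∀ b ∈ W ⊓ β.orthogonal (PS t x), β a b = 0 := fun a ha b hb => hb.2 a ha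
  have h7 : ∀ y ∈ W ⊓ β.orthogonal (PS t x), ∀ b i j, β ((t ^ i) (x b)) ((t ^ j) y) = 0 :=
    fun y hy b i j => by
      simpa using h.det_cross h (g.nil b) (g.nil b) (b := y) (b' := 0)
        (fun i => by simpa using hy.2 _ (mem_PS b i)) j i
  obtain ⟨ι, _, p, v, h5, h6⟩ := ih (W ⊓ β.orthogonal (PS t x))
    (inf_le_left.lt_of_ne fun e => g.ne h (h1.nd _ (mem_PS _ _) fun y hy =>
      (h.symm _ _).trans (h4 y hy _ (e.ge (h2 (mem_PS _ _))))))
    (fun y hy => ⟨hW y hy.1, fun a ha => (Submodule.span_le.2 (by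
      rintro _ ⟨⟨b, j⟩, rfl⟩; exact h7 y hy b j 1) : _ ≤ LinearMap.ker (β.flip (t y))) ha⟩)
    fun y hy h5 => nd y hy.1 fun z hz => by
      obtain ⟨a, ha, b, hb, rfl⟩ := Submodule.mem_sup.1 (h3.ge hz)
      rw [map_add, h5 b hb, h.symm, h4 a ha y hy, add_zero]
  refine ⟨Option ι, inferInstance, fun i => i.elim p₀ p, fun i => i.elim x v, ⟨?_, ?_, ?_, ?_⟩, ?_⟩
  · rintro (_ | i); exacts [g, h5.gen i]
  · rintro (_ | i) (_ | i') e a ha b hb
    exacts [absurd rfl e, h4 a ha b (h5.le i' hb), (h.symm _ _).trans (h4 b hb a (h5.le i ha)),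
      h5.orth i i' (fun e' => e (congrArg _ e')) a ha b hb]
  · rw [iSup_option]; exact (congrArg _ h5.span).trans h3
  · rw [Fintype.sum_option, Fintype.sum_option, ← h3]; exact h1.sup h.toQ2 h5.ty h4
  · convert H inf_le_left h7 h5 h6 using 2
    exact Fintype.sum_option _

theorem hasNF (h : C2 β Q t) (hα : psi α = -1) {N : ℕ} (W : Submodule F V)
    (hN : ∀ x ∈ W, (t ^ N) x = 0) (hW : ∀ x ∈ W, t x ∈ W)
    (nd : ∀ x ∈ W, (∀ y ∈ W, β x y = 0) → x = 0) : HasNF β Q t α W := by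
  classical
  induction W using WellFoundedLT.induction with
  | ind W ih =>
  replace ih := fun W' (hW' : W' < W) => ih W' hW' fun x hx => hN x (hW'.le hx)
  have h0 := Nat.find_spec (p := fun m => ∀ x ∈ W, (t ^ m) x = 0) ⟨N, hN⟩
  have h1 := @Nat.find_min (fun m => ∀ x ∈ W, (t ^ m) x = 0) _ ⟨N, hN⟩
  generalize Nat.find (p := fun m => ∀ x ∈ W, (t ^ m) x = 0) ⟨N, hN⟩ = m at h0 h1
  rcases m with _ | m
  · obtain rfl : W = ⊥ := eq_bot_iff.2 h0
    exact ⟨Empty, inferInstance, Empty.elim, Empty.elim, ⟨by simp, by simp, by simp,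
      by simpa using Ty.bot h.toQ2⟩, by constructor <;> simp [cn]⟩
  obtain ⟨x, hx, h1⟩ : ∃ x ∈ W, (t ^ m) x ≠ 0 := by simpa using h1 m.lt_succ_self
  have hp : ∀ j, ∀ x ∈ W, (t ^ j) x ∈ W := fun j => End.pow_apply_mem_of_forall_mem j hW
  have h2 : ∀ x ∈ W, (t ^ m) x ≠ 0 → ∃ y ∈ W, β ((t ^ m) x) y = 1 := fun x hx h1 => by
    obtain ⟨y, hy, h2⟩ : ∃ y ∈ W, β ((t ^ m) x) y ≠ 0 := by simpa using mt (nd _ (hp m x hx)) h1
    exact ⟨_, W.smul_mem (β ((t ^ m) x) y)⁻¹ hy, by simp [h2]⟩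
  have h3 : ∀ {ι : Type} [Fintype ι] {p : ι → Pc} {v : ι → Bool → V} {W' : Submodule F V}, W' ≤ W →
      NF β Q t α W' p v → ∀ c, cn p c ≠ 0 → tp c ≤ m := fun h3 h4 c hc => by
    obtain ⟨i, rfl⟩ := exists_of_cn hc
    exact not_lt.1 fun e => (h4.gen i).ne h (nil_le (h0 _ (h3 (h4.le i (mem_PS false 0)))) e)
  have h4 : ∀ {ι : Type} [Fintype ι] {p : ι → Pc} {v : ι → Bool → V} {W' : Submodule F V} (k : ℕ),
      NF β Q t α W' p v → (∀ y ∈ W', (t ^ (2 * k + 1)) y = 0 → Q ((t ^ k) y) = 0) → ∀ δ,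
      cn p (some true, k, δ) = 0 ∧ cn p (none, k, δ) = 0 ∧ ∀ l, l + 1 = k → cn p (none, l, δ) = 0 :=
    fun k h4 h5 δ => by
      refine ⟨by_contra fun e => ?_, by_contra fun e => ?_, fun l hl => by_contra fun e => ?_⟩ <;>
        obtain ⟨i, hi⟩ := exists_of_cn e <;>
        obtain ⟨y, hy, h6, h7⟩ := (h4.gen i).wit h (k := k) (by simp [*]) <;>
        exact h7 (h5 y (h4.le i hy) h6)
  have sq := H27.exists_sq_eq_of_two_eq_zero h.two
  obtain ⟨k, rfl | rfl⟩ := Nat.even_or_odd' m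
  · by_cases ha : ∃ x ∈ W, (t ^ (2 * k)) x ≠ 0 ∧ Q ((t ^ k) x) = 0
    · obtain ⟨x, hx, h1, h5⟩ := ha
      obtain ⟨y, hy, h6⟩ := h2 x hx h1
      have hy' := C2.add_mem' hW hy hx (Q ((t ^ k) y)) 0
      obtain ⟨z, hz, g⟩ := exists_genW (α := α) h hW (κ := true) (δ := false) (k := k) hx hy'
        (h0 _ hx) (h0 _ hy') (by simp [tp, h6, h.top_odd (h0 _ hx)]) (h.top_odd (h0 _ hx))
        (h.top_odd (h0 _ hy')) (by simp) (fun _ => h5) fun _ => by
          rw [h.step, add_zero, h5, h.top (h0 _ hy) _ (two_mul k).symm, h.top_symm (h0 _ hx), h6,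
            if_neg Bool.false_ne_true]
          linear_combination Q ((t ^ k) y) * h.two
      refine .split h hW nd ih hz g fun h7 _ h8 r => ⟨by simpa using r.we, by simpa using r.le1,
        by simpa using r.le2, fun l hl δ => ?_, by simpa using r.low⟩
      have := h3 h7 h8 _ (by simpa using hl)
      rw [r.v l (by simpa using hl), if_neg (by simp [tp] at this ⊢; omega)]
    · obtain ⟨c, hc⟩ := sq (Q ((t ^ k) x))⁻¹
      have h5 : Q ((t ^ k) x) ≠ 0 := fun e => ha ⟨x, hx, h1, e⟩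
      have h6 : Q ((t ^ k) (c • x)) = 1 := by rw [map_smul, h.smul, ← hc, inv_mul_cancel₀ h5]
      replace h1 : (t ^ (2 * k)) (c • x) ≠ 0 := by
        rw [map_smul]; exact smul_ne_zero (by rintro rfl; simp [h.zero] at h6) h1
      replace hx := W.smul_mem c hx
      generalize c • x = x at h1 h6 hx
      obtain ⟨y, hy, h7⟩ := h2 x hx h1
      have h8 : ∀ r : F, Q ((t ^ k) (y + r • (t ^ 0) x)) = Q ((t ^ k) y) + (r ^ 2 + r) := fun r => by
        rw [h.step, add_zero, h6, h.top (h0 _ hy) _ (two_mul k).symm, h.top_symm (h0 _ hx), h7]; ring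
      have h9 : ∀ r : F, β ((t ^ (2 * k)) x) (y + r • (t ^ 0) x) = 1 := fun r => by
        simp [h7, h.top_odd (h0 _ hx)]
      obtain ⟨r, hr⟩ := (psi_eq_one (c := Q ((t ^ k) y) + α)).1 (by
        rw [psi_add h.two, hα, (psi_or _).resolve_left fun e => ?_]; · rfl
        obtain ⟨r, hr⟩ := psi_eq_one.1 e
        refine ha ⟨_, C2.add_mem' hW hy hx r 0, fun e => ?_, by
          rw [h8, hr]; linear_combination Q ((t ^ k) y) * h.two⟩
        have := (h.top_symm (h0 _ hx) _).trans (h9 r)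
        rw [e] at this
        simp at this)
      have hy' := C2.add_mem' hW hy hx r 0
      obtain ⟨z, hz, g⟩ := exists_genW (α := α) h hW (κ := true) (δ := true) (k := k) hx hy'
        (h0 _ hx) (h0 _ hy') (h9 r) (h.top_odd (h0 _ hx)) (h.top_odd (h0 _ hy')) (by simp)
        (fun _ => h6) fun _ => by rw [h8, hr]; simp [← add_assoc, ← two_mul, h.two]
      refine .split h hW nd ih hz g fun h10 h11 h12 r => ?_
      have h13 := h4 k h12 fun w hw _ => by_contra fun e => by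
        obtain ⟨c, hc⟩ := sq (Q ((t ^ k) w))⁻¹
        refine ha ⟨_, C2.add_mem' hW (hz false) (h10 hw) c 0, fun e => ?_, ?_⟩
        · have := congrArg (β · (z true)) e
          have e1 : β ((t ^ (2 * k)) w) (z true) = 0 := (h.symm _ _).trans (h11 w hw true 0 (2 * k))
          simp [g.c, tp, e1] at this
        · rw [h.step, add_zero, h11 w hw, g.q, ← hc, inv_mul_cancel₀ e]
          simp [qv, one_add_one_eq_two, h.two]
      refine ⟨by simpa using r.we, fun κ l => ?_, by simpa using r.le2, fun l hl δ => ?_,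
        fun κ l hl δ => ?_⟩
      · split_ifs with e
        exacts [by cases e; simp [h13 true], by simpa using r.le1 κ l]
      · have := h3 h10 h12 _ (by simpa using hl)
        rw [r.v l (by simpa using hl), if_neg (by simp [tp] at this ⊢; omega)]
      · split_ifs at hl with e
        exacts [by cases e; simpa using (h13 δ).2.2 l rfl, by simpa using r.low κ l (by simpa using hl) δ]
  by_cases ha : ∃ x ∈ W, ∃ y ∈ W, β ((t ^ (2 * k + 1)) x) y ≠ 0 ∧ Q ((t ^ (k + 1)) x) = 0 ∧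
      Q ((t ^ (k + 1)) y) = 0
  · obtain ⟨x, hx, y, hy, h5, h6, h7⟩ := ha
    have hy' := W.smul_mem (β ((t ^ (2 * k + 1)) x) y)⁻¹ hy
    obtain ⟨z, hz, g⟩ := exists_genW (α := α) h hW (κ := false) (δ := false) (k := k) hx hy'
      (h0 _ hx) (h0 _ hy') (by simp [tp, h5]) ((h.Q_top (h0 _ hx)).symm.trans h6)
      ((h.Q_top (h0 _ hy')).symm.trans (by rw [map_smul, h.smul, h7, mul_zero])) (by simp)
      (by simp) (by simp)
    exact .split h hW nd ih hz g fun _ _ _ r => ⟨by simpa using r.we, by simpa using r.le1,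
      by simpa using r.le2, by simpa using r.v, by simpa using r.low⟩
  obtain ⟨δ, z, hz, g, h5⟩ : ∃ δ z, (∀ b, z b ∈ W) ∧ Gen β Q t α (none, k, δ) z ∧ (δ = true →
      ∀ x ∈ W, Q ((t ^ (k + 1)) x) ≠ 0 → Q ((t ^ k) x) ≠ 0) := by
    by_cases hb : ∃ x ∈ W, Q ((t ^ (k + 1)) x) ≠ 0 ∧ Q ((t ^ k) x) = 0
    · obtain ⟨x, hx, h5, h6⟩ := hb
      obtain ⟨δ, z, hz, g, h7⟩ := exists_genV h hW hα hx (h0 x hx) h5
      exact ⟨δ, z, hz, g, by simp [h7 h6]⟩
    · obtain ⟨y, hy, h5⟩ := h2 x hx h1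
      obtain ⟨x, hx, h6⟩ : ∃ x ∈ W, Q ((t ^ (k + 1)) x) ≠ 0 := by_contra fun e =>
        ha ⟨x, hx, y, hy, by simp [h5], by_contra fun e' => e ⟨x, hx, e'⟩,
          by_contra fun e' => e ⟨y, hy, e'⟩⟩
      obtain ⟨δ, z, hz, g, -⟩ := exists_genV h hW hα hx (h0 x hx) h6
      exact ⟨δ, z, hz, g, fun _ x hx e e' => hb ⟨x, hx, e, e'⟩⟩
  refine .split h hW nd ih hz g fun {ι _ p v W'} h10 h11 h12 r => ?_
  have z1 : Q ((t ^ (k + 1)) (z false)) = 1 := by simp [g.q, qv]
  have h13 := fun e => h4 k h12 fun w hw h6 => by_contra fun e' => by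
    obtain ⟨c, hc⟩ := sq (Q ((t ^ k) (z false)) / Q ((t ^ k) w))
    refine h5 e _ (C2.add_mem' hW (hz false) (h10 hw) c 0) ?_ ?_ <;> rw [h.step, add_zero, h11 w hw]
    · simp [z1, h.Q_hi h6 (l := k + 1) (by omega)]
    · rw [← hc, div_mul_cancel₀ _ e']; linear_combination Q ((t ^ k) (z false)) * h.two
  have h14 : cn p (none, k, false) + cn p (none, k, true) ≤ 1 := by
    have : cn p (none, k, false) + cn p (none, k, true) =
        (univ.filter fun i => (p i).1 = none ∧ (p i).2.1 = k).card := by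
      rw [cn, cn, ← sum_add_distrib, card_filter]
      refine sum_congr rfl fun i _ => ?_
      obtain ⟨κ, l, _ | _⟩ := p i <;> simp
    rw [this, card_le_one]
    intro i hi j hj
    by_contra e
    have h7 : ∀ i, v i false ∈ W' := fun i => h12.le i (mem_PS false 0)
    have h6 : ∀ i ∈ univ.filter fun i => (p i).1 = none ∧ (p i).2.1 = k,
        Q ((t ^ (k + 1)) (z false + v i false)) = 0 := fun i hi => by
      rw [map_add, h.add, z1, (h12.gen i).q, h11 _ (h7 i)]
      simp [qv, (mem_filter.1 hi).2, one_add_one_eq_two, h.two]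
    refine ha ⟨_, add_mem (hz false) (h10 (h7 i)), _, add_mem (hz false) (h10 (h7 j)), ?_,
      h6 i hi, h6 j hj⟩
    have e1 := h11 _ (h7 j) false (2 * k + 1) 0
    have e2 := (h.symm _ _).trans (h11 _ (h7 i) false 0 (2 * k + 1))
    have e3 := h12.orth i j e _ (mem_PS false (2 * k + 1)) _ (mem_PS false 0)
    simp only [pow_zero, End.one_apply] at e1 e2 e3
    simp [e1, e2, e3, ← h.Q_top (h0 _ (hz false)), z1]
  refine ⟨by simpa using r.we, fun κ l => ?_, fun l => ?_, fun l hl δ' => ?_, fun κ l hl δ' => ?_⟩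
  · split_ifs with e
    exacts [by cases e; simp [h13 rfl true], by simpa using r.le1 κ l]
  · by_cases e : k = l
    · subst e; cases δ <;> simp <;> omega
    · simpa [e] using r.le2 l
  · split_ifs at hl with e
    exacts [by cases e; simpa using (h13 rfl δ').1, by simpa using r.v l (by simpa using hl) δ']
  · split_ifs at hl with e
    · cases e; simpa using (h13 rfl δ').2.2 l rfl
    · have := h3 h10 h12 _ (by simpa using hl)
      rw [r.low κ l (by simpa using hl), if_neg (by unfold tp at this; split_ifs at this <;> simp at this ⊢ <;> omega)]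

end Cfsg.Agent.H29
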