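import Cfsg.Agent.H29.C2NF

/-! Counting the normal forms of unipotent isometries in characteristic two. -/

set_option autoImplicit false

namespace Cfsg.Agent.H29

open Finset

section Sm

variable {α β : Type*} {S S' : Set α} {T : Set β} {w : α → ℚ} {w' : β → ℚ} {A B : ℚ}

/-- the sum of the weights `w` over `S` is at most `A` -/
def Sm (S : Set α) (w : α → ℚ) (A : ℚ) : Prop :=
  (∀ a, 0 ≤ w a) ∧ ∀ s : Finset α, ↑s ⊆ S → ∑ a ∈ s, w a ≤ A

theorem Sm.nonneg (h : Sm S w A) : 0 ≤ A := by simpa using h.2 ∅ (by simp)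

theorem Sm.mono (h : Sm S w A) (h' : A ≤ B) : Sm S w B := ⟨h.1, fun s hs => (h.2 s hs).trans h'⟩

theorem Sm.union (h : Sm S w A) (h' : Sm S' w B) : Sm (S ∪ S') w (A + B) := ⟨h.1, fun s hs => by
  classical
  rw [← sum_filter_add_sum_filter_not s (· ∈ S)]
  exact add_le_add (h.2 _ fun a ha => (mem_filter.1 ha).2)
    (h'.2 _ fun a ha => (hs (mem_filter.1 ha).1).resolve_left (mem_filter.1 ha).2)⟩

theorem Sm.prod (h : Sm S w A) (h' : Sm T w' B) :
    Sm (S ×ˢ T) (fun p => w p.1 * w' p.2) (A * B) := ⟨fun p => mul_nonneg (h.1 _) (h'.1 _), fun s hs => by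
  classical
  refine (sum_le_sum_of_subset_of_nonneg subset_product fun p _ _ =>
    mul_nonneg (h.1 _) (h'.1 _)).trans ?_
  rw [sum_product' (f := fun a b => w a * w' b), ← sum_mul_sum]
  exact mul_le_mul (h.2 _ (by simp only [coe_image, Set.image_subset_iff]; exact fun a e => (hs e).1))
    (h'.2 _ (by simp only [coe_image, Set.image_subset_iff]; exact fun a e => (hs e).2)) (sum_nonneg fun _ _ => h'.1 _) h.nonneg⟩

theorem Sm.inj (h : Sm T w' A) (f : α → β) (hf : Function.Injective f) (hm : Set.MapsTo f S T)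
    (hw : ∀ a, w a = w' (f a)) : Sm S w A := ⟨fun a => hw a ▸ h.1 _, fun s hs => by
  classical
  simp only [hw]
  rw [← sum_image hf.injOn]
  exact h.2 _ (by rw [coe_image]; exact (hm.mono_left hs).image_subset)⟩

theorem sm_fin {y : ℚ} (hy : 0 ≤ y) (s : Finset ℕ) : Sm ↑s (y ^ ·) (∑ a ∈ s, y ^ a) :=
  ⟨fun _ => pow_nonneg hy _, fun _ h => sum_le_sum_of_subset_of_nonneg h fun _ _ _ => pow_nonneg hy _⟩

theorem sm_geo {y : ℚ} (hy : 0 ≤ y) (h1 : y < 1) (k : ℕ) : Sm (Set.Ici k) (y ^ ·) (y ^ k / (1 - y)) :=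
  ⟨fun _ => pow_nonneg hy _, fun s h => by
    obtain ⟨n, hn⟩ := s.exists_nat_subset_range
    exact (sum_le_sum_of_subset_of_nonneg (t := Ico k n) (fun a ha => mem_Ico.2
      ⟨h ha, mem_range.1 (hn ha)⟩) fun _ _ _ => pow_nonneg hy _).trans (geom_sum_Ico_le_of_lt_one hy h1)⟩

end Sm

/-- the half dimension -/
def wt (K : ℕ) (n : Pc → ℕ) : ℕ := ∑ k ∈ range K, ∑ κ, ∑ δ, n (κ, k, δ) * hd (κ, k, δ)

/-- there is a piece with an Arf invariant below level `k` -/
def al (g : Bool) (n : Pc → ℕ) (k : ℕ) : Prop :=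
  g = true ∨ ∃ l < k, ∃ κ δ, κ ≠ some false ∧ n (κ, l, δ) ≠ 0

/-- no Arf invariant at level `k` -/
def blk (g : Bool) (n : Pc → ℕ) (k : ℕ) : Prop :=
  g = true ∧ k = 0 ∨ ∃ l δ, l + 1 = k ∧ n (none, l, δ) ≠ 0

/-- the data to be counted -/
def DD (g : Bool) (K : ℕ) : Set (Pc → ℕ) := {n | Res n ∧ (∀ c, K ≤ c.2.1 → n c = 0) ∧
  ∀ κ k, n (κ, k, true) ≠ 0 → al g n k ∧ ¬ (g = true ∧ k = 0)}

/-- the recursion for the sums -/
def st (g : Bool) : ℕ → ℚ × ℚ × ℚ
  | 0 => if g then (0, 0, 1) else (1, 0, 0)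
  | K + 1 =>
    let s := st g K
    let y : ℚ := (1 / 2) ^ (2 * K + 1)
    let z : ℚ := (1 / 2) ^ (2 * K + 2)
    let v : ℚ := (1 / 2) ^ (K + 1)
    (s.1 / (1 - z), (s.1 * y + s.2.1 * (1 + y) + s.2.2) / (1 - y) / (1 - z),
      (v + v ^ 2) * (s.1 + 2 * s.2.1 + s.2.2) / (1 - y) / (1 - z))

theorem sm_st (g : Bool) (K : ℕ) :
    Sm {n ∈ DD g K | ¬ al g n K} (fun n => (1 / 2) ^ wt K n) (st g K).1 ∧
    Sm {n ∈ DD g K | al g n K ∧ ¬ blk g n K} (fun n => (1 / 2) ^ wt K n) (st g K).2.1 ∧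
    Sm {n ∈ DD g K | blk g n K} (fun n => (1 / 2) ^ wt K n) (st g K).2.2 := by
  induction K with
  | zero =>
    have h1 : ∀ S ⊆ DD g 0, Sm S (fun n => (1 / 2) ^ wt 0 n) 1 := fun S hS =>
      ⟨fun _ => by positivity, fun s hs => by
        simpa [wt] using card_le_one.2 fun a ha b hb => funext fun c =>
          ((hS (hs ha)).2.1 c (Nat.zero_le _)).trans ((hS (hs hb)).2.1 c (Nat.zero_le _)).symm⟩
    have h0 : Sm ∅ (fun n => (1 / 2) ^ wt 0 n) 0 := ⟨fun _ => by positivity, by simp⟩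
    cases g
    · exact ⟨h1 _ fun _ h => h.1, by simpa [al, st] using h0, by simpa [blk, st] using h0⟩
    · exact ⟨by simpa [al, st] using h0, by simpa [blk, st] using h0, h1 _ fun _ h => h.1⟩
  | succ K ih =>
    obtain ⟨hT, hA, hB⟩ := ih
    have p1 : ∀ k, 0 ≤ (1 / 2 : ℚ) ^ k := fun k => by positivity
    have p2 : ∀ k, (1 / 2 : ℚ) ^ (k + 1) < 1 := fun k => pow_lt_one₀ (by norm_num) (by norm_num) k.succ_ne_zero
    have Y := sm_geo (p1 _) (p2 (2 * K))
    have Z := sm_geo (p1 _) (p2 (2 * K + 1)) 0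
    have Y' := sm_fin (p1 (2 * K + 1))
    have V := sm_fin (p1 (K + 1))
    let f (n : Pc → ℕ) := ((fun c => if c.2.1 = K then 0 else n c : Pc → ℕ), n (some true, K, false),
      n (some true, K, true), n (some false, K, false), n (some false, K, true),
      n (none, K, false), n (none, K, true))
    have hf : Function.Injective f := fun n n' e => funext fun ⟨κ, k, δ⟩ => by
      simp only [f, Prod.mk.injEq] at e
      by_cases hk : k = K
      · subst hk; rcases κ with _ | _ | _ <;> cases δ <;> tauto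
      · simpa [hk] using congrFun e.1 (κ, k, δ)
    have hw : ∀ n, (1 / 2 : ℚ) ^ wt (K + 1) n = (fun p : (Pc → ℕ) × ℕ × ℕ × ℕ × ℕ × ℕ × ℕ =>
        (1 / 2) ^ wt K p.1 * (((1 / 2) ^ (2 * K + 1)) ^ p.2.1 * (((1 / 2) ^ (2 * K + 1)) ^ p.2.2.1 *
        (((1 / 2) ^ (2 * K + 1 + 1)) ^ p.2.2.2.1 * (((1 / 2) ^ (2 * K + 1 + 1)) ^ p.2.2.2.2.1 *
        (((1 / 2) ^ (K + 1)) ^ p.2.2.2.2.2.1 * ((1 / 2) ^ (K + 1)) ^ p.2.2.2.2.2.2)))))) (f n) :=
      fun n => by
        simp only [← pow_mul, ← pow_add, f]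
        congr 1
        rw [wt, sum_range_succ, wt]
        congr 1
        · exact sum_congr rfl fun k hk => by simp [(mem_range.1 hk).ne]
        · simp [Fintype.sum_option, hd, tp]; ring
    have hD : ∀ n ∈ DD g (K + 1), (f n).1 ∈ DD g K ∧ (al g (f n).1 K ↔ al g n K) ∧
        (blk g (f n).1 K ↔ blk g n K) := fun n hn => by
      have h1 : ∀ k ≤ K, al g (f n).1 k ↔ al g n k := fun k hk => or_congr_right
        (exists_congr fun l => and_congr_right fun hl => by simp [f, show l ≠ K by omega])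
      refine ⟨⟨⟨fun k => ?_, fun κ k => ?_, fun k => ?_, fun k => ?_, fun κ k => ?_⟩, fun c hc => ?_,
        fun κ k hk => ?_⟩, h1 K le_rfl, or_congr_right (exists₂_congr fun l δ =>
          and_congr_right fun hl => by simp [f, show l ≠ K by omega])⟩ <;> simp only [f]
      · simp [hn.1.we]
      · split_ifs; exacts [zero_le_one, hn.1.le1 _ _]
      · split_ifs; exacts [Nat.zero_le _, hn.1.le2 _]
      · split_ifs; exacts [fun _ _ => rfl, hn.1.v _]
      · split_ifs; exacts [fun _ _ => rfl, fun h => absurd rfl h, fun _ _ => rfl, hn.1.low _ _]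
      · split_ifs; exacts [rfl, hn.2.1 c (by omega)]
      · simp only [f] at hk
        split_ifs at hk with e
        · exact absurd rfl hk
        · have := mt (hn.2.1 (κ, k, true)) hk
          exact ⟨(h1 k (by simp at this; omega)).2 (hn.2.2 κ k hk).1, (hn.2.2 κ k hk).2⟩
    have hb : ∀ n ∈ DD g (K + 1), ¬ al g n K ∨ blk g n K → ∀ κ, n (κ, K, true) = 0 :=
      fun n hn h κ => by_contra fun e => by
        rcases h with h | h | ⟨l, δ, rfl, h⟩
        exacts [h (hn.2.2 κ K e).1, (hn.2.2 κ K e).2 h, h (hn.1.low κ l e δ)]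
    have p3 := (sub_pos.2 (p2 (2 * K))).ne'
    have p4 := (sub_pos.2 (p2 (2 * K + 1))).ne'
    refine ⟨((hT.prod ((Y' {0}).prod ((Y' {0}).prod (Z.prod ((sm_fin (p1 _) {0}).prod
      ((V {0}).prod (V {0}))))))).inj f hf (fun n hn => ?_) hw).mono (le_of_eq ?_),
      ((((hT.prod ((Y 1).prod ((Y' {0}).prod (Z.prod ((sm_fin (p1 _) {0}).prod
      ((V {0}).prod (V {0}))))))).union (hA.prod ((Y 0).prod ((Y' {0, 1}).prod (Z.prod
      ((sm_fin (p1 _) {0}).prod ((V {0}).prod (V {0})))))))).union (hB.prod ((Y 0).prod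
      ((Y' {0}).prod (Z.prod ((sm_fin (p1 _) {0}).prod ((V {0}).prod (V {0})))))))).inj f hf
      (fun n hn => ?_) hw).mono (le_of_eq ?_),
      ((((hT.union hB).prod ((Y 0).prod ((Y' {0}).prod (Z.prod ((sm_fin (p1 _) {0}).prod
      ((V {1, 2}).prod (V {0}))))))).union (hA.prod (((Y 0).prod ((Y' {0, 1}).prod (Z.prod
      ((sm_fin (p1 _) {0}).prod ((V {1, 2}).prod (V {0})))))).union ((Y' {0}).prod ((Y' {0}).prod
      (Z.prod ((sm_fin (p1 _) {0}).prod ((V {0, 1}).prod (V {1}))))))))).inj f hf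
      (fun n hn => ?_) hw).mono (le_of_eq ?_)⟩
    · have h1 := hD n hn.1
      have h2 : ¬ al g n K := fun h => hn.2 (h.imp_right fun ⟨l, hl, h⟩ => ⟨l, by omega, h⟩)
      have h3 : ∀ κ δ, κ ≠ some false → n (κ, K, δ) = 0 := fun κ δ e => by_contra fun e' =>
        hn.2 (.inr ⟨K, K.lt_succ_self, κ, δ, e, e'⟩)
      refine ⟨⟨h1.1, mt h1.2.1.1 h2⟩, ?_⟩
      simp [f, h3, hn.1.1.we]
    · simp only [st, sum_singleton, pow_zero, sum_pair zero_ne_one, pow_one]
      field_simp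
      try ring
    · have h1 := hD n hn.1
      have h2 : ∀ δ, n (none, K, δ) = 0 := fun δ => by_contra fun e => hn.2.2 (.inr ⟨K, δ, rfl, e⟩)
      by_cases h3 : blk g n K
      · refine .inr ⟨⟨h1.1, h1.2.2.2 h3⟩, ?_⟩
        simp [f, h2, hb n hn.1 (.inr h3)]
      by_cases h4 : al g n K
      · refine .inl (.inr ⟨⟨h1.1, h1.2.1.2 h4, mt h1.2.2.1 h3⟩, ?_⟩)
        simpa [f, h2, hn.1.1.we, Nat.le_one_iff_eq_zero_or_eq_one] using hn.1.1.le1 (some true) K
      · refine .inl (.inl ⟨⟨h1.1, mt h1.2.1.1 h4⟩, ?_⟩)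
        obtain h | ⟨l, hl, κ, δ, h5, h6⟩ := hn.2.1
        · exact absurd (.inl h) h4
        obtain rfl : l = K := by_contra fun e => h4 (.inr ⟨l, by omega, κ, δ, h5, h6⟩)
        have := hb n hn.1 (.inl h4)
        rcases κ with _ | _ | _ <;> cases δ <;> simp_all [f, Nat.one_le_iff_ne_zero]
    · simp only [st, sum_singleton, pow_zero, sum_pair zero_ne_one, pow_one]
      field_simp
      try ring
    · have h1 := hD n hn.1
      have h2 : n (none, K, false) + n (none, K, true) ≠ 0 := by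
        obtain h | ⟨l, δ, h, h'⟩ := hn.2
        · simp at h
        · obtain rfl : l = K := by omega
          cases δ <;> omega
      have h5 := hn.1.1.le2 K
      by_cases h3 : ¬ al g n K ∨ blk g n K
      · have := hb n hn.1 h3
        refine .inl ⟨h3.imp (fun h => ⟨h1.1, mt h1.2.1.1 h⟩) fun h => ⟨h1.1, h1.2.2.2 h⟩, ?_⟩
        simp only [this] at h2 h5
        simp [f, this]
        omega
      · rw [not_or, not_not] at h3
        refine .inr ⟨⟨h1.1, h1.2.1.2 h3.1, mt h1.2.2.1 h3.2⟩, ?_⟩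
        have h6 := hn.1.1.le1 none K
        have h7 := hn.1.1.le1 (some true) K
        by_cases h8 : n (none, K, true) = 0
        · left; simp [f, hn.1.1.we]; omega
        · right; simp [f, hn.1.1.we, hn.1.1.v K h8]; omega
    · simp only [st, sum_singleton, pow_zero, sum_pair zero_ne_one, pow_one,
        sum_pair (show (1 : ℕ) ≠ 2 by norm_num)]
      field_simp
      ring

theorem sm_DD (g : Bool) (K : ℕ) :
    Sm (DD g (K + 6)) (fun n => (1 / 2) ^ wt (K + 6) n) (if g then 76 / 5 else 15) := by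
  have h1 : ∀ K, Sm (DD g K) (fun n => (1 / 2) ^ wt K n) ((st g K).1 + (st g K).2.1 + (st g K).2.2) :=
    fun K => (((sm_st g K).1.union (sm_st g K).2.1).union (sm_st g K).2.2).inj id
      Function.injective_id (fun n hn => by
        by_cases h1 : blk g n K
        · exact .inr ⟨hn, h1⟩
        · exact .inl ((em (al g n K)).symm.imp (⟨hn, ·⟩) (⟨hn, ·, h1⟩)))
      fun _ => rfl
  have h0 : (0 : ℚ) ≤ if g then 76 / 5 else 15 := by split_ifs <;> norm_num
  have h2 : (st g (K + 6)).1 + (st g (K + 6)).2.1 + (st g (K + 6)).2.2 ≤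
      (if g then 76 / 5 else 15) * (1 - 2 * (1 / 2) ^ (K + 6)) := by
    induction K with
    | zero => cases g <;> norm_num [st]
    | succ K ih =>
      have e1 := (sm_st g (K + 6)).1.nonneg
      have e2 := (sm_st g (K + 6)).2.1.nonneg
      have e3 := (sm_st g (K + 6)).2.2.nonneg
      have e4 : (1 / 2 : ℚ) ^ (K + 6) ≤ 1 / 2 :=
        pow_le_of_le_one (by norm_num) (by norm_num) (Nat.succ_ne_zero _)
      have e5 : (0 : ℚ) < (1 / 2) ^ (K + 6) := by positivity
      rw [add_right_comm, st]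
      simp only [pow_succ _ (K + 6), pow_succ _ (2 * (K + 6) + 1), pow_succ _ (2 * (K + 6)), pow_mul']
      generalize (1 / 2 : ℚ) ^ (K + 6) = s at *
      generalize st g (K + 6) = r at *
      generalize (if g then 76 / 5 else 15 : ℚ) = c at *
      have e6 : 0 < 1 - s ^ 2 * (1 / 2) := by nlinarith
      have e7 : 0 < 1 - s ^ 2 * (1 / 2) * (1 / 2) := by nlinarith
      rw [← add_div, ← add_div, div_le_iff₀ e7, add_assoc, ← add_div, add_div' _ _ _ e6.ne',
        div_le_iff₀ e6]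
      have e8 := mul_le_mul_of_nonneg_right ih (show 0 ≤ 1 + s + s ^ 2 by positivity)
      have e9 : (1 - 2 * s) * (1 + s + s ^ 2) ≤
          (1 - s) * (1 - s ^ 2 * (1 / 2) * (1 / 2)) * (1 - s ^ 2 * (1 / 2)) := by
        nlinarith [pow_pos e5 2, pow_pos e5 3, pow_pos e5 4, pow_pos e5 5]
      nlinarith [mul_le_mul_of_nonneg_left e9 h0, mul_nonneg e1 e5.le, mul_nonneg e3 e5.le,
        mul_nonneg e1 (pow_pos e5 2).le, mul_nonneg e3 (pow_pos e5 2).le]
  exact (h1 _).mono (h2.trans (mul_le_of_le_one_right h0 (sub_le_self _ (by positivity))))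

theorem card_le_of_sm {Y D : Type*} [Finite Y] {S : Set D} {w : D → ℕ} {A : ℚ}
    (h : Sm S (fun d => (1 / 2) ^ w d) A) (φ : Y → D) (hφ : ∀ y, φ y ∈ S) {q n : ℕ} (hq : 2 ≤ q)
    (hw : ∀ y, w (φ y) ≤ n) (hf : ∀ y, Nat.card {y' // φ y' = φ y} ≤ q ^ (n - w (φ y))) :
    (Nat.card Y : ℚ) ≤ A * q ^ n := by
  classical
  haveI := Fintype.ofFinite Y
  rw [Nat.card_eq_fintype_card, ← card_univ, card_eq_sum_card_image φ, Nat.cast_sum]
  refine le_trans (sum_le_sum fun d hd => ?_) ((sum_mul _ _ _).ge.trans (mul_le_mul_of_nonneg_right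
    (h.2 _ (by simpa [Set.range_subset_iff] using hφ)) (by positivity)))
  obtain ⟨y, -, rfl⟩ := mem_image.1 hd
  have := hf y
  rw [Nat.card_eq_fintype_card, Fintype.card_subtype] at this
  refine (Nat.cast_le.2 this).trans ?_
  obtain ⟨m, rfl⟩ := Nat.exists_eq_add_of_le (hw y)
  rw [Nat.add_sub_cancel_left, pow_add, ← mul_assoc, ← mul_pow, Nat.cast_pow]
  refine le_mul_of_one_le_left (by positivity) (one_le_pow₀ ?_)
  linarith [show (2 : ℚ) ≤ q by exact_mod_cast hq]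

end Cfsg.Agent.H29
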