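import Cfsg.Agent.H29.C2Ty

/-! The indecomposable pieces of unipotent isometries in characteristic two. -/

set_option autoImplicit false

namespace Cfsg.Agent.H29

open Module Finset

variable {F V : Type*} [Field F] [AddCommGroup V] [Module F V]

/-- types of pieces: `some true` two chains of length `2 k + 1`, `some false` two chains of length
`2 k + 2`, `none` one chain of length `2 k + 2`; the last entry is the Arf invariant -/
abbrev Pc : Type := Option Bool × ℕ × Bool

/-- the length of the chains minus one -/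
def tp (p : Pc) : ℕ := if p.1 = some true then 2 * p.2.1 else 2 * p.2.1 + 1

/-- half the dimension -/
def hd (p : Pc) : ℕ := if p.1 = none then p.2.1 + 1 else tp p + 1

/-- the values of the quadratic form -/
def qv (α : F) (p : Pc) (b : Bool) (j : ℕ) : F :=
  if p.1 = none ∧ b = false ∧ j = p.2.1 + 1 then 1
  else if j = p.2.1 ∧ p.2.2 then (if p.1 = none then (if b then 0 else α) else if b then α else 1)
  else 0

/-- generators of a piece -/
structure Gen (β : LinearMap.BilinForm F V) (Q : V → F) (t : End F V) (α : F) (p : Pc)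
    (x : Bool → V) : Prop where
  nil : ∀ b, (t ^ (tp p + 1)) (x b) = 0
  q : ∀ b j, Q ((t ^ j) (x b)) = qv α p b j
  c : ∀ j, β ((t ^ j) (x false)) (x true) = if p.1 ≠ none ∧ j = tp p then 1 else 0
  z : p.1 = none → x true = 0
  we : p.1 = some false → p.2.2 = false

/-- the span of a piece -/
def PS (t : End F V) (x : Bool → V) : Submodule F V :=
  Submodule.span F (Set.range fun r : Bool × ℕ => (t ^ r.2) (x r.1))

variable {β : LinearMap.BilinForm F V} {Q : V → F} {t : End F V} {α : F} {W : Submodule F V}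
  {p : Pc} {x : Bool → V}

theorem mem_PS (b : Bool) (j : ℕ) : (t ^ j) (x b) ∈ PS t x := Submodule.subset_span ⟨(b, j), rfl⟩

theorem PS_le (hW : ∀ x ∈ W, t x ∈ W) (h : ∀ b, x b ∈ W) : PS t x ≤ W := Submodule.span_le.2 (by
  rintro _ ⟨r, rfl⟩; exact End.pow_apply_mem_of_forall_mem _ hW _ (h _))

theorem Gen.alt (h : C2 β Q t) (g : Gen β Q t α p x) (hp : p.1 ≠ none) (b : Bool) :
    β ((t ^ tp p) (x b)) (x b) = 0 := by
  obtain ⟨_ | _ | _, k, δ⟩ := p
  · exact absurd rfl hp
  · exact (h.Q_top (g.nil b)).symm.trans ((g.q b _).trans (by simp [qv]))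
  · exact h.top_odd (g.nil b)

theorem Gen.ty [Fintype F] [Fintype V] (h : C2 β Q t) (g : Gen β Q t α p x) :
    Ty β Q (PS t x) (hd p) (if p.2.2 then α else 0) := by
  by_cases hp : p.1 = none
  · obtain ⟨κ, k, δ⟩ := p
    obtain rfl : κ = none := hp
    have := Ty.anti h.toQ2 k (fun l => (t ^ l) (x false)) (fun i _ j _ hij => by
      split_ifs with e
      · rw [h.top (g.nil _) _ e, show tp _ = 2 * k + 1 from rfl, ← h.Q_top (g.nil _), g.q]; simp [qv]
      · exact h.lvl (g.nil _) _ (show 2 * k + 1 + 1 ≤ _ by omega))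
      fun l _ hl => (g.q _ _).trans (by rw [qv, if_neg (by simp; omega), if_neg (by simp; omega)])
    convert this using 1
    · refine le_antisymm (Submodule.span_le.2 ?_) (Submodule.span_le.2 ?_)
      · rintro _ ⟨⟨_ | _, j⟩, rfl⟩
        · rcases lt_or_ge j (2 * k + 2) with hj | hj
          exacts [Submodule.subset_span ⟨j, hj, rfl⟩, by simp [nil_le (g.nil false) hj]]
        · simp [g.z rfl]
      · rintro _ ⟨l, -, rfl⟩; exact mem_PS _ _
    · rfl
    · simp [g.q, qv]
  have h1 : β ((t ^ tp p) (x false)) (x true) = 1 := by simp [g.c, hp]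
  have := Ty.anti h.toQ2 (tp p) (fun l => (t ^ (l / 2)) (x (l % 2 = 1))) (fun i _ j _ hij => by
    rcases (show tp p ≤ i / 2 + j / 2 by omega).eq_or_lt with e | e
    · rw [h.top (g.nil _) _ e.symm]
      rcases Nat.mod_two_eq_zero_or_one i with hi | hi <;>
        rcases Nat.mod_two_eq_zero_or_one j with hj | hj <;> simp only [hi, hj]
      · omega
      · exact h1.trans (if_pos (by omega)).symm
      · exact (h.top_symm (g.nil _) _).trans (h1.trans (if_pos (by omega)).symm)
      · exact (g.alt h hp _).trans (if_neg (by omega)).symm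
    · rw [h.lvl (g.nil _) _ e, if_neg (by omega)])
    fun l _ hl => h.Q_hi' (g.nil _) (g.alt h hp _) (by omega)
  convert this using 1
  · refine le_antisymm (Submodule.span_le.2 ?_) (Submodule.span_le.2 ?_)
    · rintro _ ⟨⟨b, j⟩, rfl⟩
      rcases lt_or_ge j (tp p + 1) with hj | hj
      · refine Submodule.subset_span ⟨2 * j + b.toNat, ?_, ?_⟩ <;> cases b <;> simp <;> try omega
        rw [show (2 * j + 1) / 2 = j by omega]
      · simp [nil_le (g.nil b) hj]
    · rintro _ ⟨l, -, rfl⟩; exact mem_PS _ _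
  · exact if_neg hp
  · obtain ⟨_ | _ | _, k, δ⟩ := p
    · exact absurd rfl hp
    · simp [g.q, qv, show δ = false from g.we rfl]
    · cases δ <;> simp [g.q, qv, tp, show (2 * k + 1) / 2 = k by omega]

theorem Gen.ne (h : C2 β Q t) (g : Gen β Q t α p x) : (t ^ tp p) (x false) ≠ 0 := fun h0 => by
  by_cases hp : p.1 = none
  · obtain ⟨κ, k, δ⟩ := p
    obtain rfl : κ = none := hp
    simpa [g.q, qv, show (t ^ (2 * k + 1)) (x false) = 0 from h0] using h.Q_top (g.nil false)
  · simpa [h0, hp] using g.c (tp p)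

theorem Gen.wit (h : C2 β Q t) (g : Gen β Q t α p x) {k : ℕ}
    (hp : p.1 = some true ∧ p.2.1 = k ∨ p.1 = none ∧ (p.2.1 = k ∨ p.2.1 + 1 = k)) :
    ∃ y ∈ PS t x, (t ^ (2 * k + 1)) y = 0 ∧ Q ((t ^ k) y) ≠ 0 := by
  obtain ⟨κ, k', δ⟩ := p
  rcases hp with ⟨rfl, rfl⟩ | ⟨rfl, rfl | rfl⟩
  · cases δ
    · refine ⟨x false + x true, add_mem (mem_PS false 0) (mem_PS true 0),
        by rw [map_add]; exact (congrArg₂ _ (g.nil _) (g.nil _)).trans (add_zero _), ?_⟩
      rw [map_add, h.add, h.top (g.nil _) _ (two_mul _).symm, g.q, g.q, g.c]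
      simp [qv]
    · exact ⟨_, mem_PS false 0, g.nil _, by simp [g.q, qv]⟩
  · refine ⟨_, mem_PS false 1, ?_, ?_⟩ <;> rw [← pow_add_apply]
    exacts [g.nil _, by simp [g.q, qv]]
  · exact ⟨_, mem_PS false 0, nil_le (g.nil _) (by simp [tp, mul_add]), by simp [g.q, qv]⟩

variable [Finite F] (h : C2 β Q t) (hW : ∀ x ∈ W, t x ∈ W)
include h hW

theorem exists_genV (hα : psi α = -1) {k : ℕ} {y : V} (hy : y ∈ W)
    (h0 : (t ^ (2 * k + 1 + 1)) y = 0) (h1 : Q ((t ^ (k + 1)) y) ≠ 0) :
    ∃ δ x, (∀ b, x b ∈ W) ∧ Gen β Q t α (none, k, δ) x ∧ (Q ((t ^ k) y) = 0 → δ = false) := by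
  obtain ⟨c, hc⟩ := H27.exists_sq_eq_of_two_eq_zero h.two (Q ((t ^ (k + 1)) y))⁻¹
  have h2 : Q ((t ^ (k + 1)) (c • y)) = 1 := by rw [map_smul, h.smul, ← hc, inv_mul_cancel₀ h1]
  have h3 : Q ((t ^ k) y) = 0 → Q ((t ^ k) (c • y)) = 0 := fun e => by simp [h.smul, e]
  replace h0 : (t ^ (2 * k + 1 + 1)) (c • y) = 0 := by simp [h0]
  replace hy := W.smul_mem c hy
  generalize c • y = z at h0 h2 h3 hy
  obtain ⟨δ, r, h4, h5⟩ : ∃ (δ : Bool) (r : F), r ^ 2 + r = Q ((t ^ k) z) + (if δ then α else 0) ∧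
      (Q ((t ^ k) z) = 0 → δ = false) := by
    rcases psi_or (Q ((t ^ k) z)) with e | e
    · exact ⟨false, by simpa using psi_eq_one.1 e⟩
    · obtain ⟨r, hr⟩ := (psi_eq_one (c := Q ((t ^ k) z) + α)).1 (by rw [psi_add h.two, e, hα]; rfl)
      exact ⟨true, r, hr, fun e' => by simp [e', psi_zero] at e⟩
  have h6 : ∀ j, k < j → Q ((t ^ j) (z + r • (t ^ 1) z)) = Q ((t ^ j) z) := fun j hj => by
    rw [h.step, h.Q_hi h0 (l := j + 1) (by omega), h.lvl h0 _ (by omega)]; ring
  obtain ⟨w, hw, h7, h8⟩ := h.adjV hW (C2.add_mem' hW hy hy r 1)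
    ((C2.pow_step h0 (by omega) _).trans h0) ((h6 _ (by omega)).trans h2)
  refine ⟨δ, fun b => if b then 0 else w, fun b => by cases b <;> simp [hw], ⟨fun b => ?_,
    fun b j => ?_, by simp, by simp, by simp⟩, fun e => h5 (h3 e)⟩ <;> cases b
  · exact h7
  · simp
  · simp only [Bool.false_eq_true, if_false, h8, qv, true_and, if_true]
    rcases lt_trichotomy j k with hj | rfl | hj
    · rw [if_pos hj, if_neg (by omega), if_neg (by omega)]
    · rw [if_neg (by omega), if_neg (by omega), h.step, h.top h0 _ (by omega), ← h.Q_top h0, h2]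
      simp only [true_and]
      linear_combination h4 + Q ((t ^ j) z) * h.two
    · rw [if_neg (by omega), h6 j hj]
      split_ifs with e e'
      exacts [e ▸ h2, by omega, h.Q_hi h0 (by omega)]
  · simp [qv, h.zero]

omit [Finite F] in
theorem exists_genW {κ δ : Bool} {k : ℕ} {y z : V} (hy : y ∈ W) (hz : z ∈ W)
    (y0 : (t ^ (tp (some κ, k, δ) + 1)) y = 0) (z0 : (t ^ (tp (some κ, k, δ) + 1)) z = 0)
    (h1 : β ((t ^ tp (some κ, k, δ)) y) z = 1) (y1 : β ((t ^ tp (some κ, k, δ)) y) y = 0)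
    (z1 : β ((t ^ tp (some κ, k, δ)) z) z = 0) (h2 : κ = false → δ = false)
    (y2 : κ = true → Q ((t ^ k) y) = if δ then 1 else 0)
    (z2 : κ = true → Q ((t ^ k) z) = if δ then α else 0) :
    ∃ x, (∀ b, x b ∈ W) ∧ Gen β Q t α (some κ, k, δ) x := by
  obtain ⟨y', hy', y0', y1', h3, h4⟩ := h.adjW hW hz hy z0 y0 ((h.top_symm y0 _).trans h1) z1 y1
  obtain ⟨z', hz', z0', z1', h5, h6⟩ := h.adjW hW hy' hz y0' z0
    ((h.top_symm z0 _).trans ((h3 _).trans (if_pos rfl))) y1' z1
  have key : ∀ {a a' : V} {c : F}, (t ^ (tp (some κ, k, δ) + 1)) a = 0 →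
      β ((t ^ tp (some κ, k, δ)) a) a = 0 → (κ = true → Q ((t ^ k) a) = if δ then c else 0) →
      (∀ j, Q ((t ^ j) a') = if 2 * j < tp (some κ, k, δ) then 0 else Q ((t ^ j) a)) →
      ∀ j, Q ((t ^ j) a') = if j = k ∧ δ then c else 0 := fun a0 a1 a2 a3 j => by
    rw [a3]
    rcases lt_trichotomy (2 * j) (tp (some κ, k, δ)) with e | e | e
    · rw [if_pos e, if_neg]
      cases κ <;> simp_all [tp]; omega
    · cases κ <;> simp only [tp] at e <;> simp at e
      · omega
      · subst e; simp [tp, a2]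
    · rw [if_neg (by omega), h.Q_hi' a0 a1 e, if_neg]
      cases κ <;> simp_all [tp]; omega
  refine ⟨fun b => if b then z' else y', fun b => by cases b <;> assumption,
    fun b => by cases b <;> assumption, fun b j => ?_, by simpa using h5, by simp, by simpa using h2⟩
  cases b
  exacts [(key y0 y1 y2 h4 j).trans (by simp [qv]), (key z0 z1 z2 h6 j).trans (by simp [qv])]

end Cfsg.Agent.H29
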