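import Cfsg.Agent.H29.C2Basic
import Cfsg.Agent.H27.QuadClass

/-! The Gauss sum (Arf invariant) of a quadratic form over a finite field of characteristic two. -/

set_option autoImplicit false

namespace Cfsg.Agent.H29

open Module Finset

variable {F V V' : Type*} [Field F] [AddCommGroup V] [Module F V] [AddCommGroup V'] [Module F V']

open Classical in
/-- the additive character with kernel `{r ^ 2 + r}` -/
noncomputable def psi (c : F) : ℤ := if ∃ r, r ^ 2 + r = c then 1 else -1

theorem psi_eq_one {c : F} : psi c = 1 ↔ ∃ r, r ^ 2 + r = c := by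
  unfold psi; split_ifs with h <;> simp [h]

theorem psi_or (c : F) : psi c = 1 ∨ psi c = -1 := by unfold psi; split_ifs <;> simp

theorem psi_zero : psi (0 : F) = 1 := psi_eq_one.2 ⟨0, by simp⟩

theorem exists_psi [Finite F] : ∃ α : F, psi α = -1 := by
  have : ¬ Function.Surjective fun r : F => r ^ 2 + r := fun h => by
    simpa using Finite.injective_iff_surjective.2 h (a₁ := 0) (a₂ := -1) (by simp)
  obtain ⟨b, hb⟩ := not_forall.1 this
  exact ⟨b, if_neg hb⟩

theorem psi_add [Finite F] (h2 : (2 : F) = 0) (a b : F) : psi (a + b) = psi a * psi b := by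
  have key : ∀ a b : F, (∃ r, r ^ 2 + r = a) → psi (a + b) = psi b := by
    rintro _ b ⟨r, rfl⟩
    unfold psi
    congr 1
    exact propext ⟨fun ⟨s, hs⟩ => ⟨s + r, by linear_combination hs + (s * r + r ^ 2 + r) * h2⟩,
      fun ⟨s, hs⟩ => ⟨s + r, by linear_combination hs + (s * r) * h2⟩⟩
  by_cases ha : ∃ r, r ^ 2 + r = a
  · rw [key a b ha, psi_eq_one.2 ha, one_mul]
  by_cases hb : ∃ r, r ^ 2 + r = b
  · rw [add_comm, key b a hb, psi_eq_one.2 hb, mul_one]
  rw [show psi a = -1 from if_neg ha, show psi b = -1 from if_neg hb]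
  simpa [psi_eq_one] using H27.exists_sq_add_mul_eq_add h2 (a := 1)
    (by simpa using ha) (by simpa using hb)

theorem psi_sq [Finite F] (h2 : (2 : F) = 0) (c : F) : psi (c ^ 2) = psi c := by
  rw [show c ^ 2 = c ^ 2 + c + c by linear_combination -c * h2, psi_add h2,
    psi_eq_one.2 ⟨c, rfl⟩, one_mul]

theorem sum_psi [Fintype F] (h2 : (2 : F) = 0) {b : F} (hb : b ≠ 0) : ∑ c, psi (c * b) = 0 := by
  obtain ⟨α, hα⟩ := exists_psi (F := F)
  have := Equiv.sum_comp (Equiv.addRight (α / b)) fun c => psi (c * b)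
  simp only [Equiv.coe_addRight, add_mul, div_mul_cancel₀ _ hb, psi_add h2, hα, mul_neg_one,
    sum_neg_distrib] at this
  omega

theorem sq_bij [Finite F] (h2 : (2 : F) = 0) : Function.Bijective fun c : F => c ^ 2 :=
  Finite.surjective_iff_bijective.1 fun a => (H27.exists_sq_eq_of_two_eq_zero h2 a).imp fun _ => .symm

theorem sum_plane [Fintype F] (h2 : (2 : F) = 0) (A B : F) :
    ∑ s, ∑ r, psi (s ^ 2 * A + r ^ 2 * B + s * r) = Fintype.card F * psi (A * B) := by
  obtain ⟨b, rfl⟩ := (sq_bij h2).2 B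
  rw [sum_eq_single b (fun s _ hs => ?_) (by simp)]
  · rw [sum_congr rfl (g := fun _ => psi (A * b ^ 2)) fun r _ => by
      rw [add_assoc, psi_add h2, (psi_eq_one (c := r ^ 2 * b ^ 2 + b * r)).2 ⟨b * r, by ring⟩,
        mul_one, mul_comm]]
    simp
  · rw [sum_congr rfl (g := fun r => psi (s ^ 2 * A) * psi (r * (b + s))) fun r _ => by
      rw [add_assoc, psi_add h2, psi_add h2, ← mul_pow, psi_sq h2, ← psi_add h2]; ring_nf,
      ← mul_sum, sum_psi h2 fun h => hs (by linear_combination h - b * h2), mul_zero]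

open Classical in
/-- the Gauss sum of `Q` on `W` -/
noncomputable def gs [Fintype V] (Q : V → F) (W : Submodule F V) : ℤ :=
  ∑ x ∈ univ.filter (· ∈ W), psi (Q x)

variable [Fintype F] [Fintype V] {β : LinearMap.BilinForm F V} {Q : V → F} {W W' : Submodule F V}

/-- `W` is non-degenerate of dimension `2 m` with Arf invariant `δ` -/
structure Ty (β : LinearMap.BilinForm F V) (Q : V → F) (W : Submodule F V) (m : ℕ) (δ : F) :
    Prop where
  nd : ∀ x ∈ W, (∀ y ∈ W, β x y = 0) → x = 0
  dim : finrank F W = 2 * m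
  gs : gs Q W = Fintype.card F ^ m * psi δ

theorem gs_range {U : Type*} [Fintype U] {f : U → V} (hf : Function.Injective f)
    (h : ∀ x, x ∈ W ↔ x ∈ Set.range f) : gs Q W = ∑ u, psi (Q (f u)) := by
  classical
  rw [gs, ← sum_image (f := fun x => psi (Q x)) hf.injOn]
  congr 1
  ext x
  simp [h]

theorem gs_sup (h : Q2 β Q) (hd : Disjoint W W') (ho : ∀ x ∈ W, ∀ y ∈ W', β x y = 0) :
    gs Q (W ⊔ W') = gs Q W * gs Q W' := by
  classical
  rw [gs_range (f := fun p : W × W' => p.1.1 + p.2.1) ?_ fun x => by simp [Submodule.mem_sup],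
    gs_range (W := W) (f := ((↑) : W → V)) Subtype.val_injective (by simp),
    gs_range (W := W') (f := ((↑) : W' → V)) Subtype.val_injective (by simp), sum_mul_sum, Fintype.sum_prod_type]
  · exact sum_congr rfl fun x _ => sum_congr rfl fun y _ => by
      rw [h.add, ho _ x.2 _ y.2, add_zero, psi_add h.two]
  · refine (injective_iff_map_eq_zero (W.subtype.coprod W'.subtype)).2 fun p hp => ?_
    have h1 : p.1.1 = -p.2.1 := eq_neg_of_add_eq_zero_left hp
    have := Submodule.disjoint_def.1 hd _ p.1.2 (h1 ▸ neg_mem p.2.2)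
    exact Prod.ext (Subtype.ext this) (Subtype.ext (neg_eq_zero.1 (h1 ▸ this)))

theorem Ty.bot (h : Q2 β Q) : Ty β Q ⊥ 0 0 :=
  ⟨fun _ h _ => h, by simp, by
    rw [gs_range (f := fun _ : Unit => (0 : V)) (fun _ _ _ => rfl) (by simp [eq_comm])]
    simp [h.zero]⟩

theorem Ty.sup (h : Q2 β Q) {m m' : ℕ} {δ δ' : F} (h1 : Ty β Q W m δ) (h2 : Ty β Q W' m' δ')
    (ho : ∀ x ∈ W, ∀ y ∈ W', β x y = 0) : Ty β Q (W ⊔ W') (m + m') (δ + δ') := by
  have hd : Disjoint W W' := Submodule.disjoint_def.2 fun x hx hx' =>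
    h1.nd x hx fun y hy => (h.symm _ _).trans (ho y hy x hx')
  refine ⟨fun x hx h3 => ?_, ?_, by rw [gs_sup h hd ho, h1.gs, h2.gs, psi_add h.two]; ring⟩
  · obtain ⟨a, ha, b, hb, rfl⟩ := Submodule.mem_sup.1 hx
    rw [h1.nd a ha fun y hy => by
      simpa [(h.symm _ _).trans (ho y hy b hb)] using h3 y (Submodule.mem_sup_left hy),
      h2.nd b hb fun y hy => by simpa [ho a ha y hy] using h3 y (Submodule.mem_sup_right hy), add_zero]
  · have := Submodule.finrank_sup_add_finrank_inf_eq W W'
    rw [hd.eq_bot, finrank_bot, h1.dim, h2.dim] at this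
    omega

theorem Ty.plane (h : Q2 β Q) {e f : V} (h1 : β e f = 1) :
    Ty β Q (Submodule.span F {e, f}) 1 (Q e * Q f) := by
  have h3 : ∀ s r : F, (∀ y ∈ Submodule.span F {e, f}, β (s • e + r • f) y = 0) → s = 0 ∧ r = 0 :=
    fun s r h3 => ⟨by simpa [h1, h.self] using h3 f (Submodule.subset_span (by simp)),
      by simpa [h1, h.self, h.symm e f] using h3 e (Submodule.subset_span (by simp))⟩
  have h4 : LinearIndependent F ![e, f] := LinearIndependent.pair_iff.2 fun s r h => h3 s r (by simp [h])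
  refine ⟨fun x hx h4 => ?_, ?_, ?_⟩
  · obtain ⟨s, r, rfl⟩ := Submodule.mem_span_pair.1 hx
    simp [h3 s r h4]
  · have := finrank_span_eq_card h4
    rwa [Matrix.range_cons_cons_empty] at this
  · rw [gs_range (f := fun p : F × F => p.1 • e + p.2 • f) (fun p p' e =>
      Prod.ext_iff.2 (h4.eq_of_pair e)) fun x => by simp [Submodule.mem_span_pair],
      Fintype.sum_prod_type, pow_one, ← sum_plane h.two]
    simp [h.add, h.smul, h1, mul_comm]

/-- families with an anti-triangular Gram matrix -/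
theorem Ty.anti (h : Q2 β Q) (k : ℕ) (v : ℕ → V)
    (h1 : ∀ i < 2 * k + 2, ∀ j < 2 * k + 2, 2 * k + 1 ≤ i + j →
      β (v i) (v j) = if i + j = 2 * k + 1 then 1 else 0)
    (h3 : ∀ l < 2 * k + 2, k + 1 < l → Q (v l) = 0) :
    Ty β Q (Submodule.span F (v '' Set.Iio (2 * k + 2))) (k + 1) (Q (v k) * Q (v (k + 1))) := by
  induction k generalizing v with
  | zero =>
    rw [show Set.Iio (2 * 0 + 2) = {0, 1} by ext; simp; omega, Set.image_pair]
    exact .plane h (by simpa using h1 0 (by omega) 1 (by omega))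
  | succ k ih =>
    have e0 : ∀ i, 0 < i → i < 2 * k + 4 → β (v i) (v (2 * k + 3)) = 0 := fun i h4 h5 =>
      (h1 i (by omega) _ (by omega) (by omega)).trans (if_neg (by omega))
    have e1 : β (v 0) (v (2 * k + 3)) = 1 :=
      (h1 0 (by omega) _ (by omega) (by omega)).trans (if_pos (by omega))
    have e2 := h3 (2 * k + 3) (by omega) (by omega)
    let w (l : ℕ) := v (l + 1) + β (v 0) (v (l + 1)) • v (2 * k + 3)
    have e3 : ∀ l < 2 * k + 2, Q (w l) = Q (v (l + 1)) := fun l hl => by
      simp [w, h.add, h.smul, e2, e0 (l + 1) (by omega) (by omega)]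
    have h4 := (Ty.plane h e1).sup h (ih w (fun i hi j hj hij => by
      simp only [w, map_add, map_smul, LinearMap.add_apply, LinearMap.smul_apply, h.self,
        e0 (i + 1) (by omega) (by omega), h.symm (v (j + 1)), e0 (j + 1) (by omega) (by omega),
        smul_zero, add_zero]
      rw [h.symm, h1 _ (by omega) _ (by omega) (by omega)]
      exact if_congr (by omega) rfl rfl) fun l hl h4 => (e3 l hl).trans (h3 _ (by omega) (by omega)))
      fun x hx y hy => by
        refine (Submodule.span_le.2 ?_ : _ ≤ LinearMap.ker (β.flip y)) hx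
        have : ∀ z, (∀ l < 2 * k + 2, β z (w l) = 0) → β z y = 0 := fun z hz =>
          (Submodule.span_le.2 (by rintro _ ⟨l, hl, rfl⟩; exact hz l hl) : _ ≤ LinearMap.ker (β z)) hy
        rintro _ (rfl | rfl)
        · exact this _ fun l _ => by simp [w, e1, ← two_mul, h.two]
        · exact this _ fun l hl => by
            simp [w, h.self, h.symm (v (l + 1)), e0 (l + 1) (by omega) (by omega)]
    rw [e2, mul_zero, zero_add, add_comm 1, e3 _ (by omega), e3 _ (by omega)] at h4
    convert h4 using 1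
    have m0 : ∀ l < 2 * k + 4, v l ∈ Submodule.span F (v '' Set.Iio (2 * (k + 1) + 2)) :=
      fun l hl => Submodule.subset_span ⟨l, hl, rfl⟩
    refine le_antisymm (Submodule.span_le.2 ?_) (sup_le (Submodule.span_le.2 ?_) (Submodule.span_le.2 ?_))
    · rintro _ ⟨l, hl, rfl⟩
      have m1 : v (2 * k + 3) ∈ Submodule.span F {v 0, v (2 * k + 3)} := Submodule.subset_span (by simp)
      rcases l with _ | l
      · exact Submodule.mem_sup_left (Submodule.subset_span (by simp))
      rcases (show l ≤ 2 * k + 2 by simp at hl; omega).eq_or_lt with rfl | hl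
      · exact Submodule.mem_sup_left m1
      · rw [show v (l + 1) = w l - _ from (add_sub_cancel_right _ _).symm]
        exact sub_mem (Submodule.mem_sup_right (Submodule.subset_span ⟨l, hl, rfl⟩))
          (Submodule.mem_sup_left (Submodule.smul_mem _ _ m1))
    · rintro _ (rfl | rfl) <;> exact m0 _ (by omega)
    · rintro _ ⟨l, hl, rfl⟩
      exact add_mem (m0 _ (by simp at hl; omega)) (Submodule.smul_mem _ _ (m0 _ (by omega)))

end Cfsg.Agent.H29
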