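import Mathlib
import Cfsg.Agent.S4160

set_option autoImplicit false

namespace Cfsg.Agent.H29.Cls

open Subgroup Cfsg Cfsg.Agent.H83

variable {G : Type*} [Group G]

theorem cs_one : cs((1 : G)) = 1 := by
  rw [index_eq_one, eq_top_iff]
  intro x _
  rw [mem_centralizer_singleton_iff]
  simp

/-- If `G` is not `p`-nilpotent, at least half of the elements have class size divisible by `p`. -/
theorem half [Finite G] {p : ℕ} (hp : p.Prime) (h : ¬ HasNormalPComplement p G) :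
    Nat.card G ≤ 2 * Set.ncard {x : G | p ∣ cs(x)} := by
  have := Fact.mk hp
  obtain ⟨P⟩ : Nonempty (Sylow p G) := inferInstance
  have h1 := S4160.two_mul_le P h
  have h3 : (Set.univ : Set G) ⊆ insert 1
      ({x : G | x ≠ 1 ∧ ∃ g : G, g * x * g⁻¹ ∈ centralizer ((P : Subgroup G) : Set G)} ∪
      {x : G | p ∣ cs(x)}) := by
    intro x _
    by_cases hx : x = 1
    · exact Or.inl hx
    · right
      by_cases hd : p ∣ cs(x)
      · exact Or.inr hd
      · exact Or.inl ⟨hx, H8.exists_conj_mem_cent_sylow P hd⟩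
  have h4 := (Set.ncard_le_ncard h3).trans
    ((Set.ncard_insert_le _ _).trans (Nat.add_le_add_right (Set.ncard_union_le _ _) 1))
  rw [Set.ncard_univ] at h4
  omega

/-- Double counting of pairs (prime, element) with the prime dividing the class size. -/
theorem sum_le [Finite G] (σ : ℕ) (hσ : ∀ x : G, (cs(x)).primeFactors.card ≤ σ) (ρ : Finset ℕ)
    (hρ : ∀ p ∈ ρ, p.Prime) : ∑ p ∈ ρ, Set.ncard {x : G | p ∣ cs(x)} ≤ σ * Nat.card G := by
  classical
  have := Fintype.ofFinite G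
  have h1 : ∀ p, Set.ncard {x : G | p ∣ cs(x)} = ∑ x : G, if p ∣ cs(x) then 1 else 0 := by
    intro p
    rw [← Finset.card_filter, ← Set.ncard_coe_finset]
    congr 1
    ext x
    simp
  simp only [h1]
  rw [Finset.sum_comm, Nat.card_eq_fintype_card, ← Finset.card_univ, mul_comm, ← smul_eq_mul]
  refine Finset.sum_le_card_nsmul _ _ _ fun x _ => ?_
  rw [← Finset.card_filter]
  refine le_trans (Finset.card_le_card fun p hp => ?_) (hσ x)
  rw [Finset.mem_filter] at hp
  exact Nat.mem_primeFactors.2 ⟨hρ p hp.1, hp.2, index_ne_zero_of_finite⟩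

/-- The primes dividing some class size, as a finset. -/
theorem exists_rho [Finite G] : ∃ ρ : Finset ℕ, (∀ p, p ∈ ρ ↔ p.Prime ∧ ∃ x : G, p ∣ cs(x)) ∧
    Nat.card {p : ℕ | p.Prime ∧ ∃ x : G, p ∣ cs(x)} = ρ.card := by
  classical
  refine ⟨(Nat.card G).primeFactors.filter fun p => ∃ x : G, p ∣ cs(x), ?_, ?_⟩
  · intro p
    rw [Finset.mem_filter, Nat.mem_primeFactors]
    refine ⟨fun h => ⟨h.1.1, h.2⟩, fun h => ⟨⟨h.1, ?_, Nat.card_pos.ne'⟩, h.2⟩⟩
    obtain ⟨x, hx⟩ := h.2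
    exact hx.trans (index_dvd_card _)
  · rw [Nat.card_coe_set_eq, ← Set.ncard_coe_finset]
    congr 1
    ext p
    simp only [Set.mem_ofPred_eq, Finset.coe_filter, Nat.mem_primeFactors]
    refine ⟨fun h => ⟨⟨h.1, ?_, Nat.card_pos.ne'⟩, h.2⟩, fun h => ⟨h.1.1, h.2⟩⟩
    obtain ⟨x, hx⟩ := h.2
    exact hx.trans (index_dvd_card _)

/-- A set of primes, none of them with a normal complement, has at most `2σ` members. -/
theorem card_le_of_not [Finite G] (σ : ℕ) (hσ : ∀ x : G, (cs(x)).primeFactors.card ≤ σ)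
    (ρ : Finset ℕ) (hρ : ∀ p ∈ ρ, p.Prime ∧ ¬ HasNormalPComplement p G) :
    ρ.card * Nat.card G ≤ 2 * ∑ p ∈ ρ, Set.ncard {x : G | p ∣ cs(x)} := by
  rw [Finset.mul_sum, ← smul_eq_mul]
  exact Finset.card_nsmul_le_sum _ _ _ fun p hp => half (hρ p hp).1 (hρ p hp).2

theorem two_sigma [Finite G] (σ : ℕ) (hσ : ∀ x : G, (cs(x)).primeFactors.card ≤ σ)
    (hnil : ∀ p q : ℕ, p.Prime → q.Prime → p ∣ Nat.card G → q ∣ Nat.card G →
      HasNormalPComplement p G → HasNormalPComplement q G → p = q) :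
    Nat.card {p : ℕ | p.Prime ∧ ∃ x : G, p ∣ cs(x)} ≤ 2 * σ := by
  classical
  obtain ⟨ρ, hρ, hc⟩ := exists_rho (G := G)
  rw [hc]
  have hG : 0 < Nat.card G := Nat.card_pos
  have hs := sum_le σ hσ ρ fun p hp => ((hρ p).1 hp).1
  have hd : ∀ p ∈ ρ, p ∣ Nat.card G := fun p hp => by
    obtain ⟨x, hx⟩ := ((hρ p).1 hp).2
    exact hx.trans (index_dvd_card _)
  by_cases hex : ∃ p ∈ ρ, HasNormalPComplement p G
  · obtain ⟨p, hp, hn⟩ := hex
    have h1 := card_le_of_not σ hσ (ρ.erase p) fun q hq => by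
      rw [Finset.mem_erase] at hq
      exact ⟨((hρ q).1 hq.2).1, fun h => hq.1
        (hnil q p ((hρ q).1 hq.2).1 ((hρ p).1 hp).1 (hd q hq.2) (hd p hp) h hn)⟩
    have h2 := Finset.add_sum_erase ρ (fun p => Set.ncard {x : G | p ∣ cs(x)}) hp
    have h3 : 0 < Set.ncard {x : G | p ∣ cs(x)} := by
      rw [Set.ncard_pos]
      exact ((hρ p).1 hp).2
    rw [Finset.card_erase_of_mem hp] at h1
    have h4 : (ρ.card - 1) * Nat.card G < 2 * σ * Nat.card G := by
      rw [mul_assoc]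
      omega
    have := lt_of_mul_lt_mul_right h4 (Nat.zero_le _)
    omega
  · push Not at hex
    have h1 := card_le_of_not σ hσ ρ fun q hq => ⟨((hρ q).1 hq).1, hex q hq⟩
    have h4 : ρ.card * Nat.card G ≤ 2 * σ * Nat.card G := by
      rw [mul_assoc]
      omega
    exact le_of_mul_le_mul_right h4 hG

end Cfsg.Agent.H29.Cls
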