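import Cfsg.Agent.H29.ClsRec

/-! Palindromic polynomials and the encoding of the invariants of classes in symplectic and
orthogonal groups. -/

set_option autoImplicit false

namespace Cfsg.Agent.H29

open Finset

section Cnt

open PowerSeries

variable {α β : Type*}

/-- the number of objects of each degree is bounded by the coefficients of `S` -/
def Cnt (A : Set α) (d : α → ℕ) (S : ℝ⟦X⟧) : Prop :=
  ∀ m, {a ∈ A | d a = m}.Finite ∧ ({a ∈ A | d a = m}.ncard : ℝ) ≤ coeff m S

theorem Cnt.prod {A : Set α} {B : Set β} {d : α → ℕ} {d' : β → ℕ} {S T : ℝ⟦X⟧} (h : Cnt A d S)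
    (h' : Cnt B d' T) : Cnt (A ×ˢ B) (fun p => d p.1 + d' p.2) (S * T) := fun m => by
  have e : {p ∈ A ×ˢ B | d p.1 + d' p.2 = m} =
      ⋃ r ∈ antidiagonal m, {a ∈ A | d a = r.1} ×ˢ {b ∈ B | d' b = r.2} := by
    ext p
    simp only [Set.mem_ofPred_eq, Set.mem_prod, Set.mem_iUnion, HasAntidiagonal.mem_antidiagonal]
    exact ⟨fun h => ⟨(_, _), h.2, ⟨h.1.1, rfl⟩, h.1.2, rfl⟩,
      fun ⟨r, h1, h2, h3⟩ => ⟨⟨h2.1, h3.1⟩, by rw [h2.2, h3.2, h1]⟩⟩
  rw [e, coeff_mul]
  refine ⟨(finite_toSet _).biUnion fun r _ => (h _).1.prod (h' _).1,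
    (Nat.cast_le.2 (Finset.set_ncard_biUnion_le _ _)).trans ?_⟩
  rw [Nat.cast_sum]
  refine sum_le_sum fun r _ => ?_
  rw [Set.ncard_prod, Nat.cast_mul]
  exact mul_le_mul (h _).2 (h' _).2 (Nat.cast_nonneg _) ((Nat.cast_nonneg _).trans (h _).2)

/-- the series of one bit -/
noncomputable def bit (b : Bool) : ℝ⟦X⟧ := if b then 1 + X else 1

theorem nn_bit (b : Bool) : NN (bit b) := by
  unfold bit; split_ifs; exacts [nn_one.add nn_X, nn_one]

theorem cnt_bit (b : Bool) : Cnt {x | x = true → b = true} Bool.toNat (bit b) := fun m => by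
  refine ⟨Set.toFinite _, ?_⟩
  rw [Set.ncard_eq_toFinset_card', Set.toFinset_ofPred, card_filter, Fintype.sum_bool]
  rcases m with _ | _ | m <;> cases b <;> simp [bit, coeff_one, coeff_X]

end Cnt

open Polynomial

variable {F : Type*} [Field F]

variable (F) in
/-- palindromic polynomials of even degree -/
def RP : Set F[X] := {f | f ∈ RA (RingHom.id F) ∧ f.coeff 0 = 1 ∧ Even f.natDegree}

theorem RA_eval {f : F[X]} (h : f ∈ RA (RingHom.id F)) {c : F} (hc : c * c = 1) :
    f.eval c = f.coeff 0 * c ^ f.natDegree * f.eval c := by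
  conv_lhs => rw [← h.2, Polynomial.map_id, eval_C_mul, reverse, ← coe_aeval_eq_eval,
    aeval_reflect hc le_rfl, coe_aeval_eq_eval, ← mul_assoc]

theorem mem_RP_of_eval (h2 : (2 : F) ≠ 0) {f : F[X]} (h : f ∈ RA (RingHom.id F))
    (h1 : f.eval 1 ≠ 0) (h3 : f.eval (-1) ≠ 0) : f ∈ RP F := by
  have h4 := RA_eval h (mul_one 1)
  have h5 := RA_eval h (c := -1) (by simp)
  rw [one_pow, mul_one, right_eq_mul₀ h1] at h4
  rw [h4, one_mul, right_eq_mul₀ h3, neg_one_pow_eq_one_iff_even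
    fun h => h2 (by linear_combination -h)] at h5
  exact ⟨h, h4, h5⟩

theorem RP_mul {f g : F[X]} (hf : f ∈ RP F) (hg : g ∈ RP F) : f * g ∈ RP F :=
  ⟨RA_mul hf.1 hg.1, by rw [mul_coeff_zero, hf.2.1, hg.2.1, one_mul],
    by rw [hf.1.1.natDegree_mul hg.1.1]; exact hf.2.2.add hg.2.2⟩

theorem RA_X_sub {c : F} (hc : c * c = 1) : X - C c ∈ RA (RingHom.id F) := by
  simpa [sub_eq_add_neg] using RA_X_add (σ := RingHom.id F) (c := -c) (by simpa using hc)

theorem RP_pow {c : F} (hc : c * c = 1) (k : ℕ) : (X - C c) ^ (2 * k) ∈ RP F :=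
  ⟨RA_pow (RA_X_sub hc) _, by simp [coeff_zero_eq_eval_zero, pow_mul, sq, hc], by simp⟩

theorem RP_sub {f g : F[X]} (hf : f ∈ RP F) (hg : g ∈ RP F) {k : ℕ} (h1 : f.natDegree = 2 * k)
    (h2 : g.natDegree = 2 * k) (h : ∀ j, j + 1 < k → f.coeff (j + 1) = g.coeff (j + 1)) :
    f - g = monomial k (f.coeff k - g.coeff k) := by
  have h3 : ∀ j < k, f.coeff j = g.coeff j := fun j hj => by
    rcases j with _ | j
    exacts [hf.2.1.trans hg.2.1.symm, h j hj]
  ext j
  rw [coeff_sub, coeff_monomial]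
  split_ifs with e
  · rw [e]
  rw [sub_eq_zero]
  rcases lt_or_ge j k with hj | hj
  · exact h3 j hj
  rcases le_or_gt j (2 * k) with hj' | hj'
  · rw [(mem_RA.1 hf.1).2 j (h1 ▸ hj'), (mem_RA.1 hg.1).2 j (h2 ▸ hj'), hf.2.1, hg.2.1, h1, h2,
      h3 _ (by omega)]
  · rw [coeff_eq_zero_of_natDegree_lt (h1 ▸ hj'), coeff_eq_zero_of_natDegree_lt (h2 ▸ hj')]

theorem finite_RP [Finite F] (m : ℕ) : {f ∈ RP F | f.natDegree = m}.Finite :=
  (finite_RA m).subset fun _ h => ⟨h.1.1, h.2⟩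

theorem cnt_RP [Fintype F] : Cnt (RP F) natDegree (ex 1 (geo (Fintype.card F))) := fun m => by
  refine ⟨finite_RP m, ?_⟩
  rw [PowerSeries.coeff_expand]
  split_ifs with h
  · obtain ⟨k, rfl⟩ := h
    have := Nat.card_le_card_of_injective (fun (f : {f ∈ RP F | f.natDegree = 2 * k}) (j : Fin k) =>
      f.1.coeff (j + 1)) fun f g e => Subtype.ext (by
        rw [← sub_eq_zero, RP_sub f.2.1 g.2.1 f.2.2 g.2.2 fun j hj => congrFun e ⟨j, by omega⟩]
        rcases k with _ | k
        · rw [f.2.1.2.1, g.2.1.2.1]; simp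
        · rw [show f.1.coeff (k + 1) = _ from congrFun e ⟨k, by omega⟩]; simp)
    rw [Nat.card_fun, Nat.card_eq_fintype_card (α := F), Nat.card_eq_fintype_card (α := Fin k),
      Fintype.card_fin] at this
    rw [Nat.mul_div_cancel_left _ (Nat.succ_pos 1), coeff_geo]
    exact_mod_cast this
  · rw [Set.eq_empty_of_forall_notMem (s := {f ∈ RP F | f.natDegree = m}) fun f hf =>
      h (hf.2 ▸ hf.1.2.2.two_dvd)]
    simp

theorem cnt_RP1 [Fintype F] :
    Cnt {f ∈ RP F | f.eval 1 ≠ 0} natDegree (ex 1 (SG (Fintype.card F))) := fun m => by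
  have h0 : {f ∈ {f ∈ RP F | f.eval 1 ≠ 0} | f.natDegree = m}.Finite :=
    (finite_RP m).subset fun _ h => ⟨h.1.1, h.2⟩
  refine ⟨h0, ?_⟩
  rw [PowerSeries.coeff_expand]
  split_ifs with h
  · obtain ⟨k, rfl⟩ := h
    rw [Nat.mul_div_cancel_left _ (Nat.succ_pos 1)]
    rcases k with _ | k
    · rw [coeff_SG_zero, Nat.cast_le_one]
      exact (Set.ncard_le_one h0).2 fun a ha b hb => by
        rw [eq_one_of_monic ha.1.1.1.1 ha.2, eq_one_of_monic hb.1.1.1.1 hb.2]
    have := Nat.card_le_card_of_injective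
      (fun f : {f ∈ {f ∈ RP F | f.eval 1 ≠ 0} | f.natDegree = 2 * (k + 1)} =>
      (Units.mk0 _ f.2.1.2, fun j : Fin k => f.1.coeff (j + 1))) fun f g e => Subtype.ext (by
        have h1 := RP_sub f.2.1.1 g.2.1.1 f.2.2 g.2.2 fun j hj =>
          congrFun (congrArg Prod.snd e) ⟨j, by omega⟩
        have h2 := congrArg (eval 1) h1
        rw [eval_sub, show f.1.eval 1 = _ from congrArg (·.1.1) e] at h2
        simp only [Units.val_mk0, sub_self, eval_monomial, one_pow, mul_one] at h2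
        rwa [← h2, monomial_zero_right, sub_eq_zero] at h1)
    rw [Nat.card_prod, Nat.card_fun, Nat.card_units, Nat.card_eq_fintype_card (α := F),
      Nat.card_eq_fintype_card (α := Fin k), Fintype.card_fin] at this
    rw [coeff_SG_succ, ← Nat.cast_pred Fintype.card_pos]
    exact_mod_cast this
  · rw [Set.eq_empty_of_forall_notMem (s := {f ∈ {f ∈ RP F | f.eval 1 ≠ 0} | f.natDegree = m}) fun f hf =>
      h (hf.2 ▸ hf.1.1.2.2.two_dvd)]
    simp

theorem le_ncard_RP [Fintype F] (k : ℕ) :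
    Fintype.card F ^ (k + 1) ≤ {f ∈ RP F | f.natDegree = 2 * (k + 1)}.ncard := by
  have := Nat.card_le_card_of_injective (fun w : Fin (k + 1) → F =>
    (⟨fun i => w ⟨min i (2 * k - i), by omega⟩, fun i => by
      rw [one_mul, RingHom.id_apply]
      exact congrArg w (Fin.ext (by simp only [Fin.val_rev]; omega))⟩ :
      {v : Fin (2 * k + 1) → F // ∀ i, v i = 1 * RingHom.id F (v i.rev)})) fun w w' e =>
    funext fun j => by
      simpa [show (j : ℕ) ≤ 2 * k - j by omega] using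
        congrFun (congrArg Subtype.val e) ⟨j, by omega⟩
  rw [Nat.card_fun, Nat.card_eq_fintype_card (α := F), Nat.card_eq_fintype_card (α := Fin _),
    Fintype.card_fin, ← card_RA (by simp)] at this
  exact this.trans (Set.ncard_le_ncard (fun f hf => ⟨⟨hf.1, hf.2.2, by rw [hf.2.1]; grind⟩, hf.2.1⟩)
    (finite_RP _))

theorem pow_cancel {f g : F[X]} {c : F} {k l : ℕ} (hf : f.eval c ≠ 0) (hg : g.eval c ≠ 0)
    (h : f * (X - C c) ^ k = g * (X - C c) ^ l) : k = l ∧ f = g := by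
  have h1 := congrArg (rootMultiplicity c) h
  rw [rootMultiplicity_mul_X_sub_C_pow (by rintro rfl; simp at hf),
    rootMultiplicity_mul_X_sub_C_pow (by rintro rfl; simp at hg), rootMultiplicity_eq_zero hf,
    rootMultiplicity_eq_zero hg, zero_add, zero_add] at h1
  subst h1
  exact ⟨rfl, mul_right_cancel₀ (pow_ne_zero _ (X_sub_C_ne_zero c)) h⟩

/-- the polynomial attached to one level -/
noncomputable def encP (f : F[X]) (a : Bool → ℕ) (s : Bool → Bool) : F[X] :=
  f * (X - C 1) ^ (2 * ((a false - (s false).toNat) / 2)) *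
    (X - C (-1)) ^ (2 * ((a true - (s true).toNat) / 2))

theorem encP_mem {f : F[X]} (hf : f ∈ RP F) (a : Bool → ℕ) (s : Bool → Bool) :
    encP f a s ∈ RP F :=
  RP_mul (RP_mul hf (RP_pow (mul_one 1) _)) (RP_pow (by simp) _)

/-- counting families of invariants -/
theorem card_le_enc (h2 : (2 : F) ≠ 0) {Y : Type*} [Finite Y] (N n : ℕ) (f : Y → ℕ → F[X])
    (a : Y → Bool → ℕ → ℕ) (s : Y → Bool → ℕ → Bool) (P : ℕ → Set F[X]) (T : ℕ → PowerSeries ℝ)
    (b c : ℕ → Bool) (hT : ∀ i, Cnt (P i) natDegree (T i))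
    (hf : ∀ y i, (f y i).Monic ∧ (f y i).eval 1 ≠ 0 ∧ (f y i).eval (-1) ≠ 0)
    (hP : ∀ y, ∀ i < N, encP (f y i) (a y · i) (s y · i) ∈ P i) (h0 : ∀ i, 1 ∈ P i)
    (hs : ∀ y η, ∀ i < N, s y η i = true → a y η i ≠ 0 ∧ b i = true)
    (hc : ∀ y η, ∀ i < N, (a y η i - (s y η i).toNat) % 2 = 1 → c i = true)
    (hsum : ∀ y, ∑ i ∈ range N, (i + 1) * ((f y i).natDegree + (a y false i + a y true i)) = n)
    (hinj : ∀ y y', (∀ i < N, f y i = f y' i) → (∀ η, ∀ i < N, a y η i = a y' η i) →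
      (∀ η, ∀ i < N, s y η i = s y' η i) → y = y') :
    (Nat.card Y : ℝ) ≤ PowerSeries.coeff n (PP (fun i => T i * (bit (b i) * bit (c i)) ^ 2) N) := by
  have hC := fun i => (hT i).prod (((cnt_bit (b i)).prod (cnt_bit (c i))).prod
    ((cnt_bit (b i)).prod (cnt_bit (c i))))
  simp only [← sq] at hC
  have e1 : ∀ y η, ∀ i < N, a y η i = 2 * ((a y η i - (s y η i).toNat) / 2) + ((s y η i).toNat +
      (decide ((a y η i - (s y η i).toNat) % 2 = 1)).toNat) := fun y η i hi => by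
    have := hs y η i hi
    have h1 : (s y η i).toNat ≤ a y η i := by
      cases h' : s y η i
      exacts [Nat.zero_le _, Nat.pos_of_ne_zero (this h').1]
    rcases Nat.mod_two_eq_zero_or_one (a y η i - (s y η i).toNat) with h | h <;>
      simp only [h, decide_true, zero_ne_one, decide_false, Bool.toNat_true, Bool.toNat_false] <;>
      omega
  refine card_le_coeff' N n (fun y i => if i < N then (encP (f y i) (a y · i) (s y · i),
      (s y false i, decide ((a y false i - (s y false i).toNat) % 2 = 1)),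
      (s y true i, decide ((a y true i - (s y true i).toNat) % 2 = 1)))
      else (1, (false, false), (false, false))) _ _ _ (fun y i => ?_) (fun y => ?_)
    (fun i m => (hC i m).1) (fun i m => (hC i m).2) fun y y' h => ?_
  · split_ifs with hi
    · exact ⟨hP y i hi, ⟨fun h => (hs y _ i hi h).2, fun h => hc y _ i hi (of_decide_eq_true h)⟩,
        fun h => (hs y _ i hi h).2, fun h => hc y _ i hi (of_decide_eq_true h)⟩
    · simp [h0]
  · refine Eq.trans (sum_congr rfl fun i hi => ?_) (hsum y)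
    have hi := mem_range.1 hi
    rw [if_pos hi, encP, ((hf y i).1.mul ((monic_X_sub_C _).pow _)).natDegree_mul
      ((monic_X_sub_C _).pow _), (hf y i).1.natDegree_mul ((monic_X_sub_C _).pow _),
      natDegree_pow, natDegree_pow, natDegree_X_sub_C, natDegree_X_sub_C]
    have h3 := e1 y false i hi
    have h4 := e1 y true i hi
    congr 1
    simp only
    omega
  · have h3 : ∀ i < N, _ ∧ (_ ∧ _) ∧ (_ ∧ _) := fun i hi => by
      simpa only [if_pos hi, Prod.mk.injEq] using h i hi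
    have h4 : ∀ y i k, (f y i * (X - C 1) ^ k).eval (-1) ≠ 0 := fun y i k => by
      rw [eval_mul, eval_pow]
      exact mul_ne_zero (hf y i).2.2 (pow_ne_zero _ fun h => h2 (by
        simp only [eval_sub, eval_X, eval_C] at h; linear_combination -h))
    have h5 := fun i hi => pow_cancel (h4 _ _ _) (h4 _ _ _) (h3 i hi).1
    have h6 := fun i hi => pow_cancel (hf y i).2.1 (hf y' i).2.1 (h5 i hi).2
    refine hinj y y' (fun i hi => (h6 i hi).2) (fun η i hi => ?_) fun η i hi => ?_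
    · rw [e1 y η i hi, e1 y' η i hi]
      cases η
      · rw [(h6 i hi).1, (h3 i hi).2.1.2, (h3 i hi).2.1.1]
      · rw [(h5 i hi).1, (h3 i hi).2.2.2, (h3 i hi).2.2.1]
    · cases η
      exacts [(h3 i hi).2.1.1, (h3 i hi).2.2.1]

end Cfsg.Agent.H29
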