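import Cfsg.Agent.H29.ClsSL
import Cfsg.Agent.H83.ClassCount

/-! The class number of a subgroup of index four cut out by two sign characters. -/

set_option autoImplicit false

namespace Cfsg.Agent.H29

open Finset

variable {G : Type*} [Group G] [Fintype G]

open Classical in
/-- a sum over commuting pairs -/
noncomputable def cs (f f' : G → ℤ) : ℤ := ∑ g, ∑ h, if Commute g h then f g * f' h else 0

theorem cs_comm (f f' : G → ℤ) : cs f f' = cs f' f := by
  classical
  rw [cs, sum_comm]
  exact sum_congr rfl fun _ _ => sum_congr rfl fun _ _ =>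
    if_congr Commute.symm_iff (mul_comm _ _) rfl

theorem cs_add (f₁ f₂ f' : G → ℤ) : cs (f₁ + f₂) f' = cs f₁ f' + cs f₂ f' := by
  simp only [cs, ← sum_add_distrib, Pi.add_apply]
  exact sum_congr rfl fun _ _ => sum_congr rfl fun _ _ => by split_ifs <;> ring

theorem cs_eq_zero {z : G} (hz : ∀ g, Commute z g) {f : G → ℤ} (hf : ∀ g, f (z * g) = -f g)
    (f' : G → ℤ) : cs f f' = 0 := by
  classical
  have : cs f f' = -cs f f' := by
    conv_lhs => rw [cs, ← Equiv.sum_comp (Equiv.mulLeft z)]
    simp only [cs, ← sum_neg_distrib, Equiv.coe_mulLeft, hf]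
    refine sum_congr rfl fun g _ => sum_congr rfl fun h _ => ?_
    rw [if_congr (show Commute (z * g) h ↔ Commute g h from
      ⟨fun e => by simpa using (hz h).inv_left.mul_left e, (hz h).mul_left⟩) rfl rfl]
    split_ifs <;> ring
  omega

theorem sum_subgroup (H : Subgroup G) [Fintype H] (f : G → ℤ) (h : ∀ g ∉ H, f g = 0) :
    ∑ g : H, f g = ∑ g, f g := by
  classical
  rw [← sum_subtype (univ.filter (· ∈ H)) (by simp),
    sum_filter_of_ne fun g _ hg => by_contra fun h' => hg (h g h')]

theorem cs_ind (H : Subgroup G) (c : ℤ) {f : G → ℤ} (h1 : ∀ g ∈ H, f g = c) (h0 : ∀ g ∉ H, f g = 0) :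
    cs f f = c ^ 2 * (Nat.card (ConjClasses H) * Nat.card H : ℕ) := by
  classical
  rw [← card_comm_eq_card_conjClasses_mul_card, Nat.card_eq_fintype_card, Fintype.card_subtype,
    card_filter, Fintype.sum_prod_type, cs, ← sum_subgroup H _ fun g hg => by simp [h0 g hg]]
  push_cast
  rw [mul_sum]
  refine sum_congr rfl fun g _ => ?_
  rw [← sum_subgroup H _ fun g hg => by simp [h0 g hg], mul_sum]
  refine sum_congr rfl fun h _ => ?_
  simp [h1, sq, Commute, SemiconjBy, Subtype.ext_iff]

theorem cs_char (χ : G →* ℤˣ) : cs (fun g => χ g) (fun g => χ g) = cs 1 (fun g => χ g) := by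
  classical
  refine sum_congr rfl fun g _ => ?_
  conv_rhs => rw [← Equiv.sum_comp (Equiv.mulLeft g)]
  refine sum_congr rfl fun h _ => if_congr ⟨(Commute.refl g).mul_right, fun e => ?_⟩ (by simp) rfl
  simpa using (Commute.refl g).inv_right.mul_right e

theorem cs_char_le (χ : G →* ℤˣ) : cs 1 (fun g => χ g) ≤
    (Nat.card {C : ConjClasses G // ∀ h, Commute h (rep C) → χ h = 1} * Nat.card G : ℕ) := by
  classical
  rw [H83.card_classes_mul, sum_filter]
  push_cast
  refine sum_le_sum fun g _ => ?_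
  have e : (∑ h, if Commute g h then (1 : G → ℤ) g * χ h else 0) =
      ∑ h : Subgroup.centralizer {g}, (χ h : ℤ) := by
    rw [← sum_filter]
    simp only [Pi.one_apply, one_mul]
    exact sum_subtype _ (fun x => by
      rw [mem_filter, Subgroup.mem_centralizer_singleton_iff, eq_comm]; exact and_iff_right (mem_univ _)) _
  rw [e]
  split_ifs with h
  · rw [Nat.card_eq_fintype_card, ← card_univ, ← nsmul_one]
    exact sum_le_card_nsmul _ _ _ fun x _ => by
      rcases Int.units_eq_one_or (χ x) with h | h <;> simp [h]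
  · refine (sum_hom_units_eq_zero ((Units.coeHom ℤ).comp (χ.comp (Subgroup.subtype _)))
      fun h' => h fun x hx => ?_).le
    obtain ⟨c, hc⟩ := isConj_iff.1 (ConjClasses.mk_eq_mk_iff_isConj.1 (mk_rep (.mk g)))
    have := DFunLike.congr_fun h' ⟨c * x * c⁻¹, Subgroup.mem_centralizer_singleton_iff.2 (by
      rw [← hc]; exact (hx.conj c).eq)⟩
    have h3 : χ (c * x * c⁻¹) = 1 := Units.ext this
    rwa [map_mul, map_mul, map_inv, mul_inv_cancel_comm] at h3

theorem four_mul_card_le (H : Subgroup G) (δ χ : G →* ℤˣ) (hH : ∀ g, g ∈ H ↔ δ g = 1 ∧ χ g = 1)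
    (hi : H.index = 4) {z : G} (hz : ∀ g, Commute z g) (h1 : δ z = -1) (h2 : χ z = 1) :
    4 * Nat.card (ConjClasses H) ≤ Nat.card (ConjClasses G) +
      3 * Nat.card {C : ConjClasses G // ∀ h, Commute h (rep C) → χ h = 1} := by
  let u : G → ℤ := 1 + fun g => (χ g : ℤ)
  let w : G → ℤ := fun g => u g * δ g
  have e1 := cs_ind H 4 (f := u + w) (fun g hg => by simp [u, w, (hH g).1 hg]) fun g hg => by
    rcases Int.units_eq_one_or (χ g) with h | h <;> rcases Int.units_eq_one_or (δ g) with h' | h' <;>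
      simp_all [u, w]
  have e2 := cs_eq_zero hz (f := w) fun g => by simp [u, w, h1, h2]
  have e3 := cs_ind (⊤ : Subgroup G) 1 (f := 1) (fun _ _ => rfl) (by simp)
  rw [cs_add, e2, cs_comm, cs_add, e2, cs_add, cs_comm, cs_comm _ u, cs_add, cs_add, cs_char,
    cs_comm (fun g => (χ g : ℤ)) 1, e3, ← card_comm_eq_card_conjClasses_mul_card, Nat.card_congr
      (Subgroup.topEquiv.toEquiv.prodCongr Subgroup.topEquiv.toEquiv |>.subtypeEquiv
        (q := fun p => Commute p.1 p.2) fun _ => by simp [Commute, SemiconjBy, Subtype.ext_iff]),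
    card_comm_eq_card_conjClasses_mul_card] at e1
  have e4 := cs_char_le χ
  rw [← H.card_mul_index, hi] at e1 e4
  have := Nat.card_pos (α := H)
  push_cast at e1 e4
  zify at this ⊢
  nlinarith

end Cfsg.Agent.H29
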