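import Cfsg.Agent.H29.ClsDat

/-! Bounds for the class numbers of the orthogonal groups in odd characteristic. -/

set_option autoImplicit false

namespace Cfsg.Agent.H29

open Module Finset Polynomial H67 QuadraticMap H28 H11

variable {F : Type*} [Field F] {κ : Type} [Fintype κ] [DecidableEq κ] {Q : QuadraticForm F (κ → F)}

theorem full_O (h2 : (2 : F) ≠ 0) (hQ : (polarBilin Q).Nondegenerate) :
    Full (polarBilin Q) (rho Q) :=
  ⟨B_rho, fun _ _ e => O_ext (LinearMap.congr_fun e), fun _ h => exists_O h2 hQ h⟩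

theorem polar_symm (x y : κ → F) : polarBilin Q y x = (-1) ^ 0 * polarBilin Q x y :=
  (polar_comm _ _ _).trans (by simp)

theorem RP_add {f : F[X]} (hf : f ∈ RP F) {k : ℕ} (hn : f.natDegree = 2 * (k + 2)) (c : F) :
    f + C c * (X ^ (k + 1) * (X + 1) ^ 2) ∈ RP F ∧
      (f + C c * (X ^ (k + 1) * (X + 1) ^ 2)).natDegree = 2 * (k + 2) := by
  have h4 : ∀ j, (C c * (X ^ (k + 1) * (X + 1) ^ 2)).coeff j = c * ((if j = k + 1 then 1 else 0) +
      (if j = k + 2 then 2 else 0) + if j = k + 3 then 1 else 0) := fun j => by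
    rw [show (X : F[X]) ^ (k + 1) * (X + 1) ^ 2 = X ^ (k + 1) + C 2 * X ^ (k + 2) + X ^ (k + 3) by
      rw [map_ofNat]; ring]
    simp [coeff_X_pow]
  have h1 : (C c * (X ^ (k + 1) * (X + 1) ^ 2)).degree < f.degree := by
    rw [degree_eq_natDegree hf.1.1.ne_zero, hn, degree_lt_iff_coeff_zero]
    intro m hm
    rw [h4, if_neg (by omega), if_neg (by omega), if_neg (by omega)]; simp
  have h3 := (natDegree_add_eq_left_of_degree_lt h1).trans hn
  have h5 : (f + C c * (X ^ (k + 1) * (X + 1) ^ 2)).coeff 0 = 1 := by simp [h4, hf.2.1]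
  refine ⟨⟨mem_RA.2 ⟨hf.1.1.add_of_left h1, fun j hj => ?_⟩, h5, by rw [h3]; simp⟩, h3⟩
  rw [h3] at hj
  rw [h5, h3, coeff_add, coeff_add, h4, h4, (mem_RA.1 hf.1).2 j (hn ▸ hj), hf.2.1, hn]
  simp only [RingHom.id_apply, one_mul]
  split_ifs <;> first | omega | ring

variable [Fintype F]

theorem three_le (h2 : (2 : F) ≠ 0) : (3 : ℝ) ≤ Fintype.card F := by
  have := Fintype.one_lt_card (α := F)
  have := H27.card_mod_two_of_two_ne_zero h2
  exact_mod_cast (show 3 ≤ Fintype.card F by omega)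

theorem real_root (h2 : (2 : F) ≠ 0) (hQ : (polarBilin Q).Nondegenerate) {f : F[X]}
    (hf : f ∈ RP F) (hn : f.natDegree = Fintype.card κ) {c : F} (hc : c * c = 1)
    (h : f.eval c = 0) : ∃ k : O Q, (rho Q k).charpoly = f := by
  obtain ⟨g, hg, rfl⟩ := RP_root h2 hf hc h
  rw [(hg.1.1.mul (monic_X_sub_C c)).natDegree_mul (monic_X_sub_C c),
    hg.1.1.natDegree_mul (monic_X_sub_C c), natDegree_X_sub_C] at hn
  obtain ⟨A, hA, h3⟩ := pres_RP h2 false _ g hg rfl
  have h4 : Pres false (c • 1 : End F F) := ⟨LinearMap.mul F F, ⟨fun x h => by simpa using h 1,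
    fun x h => by simpa using h 1⟩, fun x y => mul_comm _ _, fun x y => by
      simp only [LinearMap.smul_apply, End.one_apply, smul_eq_mul, LinearMap.mul_apply']
      linear_combination x * y * hc⟩
  obtain ⟨T, h5, h6⟩ := real_ext h2 hQ (fun x y => polar_comm _ _ _) (h3.prod h4)
    (by simp [← hn]) hc
  obtain ⟨k, rfl⟩ := exists_O h2 hQ h5
  refine ⟨k, h6.trans ?_⟩
  rw [LinearMap.charpoly_prodMap, ← LinearMap.charpoly_toMatrix (c • 1) (Basis.singleton Unit F),
    Matrix.charpoly_toLin', hA]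
  simp [Matrix.charpoly]

theorem O_even_lower (h2 : (2 : F) ≠ 0) (hQ : (polarBilin Q).Nondegenerate) {k : ℕ}
    (hk : Fintype.card κ = 2 * (k + 2)) :
    Fintype.card F ^ (k + 2) ≤ 2 * Nat.card (ConjClasses (O Q)) := by
  obtain ⟨ν, hν⟩ := FiniteField.exists_nonsquare (H27.ringChar_ne_two_of_two_ne_zero h2)
  haveI := finite_of_inj (full_O h2 hQ).inj
  let p (f : F[X]) : Prop := IsSquare (gramDet Q * (f.eval 1 * f.eval (-1)))
  have h1 : {f ∈ {f ∈ RP F | f.natDegree = 2 * (k + 2)} | p f}.ncard ≤ Nat.card (ConjClasses (O Q)) :=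
    card_le_of_inv _ (charpoly_isConj (rho Q)) _ fun f hf => by
      by_cases h3 : f.eval 1 = 0
      · exact real_root h2 hQ hf.1.1 (hf.1.2.trans hk.symm) (mul_one 1) h3
      by_cases h4 : f.eval (-1) = 0
      · exact real_root h2 hQ hf.1.1 (hf.1.2.trans hk.symm) (by simp) h4
      exact real_of_sq h2 hQ hf.1.1 hk hf.1.2 h3 h4 hf.2
  have h4 : (4 : F) ≠ 0 := fun h => mul_ne_zero h2 h2 (by linear_combination h)
  have h5 : ∀ f : F[X], (f + C ((ν - 1) * f.eval 1 / 4) * (X ^ (k + 1) * (X + 1) ^ 2)).eval 1 =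
      ν * f.eval 1 := fun f => by simp; field_simp; ring
  have h3 := Set.ncard_le_ncard_of_injOn
    (s := {f ∈ {f ∈ RP F | f.natDegree = 2 * (k + 2)} | ¬ p f})
    (t := {f ∈ {f ∈ RP F | f.natDegree = 2 * (k + 2)} | p f})
    (fun f => f + C ((ν - 1) * f.eval 1 / 4) * (X ^ (k + 1) * (X + 1) ^ 2))
    (fun f hf => ⟨RP_add hf.1.1 hf.1.2 _, by
      simp only [p, h5]
      simpa [mul_left_comm, mul_assoc] using H27.isSquare_mul_of_not_isSquare hν hf.2⟩)
    (fun f _ g _ e => by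
      have := congrArg (eval 1) e
      rw [h5, h5, mul_right_inj' (by rintro rfl; exact hν .zero)] at this
      simpa [this] using e) ((finite_RP _).subset fun _ h => h.1)
  have h6 := Set.ncard_inter_add_ncard_sdiff_eq_ncard {f ∈ RP F | f.natDegree = 2 * (k + 2)} {f | p f}
    (finite_RP _)
  exact (le_ncard_RP (k + 1)).trans (h6.ge.trans ((add_le_add h1 (h3.trans h1)).trans_eq
    (two_mul _).symm))

theorem O_even_upper (h2 : (2 : F) ≠ 0) (hQ : (polarBilin Q).Nondegenerate) {k : ℕ}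
    (hk : Fintype.card κ = 2 * (k + 1)) :
    2 * Nat.card (ConjClasses (O Q)) ≤ 19 * Fintype.card F ^ (k + 1) := by
  have h3 := (full_O h2 hQ).bound2 h2 hQ polar_symm
  rw [finrank_fintype_fun_eq_card, hk] at h3
  have h4 := h3.trans (add_le_add (num_O (three_le h2) (k + 1) (2 * k + 1)).1
    (num_zero (three_le h2) (k + 1) (2 * k + 1)))
  have : (2 : ℝ) * Nat.card (ConjClasses (O Q)) ≤ 19 * (Fintype.card F : ℝ) ^ (k + 1) := by
    linarith [pow_nonneg (Nat.cast_nonneg (α := ℝ) (Fintype.card F)) (k + 1)]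
  exact_mod_cast this

theorem O_odd_upper (h2 : (2 : F) ≠ 0) (hQ : (polarBilin Q).Nondegenerate) {k : ℕ}
    (hk : Fintype.card κ = 2 * k + 1) :
    2 * (Nat.card (ConjClasses (O Q)) : ℝ) ≤ 287 / 10 * Fintype.card F ^ k := by
  have h3 := (full_O h2 hQ).bound2 h2 hQ polar_symm
  rw [finrank_fintype_fun_eq_card, hk, show bit false = 1 from rfl, one_mul, one_pow, mul_one,
    PP_expand, PowerSeries.coeff_expand, if_neg (by omega), add_zero] at h3
  exact h3.trans (num_O (three_le h2) k (2 * k)).2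

theorem O_odd_lower (h2 : (2 : F) ≠ 0) (hQ : (polarBilin Q).Nondegenerate) {k : ℕ}
    (hk : Fintype.card κ = 2 * (k + 1) + 1) :
    2 * Fintype.card F ^ (k + 1) ≤ Nat.card (ConjClasses (O Q)) := by
  haveI := finite_of_inj (full_O h2 hQ).inj
  let φ (p : Bool × {f ∈ RP F | f.natDegree = 2 * (k + 1)}) : F[X] :=
    p.2.1 * (X - C (if p.1 then -1 else 1))
  have h1 : Function.Injective φ := by
    rintro ⟨η, f⟩ ⟨η', g⟩ e
    obtain rfl : η = η' := by
      have := congrArg (coeff · 0) e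
      have h3 : (1 : F) ≠ -1 := fun h => h2 (by linear_combination h)
      cases η <;> cases η' <;> simp [φ, f.2.1.2.1, g.2.1.2.1, h3, h3.symm] at this ⊢
    exact Prod.ext rfl (Subtype.ext (mul_right_cancel₀ (X_sub_C_ne_zero _) e))
  refine le_trans ?_ ((Nat.card_range_of_injective h1).ge.trans
    (card_le_of_inv _ (charpoly_isConj (rho Q)) _ ?_))
  · rw [Nat.card_prod, Nat.card_eq_fintype_card (α := Bool), Fintype.card_bool]
    exact Nat.mul_le_mul_left 2 (le_ncard_RP k)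
  · rintro _ ⟨⟨η, f, hf⟩, rfl⟩
    obtain ⟨A, hA, h3⟩ := pres_RP h2 false _ f hf.1 hf.2
    obtain ⟨T, h5, h6⟩ := real_ext h2 hQ (fun x y => polar_comm _ _ _) h3 (by simp [hk])
      (c := if η then -1 else 1) (by split_ifs <;> simp)
    obtain ⟨k, rfl⟩ := exists_O h2 hQ h5
    exact ⟨k, by rw [h6, Matrix.charpoly_toLin', hA]⟩

end Cfsg.Agent.H29
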