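import Cfsg.Agent.H29.ClsO
import Cfsg.Agent.H29.ClsIdx
import Cfsg.Agent.S4200

/-! Bounds for the class numbers of the groups `Ω` in odd dimension. -/

set_option autoImplicit false

namespace Cfsg.Agent.H29

open Module Finset Polynomial H67 QuadraticMap H28 H11

section

variable {F V : Type*} [Field F] [AddCommGroup V] [Module F V] {β : LinearMap.BilinForm F V}

theorem Disc.nondeg {P : Submodule F V} {m : ℕ} {d : F} (h : Disc β P m d) :
    ∀ x ∈ P, (∀ y ∈ P, β x y = 0) → x = 0 := fun x hx h1 => by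
  obtain ⟨h0, ι, _, _, w, -, rfl, rfl⟩ := h
  obtain ⟨c, rfl⟩ := (Submodule.mem_span_range_iff_exists_fun F).1 hx
  rw [Matrix.eq_zero_of_vecMul_eq_zero h0 (v := c) (funext fun j => by
    simpa [map_sum, LinearMap.sum_apply, Matrix.vecMul, dotProduct] using
      h1 _ (Submodule.subset_span ⟨j, rfl⟩))]
  simp

/-- the sign attached to a chain -/
noncomputable def chD (F : Type*) [Field F] (i : ℕ) : F := (Matrix.of fun j j' : Fin (i + 1) =>
  (-1 : F) ^ (j' : ℕ) * if (j' : ℕ) + j = i then 1 else 0).det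

theorem chD_ne (i : ℕ) : chD F i ≠ 0 := by
  refine Matrix.det_ne_zero_of_right_inverse (B := Matrix.transpose (Matrix.of fun j j' : Fin (i + 1) =>
    (-1 : F) ^ (j' : ℕ) * if (j' : ℕ) + j = i then 1 else 0)) (Matrix.ext fun j k => ?_)
  rw [Matrix.mul_apply, sum_eq_single j.rev (fun l _ hl => ?_) (by simp)]
  · have : (j.rev : ℕ) + k = i ↔ j = k := by rw [Fin.val_rev, Fin.ext_iff]; omega
    simp only [Matrix.of_apply, Matrix.transpose_apply, this, Matrix.one_apply]
    rw [if_pos (by rw [Fin.val_rev]; omega)]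
    split_ifs <;> simp [← mul_pow]
  · rw [Matrix.of_apply, if_neg fun h => hl (Fin.ext (by rw [Fin.val_rev]; omega))]; simp

theorem disc_chain {n : End F V} {W : Submodule F V} (h : Skew β n W) {u : V} (hu : u ∈ W) {i : ℕ}
    {w : F} (hw : w ≠ 0) (h1 : ∀ j, β ((n ^ j) u) u = if j = i then w else 0) :
    Disc β (Submodule.span F (Set.range fun j : Fin (i + 1) => (n ^ (j : ℕ)) u)) (i + 1)
      (w ^ (i + 1) * chD F i) := by
  refine ⟨mul_ne_zero (pow_ne_zero _ hw) (chD_ne i), _, inferInstance, inferInstance, _,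
    Fintype.card_fin _, rfl, ?_⟩
  refine Eq.trans ?_ ((Matrix.det_smul _ w).trans (by rw [Fintype.card_fin]; rfl))
  congr 1
  ext j j'
  simp [h.pow' _ _ hu hu, h1, mul_comm]

end

variable {F : Type*} [Field F] {κ : Type} [Fintype κ] [DecidableEq κ] {Q : QuadraticForm F (κ → F)}
  [Fintype F] (h2 : (2 : F) ≠ 0) (hQ : (polarBilin Q).Nondegenerate)

theorem exists_refl {P : Submodule F (κ → F)} {m : ℕ} {d : F} (h : Disc (polarBilin Q) P m d) :
    ∃ r : O Q, spinor hQ (eichOK_of_two_ne_zero h2) r = sqSign (2 ^ m * d) ∧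
      ∀ g : O Q, (∀ x ∈ P, rho Q g x ∈ P) → Commute r g := by
  have hc := (LinearMap.BilinForm.isCompl_orthogonal_iff_disjoint (B := polarBilin Q) (W := P)
    fun x y h => (polar_comm _ _ _).trans h).2 (Submodule.disjoint_def.2 fun x hx h' =>
      h.nondeg x hx fun y hy => (polar_comm _ _ _).trans (h' y hy))
  let T := LinearMap.ofIsCompl hc (-P.subtype) (Submodule.subtype _)
  have h3 : ∀ x ∈ P, T x = -x := fun x hx => LinearMap.ofIsCompl_apply_left hc ⟨x, hx⟩
  have h4 : ∀ x ∈ _, T x = x := fun x hx => LinearMap.ofIsCompl_apply_right hc ⟨x, hx⟩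
  have h5 := fun y => Submodule.codisjoint_iff_exists_add_eq.1 hc.codisjoint y
  obtain ⟨r, hr⟩ := exists_O h2 hQ (g := T) fun x y => by
    obtain ⟨x, x', hx, hx', rfl⟩ := h5 x
    obtain ⟨y, y', hy, hy', rfl⟩ := h5 y
    have e1 : polarBilin Q x y' = 0 := hy' x hx
    have e2 : polarBilin Q x' y = 0 := (polar_comm _ _ _).trans (hx' y hy)
    simp only [map_add, h3 x hx, h3 y hy, h4 x' hx', h4 y' hy', map_neg, LinearMap.add_apply,
      LinearMap.neg_apply, e1, e2, neg_zero, neg_neg, add_zero]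
  refine ⟨r, ?_, fun g hg => O_ext fun y => ?_⟩
  · obtain ⟨h0, ι, _, _, w, rfl, rfl, rfl⟩ := h
    have e : (fun i => w i - rho Q r (w i)) = fun i => Units.mk0 2 h2 • w i := funext fun i => by
      rw [hr, h3 _ (Submodule.subset_span ⟨i, rfl⟩), sub_neg_eq_add, ← two_smul F]; rfl
    refine (spinor_wallD hQ _ r _ ⟨ι, inferInstance, inferInstance, w, ?_, fun y => ?_, ?_⟩).2
    · exact e ▸ (linearIndependent_of_gram _ h0).units_smul _
    · obtain ⟨x, x', hx, hx', rfl⟩ := h5 y
      obtain ⟨c, rfl⟩ := (Submodule.mem_span_range_iff_exists_fun F).1 hx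
      rw [e, hr, map_add, h3 _ hx, h4 x' hx', add_sub_add_right_eq_sub, sub_neg_eq_add, ← two_smul F,
        smul_sum]
      exact sum_mem fun i _ => smul_comm (2 : F) (c i) (w i) ▸
        Submodule.smul_mem _ _ (Submodule.subset_span ⟨i, rfl⟩)
    · rw [← Matrix.det_smul]
      congr 1
      ext i j
      rw [Matrix.of_apply, congrFun e i]
      simp [Units.smul_def]
  · obtain ⟨x, x', hx, hx', rfl⟩ := h5 y
    have h6 : Function.Surjective ((rho Q g).restrict hg) := LinearMap.injective_iff_surjective.1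
      fun a b e => Subtype.ext (by simpa using congrArg (rho Q g⁻¹ ·.1) e)
    have h7 : rho Q g x' ∈ LinearMap.BilinForm.orthogonal (polarBilin Q) P := fun z hz => by
      obtain ⟨z', e⟩ := h6 ⟨z, hz⟩
      rw [← show rho Q g z' = z from congrArg Subtype.val e]
      exact (B_rho _ _ _).trans (hx' _ z'.2)
    simp only [map_mul, End.mul_apply, map_add, hr, h3 x hx, h4 x' hx', h3 _ (hg x hx), h4 _ h7, map_neg]

theorem split_dat {ν : F} (hν : ¬ IsSquare ν) {g : O Q} {a : Bool → ℕ → ℕ} {s : Bool → ℕ → Bool}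
    {n : Bool → End F (κ → F)} {v : Bool → ℕ → ℕ → κ → F}
    (h : Dat (polarBilin Q) ν 0 (rho Q g) a s n v)
    (hg : ∀ r, Commute r g → spinor hQ (eichOK_of_two_ne_zero h2) r = 1) (η : Bool) {i : ℕ}
    (hi : i < finrank F (κ → F)) (he : i % 2 = 0) (ha : a η i ≠ 0) :
    a η i = 1 ∧ IsSquare (2 * chD F i * if s η i then ν else 1) := by
  have h0 : ν ≠ 0 := by rintro rfl; exact hν .zero
  have key : ∀ u ∈ Wu (sg η (rho Q g)), ∀ w ≠ 0, (n η ^ (i + 1)) u = 0 →
      (∀ j, polarBilin Q ((n η ^ j) u) u = if j = i then w else 0) →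
      IsSquare (2 * chD F i * w) := fun u hu w hw h1 h3 => by
    obtain ⟨r, h4, h5⟩ := exists_refl h2 hQ (disc_chain (h.skew η) hu hw h3)
    generalize hP : Submodule.span F (Set.range fun j : Fin (i + 1) => (n η ^ (j : ℕ)) u) = P at h5
    have h6 : P ≤ Wu (sg η (rho Q g)) := hP ▸ Submodule.span_le.2 (by
      rintro _ ⟨j, rfl⟩; exact (h.skew η).pow_mem _ hu)
    have h7 : P ≤ P.comap (n η) := hP.ge.trans (Submodule.span_le.2 (by
      rintro _ ⟨j, rfl⟩
      change (n η * n η ^ (j : ℕ)) u ∈ P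
      rw [← pow_succ']
      rcases lt_or_ge j.1 i with hj | hj
      · exact hP ▸ Submodule.subset_span ⟨⟨j + 1, by omega⟩, rfl⟩
      · rw [pow_apply_eq_zero h1 (by omega)]; exact P.zero_mem))
    rw [hg r (h5 g fun y hy => ?_), eq_comm, sqSign_eq_one] at h4
    · obtain ⟨k, rfl⟩ := Nat.dvd_of_mod_eq_zero he
      obtain ⟨t, ht⟩ := h4
      exact ⟨t / (2 * w) ^ k, by field_simp; linear_combination ht⟩
    · obtain ⟨x, hx, rfl⟩ := exists_sub_eq h7 hy (h.nil η y (h6 hy))
      have := h.cay η x (h6 hx) ▸ P.add_mem hx (h7 hx)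
      cases η
      exacts [this, P.neg_mem_iff.1 this]
  have h8 : ∀ k < a η i, ∀ k' < a η i, ∀ j, polarBilin Q ((n η ^ j) (v η i k)) (v η i k') =
      if j = i then if k = k' then if k' = 0 ∧ s η i then ν else 1 else 0 else 0 :=
    fun k hk k' hk' j => by simpa [stdB, prt, val, he] using (h.ch η).gram i hi k hk i hi k' hk' j
  have h9 : (if s η i then ν else 1) ≠ 0 := by split_ifs <;> simp [h0]
  have a0 := Nat.pos_of_ne_zero ha
  refine ⟨by_contra fun a1 => ?_, key _ ((h.ch η).mem hi a0) _ h9 ((h.ch η).nil i hi 0 a0)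
    fun j => by simp [h8 0 a0 0 a0]⟩
  replace a1 : 1 < a η i := by omega
  have h10 : ∀ w ≠ 0, IsSquare (2 * chD F i * w) := fun w hw => by
    obtain ⟨x, y, e⟩ := H27.exists_mul_sq_add_mul_sq h9 one_ne_zero w
    refine key (x • v η i 0 + y • v η i 1) (add_mem (Submodule.smul_mem _ _ ((h.ch η).mem hi a0))
      (Submodule.smul_mem _ _ ((h.ch η).mem hi a1))) w hw
      (by simp [(h.ch η).nil i hi 0 a0, (h.ch η).nil i hi 1 a1]) fun j => ?_
    simp only [map_add, map_smul, LinearMap.add_apply, LinearMap.smul_apply, h8 0 a0 0 a0,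
      h8 0 a0 1 a1, h8 1 a1 0 a0, h8 1 a1 1 a1, ← e, smul_eq_mul]
    by_cases hj : j = i <;> simp [hj]
    ring_nf
  exact H27.not_isSquare_mul (mul_one (2 * chD F i) ▸ h10 1 one_ne_zero)
    (mul_ne_zero h2 (chD_ne i)) hν (h10 ν h0)

theorem split_bound {k : ℕ} (hk : Fintype.card κ = 2 * (k + 1) + 1) :
    (Nat.card {C : ConjClasses (O Q) // ∀ h, Commute h (rep C) →
      spinor hQ (eichOK_of_two_ne_zero h2) h = 1} : ℝ) ≤ 475 / 100 * Fintype.card F ^ (k + 1) := by
  obtain ⟨ν, hν⟩ := FiniteField.exists_nonsquare (H27.ringChar_ne_two_of_two_ne_zero h2)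
  have h0 : ν ≠ 0 := by rintro rfl; exact hν .zero
  have h := full_O h2 hQ
  obtain ⟨a, s, n, v, h1, h3⟩ := h.exists_data h2 hQ polar_symm hν
  haveI := finite_of_inj h.inj
  have h4 := fun C : {C : ConjClasses (O Q) // ∀ h, Commute h (rep C) →
    spinor hQ (eichOK_of_two_ne_zero h2) h = 1} => @split_dat F _ κ _ _ Q _ h2 hQ _ hν _ _ _ _ _ (h1 C) C.2
  generalize (fun C : ConjClasses (O Q) => ∀ h, Commute h (rep C) →
    spinor hQ (eichOK_of_two_ne_zero h2) h = 1) = p at h4 ⊢
  have h5 := fun (C : ConjClasses (O Q)) i => mem_RP_of_eval h2 (lv0_mem h2 hQ polar_symm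
    (h.iso (rep C)) i) (lv0_eval _ _ (one_pow 2)) (lv0_eval _ _ neg_one_sq)
  have hv := fun C η => ((h1 C).ch η).valid
  refine (card_le_enc h2 (Y := Subtype p) _ _ (fun C => lv0 (rho Q (rep C.1))) (fun C => a C.1) (fun _ _ _ => false)
    (fun i => if i = 0 then {f ∈ RP F | f.eval 1 ≠ 0} else RP F)
    (fun i => ex 1 (if i = 0 then SG (Fintype.card F) else geo (Fintype.card F))) (fun _ => false)
    (fun i => decide (i % 2 = 0)) (fun i => by split_ifs; exacts [cnt_RP1, cnt_RP])
    (fun C i => ⟨(h5 _ i).1.1, lv0_eval _ _ (one_pow 2), lv0_eval _ _ neg_one_sq⟩) (fun C i hi => ?_)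
    (fun i => ?_) (by simp) (fun C η i hi => ?_)
    (fun C => (h1 C).sum_eq h2 hQ polar_symm (h.iso _) h0)
    fun C D h6 h7 _ => Subtype.ext (h3 _ _ h6 h7 fun η i hi => ?_)).trans ?_
  · split_ifs with h6
    · subst h6
      have h7 : ∀ η, a C η 0 / 2 = 0 := fun η => by
        have := fun h => (h4 C η hi rfl h).1
        omega
      exact ⟨encP_mem (h5 _ _) _ _, by simpa [encP, h7] using lv0_eval _ _ (one_pow 2)⟩
    · exact encP_mem (h5 _ _) _ _
  · have : (1 : F[X]) ∈ RP F := by simpa using RP_pow (F := F) (mul_one 1) 0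
    split_ifs
    exacts [⟨this, by simp⟩, this]
  · have := hv C η i hi
    grind [Valid]
  · have e1 := hv C η i hi
    have e2 := hv D η i hi
    by_cases h8 : i % 2 = 0 ∧ a C η i ≠ 0
    · have e3 := (h4 C η hi h8.1 h8.2).2
      have e4 := (h4 D η hi h8.1 (h7 η i hi ▸ h8.2)).2
      have e5 := fun h => H27.not_isSquare_mul h (mul_ne_zero h2 (chD_ne (F := F) i)) hν
      by_contra h9
      split_ifs at e3 e4 with e6 e7 e7
      · exact h9 (e6.trans e7.symm)
      · exact e5 (mul_one (2 * chD F i) ▸ e4) e3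
      · exact e5 (mul_one (2 * chD F i) ▸ e3) e4
      · exact h9 ((eq_false_of_ne_true e6).trans (eq_false_of_ne_true e7).symm)
    · have := h7 η i hi
      grind [Valid]
  · rw [finrank_fintype_fun_eq_card, hk]
    exact num_split (three_le h2) (k + 1) (2 * k)

include h2 hQ in
theorem Omega_bounds {k : ℕ} (hk : Fintype.card κ = 2 * (k + 1) + 1) :
    Fintype.card F ^ (k + 1) ≤ 2 * Nat.card (ConjClasses (Omega F ⇑Q)) ∧
      10 * Nat.card (ConjClasses (Omega F ⇑Q)) ≤ 73 * Fintype.card F ^ (k + 1) := by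
  constructor
  · haveI := finite_of_inj (full_O h2 hQ).inj
    have h1 := (S4200.result (Omega F ⇑Q)).2.1
    have h3 := (O_odd_lower h2 hQ hk).trans h1
    rw [omega_index_odd hQ h2 (by omega)] at h3
    omega
  have hc : gramDet Q * 2 ^ Fintype.card κ ≠ 0 := mul_ne_zero (gramDet_ne_zero hQ) (pow_ne_zero _ h2)
  generalize hc' : gramDet Q * 2 ^ Fintype.card κ = c at hc
  have e1 : ∀ x y, polar ⇑(c • Q) x y = c * polar Q x y := fun x y => by simp [polar]; ring
  have hQ' : (polarBilin (c • Q)).Nondegenerate :=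
    ⟨fun x h => hQ.1 x fun y => (mul_eq_zero.1 ((e1 x y).symm.trans (h y))).resolve_left hc,
      fun x h => hQ.2 x fun y => (mul_eq_zero.1 ((e1 y x).symm.trans (h y))).resolve_left hc⟩
  have e2 : O Q = O (c • Q) := Subgroup.ext fun g =>
    forall₂_congr fun u v => (mul_right_inj' hc).symm
  rw [show Nat.card (ConjClasses (Omega F ⇑Q)) = Nat.card (ConjClasses (Omega F ⇑(c • Q))) from
    congrArg (fun H : Subgroup (GL κ F) => Nat.card (ConjClasses (commutator H))) e2]
  haveI := finite_of_inj (full_O h2 hQ').inj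
  haveI := Fintype.ofFinite (O (c • Q))
  have h1 := four_mul_card_le _ _ _ (mem_omega_iff hQ' (eichOK_of_two_ne_zero h2))
    (omega_index_odd hQ' h2 (by omega)) (z := negO _) (fun g => O_ext_mat (by simp [mat_mul, mat_negO]))
    (by
      have := det_eq_dickson hQ' (eichOK_of_two_ne_zero h2) (negO _)
      rw [mat_negO, Matrix.det_neg, Matrix.det_one, hk, Odd.neg_one_pow (by simp)] at this
      refine (Int.units_eq_one_or _).resolve_left fun h => h2 ?_
      rw [h] at this
      simp only [Units.val_one, Int.cast_one] at this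
      linear_combination -this)
    (by
      rw [spinor_negO _ _ h2, sqSign_eq_one, show gramDet (c • Q) = c ^ Fintype.card κ * gramDet Q from
        Eq.trans (congrArg Matrix.det (Matrix.ext fun i j => e1 _ _)) (Matrix.det_smul _ c),
        mul_assoc, hc', hk]
      exact ⟨c ^ (k + 2), by ring⟩)
  have h3 := O_odd_upper h2 hQ' hk
  have h4 := split_bound h2 hQ' hk
  have h5 := (Nat.cast_le (α := ℝ)).2 h1
  push_cast at h5
  have : (10 : ℝ) * Nat.card (ConjClasses (Omega F ⇑(c • Q))) ≤ 73 * (Fintype.card F : ℝ) ^ (k + 1) := by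
    linarith [pow_nonneg (Nat.cast_nonneg (α := ℝ) (Fintype.card F)) (k + 1)]
  exact_mod_cast this

end Cfsg.Agent.H29
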