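import Cfsg.Agent.H29.ClsEnc
import Cfsg.Agent.H29.ClsSU

/-! Numerical estimates for the class numbers of symplectic and orthogonal groups. -/

set_option autoImplicit false

namespace Cfsg.Agent.H29

open PowerSeries Finset

/-- a bound for the partial sums at `x` that is linear in the parameter `l` -/
def Bd (x l : ℝ) (n : ℕ) (f : ℝ⟦X⟧) (B : ℝ) : Prop :=
  NN f ∧ constantCoeff f = 1 ∧ 1 ≤ B ∧ ps x n f ≤ 1 + l * (B - 1)

/-- a bound for `3 ^ (-1 / 2)` -/
noncomputable def x0 : ℝ := 97 / 168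

/-- the parameters attached to `q` -/
structure Par (q x l : ℝ) : Prop where
  pos : 0 < x
  l0 : 0 ≤ l
  l1 : l ≤ 1
  eq : x = l * x0
  sq : q * x ^ 2 = 1
  le : x ^ 2 ≤ 1 / 3

theorem exists_par {q : ℝ} (hq : 3 ≤ q) : ∃ x l, Par q x l := by
  have h0 : 0 < q := by linarith
  have h1 : (√q)⁻¹ ^ 2 = q⁻¹ := by rw [inv_pow, Real.sq_sqrt h0.le]
  have h2 : (√q)⁻¹ ^ 2 ≤ 1 / 3 := by rw [h1, one_div]; exact inv_anti₀ (by norm_num) hq
  have h3 : 0 < x0 := by norm_num [x0]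
  refine ⟨(√q)⁻¹, (√q)⁻¹ / x0, by positivity, by positivity, (div_le_one h3).2 ?_,
    (div_mul_cancel₀ _ h3.ne').symm, by rw [h1, mul_inv_cancel₀ h0.ne'], h2⟩
  exact le_of_sq_le_sq_of_nonneg' h2 h3.le
where le_of_sq_le_sq_of_nonneg' {y : ℝ} (h : y ^ 2 ≤ 1 / 3) (h3 : 0 ≤ x0) : y ≤ x0 :=
  (abs_le_of_sq_le_sq' (h.trans (by norm_num [x0])) h3).2

variable {q x l : ℝ} {n : ℕ} {f g : ℝ⟦X⟧} {B B' : ℝ}

theorem x0_pos : 0 < x0 := by norm_num [x0]
theorem x0_pow_lt (k : ℕ) : x0 ^ (k + 1) < 1 := pow_lt_one₀ x0_pos.le (by norm_num [x0]) k.succ_ne_zero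

theorem Par.q0 (h : Par q x l) : 0 ≤ q :=
  (pos_of_mul_pos_of_nonneg_right (h.sq ▸ one_pos) (sq_nonneg x)).le
  where pos_of_mul_pos_of_nonneg_right {a b : ℝ} (h : 0 < a * b) (hb : 0 ≤ b) : 0 < a :=
    (pos_iff_pos_of_mul_pos h).2 (hb.lt_of_ne' (right_ne_zero_of_mul h.ne'))

theorem Par.pow_le (h : Par q x l) (k : ℕ) : x ^ (k + 1) ≤ l * x0 ^ (k + 1) := by
  rw [h.eq, mul_pow]
  exact mul_le_mul_of_nonneg_right (pow_le_of_le_one h.l0 h.l1 k.succ_ne_zero) (pow_pos x0_pos _).le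

theorem bd_one : Bd x l n 1 1 := ⟨nn_one, map_one _, le_rfl, by simp [ps_one]⟩

theorem Bd.mul (h : Par q x l) (hf : Bd x l n f B) (hg : Bd x l n g B') :
    Bd x l n (f * g) (B * B') := by
  refine ⟨hf.1.mul hg.1, by rw [map_mul, hf.2.1, hg.2.1, one_mul],
    one_le_mul_of_one_le_of_one_le hf.2.2.1 hg.2.2.1,
    (ps_mul_le' h.pos.le hf.1 hg.1 hf.2.2.2 hg.2.2.2).trans ?_⟩
  nlinarith [mul_nonneg (mul_nonneg h.l0 (sub_nonneg.2 h.l1))
    (mul_nonneg (sub_nonneg.2 hf.2.2.1) (sub_nonneg.2 hg.2.2.1))]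

theorem bd_prod (h : Par q x l) {ι : Type*} (s : Finset ι) {f : ι → ℝ⟦X⟧} {B : ι → ℝ}
    (hf : ∀ i, Bd x l n (f i) (B i)) : Bd x l n (∏ i ∈ s, f i) (∏ i ∈ s, B i) := by
  classical
  induction s using Finset.induction_on with
  | empty => exact bd_one
  | insert a s ha ih => rw [prod_insert ha, prod_insert ha]; exact (hf a).mul h ih

theorem bd_bit (h : Par q x l) (b : Bool) (i : ℕ) :
    Bd x l n (ex i (bit b)) (if b then 1 + x0 ^ (i + 1) else 1) := by
  unfold bit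
  split_ifs
  · rw [map_add, map_one, expand_X]
    exact ⟨nn_one.add (nn_X.pow _), by simp, le_add_of_nonneg_right (pow_pos x0_pos _).le,
      (ps_one_add h.pos.le _).trans (by linarith [h.pow_le i])⟩
  · rw [map_one]; exact bd_one

theorem bd_geo (h : Par q x l) (i : ℕ) :
    Bd x l n (ex (i + 1) (ex 1 (geo q))) (1 - x0 ^ (2 * i + 1 + 1))⁻¹ := by
  have e : ex (i + 1) (ex 1 (geo q)) = ex (2 * i + 3) (geo q) := by
    rw [← expand_mul]; congr 2; omega
  have h1 : q * x ^ (2 * i + 3 + 1) = x ^ (2 * i + 1 + 1) := by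
    linear_combination x ^ (2 * i + 1 + 1) * h.sq
  have h2 := h.pow_le (2 * i + 1)
  have h3 := x0_pow_lt (2 * i + 1)
  have h4 := pow_pos x0_pos (2 * i + 1 + 1)
  have h5 := mul_le_of_le_one_left h4.le h.l1
  refine ⟨((nn_geo h.q0).ex _).ex _, by simp [geo], (one_le_inv₀ (by linarith)).2 (by linarith), ?_⟩
  rw [e]
  refine (ps_ex_geo h.pos.le h.q0 _ (by linarith)).trans ?_
  rw [h1]
  refine (inv_anti₀ (by linarith) (sub_le_sub_left h2 1)).trans ?_
  generalize x0 ^ (2 * i + 1 + 1) = z at *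
  have h6 : 0 < 1 - z := by linarith
  rw [inv_le_iff_one_le_mul₀ (by linarith), show (1 - z)⁻¹ - 1 = z / (1 - z) by field_simp; ring,
    show (1 + l * (z / (1 - z))) * (1 - l * z) = 1 + l * (1 - l) * z ^ 2 / (1 - z) by field_simp; ring]
  have := h.l0
  have := sub_nonneg.2 h.l1
  exact le_add_of_nonneg_right (by positivity)

theorem Bd.pole (h : Par q x l) (hg : Bd x l n g B) (hB : B ≤ B') {A A' : ℝ} (h0 : 0 ≤ A)
    (hA : ∀ m, coeff m f * x ^ m ≤ A) (hA' : coeff n f * x ^ n ≤ A') :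
    coeff n (f * g) * x ^ n ≤ A' + A * (l * (B' - 1)) := by
  have h1 := coeff_mul_le (n := n) (f := f) (g := g - 1) h.pos.le (fun m => by
    rcases m with _ | m
    · simp [hg.2.1]
    · simpa [coeff_one] using hg.1 (m + 1)) fun m _ => hA m
  have h2 : ps x n g = ps x n (g - 1) + 1 := by rw [← ps_one (x := x) (n := n), ← ps_add, sub_add_cancel]
  have h3 := mul_le_mul_of_nonneg_left (hg.2.2.2.trans (show _ ≤ 1 + l * (B' - 1) by
    gcongr; exact h.l0)) h0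
  rw [mul_sub, mul_one, map_sub, sub_mul] at h1
  rw [h2] at h3
  linarith

/-- the bound for one level -/
noncomputable def rr (b c : Bool) (i : ℕ) : ℝ := (1 - x0 ^ (2 * i + 1 + 1))⁻¹ *
  ((if b then 1 + x0 ^ (i + 1 + 1) else 1) * if c then 1 + x0 ^ (i + 1 + 1) else 1) ^ 2

theorem bd_rest (h : Par q x l) (b c : ℕ → Bool) (N : ℕ) : Bd x l n
    (∏ i ∈ range N, ex (i + 1) (ex 1 (geo q) * (bit (b i) * bit (c i)) ^ 2))
    (∏ i ∈ range N, rr (b i) (c i) i) := bd_prod h _ fun i => by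
  rw [map_mul, map_pow, map_mul, sq, rr, sq]
  have := (bd_bit (n := n) h (b i) (i + 1)).mul h (bd_bit h (c i) (i + 1))
  exact (bd_geo h i).mul h (this.mul h this)

theorem prod_rr_le (b c : ℕ → Bool) (A : ℝ) (K : ℕ) (hA : 0 ≤ A)
    (h : ∏ i ∈ range K, rr (b i) (c i) i ≤ A * (1 - 4 * x0 ^ K)) (N : ℕ) :
    ∏ i ∈ range N, rr (b i) (c i) i ≤ A := by
  have h0 := x0_pos
  have h1 : ∀ (b : Bool) k, 1 ≤ (if b then 1 + x0 ^ k else 1) ∧
      (if b then 1 + x0 ^ k else 1) ≤ 1 + x0 ^ k := fun b k => by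
    split_ifs <;> constructor <;> linarith [pow_pos h0 k]
  have h2 := fun i => sub_pos.2 (x0_pow_lt (2 * i + 1))
  refine prod_le_of_tail _ (fun i => 1 - 4 * x0 ^ i) A K (fun i => ?_)
    (fun i => sub_le_self _ (by positivity)) hA (fun i _ => ?_) h N
  · exact one_le_mul_of_one_le_of_one_le ((one_le_inv₀ (h2 i)).2 (sub_le_self _ (by positivity)))
      (one_le_pow₀ (one_le_mul_of_one_le_of_one_le (h1 _ _).1 (h1 _ _).1))
  · rw [rr, ← mul_assoc, mul_right_comm, ← div_eq_mul_inv, div_le_iff₀ (h2 i)]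
    have h3 := (h1 (b i) (i + 1 + 1))
    have h4 := (h1 (c i) (i + 1 + 1))
    have h5 := pow_le_pow_left₀ (by nlinarith) (mul_le_mul h3.2 h4.2 (by linarith) (by positivity)) 2
    have h6 := one_le_pow₀ (n := 2) (one_le_mul_of_one_le_of_one_le h3.1 h4.1)
    generalize ((if b i = true then 1 + x0 ^ (i + 1 + 1) else 1) *
      if c i = true then 1 + x0 ^ (i + 1 + 1) else 1) ^ 2 = w at h5 h6
    have h7 := pow_pos h0 i
    have h8 : x0 ^ i ≤ 1 := pow_le_one₀ h0.le (by norm_num [x0])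
    simp only [pow_succ, pow_mul', pow_zero, one_mul] at h5 ⊢
    generalize x0 ^ i = z at h5 h7 h8
    rw [x0] at h5 ⊢
    rcases le_total z (1 / 4) with h9 | h9
    · refine (mul_le_mul_of_nonneg_left h5 (by linarith)).trans ?_
      nlinarith [mul_pos h7 h7, pow_pos h7 3, pow_pos h7 4, pow_pos h7 5]
    · nlinarith [mul_nonneg (sub_nonneg.2 h9) (sub_nonneg.2 h6), mul_pos h7 h7, pow_pos h7 3]

theorem Par.coeff_X_pow (h : Par q x l) (k m : ℕ) : coeff m (X ^ k * ex 1 (geo q)) * x ^ m =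
    if k ≤ m ∧ (m + k) % 2 = 0 then x ^ k else 0 := by
  rw [coeff_X_pow_mul', coeff_expand]
  split_ifs with h1 h2 h3 h3 h3 <;> try first | omega | simp
  obtain ⟨j, hj⟩ := h2
  rw [hj, one_add_one_eq_two, Nat.mul_div_cancel_left _ two_pos, coeff_geo, show m = 2 * j + k by omega, pow_add,
    pow_mul, ← mul_assoc, ← mul_pow, h.sq, one_pow, one_mul]

theorem Par.le_even (h : Par q x l) {c A : ℝ} (hc : c * x ^ (2 * n) ≤ A) : c ≤ A * q ^ n := by
  have := mul_le_mul_of_nonneg_right hc (pow_nonneg h.q0 n)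
  rwa [mul_assoc, pow_mul, ← mul_pow, mul_comm _ q, h.sq, one_pow, mul_one] at this

theorem Par.le_odd (h : Par q x l) {c A : ℝ} (hc : c * x ^ (2 * n + 1) ≤ A * x) : c ≤ A * q ^ n :=
  h.le_even (le_of_mul_le_mul_right (by rwa [mul_assoc, ← pow_succ]) h.pos)

theorem num_triv (hq : 3 ≤ q) (b : ℕ → Bool) (hb : b 0 = false) {A : ℝ} (K : ℕ) (hA : 0 ≤ A)
    (h : ∏ i ∈ range K, rr (b (i + 1)) (b (i + 1)) i ≤ A * (1 - 4 * x0 ^ K)) (n N : ℕ) :
    coeff (2 * n) (PP (fun i => ex 1 (geo q) * (bit (b i) * bit (b i)) ^ 2) (N + 1)) ≤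
      A * q ^ n := by
  obtain ⟨x, l, hp⟩ := exists_par hq
  have h1 : ∀ m, coeff m (ex 1 (geo q)) * x ^ m ≤ 1 := fun m => by
    have := hp.coeff_X_pow 0 m
    rw [pow_zero, one_mul] at this
    rw [this]; split_ifs <;> simp
  have h2 := prod_rr_le _ _ A K hA h
  have h3 := (bd_rest hp (fun i => b (i + 1)) (fun i => b (i + 1)) N).pole hp (h2 N) zero_le_one h1
    (h1 (2 * n))
  rw [PP_succ', hb, bit, if_neg Bool.false_ne_true, one_mul, one_pow, mul_one]
  refine hp.le_even (h3.trans ?_)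
  nlinarith [hp.l1, (prod_range_zero _).symm.trans_le (h2 0)]

theorem num_Sp (hq : 3 ≤ q) (n N : ℕ) : coeff (2 * n) (PP (fun i => ex 1 (geo q) *
    (bit (decide (i % 2 = 1)) * bit (decide (i % 2 = 1))) ^ 2) (N + 1)) ≤ 54 / 5 * q ^ n :=
  num_triv hq (fun i => decide (i % 2 = 1)) rfl 12 (by norm_num)
    (by norm_num [prod_range_succ, rr, x0]) n N

theorem num_zero (hq : 3 ≤ q) (n N : ℕ) : coeff (2 * n) (PP (fun _ => ex 1 (geo q) *
    (bit false * bit false) ^ 2) (N + 1)) ≤ 182 / 100 * q ^ n :=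
  num_triv hq (fun _ => false) rfl 10 (by norm_num) (by norm_num [prod_range_succ, rr, x0]) n N

theorem num_O (hq : 3 ≤ q) (n N : ℕ) : (coeff (2 * n) (PP (fun i => ex 1 (geo q) *
    (bit (decide (i % 2 = 0)) * bit (decide (i % 2 = 0))) ^ 2) (N + 1)) ≤ 166 / 10 * q ^ n) ∧
    coeff (2 * n + 1) (PP (fun i => ex 1 (geo q) *
    (bit (decide (i % 2 = 0)) * bit (decide (i % 2 = 0))) ^ 2) (N + 1)) ≤ 287 / 10 * q ^ n := by
  obtain ⟨x, l, hp⟩ := exists_par hq
  have h0 := hp.pos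
  have hx := hp.le
  have h1 : ∀ m, coeff m (ex 1 (geo q) * (bit true * bit true) ^ 2) * x ^ m ≤
      if m % 2 = 0 then 28 / 9 else 16 / 3 * x := fun m => by
    rw [show ex 1 (geo q) * (bit true * bit true) ^ 2 = X ^ 0 * ex 1 (geo q) +
      C 4 * (X ^ 1 * ex 1 (geo q)) + C 6 * (X ^ 2 * ex 1 (geo q)) + C 4 * (X ^ 3 * ex 1 (geo q)) +
      X ^ 4 * ex 1 (geo q) by simp only [bit, if_true, map_ofNat]; ring]
    simp only [map_add, coeff_C_mul, add_mul, mul_assoc, hp.coeff_X_pow]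
    have : x ^ 4 ≤ 1 / 9 := by nlinarith [mul_le_mul hx hx (by positivity) (by norm_num)]
    have : x ^ 3 ≤ x / 3 := by nlinarith
    split_ifs <;> first | omega | linarith
  have h4 : ∀ m, coeff m (ex 1 (geo q) * (bit true * bit true) ^ 2) * x ^ m ≤ 28 / 9 := fun m =>
    (h1 m).trans (by split_ifs <;> nlinarith)
  have h2 := prod_rr_le (fun i => decide ((i + 1) % 2 = 0)) (fun i => decide ((i + 1) % 2 = 0))
    (533 / 100) 10 (by norm_num) (by norm_num [prod_range_succ, rr, x0]) N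
  have h3 := fun n A' => (bd_rest (n := n) hp _ _ N).pole (A' := A') hp h2 (by norm_num) h4
  rw [PP_succ']
  refine ⟨hp.le_even ((h3 _ _ (h4 _)).trans (by linarith [hp.l1])),
    hp.le_odd ((h3 _ _ ((h1 _).trans_eq (if_neg (by omega)))).trans ?_)⟩
  have := hp.eq
  rw [x0] at this
  linarith [hp.l0]

theorem num_split (hq : 3 ≤ q) (n N : ℕ) :
    coeff (2 * n + 1) (PP (fun i => ex 1 (if i = 0 then SG q else geo q) *
    (bit false * bit (decide (i % 2 = 0))) ^ 2) (N + 3)) ≤ 475 / 100 * q ^ n := by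
  obtain ⟨x, l, hp⟩ := exists_par hq
  have h0 := hp.pos
  have hx := hp.le
  have h1 : ∀ m, coeff m (ex 1 (SG q) * (bit false * bit true) ^ 2 * (1 + X ^ 3) ^ 2) * x ^ m ≤
      if m % 2 = 0 then 4 / 3 else 2 * x := fun m => by
    rw [show ex 1 (SG q) * (bit false * bit true) ^ 2 * (1 + X ^ 3) ^ 2 = X ^ 0 * ex 1 (geo q) +
      C 2 * (X ^ 1 * ex 1 (geo q)) + C 3 * (X ^ 4 * ex 1 (geo q)) - C 3 * (X ^ 6 * ex 1 (geo q)) -
      C 2 * (X ^ 9 * ex 1 (geo q)) - X ^ 10 * ex 1 (geo q) by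
        simp only [bit, if_true, map_ofNat, ex_SG, Bool.false_eq_true, if_false]; ring]
    simp only [map_add, map_sub, coeff_C_mul, add_mul, sub_mul, mul_assoc, hp.coeff_X_pow]
    have : x ^ 4 ≤ 1 / 9 := by nlinarith [mul_le_mul hx hx (by positivity) (by norm_num)]
    split_ifs <;> first | omega | linarith [pow_pos h0 6, pow_pos h0 9, pow_pos h0 10]
  have h4 := fun m => (h1 m).trans (show _ ≤ (4 / 3 : ℝ) by split_ifs <;> nlinarith)
  have h2 := prod_rr_le (fun _ => false) (fun i => decide ((i + 1) % 2 = 0 ∧ i ≠ 1))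
    (219 / 100) 10 (by norm_num) (by norm_num [prod_range_succ, rr, x0]) (N + 2)
  have h3 := (bd_rest (n := 2 * n + 1) hp _ _ _).pole hp h2 (by norm_num) h4
    ((h1 _).trans_eq (if_neg (by omega)))
  rw [PP_succ', prod_congr rfl (g := fun i => (if i = 1 then (1 + X ^ 3) ^ 2 else 1) *
    ex (i + 1) (ex 1 (geo q) * (bit false * bit (decide ((i + 1) % 2 = 0 ∧ i ≠ 1))) ^ 2))
    (fun i _ => by by_cases hi : i = 1 <;> simp [hi, bit, mul_comm]),
    prod_mul_distrib, prod_ite_eq', if_pos (mem_range.2 (by omega)), ← mul_assoc]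
  refine hp.le_odd (h3.trans ?_)
  have := hp.eq
  rw [x0] at this
  linarith [hp.l0]

end Cfsg.Agent.H29
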