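import Cfsg.Agent.H29.FormStd

/-! Normal form of a nilpotent skew-adjoint map on a symmetric or alternating space over a finite
field of odd order. -/

set_option autoImplicit false

namespace Cfsg.Agent.H29

open Module Finset

variable {F V : Type*} [Field F] [AddCommGroup V] [Module F V] {β : LinearMap.BilinForm F V}
  {n : End F V} {W : Submodule F V}

/-- `n` is skew-adjoint on the invariant subspace `W` -/
structure Skew (β : LinearMap.BilinForm F V) (n : End F V) (W : Submodule F V) : Prop where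
  mem : ∀ x ∈ W, n x ∈ W
  skew : ∀ x ∈ W, ∀ y ∈ W, β (n x) y = -β x (n y)

theorem Skew.pow_mem (h : Skew β n W) (j : ℕ) {x : V} (hx : x ∈ W) : (n ^ j) x ∈ W :=
  End.pow_apply_mem_of_forall_mem j h.mem x hx

theorem Skew.pow (h : Skew β n W) (j : ℕ) {x y : V} (hx : x ∈ W) (hy : y ∈ W) :
    β x ((n ^ j) y) = (-1) ^ j * β ((n ^ j) x) y := by
  induction j generalizing x with
  | zero => simp
  | succ j ih =>
    rw [pow_succ' n, End.mul_apply, ← neg_neg (β x _), ← h.skew x hx _ (h.pow_mem j hy),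
      ih (h.mem x hx), ← End.mul_apply, ← pow_succ, pow_succ' n, pow_succ]
    ring

theorem Skew.pow' (h : Skew β n W) (j l : ℕ) {x y : V} (hx : x ∈ W) (hy : y ∈ W) :
    β ((n ^ l) x) ((n ^ j) y) = (-1) ^ j * β ((n ^ (j + l)) x) y := by
  rw [h.pow j (h.pow_mem l hx) hy, pow_add, End.mul_apply]

theorem pow_apply_eq_zero {x : V} {N m : ℕ} (h : (n ^ N) x = 0) (hm : N ≤ m) : (n ^ m) x = 0 :=
  End.pow_map_zero_of_le hm h

theorem Skew.adjust (h : Skew β n W) (h2 : (2 : F) ≠ 0) {e N a : ℕ}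
    (hs : ∀ x y, β y x = (-1) ^ e * β x y) (hs' : ∀ x ∈ W, (n ^ (N + 1)) x = 0) {u : ℕ → V}
    (hu : ∀ k < a, u k ∈ W)
    (ht : ∀ t : ℕ → F, ∃ y ∈ W, ∀ k < a, β ((n ^ N) y) (u k) = t k) (r : ℕ) (hr : r ≤ N) :
    ∃ u' : ℕ → V, (∀ k < a, u' k ∈ W) ∧
      (∀ y ∈ W, ∀ k < a, β ((n ^ N) y) (u' k) = β ((n ^ N) y) (u k)) ∧
      ∀ l, N ≤ l + r → l < N → ∀ k < a, ∀ k' < a, β ((n ^ l) (u' k)) (u' k') = 0 := by
  induction r with
  | zero => exact ⟨u, hu, fun _ _ _ _ => rfl, fun l h1 h2 => by omega⟩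
  | succ r ih =>
    obtain ⟨u', h3, h4, h5⟩ := ih (by omega)
    obtain ⟨j, rfl⟩ := Nat.exists_eq_add_of_le' hr
    choose w hw hw' using fun k => ht fun k' => -β ((n ^ j) (u' k)) (u' k') / 2
    have h0 : ∀ x ∈ W, ∀ m, j + (r + 1) < m → (n ^ m) x = 0 := fun x hx m hm =>
      pow_apply_eq_zero (hs' x hx) hm
    refine ⟨fun k => u' k + (n ^ (r + 1)) (w k), fun k hk => W.add_mem (h3 k hk) (h.pow_mem _ (hw k)),
      fun y hy k hk => ?_, fun l h6 h7 k hk k' hk' => ?_⟩
    · rw [map_add, h.pow' _ _ hy (hw k), h0 y hy (r + 1 + _) (by omega), h4 y hy k hk]; simp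
    · simp only [map_add, LinearMap.add_apply, ← End.mul_apply, ← pow_add]
      rw [h.pow' _ _ (h3 k hk) (hw k'), h.pow' _ _ (hw k) (hw k'),
        h0 _ (hw k) (r + 1 + _) (by omega)]
      rcases (show j = l ∨ j < l by omega) with rfl | h8
      · rw [h4 _ (hw k) k' hk', hw' k k' hk', add_comm (r + 1), hs (w k'), h.pow _ (hw k') (h3 k hk),
          h4 _ (hw k') k hk, hw' k' k hk, hs (u' k), h.pow _ (h3 k hk) (h3 k' hk')]
        rcases neg_one_pow_eq_or F e with h1 | h1 <;> rcases neg_one_pow_eq_or F j with h' | h' <;>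
          rcases neg_one_pow_eq_or F r with h'' | h'' <;>
          simp only [pow_add, pow_one, h1, h', h'', map_zero, LinearMap.zero_apply] <;>
          field_simp <;> ring
      · rw [h0 _ (hw k) _ (by omega), h0 _ (h3 k hk) (r + 1 + _) (by omega),
          h5 l (by omega) h7 k hk k' hk']
        simp

/-- a system of Jordan chains with standard Gram matrix -/
structure Ch (β : LinearMap.BilinForm F V) (ν : F) (e : ℕ) (n : End F V) (W : Submodule F V)
    (N : ℕ) (a : ℕ → ℕ) (s : ℕ → Bool) (v : ℕ → ℕ → V) : Prop where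
  valid : ∀ i < N, Valid (e + i) (a i) (s i)
  span : Submodule.span F {x | ∃ i < N, ∃ k < a i, ∃ j, x = (n ^ j) (v i k)} = W
  nil : ∀ i < N, ∀ k < a i, (n ^ (i + 1)) (v i k) = 0
  gram : ∀ i < N, ∀ k < a i, ∀ i' < N, ∀ k' < a i', ∀ j, β ((n ^ j) (v i k)) (v i' k') =
    if i = i' ∧ j = i then stdB ν (e + i) (s i) k k' else 0

theorem Ch.mem {ν : F} {e N : ℕ} {a : ℕ → ℕ} {s : ℕ → Bool} {v : ℕ → ℕ → V}
    (h : Ch β ν e n W N a s v) {i k : ℕ} (hi : i < N) (hk : k < a i) : v i k ∈ W :=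
  h.span ▸ Submodule.subset_span ⟨i, hi, k, hk, 0, rfl⟩

theorem exists_ch [Finite F] [FiniteDimensional F V] (h2 : (2 : F) ≠ 0) {ν : F}
    (hν : ¬ IsSquare ν) {e : ℕ} (hs : ∀ x y, β y x = (-1) ^ e * β x y) (N : ℕ) (h : Skew β n W)
    (hd : ∀ x ∈ W, (∀ y ∈ W, β x y = 0) → x = 0) (hN : ∀ x ∈ W, (n ^ N) x = 0) :
    ∃ a s v, Ch β ν e n W N a s v := by
  induction N generalizing W with
  | zero =>
    exact ⟨0, fun _ => false, 0, by simp, by simpa [eq_comm] using (W.eq_bot_iff).2 hN, by simp,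
      by simp⟩
  | succ N ih =>
  have hν0 : ν ≠ 0 := by rintro rfl; exact hν .zero
  have hγ : ∀ x ∈ W, ∀ y ∈ W, β ((n ^ N) y) x = (-1) ^ (e + N) * β ((n ^ N) x) y :=
    fun x hx y hy => by rw [hs, h.pow N hx hy, pow_add, mul_assoc]
  obtain ⟨a, s, u₀, h1, h3, h4, h5⟩ := form_std h2 hν (β.compLeft (n ^ N)) (e + N) W hγ
  simp only [LinearMap.BilinForm.compLeft_apply] at h4 h5
  obtain ⟨u, h6, h7, h8⟩ := h.adjust h2 hs hN h3
    (fun t => by
      obtain ⟨c, hc⟩ := h1.solve hν0 t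
      refine ⟨∑ l ∈ range a, c l • u₀ l, W.sum_mem fun l hl => W.smul_mem _ (h3 l (mem_range.1 hl)),
        fun k hk => (Eq.trans ?_ (hc k hk))⟩
      simp only [map_sum, map_smul, LinearMap.sum_apply, LinearMap.smul_apply, smul_eq_mul]
      exact sum_congr rfl fun l hl => by rw [h4 l (mem_range.1 hl) k hk]) N le_rfl
  have h9 : ∀ j, ∀ k < a, ∀ k' < a, β ((n ^ j) (u k)) (u k') =
      if j = N then stdB ν (e + N) s k k' else 0 := fun j k hk k' hk' => by
    rcases lt_trichotomy j N with hj | rfl | hj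
    · rw [if_neg hj.ne, h8 j (by omega) hj k hk k' hk']
    · rw [if_pos rfl, h7 _ (h6 k hk) k' hk', hγ _ (h3 k' hk') _ (h6 k hk), h7 _ (h3 k' hk') k hk,
        ← hγ _ (h3 k' hk') _ (h3 k hk), h4 k hk k' hk']
    · rw [if_neg hj.ne', pow_apply_eq_zero (hN _ (h6 k hk)) hj]; simp
  let W' : Submodule F V :=
    { carrier := {x | x ∈ W ∧ ∀ j, ∀ k < a, β ((n ^ j) x) (u k) = 0}
      add_mem' := fun hx hy => ⟨W.add_mem hx.1 hy.1, fun j k hk => by simp [hx.2 j k hk, hy.2 j k hk]⟩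
      zero_mem' := ⟨W.zero_mem, by simp⟩
      smul_mem' := fun c x hx => ⟨W.smul_mem c hx.1, fun j k hk => by simp [hx.2 j k hk]⟩ }
  have h10 : ∀ x ∈ W, ∃ c : ℕ → ℕ → F,
      x - ∑ j ∈ range (N + 1), ∑ l ∈ range a, c j l • (n ^ j) (u l) ∈ W' := fun x hx => by
    choose c hc using fun j => h1.solve hν0 fun k => β ((n ^ (N - j)) x) (u k)
    refine ⟨c, W.sub_mem hx (W.sum_mem fun j _ => W.sum_mem fun l hl =>
      W.smul_mem _ (h.pow_mem _ (h6 l (mem_range.1 hl)))), fun m k hk => ?_⟩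
    simp only [map_sub, map_sum, map_smul, LinearMap.sub_apply, LinearMap.sum_apply,
      LinearMap.smul_apply, smul_eq_mul, ← End.mul_apply, ← pow_add]
    rw [sum_congr rfl fun j _ => sum_congr rfl fun l hl => by rw [h9 _ l (mem_range.1 hl) k hk],
      sub_eq_zero]
    rcases le_or_gt m N with hm | hm
    · rw [sum_eq_single (N - m) (fun j _ hj => sum_eq_zero fun l _ => by
        rw [if_neg (by omega), mul_zero]) (fun h => absurd (mem_range.2 (by omega)) h)]
      simp only [Nat.add_sub_cancel' hm, if_true, hc _ k hk, Nat.sub_sub_self hm]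
    · rw [pow_apply_eq_zero (hN x hx) hm, sum_eq_zero fun j _ => sum_eq_zero fun l _ => by
        rw [if_neg (by omega), mul_zero]]
      simp
  obtain ⟨a', s', v, h11⟩ := ih (W := W') ⟨fun x hx => ⟨h.mem x hx.1, fun j k hk => by
      rw [← End.mul_apply, ← pow_succ]; exact hx.2 _ k hk⟩,
      fun x hx y hy => h.skew x hx.1 y hy.1⟩
    (fun x hx hx' => hd x hx.1 fun y hy => by
      obtain ⟨c, hc⟩ := h10 y hy
      have := hx' _ hc
      rw [map_sub, sub_eq_zero] at this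
      rw [this, map_sum]
      refine sum_eq_zero fun j _ => (map_sum _ _ _).trans (sum_eq_zero fun l hl => ?_)
      rw [map_smul, h.pow j hx.1 (h6 l (mem_range.1 hl)), hx.2 j l (mem_range.1 hl)]; simp)
    fun x hx => hd _ (h.pow_mem N hx.1) (h5 x hx.1 fun k hk => by
      rw [← h7 x hx.1 k hk]; exact hx.2 N k hk)
  have e1 : ∀ i < N + 1, i ≠ N → i < N := by omega
  refine ⟨Function.update a' N a, Function.update s' N s, Function.update v N u, fun i hi => ?_,
    le_antisymm (Submodule.span_le.2 ?_) fun x hx => ?_, fun i hi k hk => ?_,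
    fun i hi k hk i' hi' k' hk' j => ?_⟩
  · by_cases e : i = N
    · simpa [e] using h1
    · simpa [e] using h11.valid i (e1 i hi e)
  · rintro _ ⟨i, hi, k, hk, j, rfl⟩
    refine h.pow_mem j ?_
    by_cases e : i = N
    · simpa [e] using h6 k (by simpa [e] using hk)
    · simpa [e] using (h11.mem (e1 i hi e) (by simpa [e] using hk)).1
  · obtain ⟨c, hc⟩ := h10 x hx
    rw [← h11.span] at hc
    refine (Submodule.sub_mem_iff_left _ (Submodule.sum_mem _ fun j _ => Submodule.sum_mem _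
      fun l hl => Submodule.smul_mem _ _ (Submodule.subset_span ?_))).1 (Submodule.span_mono ?_ hc)
    · exact ⟨N, N.lt_succ_self, l, by simpa using hl, j, by simp⟩
    · rintro _ ⟨i, hi, k, hk, j, rfl⟩
      exact ⟨i, by omega, k, by simpa [hi.ne] using hk, j, by simp [hi.ne]⟩
  · by_cases e : i = N
    · simpa [e] using hN _ (h6 k (by simpa [e] using hk))
    · simpa [e] using h11.nil i (e1 i hi e) k (by simpa [e] using hk)
  · by_cases e : i = N <;> by_cases e' : i' = N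
    · simpa [e, e'] using h9 j k (by simpa [e] using hk) k' (by simpa [e'] using hk')
    · have h12 := h11.mem (e1 i' hi' e') (by simpa [e'] using hk')
      have h13 : k < a := by simpa [e] using hk
      simp [e, e', Ne.symm e', hs (v i' k'), h.pow j h12.1 (h6 k h13), h12.2 j k h13]
    · simpa [e, e'] using (h11.mem (e1 i hi e) (by simpa [e] using hk)).2 j k' (by simpa [e'] using hk')
    · simpa [e, e'] using h11.gram i (e1 i hi e) k (by simpa [e] using hk) i' (e1 i' hi' e') k'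
        (by simpa [e'] using hk') j

/-- the index set of a system of chains -/
abbrev CI (N : ℕ) (a : ℕ → ℕ) : Type := (i : Fin N) × (Fin (a i) × Fin (i + 1))

/-- the Gram matrix of a system of chains -/
def chG (ν : F) (e N : ℕ) (a : ℕ → ℕ) (s : ℕ → Bool) : Matrix (CI N a) (CI N a) F :=
  .of fun p r => (-1) ^ (r.2.2 : ℕ) * if (p.1 : ℕ) = r.1 ∧ (r.2.2 : ℕ) + p.2.2 = p.1 then
    stdB ν (e + p.1) (s p.1) p.2.1 r.2.1 else 0

variable {ν : F} {e N : ℕ} {a : ℕ → ℕ} {s : ℕ → Bool} {v : ℕ → ℕ → V}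

theorem chG_det_ne (hν : ν ≠ 0) (h : ∀ i < N, Valid (e + i) (a i) (s i)) :
    (chG ν e N a s).det ≠ 0 := fun h0 => by
  obtain ⟨c, hc, h1⟩ := Matrix.exists_vecMul_eq_zero_iff.2 h0
  refine hc (funext fun ⟨i, k, j⟩ => ?_)
  have := congrFun h1 ⟨i, ⟨_, (h i i.2).prt_lt k.2⟩, j.rev⟩
  rw [Matrix.vecMul, dotProduct, sum_eq_single ⟨i, k, j⟩ _ (by simp)] at this
  · have hj : (j.rev : ℕ) + j = i := by rw [Fin.val_rev]; omega
    simpa [chG, stdB, prt_prt, val_ne_zero hν, hj, -Fin.val_rev] using this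
  · rintro ⟨i', k', j'⟩ - hne
    simp only [chG, Matrix.of_apply, stdB]
    split_ifs with h3 h4
    · obtain rfl := Fin.ext h3.1
      rw [Fin.val_rev] at h3
      obtain rfl : k' = k := Fin.ext (h4.trans (prt_prt _ _))
      obtain rfl : j' = j := Fin.ext (by omega)
      exact absurd rfl hne
    all_goals simp

theorem chG_det_eq (h : ∀ i < N, Valid (e + i) (a i) (s i)) : (chG ν e N a s).det =
    (∏ i ∈ range N, if s i then ν ^ (i + 1) else 1) * (chG ν e N a fun _ => false).det := by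
  have : chG ν e N a s = Matrix.diagonal (fun p => if s p.1 ∧ (p.2.1 : ℕ) = 0 then ν else 1) *
      chG ν e N a fun _ => false := by
    ext p r
    have := fun h' => ((h _ p.1.2).2 h').2
    simp only [Matrix.diagonal_mul, chG, Matrix.of_apply, stdB, val, prt]
    split_ifs <;> simp_all [mul_comm]
  rw [this, Matrix.det_mul, Matrix.det_diagonal, Fintype.prod_sigma,
    ← Fin.prod_univ_eq_prod_range fun i => if s i then ν ^ (i + 1) else 1]
  congr 1
  refine prod_congr rfl fun i _ => ?_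
  split_ifs with hi
  · have : 0 < a i := Nat.pos_of_ne_zero fun h0 => by simp [(h i i.2).1 h0] at hi
    rw [Fintype.prod_prod_type, prod_eq_single ⟨0, this⟩ (fun k _ hk => by
      simp [show (k : ℕ) ≠ 0 from fun h => hk (Fin.ext h)]) (by simp)]
    simp [hi]
  · simp [hi]

theorem Ch.gram' (h : Ch β ν e n W N a s v) (hn : Skew β n W) {i k i' k' : ℕ} (hi : i < N)
    (hk : k < a i) (hi' : i' < N) (hk' : k' < a i') (j j' : ℕ) :
    β ((n ^ j) (v i k)) ((n ^ j') (v i' k')) =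
      (-1) ^ j' * if i = i' ∧ j' + j = i then stdB ν (e + i) (s i) k k' else 0 := by
  rw [hn.pow' _ _ (h.mem hi hk) (h.mem hi' hk'), h.gram i hi k hk i' hi' k' hk']

theorem Ch.disc (h : Ch β ν e n W N a s v) (hn : Skew β n W) (hν : ν ≠ 0) :
    Disc β W (∑ i ∈ range N, (i + 1) * a i) (chG ν e N a s).det := by
  refine ⟨chG_det_ne hν h.valid, CI N a, inferInstance, inferInstance,
    fun p => (n ^ (p.2.2 : ℕ)) (v p.1 p.2.1), ?_, h.span ▸ le_antisymm (Submodule.span_mono ?_)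
      (Submodule.span_le.2 ?_), ?_⟩
  · rw [← Fin.sum_univ_eq_sum_range fun i => (i + 1) * a i]
    simp [Fintype.card_sigma, mul_comm]
  · rintro _ ⟨⟨i, k, j⟩, rfl⟩
    exact ⟨i, i.2, k, k.2, j, rfl⟩
  · rintro _ ⟨i, hi, k, hk, j, rfl⟩
    rcases le_or_gt j i with hj | hj
    · exact Submodule.subset_span ⟨⟨⟨i, hi⟩, ⟨k, hk⟩, ⟨j, Nat.lt_succ_of_le hj⟩⟩, rfl⟩
    · rw [pow_apply_eq_zero (h.nil i hi k hk) hj]; exact zero_mem _
  · congr 1
    ext p r
    exact h.gram' hn p.1.2 p.2.1.2 r.1.2 r.2.1.2 _ _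

end Cfsg.Agent.H29
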