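import Mathlib
import Cfsg.Agent.H88.Deg
import Cfsg.Agent.H7.Degree
import Cfsg.Agent.H5.ClassFn
import Cfsg.Agent.S0154
import Cfsg.Agent.H83.ClassCount

/-! Groups with many conjugacy classes. -/

set_option autoImplicit false

namespace Cfsg.Agent.H29.PiC

open Subgroup Cfsg

theorem le_of_dvd {p n d : ℕ} (hp : ∀ r : ℕ, r.Prime → r ∣ n → p ≤ r) (hd : d ∣ n) (h0 : d ≠ 0)
    (h1 : d ≠ 1) : p ≤ d :=
  (hp _ (Nat.minFac_prime h1) ((Nat.minFac_dvd d).trans hd)).trans
    (Nat.minFac_le (Nat.pos_of_ne_zero h0))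

theorem sq_le_of_dvd {p n d : ℕ} (hp : ∀ r : ℕ, r.Prime → r ∣ n → p ≤ r) (hd : d ∣ n) (h0 : d ≠ 0)
    (h1 : d ≠ 1) (h2 : ¬ d.Prime) : p ^ 2 ≤ d := by
  have h3 := Nat.minFac_sq_le_self (Nat.pos_of_ne_zero h0) h2
  have h4 := hp _ (Nat.minFac_prime h1) ((Nat.minFac_dvd d).trans hd)
  exact (Nat.pow_le_pow_left h4 2).trans h3

variable {L : Type*} [Group L] [Finite L]

theorem mul_card_le {p : ℕ} (hp : ∀ r : ℕ, r.Prime → r ∣ Nat.card L → p ≤ r) {K : Subgroup L}
    (hK : K ≠ ⊤) : p * Nat.card K ≤ Nat.card L := by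
  rw [← K.index_mul_card]
  exact Nat.mul_le_mul_right _ (le_of_dvd hp K.index_dvd_card index_ne_zero_of_finite
    (fun h => hK (index_eq_one.1 h)))

theorem der_le {p : ℕ} (h2 : 2 ≤ p) (hp : ∀ r : ℕ, r.Prime → r ∣ Nat.card L → p ≤ r)
    (hk : Nat.card L < p * Nat.card (ConjClasses L)) : Nat.card (commutator L) ≤ p := by
  classical
  have h1 := H88.sum_charDegree_sq (G := L)
  have h3 := S0154.result (G := L)
  rw [← H5.card_irrCharacter, Nat.card_eq_fintype_card (α := IrrCharacter L)] at hk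
  rw [Nat.card_eq_fintype_card, Fintype.card_subtype] at h3
  set S := Finset.univ.filter fun χ : IrrCharacter L => (χ : L → ℂ) 1 = 1 with hS
  have h4 : ∑ χ : IrrCharacter L, p ^ 2 ≤
      ∑ χ : IrrCharacter L, (charDegree (χ : L → ℂ) ^ 2 + if χ ∈ S then p ^ 2 - 1 else 0) := by
    refine Finset.sum_le_sum fun χ _ => ?_
    obtain ⟨d, hd0, hd1, hd2⟩ := H7.exists_degree_dvd_card χ.2
    rw [H88.charDegree_eq_of_eq hd1]
    split_ifs with h
    · have : 1 ≤ d ^ 2 := Nat.one_le_pow _ _ hd0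
      have : 1 ≤ p ^ 2 := Nat.one_le_pow _ _ (by omega)
      omega
    · have hd : d ≠ 1 := by
        rintro rfl
        exact h (by rw [hS, Finset.mem_filter]; exact ⟨Finset.mem_univ _, by rw [hd1]; simp⟩)
      simpa using Nat.pow_le_pow_left (le_of_dvd hp hd2 hd0.ne' hd) 2
  rw [Finset.sum_add_distrib, h1, Finset.sum_const, smul_eq_mul, Finset.card_univ,
    Finset.sum_ite_mem, Finset.univ_inter, Finset.sum_const, smul_eq_mul, h3] at h4
  have h5 := (commutator L).index_mul_card
  have h6 : 0 < (commutator L).index := Nat.pos_of_ne_zero index_ne_zero_of_finite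
  set a := (commutator L).index
  set c := Nat.card (commutator L)
  set k := Fintype.card (IrrCharacter L)
  rw [← h5] at h4 hk
  by_contra hc
  push Not at hc
  obtain ⟨t, rfl⟩ : ∃ t, p = t + 1 := ⟨p - 1, by omega⟩
  have e : (t + 1) ^ 2 - 1 = t * (t + 2) := by
    rw [show (t + 1) ^ 2 = t * (t + 2) + 1 by ring]; omega
  rw [e] at h4
  have h7 : (t + 1) * (a * c) < (t + 1) * ((t + 1) * k) := Nat.mul_lt_mul_of_pos_left hk (by omega)
  have h8 : a * t * (t + 2) ≤ a * t * c := Nat.mul_le_mul_left _ hc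
  nlinarith

theorem nil_of_der {p : ℕ} (hp : ∀ r : ℕ, r.Prime → r ∣ Nat.card L → p ≤ r)
    (hc : Nat.card (commutator L) ≤ p) : Group.IsNilpotent L := by
  have hz : commutator L ≤ center L := by
    by_cases h1 : Nat.card (commutator L) = 1
    · rw [card_eq_one.1 h1]; exact bot_le
    intro x hx
    by_contra hxz
    have hne : centralizer ({x} : Set L) ≠ ⊤ := fun h => hxz (mem_center_iff.2 fun g => by
      have : g ∈ centralizer ({x} : Set L) := h ▸ mem_top g
      exact mem_centralizer_singleton_iff.1 this)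
    have h2 := le_of_dvd hp (centralizer ({x} : Set L)).index_dvd_card index_ne_zero_of_finite
      (fun h => hne (index_eq_one.1 h))
    have hx1 : x ≠ 1 := fun h => hxz (h ▸ one_mem _)
    have h3 : Nat.card {y : L | IsConj x y} = _ := H83.card_isConj x
    have h4 : {y : L | IsConj x y} ⊆ (commutator L : Set L) \ {1} := by
      intro y hy
      obtain ⟨g, rfl⟩ := isConj_iff.1 hy
      refine ⟨(inferInstance : (commutator L).Normal).conj_mem x hx _, fun h => hx1 ?_⟩
      exact isConj_one_left.1 ((Set.mem_singleton_iff.1 h) ▸ hy)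
    have h5 := Set.ncard_le_ncard h4
    rw [Set.ncard_sdiff_singleton_of_mem (commutator L).one_mem, ← Nat.card_coe_set_eq,
      ← Nat.card_coe_set_eq, h3] at h5
    have h6 : 0 < Nat.card (commutator L) := Nat.card_pos
    change _ ≤ Nat.card (commutator L) - 1 at h5
    omega
  refine ⟨2, ?_⟩
  rw [eq_top_iff]
  intro x _
  rw [Subgroup.mem_upperCentralSeries_succ_iff]
  intro y
  rw [Subgroup.upperCentralSeries_one]
  exact hz (commutator_mem_commutator (mem_top x) (mem_top y))

theorem comm_of {p : ℕ} (h2 : 2 ≤ p) (hp : ∀ r : ℕ, r.Prime → r ∣ Nat.card L → p ≤ r)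
    (hk : Nat.card L * (p ^ 2 + p - 1) < p ^ 3 * Nat.card (ConjClasses L)) :
    IsMulCommutative L := by
  classical
  have := Fintype.ofFinite L
  by_contra hc
  have hz : center L ≠ ⊤ := fun h => hc ⟨⟨fun a b => mem_center_iff.1 (h ▸ mem_top b) a⟩⟩
  have h1 : p ^ 2 ≤ (center L).index := by
    refine sq_le_of_dvd hp (center L).index_dvd_card index_ne_zero_of_finite
      (fun h => hz (index_eq_one.1 h)) fun h => hc ?_
    have := Fact.mk h
    have : IsCyclic (L ⧸ center L) := isCyclic_of_prime_card (p := (center L).index) rfl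
    exact (QuotientGroup.mk' (center L)).isMulCommutative_of_isCyclic_of_ker_le_center
      (by rw [QuotientGroup.ker_mk'])
  have h3 := H83.card_conjClasses_mul (G := L)
  have h4 : ∑ x : L, p * Nat.card (centralizer ({x} : Set L)) ≤
      ∑ x : L, (Nat.card L + if x ∈ Finset.univ.filter (· ∈ center L) then (p - 1) * Nat.card L else 0) := by
    refine Finset.sum_le_sum fun x _ => ?_
    split_ifs with h
    · have := card_le_card_group (centralizer ({x} : Set L))
      obtain ⟨t, rfl⟩ : ∃ t, p = t + 1 := ⟨p - 1, by omega⟩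
      rw [Nat.add_sub_cancel]
      nlinarith
    · refine (mul_card_le hp fun h' => h ?_).trans (by omega)
      rw [Finset.mem_filter]
      exact ⟨Finset.mem_univ _, mem_center_iff.2 fun g =>
        mem_centralizer_singleton_iff.1 (h' ▸ mem_top g)⟩
  rw [← Finset.mul_sum, ← h3, Finset.sum_add_distrib, Finset.sum_ite_mem, Finset.univ_inter,
    Finset.sum_const, Finset.sum_const, smul_eq_mul, smul_eq_mul, Finset.card_univ,
    ← Nat.card_eq_fintype_card, ← Fintype.card_subtype, ← Nat.card_eq_fintype_card] at h4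
  have h5 := (center L).index_mul_card
  have h6 : 0 < Nat.card L := Nat.card_pos
  change _ ≤ _ + Nat.card (center L) * _ at h4
  set n := Nat.card L
  set z := Nat.card (center L)
  set k := Nat.card (ConjClasses L)
  have h7 : p ^ 2 * z ≤ n := h5 ▸ Nat.mul_le_mul_right _ h1
  obtain ⟨t, rfl⟩ : ∃ t, p = t + 1 := ⟨p - 1, by omega⟩
  rw [Nat.add_sub_cancel] at h4
  have h8 : (t + 1) * k ≤ n + z * t := by
    refine Nat.le_of_mul_le_mul_right ?_ h6
    nlinarith
  rw [show (t + 1) ^ 2 + (t + 1) - 1 = (t + 1) ^ 2 + t by omega] at hk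
  have h9 := Nat.mul_le_mul_left ((t + 1) ^ 2) h8
  have h10 := Nat.mul_le_mul_right t h7
  nlinarith

end Cfsg.Agent.H29.PiC
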