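import Mathlib
import Cfsg.Agent.H80.ClassCount
import Cfsg.Agent.H29.PiA
import Cfsg.Agent.S0581
import Cfsg.Agent.H21.Basic

/-! Class counting: splitting by parts, and nilpotent Hall subgroups. -/

set_option autoImplicit false

namespace Cfsg.Agent.H29.PiC

open Subgroup Cfsg Cfsg.Agent.H80

variable {G : Type*} [Group G]

theorem isConj_of_carrier {x y : G} (h : y ∈ (ConjClasses.mk x).carrier) : IsConj x y :=
  (ConjClasses.mk_eq_mk_iff_isConj.1 (ConjClasses.mem_carrier_iff_mk_eq.1 h)).symm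

theorem kcl_mono [Finite G] {D E : G → Prop} (h : ∀ x, D x → E x) : kcl G D ≤ kcl G E :=
  Nat.card_le_card_of_injective
    (fun c : {c : ConjClasses G // ∀ x ∈ c.carrier, D x} =>
      (⟨c.1, fun x hx => h x (c.2 x hx)⟩ : {c : ConjClasses G // ∀ x ∈ c.carrier, E x}))
    fun _ _ e => Subtype.ext (by simpa using e)

theorem kcl_le_add [Finite G] (D E : G → Prop) (hE : ∀ x y, IsConj x y → E x → E y) :
    kcl G D ≤ kcl G E + kcl G (fun x => D x ∧ ¬ E x) := by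
  unfold kcl
  rw [← Nat.card_sum]
  refine card_subtype_le_of_cover _ (Sum.elim (fun c => c.1) (fun c => c.1)) fun c hc => ?_
  obtain ⟨x, rfl⟩ := ConjClasses.exists_rep c
  by_cases hx : E x
  · exact ⟨Sum.inl ⟨ConjClasses.mk x, fun y hy => hE x y (isConj_of_carrier hy) hx⟩, rfl⟩
  · exact ⟨Sum.inr ⟨ConjClasses.mk x, fun y hy =>
      ⟨hc y hy, fun h => hx (hE y x (isConj_of_carrier hy).symm h)⟩⟩, rfl⟩

theorem kcl_split [Finite G] (D E F : G → Prop) (hE : ∀ x y, IsConj x y → E x → E y)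
    (hF : ∀ x y, IsConj x y → F x → F y) (B : ℕ)
    (hD : ∀ g, D g → ∃ a b, Commute a b ∧ g = a * b ∧ E a ∧ F b)
    (hB : ∀ a, E a → kcl (centralizer ({a} : Set G)) (fun y => F y) ≤ B) :
    kcl G D ≤ kcl G E * B := by
  classical
  let A := {c : ConjClasses G // ∀ x ∈ c.carrier, E x}
  let rep : ConjClasses G → G := fun c => (ConjClasses.exists_rep c).choose
  have hrep : ∀ c, ConjClasses.mk (rep c) = c := fun c => (ConjClasses.exists_rep c).choose_spec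
  let Bf : A → Type _ := fun c => {d : ConjClasses (centralizer ({rep c.1} : Set G)) //
    ∀ x ∈ d.carrier, F x}
  have h1 : kcl G D ≤ Nat.card (Σ c : A, Bf c) := by
    refine card_subtype_le_of_cover _ (fun s : (Σ c : A, Bf c) =>
      ConjClasses.mk (rep s.1.1 * ((ConjClasses.exists_rep s.2.1).choose : G))) ?_
    intro c hc
    obtain ⟨x, rfl⟩ := ConjClasses.exists_rep c
    obtain ⟨a, b, hcomm, hab, ha, hb⟩ := hD x (hc x ConjClasses.mem_carrier_mk)
    have ha' : ∀ y ∈ (ConjClasses.mk a).carrier, E y := fun y hy =>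
      hE a y (isConj_of_carrier hy) ha
    obtain ⟨g, hg⟩ := isConj_iff.1 (ConjClasses.mk_eq_mk_iff_isConj.1 (hrep (ConjClasses.mk a)).symm)
    have hmem : g * b * g⁻¹ ∈ centralizer ({rep (ConjClasses.mk a)} : Set G) := by
      rw [mem_centralizer_singleton_iff, ← hg]
      calc g * b * g⁻¹ * (g * a * g⁻¹) = g * (b * a) * g⁻¹ := by group
        _ = g * (a * b) * g⁻¹ := by rw [hcomm.eq]
        _ = _ := by group
    have hb' : ∀ y ∈ (ConjClasses.mk (⟨g * b * g⁻¹, hmem⟩ :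
        centralizer ({rep (ConjClasses.mk a)} : Set G))).carrier, F y := by
      intro y hy
      exact hF _ _ ((isConj_iff.2 ⟨g, rfl⟩).trans
        ((centralizer _).subtype.map_isConj (isConj_of_carrier hy))) hb
    refine ⟨⟨⟨ConjClasses.mk a, ha'⟩, ⟨ConjClasses.mk ⟨g * b * g⁻¹, hmem⟩, hb'⟩⟩, ?_⟩
    have hd := (ConjClasses.exists_rep (ConjClasses.mk (⟨g * b * g⁻¹, hmem⟩ :
        centralizer ({rep (ConjClasses.mk a)} : Set G)))).choose_spec
    obtain ⟨h, hh⟩ := isConj_iff.1 (ConjClasses.mk_eq_mk_iff_isConj.1 hd.symm)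
    refine ConjClasses.mk_eq_mk_iff_isConj.2 (IsConj.symm (isConj_iff.2 ⟨h * g, ?_⟩))
    simp only
    rw [← hh]
    have hc := mem_centralizer_singleton_iff.1 h.2
    simp only [Subgroup.coe_mul, Subgroup.coe_inv]
    calc (h : G) * g * x * (h * g)⁻¹ = h * (g * a * g⁻¹) * (g * b * g⁻¹) * (h : G)⁻¹ := by
          rw [hab]; group
      _ = _ := by rw [hg, hc]; group
  refine h1.trans ?_
  have : Fintype A := Fintype.ofFinite A
  rw [Nat.card_sigma]
  calc ∑ c : A, Nat.card (Bf c) ≤ ∑ _c : A, B := Finset.sum_le_sum (fun c _ => hB _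
        (c.2 _ (ConjClasses.mem_carrier_iff_mk_eq.2 (hrep c.1))))
    _ = _ := by
      rw [Finset.sum_const, smul_eq_mul, Finset.card_univ, ← Nat.card_eq_fintype_card]; rfl

/-- the `π`-part -/
def pp (π : Finset ℕ) (n : ℕ) : ℕ := π.prod (fun r => r ^ n.factorization r)

theorem pp_pos {π : Finset ℕ} (hπ : ∀ r ∈ π, r.Prime) (n : ℕ) : 0 < pp π n :=
  Finset.prod_pos fun r hr => pow_pos (hπ r hr).pos _

theorem mem_of_dvd_pp {π : Finset ℕ} (hπ : ∀ r ∈ π, r.Prime) {n r : ℕ} (hr : r.Prime)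
    (h : r ∣ pp π n) : r ∈ π := by
  obtain ⟨s, hs, h⟩ := (Prime.dvd_finsetProd_iff hr.prime _).1 h
  rwa [(Nat.prime_dvd_prime_iff_eq hr (hπ s hs)).1 (hr.dvd_of_dvd_pow h)]

theorem factorization_pp {π : Finset ℕ} (hπ : ∀ r ∈ π, r.Prime) (n : ℕ) {r : ℕ} (hr : r ∈ π) :
    (pp π n).factorization r = n.factorization r := by
  classical
  unfold pp
  rw [Nat.factorization_prod_apply fun s hs => (pow_pos (hπ s hs).pos _).ne',
    Finset.sum_eq_single r]
  · rw [(hπ r hr).factorization_pow, Finsupp.single_eq_same]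
  · intro s hs hsr
    rw [(hπ s hs).factorization_pow, Finsupp.single_eq_of_ne hsr.symm]
  · exact fun h => absurd hr h

theorem pp_dvd_of {π : Finset ℕ} (hπ : ∀ r ∈ π, r.Prime) {n m : ℕ}
    (h : ∀ r ∈ π, r ^ n.factorization r ∣ m) : pp π n ∣ m :=
  Finset.prod_dvd_of_isRelPrime (fun r hr s hs hrs => Nat.coprime_iff_isRelPrime.1
    (Nat.coprime_pow_primes (n.factorization r) (n.factorization s) (hπ r hr) (hπ s hs) hrs)) h

theorem pp_dvd {π : Finset ℕ} (hπ : ∀ r ∈ π, r.Prime) (n : ℕ) : pp π n ∣ n :=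
  pp_dvd_of hπ fun r _ => Nat.ordProj_dvd n r

theorem pp_dvd_pp {π : Finset ℕ} (hπ : ∀ r ∈ π, r.Prime) {m n : ℕ} (hn : n ≠ 0) (h : m ∣ n) :
    pp π m ∣ pp π n :=
  Finset.prod_dvd_prod_of_dvd _ _ fun r _ => pow_dvd_pow r
    ((Nat.factorization_le_iff_dvd (ne_zero_of_dvd_ne_zero hn h) hn).2 h r)

/-- if `pp π n = a` and `a * b = n`, no prime of `π` divides `b` -/
theorem not_dvd_of_pp {π : Finset ℕ} (hπ : ∀ r ∈ π, r.Prime) {n a b r : ℕ} (hn : n ≠ 0)
    (h : a * b = n) (ha : pp π n ∣ a) (hr : r ∈ π) : ¬ r ∣ b := by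
  intro hd
  have ha0 : a ≠ 0 := by rintro rfl; simp at h; exact hn h.symm
  have hb0 : b ≠ 0 := by rintro rfl; simp at h; exact hn h.symm
  have h1 := (Nat.factorization_le_iff_dvd (pp_pos hπ n).ne' ha0).2 ha r
  rw [factorization_pp hπ n hr, ← h, Nat.factorization_mul ha0 hb0, Finsupp.add_apply] at h1
  have := (hπ r hr).factorization_pos_of_dvd hb0 hd
  omega

theorem piEl_conj (π : Finset ℕ) (x y : G) (h : IsConj x y) (hx : PiEl π x) : PiEl π y := by
  unfold PiEl at *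
  rwa [← orderOf_eq_of_isConj h]

theorem kcl_coe (π : Finset ℕ) (K : Subgroup G) :
    kcl K (fun y => PiEl π (y : G)) = kcl K (PiEl π) := by
  congr 1
  ext y
  unfold PiEl
  rw [orderOf_coe]

/-- Wielandt's theorem inside a subgroup `M`, for a subgroup. -/
theorem wiel [Finite G] {π : Finset ℕ} (hπ : ∀ r ∈ π, r.Prime) {H M K : Subgroup G}
    (hn : Group.IsNilpotent H) (hHM : H ≤ M) (h1 : ∀ r : ℕ, r.Prime → r ∣ Nat.card H → r ∈ π)
    (h2 : pp π (Nat.card M) ∣ Nat.card H) (hK : K ≤ M)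
    (h3 : ∀ r : ℕ, r.Prime → r ∣ Nat.card K → r ∈ π) :
    ∃ g ∈ M, ∀ y ∈ K, g * y * g⁻¹ ∈ H := by
  obtain ⟨g, hg, h⟩ := S0581.nil_hall_Jsub K (π : Set ℕ) H M hn
    ⟨hHM, h1, fun r _ hr => not_dvd_of_pp hπ Nat.card_pos.ne'
      (H21.card_mul_relIndex_of_le hHM) h2 hr⟩ hK h3
  exact ⟨g⁻¹, M.inv_mem hg, fun y hy => by simpa using H49.mem_cj.1 (h hy)⟩

theorem wiel1 [Finite G] {π : Finset ℕ} (hπ : ∀ r ∈ π, r.Prime) {H M : Subgroup G}
    (hn : Group.IsNilpotent H) (hHM : H ≤ M) (h1 : ∀ r : ℕ, r.Prime → r ∣ Nat.card H → r ∈ π)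
    (h2 : pp π (Nat.card M) ∣ Nat.card H) {y : G} (hy : y ∈ M) (h3 : PiEl π y) :
    ∃ g ∈ M, g * y * g⁻¹ ∈ H := by
  obtain ⟨g, hg, h⟩ := wiel hπ hn hHM h1 h2 (zpowers_le.2 hy)
    (fun r hr hd => h3 r hr (by rwa [Nat.card_zpowers] at hd))
  exact ⟨g, hg, h y (mem_zpowers y)⟩

end Cfsg.Agent.H29.PiC
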