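import Mathlib
import Cfsg.Agent.H29.PiB
import Cfsg.Agent.H49.Hall
import Cfsg.Agent.H49.Core
import Cfsg.Agent.H1.InvSylow
import Cfsg.Agent.H4.Basic

/-! A normal Hall subgroup with nilpotent Hall subgroups on both sides. -/

set_option autoImplicit false

namespace Cfsg.Agent.H29.PiC

open Subgroup Cfsg Cfsg.Agent.H80 Cfsg.Agent.H49

variable {G : Type*} [Group G] [Finite G]

theorem pp_eq {σ : Finset ℕ} (hσ : ∀ r ∈ σ, r.Prime) {a b n : ℕ} (hn : n ≠ 0) (h : a * b = n)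
    (ha : ∀ r : ℕ, r.Prime → r ∣ a → r ∈ σ) (hb : ∀ r : ℕ, r.Prime → r ∣ b → r ∉ σ) :
    pp σ n = a := by
  have ha0 : a ≠ 0 := by rintro rfl; simp at h; exact hn h.symm
  have hb0 : b ≠ 0 := by rintro rfl; simp at h; exact hn h.symm
  refine Nat.eq_of_factorization_eq (pp_pos hσ n).ne' ha0 fun r => ?_
  by_cases hr : r ∈ σ
  · rw [factorization_pp hσ n hr, ← h, Nat.factorization_mul ha0 hb0, Finsupp.add_apply,
      Nat.factorization_eq_zero_of_not_dvd fun hd => hb r (hσ r hr) hd hr, add_zero]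
  · by_cases hp : r.Prime
    · rw [Nat.factorization_eq_zero_of_not_dvd fun hd => hr (mem_of_dvd_pp hσ hp hd),
        Nat.factorization_eq_zero_of_not_dvd fun hd => hr (ha r hp hd)]
    · rw [Nat.factorization_eq_zero_of_not_prime _ hp, Nat.factorization_eq_zero_of_not_prime _ hp]

theorem coprime_of_primes {σ : Finset ℕ} {a b : ℕ} (ha : ∀ r : ℕ, r.Prime → r ∣ a → r ∈ σ)
    (hb : ∀ r : ℕ, r.Prime → r ∣ b → r ∉ σ) : a.Coprime b :=
  Nat.coprime_of_dvd fun r hr h1 h2 => hb r hr h2 (ha r hr h1)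

theorem le_of_coprime_index {M K : Subgroup G} [M.Normal] (h : (Nat.card K).Coprime M.index) :
    K ≤ M :=
  relIndex_eq_one.1 (Nat.eq_one_of_dvd_coprimes h (relIndex_dvd_card M K)
    (relIndex_dvd_index_of_normal M K))

theorem norm_of_nil {r : ℕ} [Fact r.Prime] {T R : Subgroup G} (hR : Group.IsNilpotent R)
    (h : H4.IsSylowIn r T R) : R ≤ 𝒩(T) := by
  have : (h.toSylow : Subgroup R).Normal :=
    Sylow.normal_of_normalizerCondition Group.normalizerCondition_of_isNilpotent _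
  rw [h.coe_toSylow] at this
  exact (normal_subgroupOf_iff_le_normalizer h.le).1 this

theorem fix_hall {ν : Finset ℕ} (hν : ∀ r ∈ ν, r.Prime) {M R A : Subgroup G}
    (hn : Group.IsNilpotent R) (hRM : R ≤ M) (h1 : ∀ r : ℕ, r.Prime → r ∣ Nat.card R → r ∈ ν)
    (h2 : pp ν (Nat.card M) ∣ Nat.card R) (hA : A ≤ 𝒩(M)) (hAR : A ≤ 𝒩(R))
    (hc : (Nat.card A).Coprime (Nat.card M)) (hs : Group.IsSolvable A) :
    pp ν (Nat.card ↥(M ⊓ 𝒞(A))) ∣ Nat.card ↥(R ⊓ 𝒞(A)) := by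
  refine pp_dvd_of hν fun r hr => ?_
  have := Fact.mk (hν r hr)
  obtain ⟨Y, hY, -⟩ := H4.IsSylowIn.exists_le (K := M ⊓ 𝒞(A)) (IsPGroup.of_bot (p := r)) bot_le
  rw [← hY.card_eq]
  obtain ⟨P, hYP, hAP⟩ := H1.invariant_sylow_ge A M hA hc (Or.inl hs) r Y (hY.le.trans inf_le_left)
    hY.isPGroup (norm_of_cent (cent_symm (hY.le.trans inf_le_right)))
  have hP := H4.IsSylowIn.of_sylow P
  set P' := (P : Subgroup M).map M.subtype
  obtain ⟨n, hnM, hn'⟩ := wiel hν hn hRM h1 h2 hP.le fun s hs hd => by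
    obtain ⟨k, hk⟩ := hP.isPGroup.exists_card_eq
    rw [hk] at hd
    rwa [(Nat.prime_dvd_prime_iff_eq hs (hν r hr)).1 (hs.dvd_of_dvd_pow hd)]
  have hle : cj n P' ≤ R := fun x hx => by
    obtain ⟨y, hy, rfl⟩ := mem_cj'.1 hx
    exact hn' y hy
  have hT : H4.IsSylowIn r (cj n P') R := by
    have := hP.map_conj n
    rw [H4.map_conj_eq_iff.2 (le_normalizer hnM)] at this
    exact this.mono hle hRM
  have hAT : A ≤ 𝒩(cj n P') := fun a ha => H4.mem_normalizer_of_conj_mem fun x hx => by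
    obtain ⟨g, hg, h⟩ := hT.exists_conj (hT.isPGroup.map (MulAut.conj a).toMonoidHom)
      (fun z hz => by
        obtain ⟨y, hy, rfl⟩ := mem_cj'.1 hz
        exact H21.conj_mem_of_mem_normalizer (hAR ha) (hle hy))
    have := H21.conj_mem_of_mem_normalizer' (norm_of_nil hn hT hg) (h _ (H4.conj_mem_map_conj a hx))
    simpa [mul_assoc] using this
  obtain ⟨c, hc', he⟩ := exists_cent_cj hA hc (Or.inl hs) hnM hAP hAT
  rw [← card_cj c Y]
  refine card_dvd_of_le (le_inf ((cj_mono c hYP).trans (he ▸ hle)) fun x hx => ?_)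
  obtain ⟨y, hy, rfl⟩ := mem_cj'.1 hx
  exact mul_mem (mul_mem hc'.2 (hY.le hy).2) (inv_mem hc'.2)

theorem sep {ν σ : Finset ℕ} (hν : ∀ r ∈ ν, r.Prime) (hσ : ∀ r ∈ σ, r.Prime)
    (hd : ∀ r ∈ ν, r ∉ σ) (M : Subgroup G) [M.Normal]
    (hM : ∀ r : ℕ, r.Prime → r ∣ Nat.card M → r ∉ σ) (hMi : ∀ r : ℕ, r.Prime → r ∣ M.index → r ∈ σ)
    {R S : Subgroup G} (hR : Group.IsNilpotent R) (hRc : Nat.card R = pp ν (Nat.card G))
    (hS : Group.IsNilpotent S) (hSc : Nat.card S = pp σ (Nat.card G)) :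
    ∃ L : Subgroup G, Nat.card L = Nat.card R * Nat.card S ∧
      ∀ a b : G, Commute a b → PiEl σ a → PiEl ν b → ∃ y ∈ L, IsConj (a * b) y := by
  have h0 : Nat.card G ≠ 0 := Nat.card_pos.ne'
  have hle : ∀ K : Subgroup G, (∀ r : ℕ, r.Prime → r ∣ Nat.card K → r ∈ ν) → K ≤ M :=
    fun K hK => le_of_coprime_index (coprime_of_primes hMi fun r hr h => hd r (hK r hr h)).symm
  have hR1 : ∀ r : ℕ, r.Prime → r ∣ Nat.card R → r ∈ ν := fun r hr h =>
    mem_of_dvd_pp hν hr (hRc ▸ h)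
  have hS1 : ∀ r : ℕ, r.Prime → r ∣ Nat.card S → r ∈ σ := fun r hr h =>
    mem_of_dvd_pp hσ hr (hSc ▸ h)
  have hRM := hle R hR1
  have hR2 : pp ν (Nat.card M) ∣ Nat.card R := hRc ▸ pp_dvd_pp hν h0 (card_subgroup_dvd_card M)
  have hfr : M ⊔ 𝒩(R) = ⊤ := by
    rw [eq_top_iff]
    intro g _
    have h1 : ∀ r : ℕ, r.Prime → r ∣ Nat.card (cj g R) → r ∈ ν := by rwa [card_cj]
    obtain ⟨m, hm, h⟩ := wiel hν hR hRM hR1 hR2 (hle _ h1) h1
    have : m * g ∈ 𝒩(R) := H4.mem_normalizer_of_conj_mem fun x hx => by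
      simpa [mul_assoc] using h _ (H4.conj_mem_map_conj g hx)
    simpa using mul_mem (mem_sup_left (inv_mem hm)) (mem_sup_right this)
  have hi : (M ⊓ 𝒩(R)).relIndex 𝒩(R) = M.index := by
    rw [inf_relIndex_right, ← relIndex_sup_left, hfr, relIndex_top_right]
  obtain ⟨S', hS'⟩ := exists_compl_of_coprime (K := M ⊓ 𝒩(R)) (M := 𝒩(R)) inf_le_right
    (H21.le_normalizer_inf le_normalizer_of_normal le_normalizer) (by
      rw [hi]
      exact ((coprime_of_primes hMi hM).symm).coprime_dvd_left (card_dvd_of_le inf_le_left))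
  have hc : Nat.card S' = pp σ (Nat.card G) := by
    rw [← hS'.relIndex_left, hi, pp_eq hσ h0 M.index_mul_card hMi hM]
  have hS1' : ∀ r : ℕ, r.Prime → r ∣ Nat.card S' → r ∈ σ := fun r hr h =>
    mem_of_dvd_pp hσ hr (hc ▸ h)
  have hn' : Group.IsNilpotent S' := by
    obtain ⟨g, -, h⟩ := wiel hσ hS le_top hS1 (by rw [card_top, hSc]) le_top hS1'
    have : Group.IsNilpotent (S'.map (MulAut.conj g).toMonoidHom) := nilpotent_of_le hS fun x hx => by
      obtain ⟨y, hy, rfl⟩ := mem_cj'.1 hx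
      exact h y hy
    exact Group.nilpotent_of_mulEquiv (S'.equivMapOfInjective (MulAut.conj g).toMonoidHom
      (MulAut.conj g).injective).symm
  refine ⟨R ⊔ S', ?_, fun a b hab ha hb => ?_⟩
  · rw [card_sup_of_disjoint (Or.inr hS'.right_le) (H49.inf_eq_bot_of_coprime
      (coprime_of_primes hS1' fun r hr h => hd r (hR1 r hr h)).symm), hc, hSc]
  obtain ⟨g, -, hg⟩ := wiel1 hσ hn' le_top hS1' (by rw [card_top, hc]) (mem_top a) ha
  have hb' : PiEl ν (g * b * g⁻¹) := piEl_conj ν _ _ (isConj_iff.2 ⟨g, rfl⟩) hb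
  have hA : zpowers (g * a * g⁻¹) ≤ S' := zpowers_le.2 hg
  have hf := fix_hall hν hR hRM hR1 hR2 (A := zpowers (g * a * g⁻¹)) le_normalizer_of_normal
    (hA.trans hS'.right_le)
    ((coprime_of_primes hS1' hM).coprime_dvd_left (card_dvd_of_le hA)) inferInstance
  obtain ⟨c, hc1, hc2⟩ := wiel1 hν (nilpotent_of_le hR inf_le_left) (inf_le_inf_right _ hRM)
    (fun r hr h => hR1 r hr (h.trans (card_dvd_of_le inf_le_left))) hf (y := g * b * g⁻¹)
    ⟨hle (zpowers _) (fun r hr h => hb' r hr (by rwa [Nat.card_zpowers] at h)) (mem_zpowers _),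
      H21.mem_centralizer_zpowers.2 (by
        calc g * b * g⁻¹ * (g * a * g⁻¹) = g * (b * a) * g⁻¹ := by group
          _ = g * (a * b) * g⁻¹ := by rw [hab.eq]
          _ = _ := by group)⟩ hb'
  refine ⟨_, mul_mem (mem_sup_right hg) (mem_sup_left hc2.1), isConj_iff.2 ⟨c * g, ?_⟩⟩
  have := H21.mem_centralizer_zpowers.1 hc1.2
  calc c * g * (a * b) * (c * g)⁻¹ = c * (g * a * g⁻¹) * (g * b * g⁻¹) * c⁻¹ := by group
    _ = _ := by rw [this]; group

end Cfsg.Agent.H29.PiC
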