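import Mathlib
import Cfsg.Agent.H29.PiC
import Cfsg.Agent.H80.ClassBound

/-! The three counting estimates. -/

set_option autoImplicit false

namespace Cfsg.Agent.H29.PiC

open Subgroup Cfsg Cfsg.Agent.H80 Cfsg.Agent.H49

variable {G : Type*} [Group G] [Finite G]

theorem pp_single (q n : ℕ) : pp {q} n = q ^ n.factorization q := Finset.prod_singleton _ _

theorem single_prime {q : ℕ} (hq : q.Prime) : ∀ r ∈ ({q} : Finset ℕ), r.Prime := by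
  intro r hr
  rwa [Finset.mem_singleton.1 hr]

theorem primes_of_isPGroup {q : ℕ} [hq : Fact q.Prime] {T : Subgroup G} (h : IsPGroup q T) :
    ∀ r : ℕ, r.Prime → r ∣ Nat.card T → r ∈ ({q} : Finset ℕ) := by
  intro r hr hd
  obtain ⟨k, hk⟩ := h.exists_card_eq
  rw [hk] at hd
  exact Finset.mem_singleton.2 ((Nat.prime_dvd_prime_iff_eq hr hq.out).1 (hr.dvd_of_dvd_pow hd))

theorem conj_into {q : ℕ} [hq : Fact q.Prime] {T K : Subgroup G} (h : H4.IsSylowIn q T K) {x : G}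
    (hx : x ∈ K) (hq' : PiEl {q} x) : ∃ g ∈ K, g * x * g⁻¹ ∈ T :=
  wiel1 (single_prime hq.out) h.isPGroup.isNilpotent h.le (primes_of_isPGroup h.isPGroup)
    (by rw [pp_single, h.card_eq]) hx hq'

theorem piEl_of_mem {π : Finset ℕ} {T : Subgroup G} (h : ∀ r : ℕ, r.Prime → r ∣ Nat.card T → r ∈ π)
    {x : G} (hx : x ∈ T) : PiEl π x := fun r hr hd =>
  h r hr (hd.trans (orderOf_dvd_natCard T hx))

theorem parts {q : ℕ} [hq : Fact q.Prime] {μ : Finset ℕ} {g : G} (hg : PiEl (insert q μ) g) :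
    ∃ a b, Commute a b ∧ g = a * b ∧ PiEl {q} a ∧ PiEl μ b := by
  obtain ⟨a, b, ha, hb, ⟨k, hk⟩, hbc, hab⟩ := H3.exists_p_part (p := q) g
  refine ⟨a, b, ?_, hab, fun r hr hd => ?_, fun r hr hd => ?_⟩
  · obtain ⟨i, rfl⟩ := mem_zpowers_iff.1 ha
    obtain ⟨j, rfl⟩ := mem_zpowers_iff.1 hb
    exact Commute.zpow_zpow_self g i j
  · exact Finset.mem_singleton.2 ((Nat.prime_dvd_prime_iff_eq hr hq.out).1
      (hr.dvd_of_dvd_pow (hd.trans (orderOf_dvd_of_pow_eq_one hk))))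
  · refine (Finset.mem_insert.1 (hg r hr (hd.trans (orderOf_dvd_of_mem_zpowers hb)))).resolve_left ?_
    rintro rfl
    exact hr.one_lt.ne' (Nat.Coprime.eq_one_of_dvd hbc.symm hd)

theorem est1 {q : ℕ} [hq : Fact q.Prime] {H Q₀ : Subgroup G} (hH : ¬ q ∣ Nat.card H)
    (hQ : H4.IsSylowIn q Q₀ 𝒞(H)) :
    2 * kcl G (fun g => ∃ y ∈ H ⊔ Q₀, IsConj g y) ≤
      Nat.card H * Nat.card Q₀ + Nat.card ↥(H ⊓ 𝒞(𝒩(H))) * Nat.card Q₀ := by
  have hn : Q₀ ≤ 𝒩(H) := norm_of_cent hQ.le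
  have hn' : Q₀ ≤ 𝒩(H ⊓ 𝒞(𝒩(H))) := norm_of_cent (hQ.le.trans (H21.centralizer_anti inf_le_left))
  have hbot : H ⊓ Q₀ = ⊥ := H49.inf_eq_bot_of_coprime (coprime_of_primes
    (primes_of_isPGroup hQ.isPGroup) fun r _ h h' => hH (Finset.mem_singleton.1 h' ▸ h)).symm
  refine (kcl_le_two _ ((H ⊓ 𝒞(𝒩(H))) ⊔ Q₀) (H ⊔ Q₀) (sup_le_sup_right inf_le_left _)
    (fun x hx => hx) fun g hg hg' => ?_).trans (add_le_add
      (Nat.le_of_dvd (Nat.mul_pos Nat.card_pos Nat.card_pos) (card_sup_dvd (Or.inr hn)))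
      (Nat.le_of_dvd (Nat.mul_pos Nat.card_pos Nat.card_pos) (card_sup_dvd (Or.inr hn'))))
  obtain ⟨y, hy, x, hx, rfl⟩ := (H21.mem_sup_of_le_normalizer hn).1 hg
  have h1 : ∃ n ∈ 𝒩(H), n * y ≠ y * n := by
    by_contra h
    push Not at h
    exact hg' (mul_mem (mem_sup_left ⟨hy, mem_centralizer_iff.2 h⟩) (mem_sup_right hx))
  obtain ⟨n, hnH, hny⟩ := h1
  obtain ⟨c, hc, hcx⟩ := conj_into hQ (x := n * x * n⁻¹)
    (H21.conj_mem_of_mem_normalizer (H21.normalizer_le_normalizer_centralizer H hnH) (hQ.le hx))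
    (piEl_conj _ _ _ (isConj_iff.2 ⟨n, rfl⟩) (piEl_of_mem (primes_of_isPGroup hQ.isPGroup) hx))
  have hy' := H21.conj_mem_of_mem_normalizer hnH hy
  have hcy := mem_centralizer_iff.1 hc _ hy'
  refine ⟨n * y * n⁻¹ * (c * (n * x * n⁻¹) * c⁻¹), mul_mem (mem_sup_left hy') (mem_sup_right hcx),
    isConj_iff.2 ⟨c * n, ?_⟩, fun h => hny ?_⟩
  · calc c * n * (y * x) * (c * n)⁻¹ = c * (n * y * n⁻¹) * (n * x * n⁻¹) * c⁻¹ := by group
      _ = _ := by rw [← hcy]; group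
  · have h2 : (n * y * n⁻¹)⁻¹ * y ∈ H ⊓ Q₀ := mem_inf.2 ⟨H.mul_mem (H.inv_mem hy') hy, by
      have : (n * y * n⁻¹)⁻¹ * y = (c * (n * x * n⁻¹) * c⁻¹) * x⁻¹ := by
        rw [inv_mul_eq_iff_eq_mul, ← mul_assoc, ← h]; group
      rw [this]
      exact Q₀.mul_mem hcx (Q₀.inv_mem hx)⟩
    rw [hbot, mem_bot, inv_mul_eq_one] at h2
    rw [← mul_inv_eq_iff_eq_mul, h2]

theorem est2 {q : ℕ} [hq : Fact q.Prime] {C Q₀ : Subgroup G} (Q : Sylow q G) (h₀ : Q₀ ≤ C)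
    (hQ : Q₀ ≤ Q) :
    2 * kcl G (fun x => PiEl {q} x ∧ ¬ ∃ y ∈ C, IsConj x y) + Nat.card Q₀ ≤
      Nat.card Q + Nat.card ↥((Q : Subgroup G) ⊓ 𝒞(𝒩((Q : Subgroup G)))) := by
  classical
  have := Fintype.ofFinite G
  set Z := (Q : Subgroup G) ⊓ 𝒞(𝒩((Q : Subgroup G)))
  have cc : ∀ K : Subgroup G, Nat.card K = (Finset.univ.filter (· ∈ K)).card := fun K => by
    rw [← Fintype.card_subtype, Nat.card_eq_fintype_card]
  set T := Finset.univ.filter (fun x => x ∈ (Q : Subgroup G) ∧ ¬ ∃ y ∈ C, IsConj x y) with hT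
  have mT : ∀ x, x ∈ T ↔ x ∈ (Q : Subgroup G) ∧ ¬ ∃ y ∈ C, IsConj x y := fun x => by simp only
    [hT, Finset.mem_filter, Finset.mem_univ, true_and]
  have key := kcl_le_sum (fun x => PiEl {q} x ∧ ¬ ∃ y ∈ C, IsConj x y) T
    (fun x => (1 : ℚ) / 2 + if x ∈ Finset.univ.filter (· ∈ Z) then 1 / 2 else 0)
    (fun x hx => by
      obtain ⟨g, -, hg⟩ := conj_into (H4.isSylowIn_top Q) (mem_top x) hx.1
      have hc : IsConj x (g * x * g⁻¹) := isConj_iff.2 ⟨g, rfl⟩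
      exact ⟨_, (mT _).2 ⟨hg, fun ⟨y, hy, h⟩ => hx.2 ⟨y, hy, hc.trans h⟩⟩, hc⟩)
    (fun x hx => by
      split_ifs with h
      · exact ⟨{x}, by simpa using hx, fun y hy => by rw [Finset.mem_singleton.1 hy], by norm_num⟩
      · have hx' := (mT x).1 hx
        have h1 : ∃ n ∈ 𝒩((Q : Subgroup G)), n * x ≠ x * n := by
          by_contra h'
          push Not at h'
          exact h (Finset.mem_filter.2 ⟨Finset.mem_univ _, hx'.1, mem_centralizer_iff.2 h'⟩)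
        obtain ⟨n, hn, hnx⟩ := h1
        have hc : IsConj x (n * x * n⁻¹) := isConj_iff.2 ⟨n, rfl⟩
        refine ⟨{x, n * x * n⁻¹}, fun t ht => ?_, fun t ht => ?_, ?_⟩
        · rcases Finset.mem_insert.1 ht with rfl | ht
          · exact hx
          · rw [Finset.mem_singleton.1 ht]
            exact (mT _).2 ⟨H21.conj_mem_of_mem_normalizer hn hx'.1,
              fun ⟨y, hy, h⟩ => hx'.2 ⟨y, hy, hc.trans h⟩⟩
        · rcases Finset.mem_insert.1 ht with rfl | ht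
          · exact IsConj.refl _
          · rwa [Finset.mem_singleton.1 ht]
        · rw [Finset.card_pair fun h => hnx (by rw [← mul_inv_eq_iff_eq_mul, ← h])]
          norm_num)
  rw [Finset.sum_add_distrib, Finset.sum_ite_mem, Finset.sum_const, Finset.sum_const,
    nsmul_eq_mul, nsmul_eq_mul] at key
  have h1 : (T ∩ Finset.univ.filter (· ∈ Z)).card ≤ Nat.card Z :=
    cc Z ▸ Finset.card_le_card Finset.inter_subset_right
  have h2 : T.card + Nat.card Q₀ ≤ Nat.card Q := by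
    rw [cc Q₀, ← Finset.card_union_of_disjoint (Finset.disjoint_left.2 fun x hx hx' =>
      ((mT x).1 hx).2 ⟨x, h₀ (Finset.mem_filter.1 hx').2, IsConj.refl x⟩)]
    refine le_of_le_of_eq (Finset.card_le_card fun x hx => ?_) (cc Q).symm
    refine Finset.mem_filter.2 ⟨Finset.mem_univ _, ?_⟩
    rcases Finset.mem_union.1 hx with h | h
    · exact ((mT x).1 h).1
    · exact hQ (Finset.mem_filter.1 h).2
  have h3 : ((2 * kcl G (fun x => PiEl {q} x ∧ ¬ ∃ y ∈ C, IsConj x y) : ℕ) : ℚ) ≤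
      ((T.card + (T ∩ Finset.univ.filter (· ∈ Z)).card : ℕ) : ℚ) := by
    push_cast
    linarith
  have h4 := Nat.cast_le.1 h3
  omega

theorem est3 {q : ℕ} [hq : Fact q.Prime] {μ : Finset ℕ} (hμ : ∀ r ∈ μ, r.Prime)
    {H Q₀ : Subgroup G} (hH : Group.IsNilpotent H) (hc : Nat.card H = pp μ (Nat.card G))
    (hQ : H4.IsSylowIn q Q₀ 𝒞(H)) (B : ℕ)
    (hB : ∀ x : G, (¬ ∃ y ∈ 𝒞(H), IsConj x y) → kcl 𝒞[x] (PiEl μ) ≤ B) :
    kcl G (fun g => PiEl (insert q μ) g ∧ ¬ ∃ y ∈ H ⊔ Q₀, IsConj g y) ≤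
      kcl G (fun x => PiEl {q} x ∧ ¬ ∃ y ∈ 𝒞(H), IsConj x y) * B := by
  refine kcl_split _ _ (PiEl μ) (fun x y h hx => ⟨piEl_conj _ _ _ h hx.1,
    fun ⟨z, hz, h'⟩ => hx.2 ⟨z, hz, h.trans h'⟩⟩) (piEl_conj μ) B (fun g hg => ?_)
    fun a ha => (kcl_coe μ 𝒞[a]).trans_le (hB a ha.2)
  obtain ⟨a, b, hab, rfl, ha, hb⟩ := parts hg.1
  refine ⟨a, b, hab, rfl, ⟨ha, fun ⟨a', ha', h⟩ => hg.2 ?_⟩, hb⟩
  obtain ⟨u, rfl⟩ := isConj_iff.1 h
  obtain ⟨c, hc1, hc2⟩ := wiel1 hμ hH (M := 𝒞[u * a * u⁻¹])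
    (fun y hy => mem_centralizer_singleton_iff.2 (mem_centralizer_iff.1 ha' y hy))
    (fun r hr h => mem_of_dvd_pp hμ hr (hc ▸ h))
    (hc ▸ pp_dvd_pp hμ Nat.card_pos.ne' (card_subgroup_dvd_card _)) (y := u * b * u⁻¹)
    (mem_centralizer_singleton_iff.2 (by
      calc u * b * u⁻¹ * (u * a * u⁻¹) = u * (b * a) * u⁻¹ := by group
        _ = u * (a * b) * u⁻¹ := by rw [hab.eq]
        _ = _ := by group)) (piEl_conj _ _ _ (isConj_iff.2 ⟨u, rfl⟩) hb)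
  obtain ⟨d, hd1, hd2⟩ := conj_into hQ ha' (piEl_conj _ _ _ h ha)
  refine ⟨_, mul_mem (mem_sup_right hd2) (mem_sup_left hc2), isConj_iff.2 ⟨d * c * u, ?_⟩⟩
  have e1 := mem_centralizer_singleton_iff.1 hc1
  have e2 := mem_centralizer_iff.1 hd1 _ hc2
  calc d * c * u * (a * b) * (d * c * u)⁻¹
      = d * (c * (u * a * u⁻¹)) * (u * b * u⁻¹) * c⁻¹ * d⁻¹ := by group
    _ = d * (u * a * u⁻¹) * d⁻¹ * (d * (c * (u * b * u⁻¹) * c⁻¹)) * d⁻¹ := by rw [e1]; group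
    _ = _ := by rw [← e2]; group

end Cfsg.Agent.H29.PiC
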