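import Mathlib
import Cfsg.Agent.H29.PiD

/-! Many classes of `π`-elements give a nilpotent Hall `π`-subgroup. -/

set_option autoImplicit false

namespace Cfsg.Agent.H29.PiC

open Subgroup Cfsg Cfsg.Agent.H80 Cfsg.Agent.H49

universe u

variable {G : Type*} [Group G] [Finite G]

theorem kcl_le_pp {G : Type u} [Group G] [Finite G] {π : Finset ℕ} (hπ : ∀ r ∈ π, r.Prime) :
    kcl G (PiEl π) ≤ pp π (Nat.card G) := kcl_pi_le_prod π hπ G

theorem of_cover {p : ℕ} (h2 : 2 ≤ p) {π : Finset ℕ} (hπ : ∀ r ∈ π, r.Prime ∧ p ≤ r)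
    (hk : pp π (Nat.card G) < p * kcl G (PiEl π)) {L : Subgroup G}
    (hL : Nat.card L = pp π (Nat.card G)) (h : ∀ g, PiEl π g → ∃ y ∈ L, IsConj g y) :
    Group.IsNilpotent L ∧ Nat.card (commutator L) ≤ p := by
  have hp : ∀ r : ℕ, r.Prime → r ∣ Nat.card L → p ≤ r := fun r hr hd =>
    (hπ r (mem_of_dvd_pp (fun r hr => (hπ r hr).1) hr (hL ▸ hd))).2
  have := der_le h2 hp (hL ▸ hk.trans_le (Nat.mul_le_mul_left _ (kcl_le_card_conjClasses _ L h)))
  exact ⟨nil_of_der hp this, this⟩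

theorem norm_le_cent {μ : Finset ℕ} (hμ : ∀ r ∈ μ, r.Prime) {H : Subgroup G}
    (hH : Group.IsNilpotent H) (hc : Nat.card H = pp μ (Nat.card G)) (hY : H ≤ 𝒞(𝒩(H)))
    (r : ℕ) [hr : Fact r.Prime] (hrμ : r ∈ μ) :
    ∃ P : Sylow r G, 𝒩((P : Subgroup G)) ≤ 𝒞((P : Subgroup G)) := by
  obtain ⟨P₀⟩ : Nonempty (Sylow r G) := inferInstance
  have h1 : ∀ s : ℕ, s.Prime → s ∣ Nat.card H → s ∈ μ := fun s hs h => mem_of_dvd_pp hμ hs (hc ▸ h)
  obtain ⟨g, -, hg⟩ := wiel hμ hH le_top h1 (by rw [card_top, hc]) (K := P₀) le_top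
    fun s hs h => by
      rw [Finset.mem_singleton.1 (primes_of_isPGroup P₀.isPGroup' s hs h)]; exact hrμ
  have hP : ((g • P₀ : Sylow r G) : Subgroup G) ≤ H := fun x hx => by
    obtain ⟨y, hy, rfl⟩ := mem_cj'.1 hx
    exact hg y hy
  refine ⟨g • P₀, fun n hn => ?_⟩
  set P := ((g • P₀ : Sylow r G) : Subgroup G)
  have hHP : H ≤ 𝒞(P) := (hY.trans (H21.centralizer_anti le_normalizer)).trans
    (H21.centralizer_anti hP)
  obtain ⟨c, hc1, hc2⟩ := wiel hμ hH hHP h1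
    (hc ▸ pp_dvd_pp hμ Nat.card_pos.ne' (card_subgroup_dvd_card _)) (K := cj n H)
    (cj_le_of_mem_norm hHP (H21.normalizer_le_normalizer_centralizer P hn)) (by rwa [card_cj])
  have h3 : c * n ∈ 𝒩(H) := H4.mem_normalizer_of_conj_mem fun x hx => by
    simpa [mul_assoc] using hc2 _ (H4.conj_mem_map_conj n hx)
  have h4 : c * n ∈ 𝒞(P) := H21.centralizer_anti hP (cent_symm hY h3)
  simpa using mul_mem (inv_mem hc1) h4

theorem main (p : ℕ) (h2 : 2 ≤ p) (π : Finset ℕ) : (∀ r ∈ π, r.Prime ∧ p ≤ r) →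
    ∀ (G : Type u) [Group G] [Finite G], pp π (Nat.card G) < p * kcl G (PiEl π) →
      ∃ H : Subgroup G, Group.IsNilpotent H ∧ Nat.card H = pp π (Nat.card G) := by
  classical
  induction π using Finset.induction_on_max with
  | empty => exact fun _ G _ _ _ => ⟨⊥, inferInstance, by simp [pp]⟩
  | insert q μ hmax ih =>
    intro hπ G _ _ hk
    have hq : Fact q.Prime := ⟨(hπ q (Finset.mem_insert_self _ _)).1⟩
    have hμ' : ∀ r ∈ μ, r.Prime ∧ p ≤ r := fun r hr => hπ r (Finset.mem_insert_of_mem hr)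
    have hμ : ∀ r ∈ μ, r.Prime := fun r hr => (hμ' r hr).1
    have hqμ : q ∉ μ := fun h => lt_irrefl _ (hmax q h)
    have h0 : Nat.card G ≠ 0 := Nat.card_pos.ne'
    have hpp : pp (insert q μ) (Nat.card G) = pp μ (Nat.card G) * pp {q} (Nat.card G) := by
      rw [pp_single, mul_comm]; exact Finset.prod_insert hqμ
    have hs := single_prime hq.out
    obtain ⟨H, hH, hc⟩ := ih hμ' G (by
      have h1 := kcl_split (G := G) (PiEl (insert q μ)) (PiEl μ) (PiEl {q}) (piEl_conj _)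
        (piEl_conj _) (pp {q} (Nat.card G)) (fun g hg => by
          obtain ⟨a, b, hab, rfl, ha, hb⟩ := parts hg
          exact ⟨b, a, hab.symm, hab.eq, hb, ha⟩) fun a _ => (kcl_coe _ 𝒞[a]).trans_le
            ((kcl_le_pp hs).trans (Nat.le_of_dvd (pp_pos hs _)
              (pp_dvd_pp hs h0 (card_subgroup_dvd_card _))))
      rw [hpp] at hk
      refine lt_of_mul_lt_mul_right (hk.trans_le ?_) (Nat.zero_le (pp {q} (Nat.card G)))
      rw [mul_assoc]
      exact Nat.mul_le_mul_left _ h1)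
    have h1 : ∀ s : ℕ, s.Prime → s ∣ Nat.card H → s ∈ μ := fun s hs h =>
      mem_of_dvd_pp hμ hs (hc ▸ h)
    obtain ⟨Q₀, hQ₀, -⟩ := H4.IsSylowIn.exists_le (K := 𝒞(H)) (IsPGroup.of_bot (p := q)) bot_le
    obtain ⟨Q, hQ⟩ := hQ₀.isPGroup.exists_le_sylow
    have hQc : Nat.card Q = pp {q} (Nat.card G) := by rw [pp_single, Q.card_eq_multiplicity]
    have hQ1 := primes_of_isPGroup Q.isPGroup'
    have hQn : Group.IsNilpotent Q := Q.isPGroup'.isNilpotent
    by_cases e0 : Q₀ = Q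
    · refine ⟨H ⊔ Q, nilpotent_sup_of_cent hH hQn (cent_symm (e0 ▸ hQ₀.le)), ?_⟩
      rw [card_sup_of_disjoint (Or.inr (norm_of_cent (e0 ▸ hQ₀.le))) (H49.inf_eq_bot_of_coprime
        (coprime_of_primes h1 fun r hr h h' => hqμ (Finset.mem_singleton.1 (hQ1 r hr h) ▸ h'))),
        hpp, hc, hQc]
    by_cases ea : (Q : Subgroup G) ⊓ 𝒞(𝒩((Q : Subgroup G))) = Q
    · obtain ⟨M, hM, hM1, k, hM2⟩ := H3.hasNormalPComplement_iff_exists_normal.1
        (H3.hasNormalPComplement_of_normalizer_le_centralizer Q (cent_symm (inf_eq_left.1 ea)))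
      obtain ⟨L, hL, h⟩ := sep hμ hs (fun r hr h => hqμ (Finset.mem_singleton.1 h ▸ hr)) M
        (fun r hr h h' => hr.one_lt.ne'
          (Nat.eq_one_of_dvd_coprimes hM1 h (Finset.mem_singleton.1 h' ▸ dvd_rfl)))
        (fun r hr h => Finset.mem_singleton.2
          ((Nat.prime_dvd_prime_iff_eq hr hq.out).1 (hr.dvd_of_dvd_pow (hM2 ▸ h)))) hH hc hQn hQc
      rw [hc, hQc, ← hpp] at hL
      refine ⟨L, (of_cover h2 hπ hk hL fun g hg => ?_).1, hL⟩
      obtain ⟨a, b, hab, rfl, ha, hb⟩ := parts hg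
      exact h a b hab ha hb
    by_cases eb : H ⊓ 𝒞(𝒩(H)) = H
    · obtain ⟨M, hM, hM1, hM2, -⟩ := exists_normal_pi_complement (G := G) (μ : Set ℕ)
        fun r _ hr => norm_le_cent hμ hH hc (inf_eq_left.1 eb) r hr
      obtain ⟨L, hL, h⟩ := sep hs hμ (fun r hr h => hqμ (Finset.mem_singleton.1 hr ▸ h)) M
        hM1 hM2 hQn hQc hH hc
      rw [hc, hQc, mul_comm, ← hpp] at hL
      refine ⟨L, (of_cover h2 hπ hk hL fun g hg => ?_).1, hL⟩
      obtain ⟨a, b, hab, rfl, ha, hb⟩ := parts hg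
      exact hab.eq ▸ h b a hab.symm hb ha
    exfalso
    have sub : ∀ {n : ℕ} {X Y : Subgroup G}, (∀ r : ℕ, r.Prime → r ∣ Nat.card Y → n ≤ r) →
        X ≤ Y → X ≠ Y → n * Nat.card X ≤ Nat.card Y := fun {n X Y} h hle hne => by
      rw [← card_subgroupOf_of_le hle]
      exact mul_card_le h fun e => hne (le_antisymm hle (subgroupOf_eq_top.1 e))
    have hqq : ∀ r : ℕ, r.Prime → r ∣ Nat.card Q → q ≤ r := fun r hr h =>
      (Finset.mem_singleton.1 (hQ1 r hr h)).ge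
    have a1 := sub (fun r hr h => (hμ' r (h1 r hr h)).2) inf_le_left eb
    have a2 := sub hqq inf_le_left ea
    have a3 := sub hqq hQ e0
    have a4 : p < q := by
      have : Nat.card H ≠ 1 := fun h => eb (by rw [card_eq_one.1 h, bot_inf_eq])
      have h3 := h1 _ (Nat.minFac_prime this) (Nat.minFac_dvd _)
      exact (hμ' _ h3).2.trans_lt (hmax _ h3)
    have a5 := est1 (fun h => hqμ (h1 q hq.out h)) hQ₀
    have a6 := est2 Q hQ₀.le hQ
    have a7 := est3 hμ hH hc hQ₀ (Nat.card H / p) fun x hx => by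
      rw [Nat.le_div_iff_mul_le (by omega), mul_comm]
      have hd : pp μ (Nat.card 𝒞[x]) ∣ Nat.card H :=
        hc ▸ pp_dvd_pp hμ h0 (card_subgroup_dvd_card _)
      by_contra hlt
      push Not at hlt
      obtain ⟨K, hK, hKc⟩ := ih hμ' 𝒞[x] ((Nat.le_of_dvd Nat.card_pos hd).trans_lt hlt)
      obtain ⟨t, ht⟩ := hd
      by_cases ht1 : t = 1
      · have hK' : Nat.card (K.map (𝒞[x]).subtype) = Nat.card H := by
          rw [card_map_of_injective (subtype_injective _), hKc, ht, ht1, mul_one]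
        obtain ⟨g, -, hg⟩ := wiel hμ hH le_top h1 (by rw [card_top, hc])
          (K := K.map (𝒞[x]).subtype) le_top (by rwa [hK'])
        have he : cj g (K.map (𝒞[x]).subtype) = H := H21.eq_of_le_of_card_le (fun z hz => by
          obtain ⟨y, hy, rfl⟩ := mem_cj'.1 hz
          exact hg y hy) (by rw [card_cj, hK'])
        refine hx ⟨g * x * g⁻¹, mem_centralizer_iff.2 fun z hz => ?_, isConj_iff.2 ⟨g, rfl⟩⟩
        rw [← he] at hz
        obtain ⟨y, hy, rfl⟩ := mem_cj'.1 hz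
        have := mem_centralizer_singleton_iff.1 (map_subtype_le K hy)
        calc g * y * g⁻¹ * (g * x * g⁻¹) = g * (y * x) * g⁻¹ := by group
          _ = g * (x * y) * g⁻¹ := by rw [this]
          _ = _ := by group
      · have h3 : p ≤ t := le_of_dvd (fun r hr h => (hμ' r (h1 r hr h)).2) (Dvd.intro_left _ ht.symm)
          (by rintro rfl; exact Nat.card_pos.ne' (ht.trans (mul_zero _))) ht1
        have h4 := kcl_le_pp (G := 𝒞[x]) hμ
        rw [ht, mul_comm] at hlt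
        exact absurd (Nat.mul_le_mul h3 h4) (not_le.2 hlt)
    have a8 := kcl_le_add (G := G) (PiEl (insert q μ)) (fun g => ∃ y ∈ H ⊔ Q₀, IsConj g y)
      fun x y h ⟨z, hz, h'⟩ => ⟨z, hz, h.symm.trans h'⟩
    have a9 : p * (Nat.card H / p) ≤ Nat.card H := Nat.mul_div_le _ _
    rw [hpp, ← hc, ← hQc] at hk
    generalize kcl G (PiEl (insert q μ)) = k at *
    generalize kcl G (fun g => ∃ y ∈ H ⊔ Q₀, IsConj g y) = k1 at *
    generalize kcl G (fun g => PiEl (insert q μ) g ∧ ¬ ∃ y ∈ H ⊔ Q₀, IsConj g y) = k2 at *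
    generalize kcl G (fun x => PiEl {q} x ∧ ¬ ∃ y ∈ 𝒞(H), IsConj x y) = b at *
    generalize Nat.card H / p = B at *
    generalize Nat.card ↥(H ⊓ 𝒞(𝒩(H))) = y at *
    generalize Nat.card ↥((Q : Subgroup G) ⊓ 𝒞(𝒩((Q : Subgroup G)))) = z at *
    generalize Nat.card H = h at *
    generalize Nat.card Q = s at *
    generalize Nat.card Q₀ = s0 at *
    have b1 : p * s0 + z ≤ s := by
      refine Nat.le_of_mul_le_mul_left ?_ (show 0 < q by omega)
      have := Nat.mul_le_mul_left p a3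
      have := Nat.mul_le_mul_right s (show p + 1 ≤ q by omega)
      nlinarith
    have b2 := Nat.mul_le_mul_left p a5
    have b3 := Nat.mul_le_mul_right s0 a1
    have b4 := Nat.mul_le_mul_left p a7
    have b5 := Nat.mul_le_mul_left b a9
    have b6 := Nat.mul_le_mul_left h a6
    have b7 := Nat.mul_le_mul_left h b1
    have b8 := Nat.mul_le_mul_left p a8
    nlinarith

theorem final {G : Type u} [Group G] [Finite G]
    (π : Set ℕ) (hπ : ∀ q ∈ π, q.Prime) (p : ℕ) (hp : p ∈ π) (hmin : ∀ q ∈ π, p ≤ q)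
    (m : ℕ) (hm : m ∣ Nat.card G) (hmπ : ∀ q : ℕ, q.Prime → q ∣ m → q ∈ π)
    (hm' : ∀ q ∈ π, ¬ q ∣ Nat.card G / m)
    (k : ℕ) (hk : k = Nat.card {C : ConjClasses G // ∀ q : ℕ, q.Prime →
      (∃ g : G, ConjClasses.mk g = C ∧ q ∣ orderOf g) → q ∈ π})
    (hmany : m < p * k) :
    ∃ H : Subgroup G, Nat.card H = m ∧ Group.IsNilpotent H ∧ Nat.card (commutator H) ≤ p ∧
      k ≤ Nat.card (ConjClasses H) := by
  have h0 : Nat.card G ≠ 0 := Nat.card_pos.ne'
  have hm0 : m ≠ 0 := ne_zero_of_dvd_ne_zero h0 hm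
  have h1 : ∀ r ∈ m.primeFactors, r.Prime ∧ p ≤ r := fun r hr =>
    ⟨Nat.prime_of_mem_primeFactors hr,
      hmin r (hmπ r (Nat.prime_of_mem_primeFactors hr) (Nat.dvd_of_mem_primeFactors hr))⟩
  have h1' : ∀ r ∈ m.primeFactors, r.Prime := fun r hr => (h1 r hr).1
  have h2 : pp m.primeFactors (Nat.card G) = m := pp_eq h1' h0 (Nat.mul_div_cancel' hm)
    (fun r hr h => Nat.mem_primeFactors.2 ⟨hr, h, hm0⟩)
    fun r hr h h' => hm' r (hmπ r hr (Nat.dvd_of_mem_primeFactors h')) h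
  have h3 : k ≤ kcl G (PiEl m.primeFactors) := by
    rw [hk]
    refine Nat.card_le_card_of_injective (fun c => ⟨c.1, fun x hx r hr hd => ?_⟩)
      fun _ _ e => Subtype.ext (Subtype.mk.inj e)
    have h4 := hm' r (c.2 r hr ⟨x, ConjClasses.mem_carrier_iff_mk_eq.1 hx, hd⟩)
    have h5 : r ∣ m * (Nat.card G / m) := by
      rw [Nat.mul_div_cancel' hm]; exact hd.trans (_root_.orderOf_dvd_natCard x)
    exact Nat.mem_primeFactors.2 ⟨hr, ((Nat.Prime.dvd_mul hr).1 h5).resolve_right h4, hm0⟩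
  have h4 : pp m.primeFactors (Nat.card G) < p * kcl G (PiEl m.primeFactors) :=
    h2.symm ▸ hmany.trans_le (Nat.mul_le_mul_left _ h3)
  obtain ⟨H, hH, hc⟩ := main p (hπ p hp).two_le _ h1 G h4
  have h5 : ∀ g, PiEl m.primeFactors g → ∃ y ∈ H, IsConj g y := fun g hg => by
    obtain ⟨u, -, hu⟩ := wiel1 h1' hH le_top (fun r hr h => mem_of_dvd_pp h1' hr (hc ▸ h))
      (by rw [card_top, hc]) (mem_top g) hg
    exact ⟨_, hu, isConj_iff.2 ⟨u, rfl⟩⟩
  exact ⟨H, hc.trans h2, hH, (of_cover (hπ p hp).two_le h1 h4 hc h5).2,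
    h3.trans (kcl_le_card_conjClasses _ H h5)⟩

end Cfsg.Agent.H29.PiC
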