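import Mathlib

/-! Ranks of explicit products. -/

set_option autoImplicit false

namespace Cfsg.Agent.H29

open Matrix

theorem rank_mul_of_inv {F : Type*} [Field F] {ι κ : Type*} [Fintype ι] [Fintype κ] [DecidableEq κ]
    {A B' : Matrix ι κ F} {A' B : Matrix κ ι F} (hA : A' * A = 1) (hB : B * B' = 1) :
    (A * B).rank = Fintype.card κ := by
  refine le_antisymm ((rank_mul_le_left _ _).trans (rank_le_card_width A)) ?_
  rw [← rank_one (R := F), show (1 : Matrix κ κ F) = A' * (A * B * B') by
    rw [Matrix.mul_assoc, hB, Matrix.mul_one, hA]]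
  exact (rank_mul_le_right _ _).trans (rank_mul_le_left _ _)

/-- The matrix of the inclusion of `Fin l` shifted by `s`. -/
def inc (F : Type*) [Field F] (n l s : ℕ) : Matrix (Fin n) (Fin l) F :=
  of fun i j => if i.val = j.val + s then 1 else 0

variable {F : Type*} [Field F] {n l : ℕ}

theorem inc_mul (s t : ℕ) (i j : Fin n) : (inc F n l s * (inc F n l t)ᵀ) i j =
    if s ≤ i.val ∧ i.val < s + l ∧ i.val + t = j.val + s then 1 else 0 := by
  simp only [mul_apply, inc, transpose_apply, of_apply, mul_ite, mul_one, mul_zero]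
  split_ifs with h
  · rw [Finset.sum_eq_single ⟨i.val - s, by omega⟩ (fun b _ hb => by
      rw [Ne, Fin.ext_iff] at hb
      simp only at hb
      split_ifs <;> first | rfl | omega) (by simp), if_pos (by simp; omega), if_pos (by simp; omega)]
  · exact Finset.sum_eq_zero fun b _ => by split_ifs <;> first | rfl | omega

theorem mul_inc {s t : ℕ} (h : s + l ≤ n) (i j : Fin l) : ((inc F n l s)ᵀ * inc F n l t) i j =
    if i.val + s = j.val + t then 1 else 0 := by
  simp only [mul_apply, inc, transpose_apply, of_apply, ite_mul, one_mul, zero_mul]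
  rw [Finset.sum_eq_single ⟨i.val + s, by omega⟩ (fun b _ hb => if_neg fun e => hb (Fin.ext e))
    (by simp), if_pos rfl]

theorem mul_inc_self {s : ℕ} (h : s + l ≤ n) : (inc F n l s)ᵀ * inc F n l s = 1 := by
  ext i j
  simp [mul_inc h, one_apply, Fin.ext_iff]

theorem mul_inc_zero {s t : ℕ} (h : s + l ≤ n) (h' : s + l ≤ t ∨ t + l ≤ s) :
    (inc F n l s)ᵀ * inc F n l t = 0 := by
  ext i j
  rw [mul_inc h, if_neg (by omega)]; rfl

theorem sl_of_sq_zero [CharP F 2] {ι : Type*} [Fintype ι] [DecidableEq ι] {N : Matrix ι ι F}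
    (h : N * N = 0) (h0 : N ≠ 0) :
    ∃ a : SpecialLinearGroup ι F, a.1 = 1 + N ∧ orderOf a = 2 := by
  have h1 : (1 + N) * (1 + N) = 1 := by
    rw [add_mul, mul_add, mul_add, h, one_mul, one_mul, mul_one, add_zero, add_assoc, ← two_smul F,
      show (2 : F) = 0 from CharP.cast_eq_zero F 2, zero_smul, add_zero]
  have h2 := congrArg det h1
  rw [det_mul, det_one, mul_self_eq_one_iff, CharTwo.neg_eq, or_self] at h2
  refine ⟨⟨1 + N, h2⟩, rfl, orderOf_eq_prime ((pow_two _).trans (Subtype.ext h1)) fun e =>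
    h0 (add_eq_left.1 (congrArg Subtype.val e))⟩

end Cfsg.Agent.H29
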