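import Mathlib
import Cfsg.Agent.S4160
import Cfsg.Agent.H5.Burnside

set_option autoImplicit false

namespace Cfsg.Agent.H29.TwoP

open Subgroup Cfsg Cfsg.Agent.H83

variable {G : Type*} [Group G] [Finite G]

/-- the automizer index of a Sylow subgroup -/
noncomputable def ee {p : ℕ} (P : Sylow p G) : ℕ :=
  (centralizer ((P : Subgroup G) : Set G)).relIndex (normalizer ((P : Subgroup G) : Set G))

/-- number of non-identity elements of class size prime to `p` -/
noncomputable def NN (G : Type*) [Group G] (p : ℕ) : ℕ := Set.ncard {x : G | x ≠ 1 ∧ ¬ p ∣ cs(x)}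

theorem cnt {p : ℕ} [Fact p.Prime] (P : Sylow p G) : ee P * NN G p + ee P ≤ Nat.card G := by
  have h0 : NN G p ≤ Set.ncard {x : G | x ≠ 1 ∧ ∃ g : G, g * x * g⁻¹ ∈
      centralizer ((P : Subgroup G) : Set G)} :=
    Set.ncard_le_ncard (fun x hx => ⟨hx.1, H8.exists_conj_mem_cent_sylow P hx.2⟩)
  have h1 := S4160.ncard_le (centralizer ((P : Subgroup G) : Set G))
    (normalizer ((P : Subgroup G) : Set G)) (H21.normalizer_le_normalizer_centralizer _)
  have hle : centralizer ((P : Subgroup G) : Set G) ≤ normalizer ((P : Subgroup G) : Set G) :=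
    centralizer_le_normalizer _
  have h4 := H21.card_mul_relIndex_of_le hle
  have h5 := (normalizer ((P : Subgroup G) : Set G)).card_mul_index
  have h6 : (normalizer ((P : Subgroup G) : Set G)).index ≠ 0 := index_ne_zero_of_finite
  unfold ee
  set a := (centralizer ((P : Subgroup G) : Set G)).relIndex (normalizer ((P : Subgroup G) : Set G))
  set b := (normalizer ((P : Subgroup G) : Set G)).index
  set c := Nat.card (centralizer ((P : Subgroup G) : Set G))
  rw [← h5, ← h4]
  have h7 : NN G p + 1 ≤ b * c := by omega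
  calc a * NN G p + a = a * (NN G p + 1) := by ring
    _ ≤ a * (b * c) := Nat.mul_le_mul_left _ h7
    _ = c * a * b := by ring

theorem not_prime_card (hG : ¬ IsMulCommutative G) : ¬ (Nat.card G).Prime := by
  intro h
  have := Fact.mk h
  have : IsCyclic G := isCyclic_of_prime_card rfl
  exact hG inferInstance

theorem center_eq_bot [IsSimpleGroup G] (hG : ¬ IsMulCommutative G) : center G = ⊥ := by
  refine (Normal.eq_bot_or_eq_top inferInstance).resolve_right fun h => hG ⟨⟨fun a b => ?_⟩⟩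
  exact (mem_center_iff.mp (h ▸ mem_top b) a)

theorem not_pgroup [IsSimpleGroup G] (hG : ¬ IsMulCommutative G) {p : ℕ} [Fact p.Prime] :
    ¬ IsPGroup p G := by
  intro h
  have := h.center_nontrivial
  rw [center_eq_bot hG] at this
  exact not_nontrivial _ this

theorem sylow_ne_bot {p : ℕ} [Fact p.Prime] (hp : p ∣ Nat.card G) (P : Sylow p G) :
    (P : Subgroup G) ≠ ⊥ := by
  intro h
  have := P.not_dvd_index
  rw [h, index_bot] at this
  exact this hp

theorem not_normal [IsSimpleGroup G] (hG : ¬ IsMulCommutative G) {p : ℕ} [Fact p.Prime]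
    (hp : p ∣ Nat.card G) (P : Sylow p G) : ¬ (P : Subgroup G).Normal := by
  intro h
  rcases h.eq_bot_or_eq_top with h | h
  · exact sylow_ne_bot hp P h
  · have := P.isPGroup'
    rw [h] at this
    exact not_pgroup hG (this.of_equiv topEquiv)

theorem two_le_ee [IsSimpleGroup G] (hG : ¬ IsMulCommutative G) {p : ℕ} [Fact p.Prime]
    (hp : p ∣ Nat.card G) (P : Sylow p G) : 2 ≤ ee P := by
  have h3 := H21.relIndex_ne_zero' (centralizer ((P : Subgroup G) : Set G))
    (normalizer ((P : Subgroup G) : Set G))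
  have h2 : ee P ≠ 1 := by
    rw [Ne, ee, relIndex_eq_one]
    intro h'
    obtain ⟨Q, N, hN, hc⟩ := H3.hasNormalPComplement_of_normalizer_le_centralizer P h'
    rcases hN.eq_bot_or_eq_top with h | h
    · have h1 : (Q : Subgroup G) = ⊤ := by
        have := hc.sup_eq_top
        rwa [h, bot_sup_eq] at this
      have := Q.isPGroup'
      rw [h1] at this
      exact not_pgroup hG (this.of_equiv topEquiv)
    · have := hc.disjoint
      rw [h, top_disjoint] at this
      exact sylow_ne_bot hp Q this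
  unfold ee at *
  omega

theorem two_primes [IsSimpleGroup G] (hG : ¬ IsMulCommutative G) {x : G} (hx : x ≠ 1) :
    2 ≤ (cs(x)).primeFactors.card := by
  by_contra h
  have h1 : (cs(x)).primeFactors.card ≤ 1 := by omega
  obtain ⟨p, k, hp, hk⟩ : ∃ p k : ℕ, p.Prime ∧ cs(x) = p ^ k := by
    rcases Nat.eq_zero_or_pos (cs(x)).primeFactors.card with h0 | h0
    · rw [Finset.card_eq_zero, Nat.primeFactors_eq_empty] at h0
      exact ⟨2, 0, Nat.prime_two, h0.resolve_left (cs_ne_zero x)⟩
    · obtain ⟨p, hp⟩ := Finset.card_eq_one.mp (le_antisymm h1 h0)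
      have hpp : p.Prime := Nat.prime_of_mem_primeFactors (hp ▸ Finset.mem_singleton_self p)
      refine ⟨p, _, hpp, Nat.eq_prime_pow_of_unique_prime_dvd (cs_ne_zero x) fun {d} hd hdn => ?_⟩
      have : d ∈ (cs(x)).primeFactors := Nat.mem_primeFactors.mpr ⟨hd, hdn, cs_ne_zero x⟩
      rw [hp] at this
      exact Finset.mem_singleton.mp this
  exact not_prime_card hG (H5.prime_card_of_simple_of_index_eq_prime_pow hp hx hk)

theorem sharp (h : ∀ x : G, (cs(x)).primeFactors.card ≤ 2) (ρ : Finset ℕ) (hρ : ∀ p ∈ ρ, p.Prime) :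
    (ρ.card - 2) * (Nat.card G - 1) ≤ ∑ p ∈ ρ, NN G p := by
  classical
  have := Fintype.ofFinite G
  have h1 : ∀ p, NN G p = ∑ x ∈ Finset.univ.erase (1 : G), if ¬ p ∣ cs(x) then 1 else 0 := by
    intro p
    rw [Finset.sum_boole, NN, Set.ncard_eq_toFinset_card']
    congr 1
    ext x
    simp
  simp only [h1]
  rw [Finset.sum_comm]
  have h2 : Nat.card G - 1 = (Finset.univ.erase (1 : G)).card := by
    rw [Finset.card_erase_of_mem (Finset.mem_univ _), Finset.card_univ, Nat.card_eq_fintype_card]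
  rw [h2, mul_comm, ← smul_eq_mul, ← Finset.sum_const]
  refine Finset.sum_le_sum fun x _ => ?_
  rw [Finset.sum_boole]
  have h3 : (ρ.filter fun p => p ∣ cs(x)).card ≤ 2 :=
    le_trans (Finset.card_le_card fun p hp => Nat.mem_primeFactors.mpr
      ⟨hρ p (Finset.mem_filter.mp hp).1, (Finset.mem_filter.mp hp).2, cs_ne_zero x⟩) (h x)
  have h4 := Finset.card_filter_add_card_filter_not (s := ρ) (fun p => p ∣ cs(x))
  simp only [Nat.cast_id]
  omega

theorem ee_dvd {p : ℕ} (P : Sylow p G) : ee P ∣ Nat.card G :=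
  (relIndex_dvd_card _ _).trans (card_subgroup_dvd_card _)

/-- The standing hypothesis on the simple group. -/
structure St (G : Type*) [Group G] (q r : ℕ) : Prop where
  hq : q.Prime
  hr : r.Prime
  qr : q ≠ r
  q2 : q ≠ 2
  r2 : r ≠ 2
  pi : ∀ p : ℕ, p.Prime → (p ∣ Nat.card G ↔ p = 2 ∨ p = q ∨ p = r)
  two : ∀ x : G, (cs(x)).primeFactors.card ≤ 2
  nc : ¬ IsMulCommutative G

omit [Finite G] in
theorem St.symm {q r : ℕ} (h : St G q r) : St G r q :=
  ⟨h.hr, h.hq, h.qr.symm, h.r2, h.q2, fun p hp => by rw [h.pi p hp]; tauto, h.two, h.nc⟩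

theorem exists_st [IsSimpleGroup G] (hG : ¬ IsMulCommutative G)
    (h : ∀ x : G, (cs(x)).primeFactors.card ≤ 2) : ∃ q r, St G q r := by
  classical
  set ρ := (Nat.card G).primeFactors with hρ
  have hpr : ∀ p ∈ ρ, p.Prime := fun p hp => Nat.prime_of_mem_primeFactors hp
  have h1 := sharp h ρ hpr
  have hpos : 0 < Nat.card G := Nat.card_pos
  have hb : ∀ p ∈ ρ, 2 * NN G p + 2 ≤ Nat.card G := by
    intro p hp
    have := Fact.mk (hpr p hp)
    obtain ⟨P⟩ : Nonempty (Sylow p G) := inferInstance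
    have h2 := cnt P
    have h3 := two_le_ee hG (Nat.dvd_of_mem_primeFactors hp) P
    nlinarith
  have h2 : 2 * ∑ p ∈ ρ, NN G p + 2 * ρ.card ≤ ρ.card * Nat.card G := by
    have := Finset.sum_le_sum hb
    rw [Finset.sum_add_distrib, ← Finset.mul_sum, Finset.sum_const, Finset.sum_const] at this
    simp only [smul_eq_mul] at this
    omega
  have hle : ρ.card ≤ 3 := by
    by_contra hc
    obtain ⟨k, hk⟩ : ∃ k, ρ.card = k + 4 := ⟨ρ.card - 4, by omega⟩
    obtain ⟨n, hn⟩ : ∃ n, Nat.card G = n + 1 := ⟨Nat.card G - 1, by omega⟩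
    rw [hk, hn] at h1 h2
    simp only [Nat.add_sub_cancel, show k + 4 - 2 = k + 2 by omega] at h1
    nlinarith
  have hge : 3 ≤ ρ.card := by
    by_contra hc
    have hs : Group.IsSolvable G := by
      obtain ⟨p, q, hp, hq, hpq⟩ : ∃ p q : ℕ, p.Prime ∧ q.Prime ∧ ρ ⊆ {p, q} := by
        rcases Nat.lt_or_ge ρ.card 1 with h0 | h0
        · exact ⟨2, 2, Nat.prime_two, Nat.prime_two, by
            rw [Finset.card_eq_zero.mp (by omega : ρ.card = 0)]; exact Finset.empty_subset _⟩
        rcases Nat.lt_or_ge ρ.card 2 with h0' | h0'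
        · obtain ⟨p, hp⟩ := Finset.card_eq_one.mp (by omega : ρ.card = 1)
          exact ⟨p, p, hpr p (by simp [hp]), hpr p (by simp [hp]), by simp [hp]⟩
        · obtain ⟨p, q, -, hp⟩ := Finset.card_eq_two.mp (by omega : ρ.card = 2)
          exact ⟨p, q, hpr p (by simp [hp]), hpr q (by simp [hp]), by simp [hp]⟩
      refine H5.isSolvable_of_card_dvd_prime_pow_mul hp hq (a := Nat.card G) (b := Nat.card G) ?_
      refine (Nat.dvd_iff_prime_pow_dvd_dvd _ _).mpr fun s k hs hsk => ?_
      rcases Nat.eq_zero_or_pos k with rfl | hk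
      · simp
      have hk' : k ≤ Nat.card G := le_trans (Nat.lt_pow_self hs.one_lt).le (Nat.le_of_dvd hpos hsk)
      have : s ∈ ρ := Nat.mem_primeFactors.mpr ⟨hs, (dvd_pow_self s hk.ne').trans hsk, hpos.ne'⟩
      rcases Finset.mem_insert.mp (hpq this) with rfl | h'
      · exact (pow_dvd_pow _ hk').mul_right _
      · rw [Finset.mem_singleton.mp h']
        exact (pow_dvd_pow _ hk').mul_left _
    exact hG (IsSimpleGroup.comm_iff_isSolvable.mpr hs |> fun h => ⟨⟨h⟩⟩)
  have h3 : ρ.card = 3 := le_antisymm hle hge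
  have h2m : 2 ∈ ρ := by
    by_contra h2n
    have hodd : ¬ 2 ∣ Nat.card G := fun h' => h2n (Nat.mem_primeFactors.mpr ⟨Nat.prime_two, h', hpos.ne'⟩)
    have hb' : ∀ p ∈ ρ, 3 * NN G p + 3 ≤ Nat.card G := by
      intro p hp
      have := Fact.mk (hpr p hp)
      obtain ⟨P⟩ : Nonempty (Sylow p G) := inferInstance
      have h2 := cnt P
      have h3 := two_le_ee hG (Nat.dvd_of_mem_primeFactors hp) P
      have h4 : ee P ≠ 2 := fun h' => hodd (h' ▸ ee_dvd P)
      have h5 : 3 ≤ ee P := by omega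
      nlinarith
    have := Finset.sum_le_sum hb'
    rw [Finset.sum_add_distrib, ← Finset.mul_sum, Finset.sum_const, Finset.sum_const, h3] at this
    simp only [smul_eq_mul] at this
    rw [h3] at h1
    omega
  obtain ⟨q, r, hqr, hqr'⟩ := Finset.card_eq_two.mp
    (by rw [Finset.card_erase_of_mem h2m, h3] : (ρ.erase 2).card = 2)
  have hq : q ∈ ρ.erase 2 := by simp [hqr']
  have hr : r ∈ ρ.erase 2 := by simp [hqr']
  refine ⟨q, r, hpr q (Finset.mem_of_mem_erase hq), hpr r (Finset.mem_of_mem_erase hr), hqr,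
    Finset.ne_of_mem_erase hq, Finset.ne_of_mem_erase hr, fun p hp => ?_, h, hG⟩
  constructor
  · intro hd
    have : p ∈ ρ := Nat.mem_primeFactors.mpr ⟨hp, hd, hpos.ne'⟩
    by_cases h2 : p = 2
    · exact Or.inl h2
    · have : p ∈ ρ.erase 2 := Finset.mem_erase.mpr ⟨h2, this⟩
      rw [hqr'] at this
      simpa [h2] using this
  · rintro (rfl | rfl | rfl)
    · exact Nat.dvd_of_mem_primeFactors h2m
    · exact Nat.dvd_of_mem_primeFactors (Finset.mem_of_mem_erase hq)
    · exact Nat.dvd_of_mem_primeFactors (Finset.mem_of_mem_erase hr)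

end Cfsg.Agent.H29.TwoP
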