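import Mathlib
import Cfsg.Agent.H29.TpA
import Cfsg.Agent.S0074
import Cfsg.Agent.S0088

set_option autoImplicit false

namespace Cfsg.Agent.H29.TwoP

open Subgroup Cfsg Cfsg.Agent.H83

variable {G : Type*} [Group G] [Finite G] {q r : ℕ}

theorem St.ex (h : St G q r) (x : G) : ∃ s, (s = 2 ∨ s = q ∨ s = r) ∧ ¬ s ∣ cs(x) := by
  by_contra hc
  push Not at hc
  have hsub : ({2, q, r} : Finset ℕ) ⊆ (cs(x)).primeFactors := by
    intro s hs
    simp only [Finset.mem_insert, Finset.mem_singleton] at hs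
    refine Nat.mem_primeFactors.mpr ⟨?_, hc s hs, cs_ne_zero x⟩
    rcases hs with rfl | rfl | rfl
    exacts [Nat.prime_two, h.hq, h.hr]
  have h1 := Finset.card_le_card hsub
  rw [Finset.card_eq_three.mpr ⟨2, q, r, h.q2.symm, h.r2.symm, h.qr, rfl⟩] at h1
  have := h.two x
  omega

theorem St.uniq [IsSimpleGroup G] (h : St G q r) {x : G} (hx : x ≠ 1) {s t : ℕ}
    (hs : s = 2 ∨ s = q ∨ s = r) (ht : t = 2 ∨ t = q ∨ t = r) (hs' : ¬ s ∣ cs(x))
    (ht' : ¬ t ∣ cs(x)) : s = t := by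
  by_contra hne
  have hsub : (cs(x)).primeFactors ⊆ (({2, q, r} : Finset ℕ).erase s).erase t := by
    intro p hp
    have hd := Nat.dvd_of_mem_primeFactors hp
    have := (h.pi p (Nat.prime_of_mem_primeFactors hp)).mp (hd.trans (cs_dvd_card x))
    simp only [Finset.mem_erase, Finset.mem_insert, Finset.mem_singleton]
    exact ⟨fun e => ht' (e ▸ hd), fun e => hs' (e ▸ hd), this⟩
  have h1 := Finset.card_le_card hsub
  rw [Finset.card_erase_of_mem (Finset.mem_erase.mpr ⟨Ne.symm hne, by simpa using ht⟩),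
    Finset.card_erase_of_mem (by simpa using hs),
    Finset.card_eq_three.mpr ⟨2, q, r, h.q2.symm, h.r2.symm, h.qr, rfl⟩] at h1
  have := two_primes h.nc hx
  omega

theorem St.same [IsSimpleGroup G] (h : St G q r) {x y z : G} (hx : x ≠ 1) (hy : y ≠ 1)
    (hxz : x ∈ zpowers z) (hyz : y ∈ zpowers z) {s t : ℕ}
    (hs : s = 2 ∨ s = q ∨ s = r) (ht : t = 2 ∨ t = q ∨ t = r) (hs' : ¬ s ∣ cs(x))
    (ht' : ¬ t ∣ cs(y)) : s = t := by
  obtain ⟨u, hu, hu'⟩ := h.ex z
  rw [h.uniq hx hs hu hs' fun e => hu' (e.trans (cs_dvd_of_mem_zpowers hxz)),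
    h.uniq hy ht hu ht' fun e => hu' (e.trans (cs_dvd_of_mem_zpowers hyz))]

omit [Finite G] in
theorem zz_split (P : Subgroup G) {a : G} (ha : a ∈ P) (hac : a ∉ centralizer (P : Set G)) :
    (centralizer (P : Set G)).relIndex (centralizer {a} ⊓ P) ≠ 1 ∧
    (centralizer ({a} : Set G)).relIndex P ≠ 1 ∧
    (centralizer (P : Set G)).relIndex (centralizer {a} ⊓ P) *
      (centralizer ({a} : Set G)).relIndex P = (centralizer (P : Set G)).relIndex P := by
  refine ⟨fun h => hac (relIndex_eq_one.mp h ⟨self_mem_cent a, ha⟩), fun h => hac ?_, ?_⟩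
  · exact mem_centralizer_iff.mpr fun b hb => mem_cent.mp (relIndex_eq_one.mp h hb)
  · rw [relIndex_inf_mul_relIndex, inf_of_le_left]
    exact centralizer_le (Set.singleton_subset_iff.mpr ha)

omit [Finite G] in
theorem zz_dvd {p : ℕ} (P : Sylow p G) :
    (centralizer ((P : Subgroup G) : Set G)).relIndex P ∣ ee P := by
  have hn : ((centralizer ((P : Subgroup G) : Set G)).subgroupOf
      (normalizer ((P : Subgroup G) : Set G))).Normal :=
    (normal_subgroupOf_iff_le_normalizer (centralizer_le_normalizer _)).mpr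
      (H21.normalizer_le_normalizer_centralizer _)
  have := relIndex_dvd_index_of_normal ((centralizer ((P : Subgroup G) : Set G)).subgroupOf
      (normalizer ((P : Subgroup G) : Set G))) ((P : Subgroup G).subgroupOf _)
  rwa [relIndex_subgroupOf le_normalizer] at this

theorem exists_not_cent {P : Subgroup G} (h : ¬ IsMulCommutative P) :
    ∃ a ∈ P, a ∉ centralizer (P : Set G) := by
  by_contra hc
  push Not at hc
  exact h (le_centralizer_iff_isMulCommutative.mp hc)

theorem zz_pow {p : ℕ} [hp : Fact p.Prime] (P : Sylow p G) (h : ¬ IsMulCommutative P) :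
    ∃ j, 2 ≤ j ∧ (centralizer ((P : Subgroup G) : Set G)).relIndex P = p ^ j := by
  obtain ⟨n, hn⟩ := P.isPGroup'.exists_card_eq
  obtain ⟨j, -, hj⟩ := (Nat.dvd_prime_pow hp.out).mp
    (hn ▸ relIndex_dvd_card (centralizer ((P : Subgroup G) : Set G)) P)
  obtain ⟨a, ha, hac⟩ := exists_not_cent h
  obtain ⟨h1, h2, h3⟩ := zz_split _ ha hac
  refine ⟨j, ?_, hj⟩
  by_contra hc
  rw [hj] at h3
  rcases (by omega : j = 0 ∨ j = 1) with rfl | rfl
  · exact h1 (Nat.eq_one_of_mul_eq_one_right h3)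
  · rw [pow_one] at h3
    rcases (Nat.dvd_prime hp.out).mp ⟨_, h3.symm⟩ with h' | h'
    · exact h1 h'
    · rw [h'] at h3
      exact h2 (Nat.eq_of_mul_eq_mul_left hp.out.pos (h3.trans (mul_one p).symm))

theorem ee_pos {p : ℕ} (P : Sylow p G) : 0 < ee P :=
  Nat.pos_of_dvd_of_pos (ee_dvd P) Nat.card_pos

theorem sq_le_ee {p : ℕ} [hp : Fact p.Prime] (P : Sylow p G) (h : ¬ IsMulCommutative P) :
    p ^ 2 ≤ ee P := by
  obtain ⟨j, hj, hj'⟩ := zz_pow P h
  exact le_trans (Nat.pow_le_pow_right hp.out.pos hj) (Nat.le_of_dvd (ee_pos P) (hj' ▸ zz_dvd P))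

theorem three_le_ee [IsSimpleGroup G] (hG : ¬ IsMulCommutative G) (h2 : 2 ∣ Nat.card G)
    (T : Sylow 2 G) : 3 ≤ ee T := by
  by_cases hT : IsMulCommutative T
  · have h1 := two_le_ee hG h2 T
    have h3 : ee T ∣ (T : Subgroup G).index :=
      (relIndex_dvd_of_le_left _ (le_centralizer_iff_isMulCommutative.mpr hT)).trans
        (relIndex_dvd_index_of_le le_normalizer)
    have h4 : ee T ≠ 2 := fun e => T.not_dvd_index (by rwa [e] at h3)
    omega
  · have := sq_le_ee T hT
    omega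

theorem St.ineq (h : St G q r) [Fact q.Prime] [Fact r.Prime] (T : Sylow 2 G) (Q : Sylow q G)
    (R : Sylow r G) {a b c : ℕ} (ha : a ≤ ee T) (hb : b ≤ ee Q) (hc : c ≤ ee R) (ha0 : 0 < a)
    (hb0 : 0 < b) (hc0 : 0 < c) : a * b * c < a * b + b * c + a * c := by
  have h1 := sharp h.two {2, q, r} (by
    intro s hs
    simp only [Finset.mem_insert, Finset.mem_singleton] at hs
    rcases hs with rfl | rfl | rfl
    exacts [Nat.prime_two, h.hq, h.hr])
  rw [Finset.card_eq_three.mpr ⟨2, q, r, h.q2.symm, h.r2.symm, h.qr, rfl⟩,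
    Finset.sum_insert (by simp [h.q2.symm, h.r2.symm]), Finset.sum_pair h.qr] at h1
  have h2 : a * NN G 2 + a ≤ Nat.card G := by have := cnt T; nlinarith
  have h3 : b * NN G q + b ≤ Nat.card G := by have := cnt Q; nlinarith
  have h4 : c * NN G r + c ≤ Nat.card G := by have := cnt R; nlinarith
  have hpos : 0 < Nat.card G := Nat.card_pos
  by_contra hn
  have h5 : Nat.card G ≤ NN G 2 + NN G q + NN G r + 1 := by omega
  have h6 := Nat.mul_le_mul_left (b * c) h2
  have h7 := Nat.mul_le_mul_left (a * c) h3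
  have h8 := Nat.mul_le_mul_left (a * b) h4
  have h9 := Nat.mul_le_mul_left (a * b * c) h5
  have h10 := Nat.mul_le_mul_right (Nat.card G) (not_lt.mp hn)
  have h11 : 0 < a * b * c := by positivity
  nlinarith

theorem St.comm_q [IsSimpleGroup G] (h : St G q r) (Q : Sylow q G) : IsMulCommutative Q := by
  have := Fact.mk h.hq
  have := Fact.mk h.hr
  by_contra hc
  obtain ⟨T⟩ : Nonempty (Sylow 2 G) := inferInstance
  obtain ⟨R⟩ : Nonempty (Sylow r G) := inferInstance
  have h1 := sq_le_ee Q hc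
  have h2 : 3 ≤ q := by have := h.hq.two_le; have := h.q2; omega
  have := h.ineq T Q R (three_le_ee h.nc ((h.pi 2 Nat.prime_two).mpr (Or.inl rfl)) T)
    (b := 9) (by nlinarith) (two_le_ee h.nc ((h.pi r h.hr).mpr (Or.inr (Or.inr rfl))) R)
    (by omega) (by omega) (by omega)
  omega

theorem ty_of_comm {s : ℕ} [Fact s.Prime] (hP : ∀ P : Sylow s G, IsMulCommutative P) {x : G}
    {k : ℕ} (hx : orderOf x = s ^ k) : ¬ s ∣ cs(x) := by
  have : IsPGroup s (zpowers x) := IsPGroup.of_card (by rw [Nat.card_zpowers, hx])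
  obtain ⟨P, hP'⟩ := this.exists_le_sylow
  exact not_dvd_index_iff.mpr ⟨P, (le_centralizer_iff_isMulCommutative.mpr (hP P)).trans
    (centralizer_le (Set.singleton_subset_iff.mpr (hP' (mem_zpowers x))))⟩

theorem St.cent_eq [IsSimpleGroup G] (h : St G q r) {s : ℕ} [hs : Fact s.Prime] (P : Sylow s G)
    {x : G} (hx : x ≠ 1) (hxP : x ∈ (P : Subgroup G)) (hle : (P : Subgroup G) ≤ centralizer {x})
    (ho : ∀ t : ℕ, t.Prime → t ≠ s → ∀ y : G, orderOf y = t → ¬ t ∣ cs(y)) :
    centralizer ({x} : Set G) = P := by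
  refine P.is_maximal' (IsPGroup.of_card (Nat.eq_prime_pow_of_unique_prime_dvd Nat.card_pos.ne'
    fun {t} ht hd => ?_)) hle
  by_contra hne
  have := Fact.mk ht
  obtain ⟨y, hy⟩ := exists_prime_orderOf_dvd_card' t hd
  rw [← orderOf_coe] at hy
  obtain ⟨k, hk⟩ := IsPGroup.iff_orderOf.mp P.isPGroup' ⟨x, hxP⟩
  rw [orderOf_mk] at hk
  have hcop : (orderOf x).Coprime (orderOf (y : G)) := by
    rw [hk, hy]
    exact Nat.Coprime.pow_left _ ((Nat.coprime_primes hs.out ht).mpr (Ne.symm hne))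
  have hc : Commute x (y : G) := (mem_cent.mp y.2).symm
  have hk0 : k ≠ 0 := by rintro rfl; exact hx (orderOf_eq_one_iff.mp hk)
  refine hne (h.same (x := y) (fun e => ht.ne_one (by rw [← hy, e, orderOf_one])) hx
    (mem_zpowers_mul_right hc hcop) (mem_zpowers_mul_left hc hcop)
    ((h.pi t ht).mp (hy ▸ orderOf_dvd_natCard _))
    ((h.pi s hs.out).mp ((dvd_pow_self s hk0).trans (hk ▸ orderOf_dvd_natCard _)))
    (ho t ht hne y hy) (not_dvd_index_iff.mpr ⟨P, hle⟩))

theorem St.odd_ty [IsSimpleGroup G] (h : St G q r) {t : ℕ} (ht : t.Prime) (ht2 : t ≠ 2) {y : G}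
    {k : ℕ} (hy : orderOf y = t ^ k) : ¬ t ∣ cs(y) := by
  have := Fact.mk ht
  intro hd
  rcases (h.pi t ht).mp (hd.trans (cs_dvd_card y)) with rfl | rfl | rfl
  · exact ht2 rfl
  · exact ty_of_comm h.comm_q hy hd
  · exact ty_of_comm h.symm.comm_q hy hd

theorem St.reg [IsSimpleGroup G] (h : St G q r) (g : G) : ¬ q ∣ orderOf g ∨ ¬ r ∣ orderOf g := by
  by_contra hc
  push Not at hc
  have h0 : orderOf g ≠ 0 := (orderOf_pos g).ne'
  have h1 := orderOf_pow_orderOf_div h0 hc.1
  have h2 := orderOf_pow_orderOf_div h0 hc.2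
  exact h.qr (h.same (fun e => h.hq.ne_one (by rw [← h1, e, orderOf_one]))
    (fun e => h.hr.ne_one (by rw [← h2, e, orderOf_one])) (npow_mem_zpowers g _)
    (npow_mem_zpowers g _) (by simp) (by simp) (h.odd_ty h.hq h.q2 (h1.trans (pow_one q).symm))
    (h.odd_ty h.hr h.r2 (h2.trans (pow_one r).symm)))

/-- All centralizers of nontrivial elements of prime power order are Sylow subgroups. -/
def Gd (G : Type*) [Group G] : Prop :=
  ∀ (s : ℕ) (_ : s.Prime) (P : Sylow s G) (x : G), x ∈ (P : Subgroup G) → x ≠ 1 →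
    centralizer ({x} : Set G) = P

theorem St.gd [IsSimpleGroup G] (h : St G q r) (hT : ∀ T : Sylow 2 G, IsMulCommutative T) :
    Gd G := by
  have hall : ∀ t : ℕ, t.Prime → ∀ (y : G) (k : ℕ), orderOf y = t ^ k → ¬ t ∣ cs(y) := by
    intro t ht y k hy
    by_cases h2 : t = 2
    · subst h2; exact ty_of_comm hT hy
    · exact h.odd_ty ht h2 hy
  intro s hs P x hxP hx
  have := Fact.mk hs
  obtain ⟨k, hk⟩ := IsPGroup.iff_orderOf.mp P.isPGroup' ⟨x, hxP⟩
  rw [orderOf_mk] at hk
  have hk0 : k ≠ 0 := by rintro rfl; exact hx (orderOf_eq_one_iff.mp hk)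
  have hcomm : IsMulCommutative P := by
    rcases (h.pi s hs).mp ((dvd_pow_self s hk0).trans (hk ▸ orderOf_dvd_natCard _)) with
      rfl | rfl | rfl
    exacts [hT P, h.comm_q P, h.symm.comm_q P]
  exact h.cent_eq P hx hxP ((le_centralizer_iff_isMulCommutative.mpr hcomm).trans
    (centralizer_le (Set.singleton_subset_iff.mpr hxP)))
    fun t ht _ y hy => hall t ht y 1 (hy.trans (pow_one t).symm)

theorem St.eight_le [IsSimpleGroup G] (h : St G q r) (T : Sylow 2 G) (hT : ¬ IsMulCommutative T) :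
    8 ≤ ee T := by
  obtain ⟨j, hj, hj'⟩ := zz_pow T hT
  have hle := Nat.le_of_dvd (ee_pos T) (hj' ▸ zz_dvd T)
  rcases Nat.lt_or_ge 2 j with h2 | h2
  · exact le_trans (Nat.pow_le_pow_right two_pos h2) hle
  exfalso
  obtain rfl : j = 2 := by omega
  have key : ∀ u ∈ (T : Subgroup G), u ∉ centralizer ((T : Subgroup G) : Set G) → u * u = 1 := by
    intro u hu huc
    obtain ⟨h1, h2, h3⟩ := zz_split _ hu huc
    rw [hj'] at h3
    have h4 : (centralizer ((T : Subgroup G) : Set G)).relIndex (centralizer {u} ⊓ T) = 2 := by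
      have h5 := Nat.le_of_dvd (by norm_num) (Dvd.intro _ h3)
      generalize (centralizer ((T : Subgroup G) : Set G)).relIndex (centralizer {u} ⊓ T) = m at *
      interval_cases m <;> omega
    have h5 : u * u ∈ centralizer ((T : Subgroup G) : Set G) :=
      mul_self_mem_of_index_two h4 (⟨u, self_mem_cent u, hu⟩ : (centralizer {u} ⊓ T : Subgroup G))
    by_contra hne
    have hTle : (T : Subgroup G) ≤ centralizer {u * u} := fun t ht =>
      mem_cent.mpr (mem_centralizer_iff.mp h5 t ht)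
    have h6 := h.cent_eq T hne (mul_mem hu hu) hTle
      fun t ht ht2 y hy => h.odd_ty ht ht2 (hy.trans (pow_one t).symm)
    obtain ⟨s, hs, hs'⟩ := h.ex u
    have hu1 : u ≠ 1 := fun e => hne (by rw [e, mul_one])
    obtain rfl : s = 2 := h.same hu1 hne (mem_zpowers u) (mul_mem (mem_zpowers u) (mem_zpowers u))
      hs (by simp) hs' (not_dvd_index_iff.mpr ⟨T, hTle⟩)
    obtain ⟨T', hT'⟩ := not_dvd_index_iff.mp hs'
    have h7 : (T' : Subgroup G) ≤ T := by
      rw [← h6, ← sq]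
      exact hT'.trans (cent_le_cent_pow u 2)
    have h8 := T'.is_maximal' T.isPGroup' h7
    exact huc (mem_centralizer_iff.mpr fun t ht => mem_cent.mp (hT' (h8 ▸ ht)))
  obtain ⟨a, ha, hac⟩ := exists_not_cent hT
  have hall : ∀ u ∈ (T : Subgroup G), u * u = 1 := by
    intro u hu
    by_cases huc : u ∈ centralizer ((T : Subgroup G) : Set G)
    · have h1 := key (a * u) (mul_mem ha hu) fun e => hac ((mul_mem_cancel_right huc).mp e)
      have h2 := key a ha hac
      have h3 := mem_centralizer_iff.mp huc a ha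
      calc u * u = (a * a) * (u * u) := by rw [h2, one_mul]
        _ = a * (a * u) * u := by group
        _ = a * (u * a) * u := by rw [h3]
        _ = 1 := by rw [← h1]; group
    · exact key u hu huc
  refine hT ⟨⟨fun x y => Subtype.ext ?_⟩⟩
  have h1 := hall _ (mul_mem x.2 y.2)
  have h2 := hall _ x.2
  have h3 := hall _ y.2
  rw [← eq_inv_iff_mul_eq_one] at h1 h2 h3
  rw [mul_inv_rev, ← h2, ← h3] at h1
  exact h1

theorem St.ee_two [IsSimpleGroup G] (h : St G q r) (T : Sylow 2 G) (hT : ¬ IsMulCommutative T)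
    (Q : Sylow q G) : ee Q = 2 := by
  have := Fact.mk h.hq
  have := Fact.mk h.hr
  obtain ⟨R⟩ : Nonempty (Sylow r G) := inferInstance
  have h1 := two_le_ee h.nc ((h.pi q h.hq).mpr (by simp)) Q
  by_contra hc
  have := h.ineq T Q R (h.eight_le T hT) (b := 3) (by omega)
    (two_le_ee h.nc ((h.pi r h.hr).mpr (Or.inr (Or.inr rfl))) R) (by omega) (by omega) (by omega)
  omega

theorem commutator_eq_top' [IsSimpleGroup G] (hG : ¬ IsMulCommutative G) : commutator G = ⊤ := by
  refine (Normal.eq_bot_or_eq_top inferInstance).resolve_left fun h => hG ⟨⟨fun a b => ?_⟩⟩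
  rw [← commutatorElement_eq_one_iff_mul_comm, ← mem_bot, ← h]
  exact commutator_mem_commutator (mem_top a) (mem_top b)

theorem not_cent_norm [IsSimpleGroup G] (hG : ¬ IsMulCommutative G) {p : ℕ} [Fact p.Prime]
    (P : Sylow p G) (hP : IsMulCommutative P) {y : G} (hy : y ∈ (P : Subgroup G))
    (hc : normalizer ((P : Subgroup G) : Set G) ≤ centralizer {y}) : y = 1 := by
  set N := normalizer ((P : Subgroup G) : Set G)
  have h1 := S0074.result P hP
  rw [commutator_eq_top' hG, top_inf_eq] at h1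
  have h2 : y ∈ ⁅N, N⁆ := (h1.le hy).1
  have h3 := S0088.result ((P : Subgroup G).subgroupOf N) inferInstance
    (P.subtype le_normalizer).card_coprime_index
  have hyN : y ∈ N := le_normalizer hy
  have h4 : (⟨y, hyN⟩ : N) ∈ (P : Subgroup G).subgroupOf N ⊓ commutator N ⊓ center N := by
    refine ⟨⟨hy, ?_⟩, mem_center_iff.mpr fun g => Subtype.ext (mem_cent.mp (hc g.2))⟩
    rw [← map_subtype_commutator] at h2
    obtain ⟨z, hz, hz'⟩ := h2
    exact (Subtype.ext hz' : z = ⟨y, hyN⟩) ▸ hz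
  rw [h3] at h4
  exact congrArg Subtype.val (mem_bot.mp h4)

end Cfsg.Agent.H29.TwoP
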