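import Mathlib
import Cfsg.Agent.H29.TpB
import Cfsg.Agent.S4709
import Cfsg.Agent.H86.Val

set_option autoImplicit false

namespace Cfsg.Agent.H29.TwoP

open Subgroup Cfsg Cfsg.Agent.H83

variable {G : Type*} [Group G] [Finite G] {q r : ℕ}

/-- The principal block data when the automizer has order two. -/
structure Tri {q : ℕ} (Q : Sylow q G) (χ η η' : G → ℂ) (a b : ℤ) : Prop where
  i1 : IsIrrCharacter G χ
  i2 : IsIrrCharacter G η
  i3 : IsIrrCharacter G η'
  n1 : χ ≠ fun _ => 1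
  n2 : η ≠ fun _ => 1
  n3 : η' ≠ fun _ => 1
  n12 : χ ≠ η
  n23 : η ≠ η'
  ha : a = 1 ∨ a = -1
  hb : b = 1 ∨ b = -1
  val : ∀ z y : G, IsPPart q z y → y ∈ (Q : Subgroup G) → y ≠ 1 → χ z = a
  rel : ∀ g : G, ¬ q ∣ orderOf g → 1 + a * χ g + b * η g = 0
  agree : ∀ g : G, ¬ q ∣ orderOf g → η g = η' g

theorem isPPart_mul {q : ℕ} [hq : Fact q.Prime] (Q : Sylow q G) {y t : G}
    (hy : y ∈ (Q : Subgroup G)) (hc : Commute y t) (ht : ¬ q ∣ orderOf t) :
    IsPPart q (y * t) y := by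
  obtain ⟨k, hk⟩ := IsPGroup.iff_orderOf.mp Q.isPGroup' ⟨y, hy⟩
  rw [orderOf_mk] at hk
  exact ⟨t, rfl, hc, ⟨k, hk⟩, ht⟩

theorem ar0 {k d : ℤ} (hk : 2 ≤ k) (h : (k - 1) * d ^ 2 ≤ 2) : d = -1 ∨ d = 0 ∨ d = 1 := by
  have h1 : d ^ 2 ≤ (k - 1) * d ^ 2 := by nlinarith [sq_nonneg d]
  have : -2 < d := by nlinarith
  have : d < 2 := by nlinarith
  omega

theorem ar1 {k d δ m : ℤ} (hk : 2 ≤ k) (hδ : δ = 1 ∨ δ = -1)
    (hsq : (d - δ) ^ 2 + (k - 1) * d ^ 2 + 1 ^ 2 = 3) (h5 : (k * d - δ) * m + 1 = 0) : False := by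
  have hd := ar0 hk (d := d) (by nlinarith [sq_nonneg (d - δ)])
  rcases hδ with rfl | rfl <;> rcases hd with rfl | rfl | rfl <;> norm_num at hsq <;>
    first
      | omega
      | (obtain rfl : k = 3 := by omega
         omega)

theorem ar2 {k d δ a : ℤ} (hk : 2 ≤ k) (hδ : δ = 1 ∨ δ = -1) (ha : a ≠ 0)
    (hsq : (d - δ) ^ 2 + (k - 1) * d ^ 2 + (1 ^ 2 + a ^ 2) = 3) :
    (a = 1 ∨ a = -1) ∧ (k * d - δ = 1 ∨ k * d - δ = -1) := by
  have h0 : 0 ≤ (k - 1) * d ^ 2 := mul_nonneg (by omega) (sq_nonneg d)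
  have hd := ar0 hk (d := d) (by nlinarith [sq_nonneg (d - δ), sq_nonneg a])
  have ha2 : a = 1 ∨ a = -1 := by
    have : a ^ 2 ≤ 2 := by nlinarith [sq_nonneg (d - δ)]
    have : -2 < a := by nlinarith
    have : a < 2 := by nlinarith
    omega
  refine ⟨ha2, ?_⟩
  have ha3 : a ^ 2 = 1 := by rcases ha2 with e | e <;> simp [e]
  rw [ha3] at hsq
  rcases hδ with rfl | rfl <;> rcases hd with rfl | rfl | rfl <;> norm_num at hsq <;> omega

theorem St.tri [IsSimpleGroup G] (h : St G q r) (Q : Sylow q G) (he : ee Q = 2)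
    (h3 : 3 < Nat.card Q) : ∃ χ η η' a b, Tri Q χ η η' a b := by
  have := Fact.mk h.hq
  obtain ⟨M, hM⟩ := H86.exists_isPModular h.hq
  set N := normalizer ((Q : Subgroup G) : Set G) with hN
  set C := centralizer ((Q : Subgroup G) : Set G) with hC
  have hCN : C ≤ N := centralizer_le_normalizer _
  have hsplit : ∀ g ∈ N, g ∉ C → ∀ K : Subgroup G, C ≤ K → g ∈ K → N ≤ K := by
    intro g hg hgC K hK hgK n hn
    by_cases hnC : n ∈ C
    · exact hK hnC
    · have : (⟨n, hn⟩ * ⟨g, hg⟩ : N) ∈ C.subgroupOf N :=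
        (mul_mem_iff_of_index_two he).mpr (iff_of_false hnC hgC)
      exact (mul_mem_cancel_right hgK).mp (hK this)
  obtain ⟨g, hg, hgC⟩ : ∃ g ∈ N, g ∉ C := by
    by_contra hc
    push Not at hc
    have : ee Q = 1 := relIndex_eq_one.mpr hc
    omega
  obtain ⟨s, X, Y, hs, -, hdisj, hX, hY, ⟨χ₁, hχ₁, hχ₁'⟩, a, d, δ, -, hδ, ha, -, -, -, -, hsq,
    hagree, hrel⟩ := S4709.result q M hM Q (h.comm_q Q) (by omega) 2 (by omega) (by omega) he
    ⟨g, hg, le_antisymm (sup_le hCN (zpowers_le.mpr hg))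
      (hsplit g hg hgC _ le_sup_left (mem_sup_right (mem_zpowers g)))⟩
    (fun y hy hy1 => le_antisymm (fun n hn => by
      by_contra hnC
      exact hy1 (not_cent_norm h.nc Q (h.comm_q Q) hy (hsplit n hn.2 hnC _
        (centralizer_le (Set.singleton_subset_iff.mpr hy)) hn.1)))
      (le_inf (centralizer_le (Set.singleton_subset_iff.mpr hy)) hCN))
  obtain ⟨n, hn⟩ := Q.isPGroup'.exists_card_eq
  obtain ⟨k, hk⟩ : Odd (Nat.card Q) := hn ▸ (h.hq.odd_of_ne_two h.q2).pow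
  have hk2 : 2 ≤ k := by omega
  have hk1 : (Nat.card Q - 1) / 2 = k := by omega
  have hk1' : (((Nat.card Q : ℤ) - 1) / ((2 : ℕ) : ℤ) - 1) = k - 1 := by rw [hk]; push_cast; omega
  rw [hk1] at hY hrel
  rw [hk1'] at hsq
  obtain ⟨y, hy, hy1⟩ := (bot_or_exists_ne_one (Q : Subgroup G)).resolve_left
    (fun e => by rw [e, card_bot] at h3; omega)
  have ha1 : a χ₁ = 1 := by
    have := (ha χ₁ hχ₁).2 (y * 1) y (isPPart_mul Q hy (Commute.one_right y)
      (by rw [orderOf_one]; exact h.hq.not_dvd_one)) hy hy1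
    rw [hχ₁'] at this
    have h' : ((a χ₁ : ℤ) : ℂ) = 1 := this.symm
    exact_mod_cast h'
  rw [Nat.card_coe_set_eq] at hX hY
  obtain ⟨η, η', hη, hη', hne⟩ := (Set.one_lt_ncard_iff (Set.toFinite Y)).mp (by omega)
  have hY1 : ∀ θ ∈ Y, (θ : G → ℂ) ≠ fun _ => 1 := fun θ hθ e =>
    Set.disjoint_left.mp hdisj hχ₁ ((Subtype.ext (e.trans hχ₁'.symm) : θ = χ₁) ▸ hθ)
  have hs1 : 0 < X.ncard := (Set.ncard_pos (Set.toFinite X)).mpr ⟨χ₁, hχ₁⟩
  rcases (by omega : X.ncard = 1 ∨ X.ncard = 2) with h1 | h2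
  · exfalso
    obtain ⟨x, rfl⟩ := Set.ncard_eq_one.mp h1
    obtain rfl : χ₁ = x := hχ₁
    have h4 := hrel η hη 1 (by rw [orderOf_one]; exact h.hq.not_dvd_one)
    rw [finsum_mem_singleton] at hsq h4
    obtain ⟨m, hm⟩ := H5.exists_nat_degree (H5.isCharacter_of_isIrr η.2)
    rw [hm, ha1, hχ₁'] at h4
    have h4' : ((k : ℂ) * d - δ) * m + 1 = 0 := by simpa using h4
    rw [ha1] at hsq
    exact ar1 (k := k) (m := m) (by omega) hδ hsq (by exact_mod_cast h4')
  · obtain ⟨χ, hne', rfl⟩ : ∃ χ, χ₁ ≠ χ ∧ X = {χ₁, χ} := by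
      obtain ⟨u, v, huv, rfl⟩ := Set.ncard_eq_two.mp h2
      rcases hχ₁ with rfl | rfl
      · exact ⟨v, huv, rfl⟩
      · exact ⟨u, huv.symm, Set.pair_comm _ _⟩
    rw [finsum_mem_pair hne', ha1] at hsq
    have hχ := ha χ (by simp)
    obtain ⟨ha2, hb⟩ := ar2 (k := k) (by omega) hδ hχ.1 hsq
    refine ⟨χ, η, η', a χ, k * d - δ, χ.2, η.2, η'.2,
      fun e => hne' (Subtype.ext (hχ₁'.trans e.symm)), hY1 η hη, hY1 η' hη',
      fun e => Set.disjoint_left.mp hdisj (by simp) ((Subtype.ext e : χ = η) ▸ hη),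
      fun e => hne (Subtype.ext e), ha2, hb, hχ.2, fun g hg => ?_, hagree η hη η' hη'⟩
    have h4 := hrel η hη g hg
    rw [finsum_mem_pair hne', ha1, hχ₁'] at h4
    push_cast at h4 ⊢
    linear_combination h4

theorem orth [Fintype G] (hreg : ∀ g : G, ¬ q ∣ orderOf g ∨ ¬ r ∣ orderOf g) {f f' : G → ℂ}
    (hf : ∀ g, ¬ q ∣ orderOf g → f g = 0) (hf' : ∀ g, ¬ r ∣ orderOf g → f' g = 0) :
    classInner f f' = 0 := by
  unfold classInner
  rw [Finset.sum_eq_zero, mul_zero]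
  intro g _
  rcases hreg g with h | h
  · rw [hf g h, zero_mul]
  · rw [hf' g h, map_zero, mul_zero]

open Classical in
theorem inner_tri [Fintype G] {R : Sylow r G} {ψ θ θ' : G → ℂ} {c d : ℤ} (B : Tri R ψ θ θ' c d)
    {φ : G → ℂ} (hφ : IsIrrCharacter G φ) :
    classInner φ ((fun _ => 1) + c • ψ + d • θ) =
      (if φ = fun _ => 1 then 1 else 0) + c * (if φ = ψ then 1 else 0) +
        d * (if φ = θ then 1 else 0) := by
  rw [H5.classInner_add_right, H5.classInner_add_right, H5.classInner_zsmul_right,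
    H5.classInner_zsmul_right, H5.classInner_irr hφ H5.isIrrCharacter_one,
    H5.classInner_irr hφ B.i1, H5.classInner_irr hφ B.i2]

theorem exc_ne (hq : q.Prime) (hr : r.Prime)
    (hreg : ∀ g : G, ¬ q ∣ orderOf g ∨ ¬ r ∣ orderOf g)
    {Q : Sylow q G} {χ η η' : G → ℂ} {a b : ℤ} (A : Tri Q χ η η' a b)
    {R : Sylow r G} {ψ θ θ' : G → ℂ} {c d : ℤ} (B : Tri R ψ θ θ' c d) : η ≠ ψ ∧ η ≠ θ := by
  classical
  have := Fintype.ofFinite G
  have h1 : classInner (η - η') ((fun _ => 1) + c • ψ + d • θ) = 0 :=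
    orth hreg (fun g hg => by simp [A.agree g hg]) (fun g hg => by simpa using B.rel g hg)
  rw [H5.classInner_sub_left, inner_tri B A.i2, inner_tri B A.i3, if_neg A.n2, if_neg A.n3] at h1
  have h2 := B.rel 1 (by rw [orderOf_one]; exact hr.not_dvd_one)
  have h3 := A.agree 1 (by rw [orderOf_one]; exact hq.not_dvd_one)
  obtain ⟨m, hm⟩ := H5.exists_nat_degree (H5.isCharacter_of_isIrr A.i2)
  have hc0 : (c : ℂ) ≠ 0 := by rcases B.ha with e | e <;> simp [e]
  have hd0 : (d : ℂ) ≠ 0 := by rcases B.hb with e | e <;> simp [e]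
  have par : ψ 1 = m → θ 1 = m → (c : ℂ) = d → False := by
    intro e1 e2 e3
    rw [e1, e2, ← e3] at h2
    have : 1 + c * m + c * m = 0 := by exact_mod_cast h2
    omega
  constructor
  · rintro rfl
    rw [if_pos rfl, if_neg B.n12, if_neg A.n23.symm] at h1
    by_cases e : η' = θ
    · rw [if_pos e] at h1
      exact par hm (by rw [← e, ← h3, hm]) (by linear_combination h1)
    · rw [if_neg e] at h1
      exact hc0 (by linear_combination h1)
  · rintro rfl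
    rw [if_pos rfl, if_neg B.n12.symm, if_neg A.n23.symm] at h1
    by_cases e : η' = ψ
    · rw [if_pos e] at h1
      exact par (by rw [← e, ← h3, hm]) hm (by linear_combination -h1)
    · rw [if_neg e] at h1
      exact hd0 (by linear_combination h1)

theorem common (hq : q.Prime) (hr : r.Prime)
    (hreg : ∀ g : G, ¬ q ∣ orderOf g ∨ ¬ r ∣ orderOf g)
    {Q : Sylow q G} {χ η η' : G → ℂ} {a b : ℤ} (A : Tri Q χ η η' a b)
    {R : Sylow r G} {ψ θ θ' : G → ℂ} {c d : ℤ} (B : Tri R ψ θ θ' c d) : χ = ψ ∧ c = -a := by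
  classical
  have := Fintype.ofFinite G
  obtain ⟨e1, e2⟩ := exc_ne hq hr hreg A B
  obtain ⟨e3, -⟩ := exc_ne hr hq (fun g => (hreg g).symm) B A
  have h1 : classInner ((fun _ => 1) + a • χ + b • η) ((fun _ => 1) + c • ψ + d • θ) = 0 :=
    orth hreg (fun g hg => by simpa using A.rel g hg) (fun g hg => by simpa using B.rel g hg)
  rw [H5.classInner_add_left, H5.classInner_add_left, H5.classInner_zsmul_left,
    H5.classInner_zsmul_left, inner_tri B A.i1, inner_tri B A.i2,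
    inner_tri B H5.isIrrCharacter_one, if_pos rfl, if_neg B.n1.symm, if_neg B.n2.symm,
    if_neg A.n1, if_neg A.n2, if_neg e1, if_neg e2, if_neg e3.symm] at h1
  by_cases e : χ = ψ
  · rw [if_pos e] at h1
    have h2 : (1 : ℂ) + a * c = 0 := by linear_combination h1
    have h3 : 1 + a * c = 0 := by exact_mod_cast h2
    refine ⟨e, ?_⟩
    rcases A.ha with rfl | rfl <;> omega
  · rw [if_neg e] at h1
    simp at h1

theorem sum_sub_eq {K : Subgroup G} [Fintype K] {χ : G → ℂ} (h : IsIrrCharacter G χ) :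
    ∃ m : ℕ, ∑ k : K, χ k = m * Nat.card K := by
  obtain ⟨m, hm⟩ := H5.exists_nat_classInner
    (H5.isCharacter_restrict (H5.isCharacter_of_isIrr h) K) H5.isCharacter_one
  rw [H5.classInner_one_right] at hm
  refine ⟨m, ?_⟩
  rw [← hm]
  field_simp [H5.natCard_ne_zero (G := K)]

theorem Tri.deg [hq : Fact q.Prime] {Q : Sylow q G} {χ η η' : G → ℂ} {a b : ℤ}
    (A : Tri Q χ η η' a b) {x : ℕ} (hx : χ 1 = x) : (Nat.card Q : ℤ) ∣ x - a := by
  classical
  have := Fintype.ofFinite (Q : Subgroup G)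
  obtain ⟨m, hm⟩ := sum_sub_eq (K := Q) A.i1
  have h1 : ∑ k : (Q : Subgroup G), (χ k - a) = x - a := by
    rw [Finset.sum_eq_single 1]
    · simp [hx]
    · intro y _ hy
      have := A.val (y * 1) y (isPPart_mul Q y.2 (Commute.one_right _)
        (by rw [orderOf_one]; exact hq.out.not_dvd_one)) y.2 (fun e => hy (Subtype.ext e))
      rw [mul_one] at this
      rw [this, sub_self]
    · simp
  rw [Finset.sum_sub_distrib, hm, Finset.sum_const, Finset.card_univ, ← Nat.card_eq_fintype_card,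
    nsmul_eq_mul] at h1
  refine ⟨m - a, ?_⟩
  have h2 : ((x : ℂ) - a) = Nat.card (Q : Subgroup G) * (m - a) := by linear_combination -h1
  exact_mod_cast h2

end Cfsg.Agent.H29.TwoP
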